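/-
The bound of the `p`-length by the derived length of the Sylow subgroups.
-/
import Cfsg.Agent.Fgs2.HHDual
set_option autoImplicit false
set_option linter.unusedSectionVars false

namespace CF.Fgs2
open Module Subgroup Cfsg CF.BG CF.Fgs1 Polynomial
open scoped commutatorElement

variable {H : Type*} [Group H] [Finite H] {p : ℕ} [hp : Fact p.Prime]
variable {k : Type*} [Field k] {W : Type*} [AddCommGroup W] [Module k W]

theorem mem_of_sq_mem {S B : Subgroup H} (hp2 : p ≠ 2) (hB : IsPGroup p B) {b : H} (hb : b ∈ B)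
    (h : b * b ∈ S) : b ∈ S := by
  obtain ⟨m, hm⟩ := exists_pow_of_mem hB hb
  obtain ⟨c, hc⟩ := (hp.out.odd_of_ne_two hp2).pow (n := m)
  rw [hc, pow_succ, pow_mul, sq] at hm
  exact (mul_mem_cancel_left (S.pow_mem h c)).1 (hm ▸ S.one_mem)

theorem eq_zero_of_quad {ρ : H →* End k W} {Q R : Subgroup H} {η : H → k} (t : IsType Q R η)
    (hk : ((♯Q : ℕ) : k) ≠ 0) {b : H} (n : b ∈ 𝐍 Q) (h1 : b ∉ StabCh R η)
    (h2 : b * b ∉ StabCh R η) {u : W} (hu : u ∈ Wt ρ R η)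
    (e : (ρ b - 1) ((ρ b - 1) u) = 0) : u = 0 := by
  have e1 := (repOn_hom ρ).proj_type_eq_zero le_top t (mem_top _) n h1 hu
  have e2 := (repOn_hom ρ).proj_type_eq_zero le_top t (mem_top _) (mul_mem n n) h2 hu
  have e3 := congrArg (proj ρ R η) e
  simp only [LinearMap.sub_apply, End.one_apply, map_sub, map_zero] at e3
  rw [← End.mul_apply (ρ b), ← map_mul, e1, e2, proj_of_mem t.char hu] at e3
  simpa [cast_card_ne_zero hk t.le] using e3

theorem fix_of_comm_eq {ρ : H →* End k W} {Q R A : Subgroup H} {η : H → k} (t : IsType Q R η)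
    (e : ⁅Q, A⁆ = Q) (h : ∀ a ∈ A, ∀ u ∈ Wt ρ R η, ρ a u = u) {b : H} (hb : b ∈ Q) {u : W}
    (hu : u ∈ Wt ρ R η) : ρ b u = u := by
  have r := repOn_hom ρ
  have h1 : A ≤ Fixer ⊤ ρ (Wt ρ R η) := fun a ha => r.mem_fixer.2 ⟨mem_top a, h a ha⟩
  have h2 := r.norm_fixer (A := Q) le_top (S := Wt ρ R η) (r.stab_type le_top t)
  exact (r.mem_fixer.1 (((commutator_mono le_rfl h1).trans (comm_le_right h2)) (e.ge hb))).2 u hu

theorem ne_of_comm_eq {ρ : H →* End k W} {Q R A : Subgroup H} {η : H → k} (t : IsType Q R η)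
    (e : ⁅Q, A⁆ = Q) (hA : A ≤ StabCh R η) {b : H} (hb : b ∈ Q) {u : W}
    (hu : u ∈ Wt ρ R η) (hbu : ρ b u ≠ u) : R ≠ Q := by
  rintro rfl
  exact hbu (by rw [hu b hb, t.char.eq_one_of_le_stabCh hA (by rwa [e]), one_smul])

theorem comm_le_of_relIndex_four {Q R B : Subgroup H} (hR : R ≤ Q) (hd : ⁅Q, Q⁆ ≤ R)
    (h4 : R.relIndex Q = 4) (hB : IsPGroup 3 B) (nQ : B ≤ 𝐍 Q) (nR : B ≤ 𝐍 R) :
    ⁅Q, ⁅B, B⁆⁆ ≤ R := by
  haveI : (R.subgroupOf Q).Normal := (normalIn_of_der_le hR hd).normal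
  haveI : Fact (Nat.Prime 3) := ⟨Nat.prime_three⟩
  let φ := CF.Coprime.sectionAct B Q R nQ nR
  have h1 : Nat.card φ.range ∣ 24 := by
    refine (card_subgroup_dvd_card _).trans ((card_dvd_of_injective (MulAut.toPerm _)
      fun a b e => MulEquiv.toEquiv_injective e).trans ?_)
    rw [Nat.card_perm, show Nat.card (Q ⧸ R.subgroupOf Q) = 4 from h4]
    rfl
  obtain ⟨n, hn⟩ := IsPGroup.iff_card.1 (hB.of_surjective _ φ.rangeRestrict_surjective)
  have h2 : Nat.card φ.range ∣ 3 := by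
    rw [hn] at h1 ⊢
    exact (Nat.Coprime.pow_left n (by norm_num : Nat.Coprime 3 8)).dvd_of_dvd_mul_right
      (show 3 ^ n ∣ 3 * 8 from h1)
  have h3 := (Cyc.abel (isCyclic_of_card_dvd_prime h2))
  have h5 : ⁅B, B⁆ ≤ φ.ker.map B.subtype := commutator_le.2 fun a ha b hb =>
    ⟨⁅(⟨a, ha⟩ : B), ⟨b, hb⟩⁆, by
      rw [SetLike.mem_coe, MonoidHom.mem_ker, map_commutatorElement,
        commutatorElement_eq_one_iff_mul_comm]
      exact h3.mul_comm ⟨_, rfl⟩ ⟨_, rfl⟩, rfl⟩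
  refine commutator_le.2 fun m hm x hx => ?_
  obtain ⟨a, ha, rfl⟩ := h5 hx
  have := (CF.Coprime.mem_ker_sectionAct nQ nR a).1 ha m⁻¹ (inv_mem hm)
  rw [inv_inv] at this
  rw [commutatorElement_def]
  simpa [mul_assoc] using this

variable [IsAlgClosed k] [CharP k p] [FiniteDimensional k W]

theorem pow_eq_one_of_quad (hp2 : p ≠ 2) {ρ : H →* End k W} (hρ : Function.Injective ρ) {x : H}
    (h : (ρ x - 1) * (ρ x - 1) = 0) : x ^ p = 1 := by
  obtain ⟨c, hc⟩ := Nat.exists_eq_add_of_le hp.out.two_le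
  have : aeval (ρ x) ((X - 1) ^ p : k[X]) = 0 := by
    rw [map_pow, map_sub, aeval_X, map_one, hc, pow_add, sq, h, zero_mul]
  rw [sub_pow_char, one_pow, map_sub, map_pow, aeval_X, map_one, sub_eq_zero] at this
  exact hρ (by rw [map_pow, this, map_one])

theorem hh_quad (hp2 : p ≠ 2) {ρ : H →* End k W} {Q R : Subgroup H} {η : H → k} (t : IsType Q R η)
    (hk : ((♯Q : ℕ) : k) ≠ 0) {x : H} (ho : x ^ p = 1) (n : x ∈ 𝐍 Q) (e : ⁅Q, zpowers x⁆ = Q)
    (h : (ρ x - 1) * (ρ x - 1) = 0) {b : H} (hb : b ∈ Q) {u : W} (hu : u ∈ Wt ρ R η)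
    (hbu : ρ b u ≠ u) : p = 3 ∧ R.relIndex Q = 4 ∧ x ∈ StabCh R η := by
  have hu0 : u ≠ 0 := fun a => hbu (by rw [a, map_zero])
  have ho' : x ^ p ^ (0 + 1) = 1 := by simpa using ho
  have hs : x ∈ StabCh R η := by
    by_contra c
    exact hu0 (eq_zero_of_quad t hk n c (fun a => c (mem_of_sq_mem hp2 (isPGroup_zpowers ho')
      (mem_zpowers x) a)) hu (by rw [← End.mul_apply, h]; rfl))
  have hcop : (♯(zpowers x)).Coprime (♯Q) := CF.Solv.coprime_card_of_isPGroup (isPGroup_zpowers ho')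
    ((Nat.Prime.coprime_iff_not_dvd hp.out).2 fun a =>
      hk ((CharP.cast_eq_zero_iff k p _).2 a)).symm
  obtain ⟨D, h1, h2, -, h4⟩ := (repOn_hom ρ).hh_type le_top hk t
    (fun a => hu0 (by simpa [a] using hu)) (mem_top x) n hs p (by
      intro m hm hmR i hi0 hi a
      refine hmR (mem_of_fpf (zpowers_le.mpr n) ((zpowers_le.2 hs).trans (stabCh_le R η))
        t.der hcop ((𝐍 R).pow_mem hs.1 i) ?_ (by rwa [e]) a)
      simpa using pow_mem_zpowers_pow hp.out ho' hi0.ne' (by simpa using hi))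
    (ne_of_comm_eq t e (zpowers_le.2 hs) hb hu hbu)
  have hd : ((X - 1) ^ 2 : k[X]).natDegree = 2 := by
    rw [natDegree_pow, ← C_1, natDegree_X_sub_C]
  have := h4 ((X - 1) ^ 2) (pow_ne_zero _ (by simpa using X_sub_C_ne_zero (1 : k))) fun v _ => by
    rw [map_pow, map_sub, aeval_X, map_one, sq, h]; rfl
  have h5 := hp.out.two_le
  rw [hd] at this
  obtain ⟨rfl, h6⟩ : D = 2 ∧ p = 3 := by omega
  exact ⟨h6, h2.symm, hs⟩

theorem hh_inertia (hp2 : p ≠ 2) (hH : IsPSolvable p H) (h0 : pCore p H = ⊥) {ρ : H →* End k W}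
    (hρ : Function.Injective ρ) {B : Subgroup H} (hB : IsPGroup p B)
    (h1 : ∀ x ∈ ⁅B, B⁆, (ρ x - 1) * (ρ x - 1) = 0)
    (h2 : ∀ b ∈ B, ∀ x ∈ ⁅B, B⁆, (ρ b - 1) * (ρ b - 1) * (ρ x - 1) = 0) : ⁅B, B⁆ = ⊥ := by
  by_contra hne
  have pi : PiGrp {p} B := CF.Solv.isPGroup_iff_piNum_singleton.1 hB
  obtain ⟨⟨x, hx'⟩, hx1⟩ := ne_bot_iff_exists_ne_one.1
    (pi.inf_cent_ne_bot (pi.le (CF.BG.der_le B)) (der_normal B).2 hne)
  obtain ⟨hx, hxc⟩ := mem_inf.1 hx'
  have hxB := zpowers_le.2 (CF.BG.der_le B hx)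
  obtain ⟨q, Q, hQ⟩ := exists_minQ hH h0 hB hxB (norm_of_le_center (zpowers_le.2 hxc))
    (fun e => hx1 (Subtype.ext (by simpa using e)))
  obtain ⟨b, hb, hb1⟩ := exists_ne_one hQ.ne_bot hρ
  obtain ⟨R, η, t, -, u, hu, hbu⟩ := (repOn_hom ρ).exists_type le_top hQ.cast_ne_zero
    (hQ.der_le_rad ρ) hb hb1
  obtain ⟨rfl, h4, hs⟩ := hh_quad hp2 t hQ.cast_ne_zero (pow_eq_one_of_quad hp2 hρ (h1 x hx))
    (hQ.norm (hxB (mem_zpowers x))) hQ.comm (h1 x hx) hb hu hbu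
  by_cases hS : B ≤ StabCh R η
  · have := (commutator_mono le_rfl (zpowers_le.2 hx)).trans
      (comm_le_of_relIndex_four t.le t.der h4 hB hQ.norm (hS.trans (stabCh_le R η)))
    rw [hQ.comm] at this
    rw [relIndex_eq_one.2 this] at h4
    omega
  · obtain ⟨c, hc, hcS⟩ := SetLike.not_le_iff_exists.1 hS
    refine hbu (fix_of_comm_eq t hQ.comm (fun a ha v hv => ?_) hb hu)
    have : ρ x v = v := by
      rw [← sub_eq_zero]
      refine eq_zero_of_quad t hQ.cast_ne_zero (hQ.norm hc) hcS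
        (fun a => hcS (mem_of_sq_mem hp2 hB hc a))
        (sub_mem ((repOn_hom ρ).map_wt_stab le_top (mem_top x) hs hv) hv) ?_
      exact LinearMap.congr_fun (h2 c hc x hx) v
    exact (((repOn_hom ρ).mem_fixer_single.1 (zpowers_le.2
      ((repOn_hom ρ).mem_fixer_single.2 ⟨mem_top x, this⟩) ha))).2

variable {G : Type*} [Group G] [Finite G]

theorem norm_der' (S : Subgroup G) (n : ℕ) : S ≤ 𝐍 (der S n) := by
  induction n with
  | zero => exact le_norm_self S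
  | succ n ih => exact norm_commutator ih ih

theorem DerLE.quotient (hp2 : p ≠ 2) {d : ℕ} (h : DerLE p (d + 1) G) (hG : IsPSolvable p G)
    (h0 : pPrimeCore p G = ⊥) : DerLE p d (G ⧸ pCore p G) := by
  intro T hT
  have hc := CF.Solv.centralizer_pCore_le_of_isPSolvable hG h0
  let S := T.comap (QuotientGroup.mk' (pCore p G))
  have hS : IsPGroup p S := hT.comap_of_ker_isPGroup _
    (by rw [QuotientGroup.ker_mk']; exact CF.Solv.pCore_isPGroup)
  have hP : pCore p G ≤ S := CF.Solv.le_comap_mk' _ _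
  have e : S.map (QuotientGroup.mk' _) = T :=
    map_comap_eq_self_of_surjective (QuotientGroup.mk'_surjective _) T
  have ha : Abel (der S d) := der_eq_bot.1 (h S hS)
  rw [← e, ← map_der]
  rcases d with _ | d
  · rw [Subgroup.map_eq_bot_iff, QuotientGroup.ker_mk']
    exact (ha.cent le_rfl hP).trans hc
  obtain ⟨U, σ, D⟩ := exists_dual hc
  have hv : ∀ {n : ℕ} {b v : G}, b ∈ der S n → v ∈ pCore p G → ⁅b⁻¹, v⁆ ∈ der S n ⊓ pCore p G :=
    fun hb hv => ⟨comm_le_left (hP.trans (norm_der' S _))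
      (commutator_mem_commutator (inv_mem hb) hv),
      commutator_le_right ⊤ _ (commutator_mem_commutator (mem_top _) hv)⟩
  rw [der_succ, map_commutator]
  refine hh_inertia hp2 (CF.Solv.isPSolvable_quotient hG _) CF.Solv.pCore_quotient_pCore D.inj
    ((hS.to_le (der_le S d)).map _) ?_ ?_
  · rw [← map_commutator]
    rintro _ ⟨x, hx, rfl⟩
    refine LinearMap.ext fun w => D.ext _ fun v hv' => ?_
    have h1 := hv (n := d + 1) hx hv'
    rw [End.mul_apply, QuotientGroup.mk'_apply, D.comm _ _ hv', D.comm _ _ h1.2,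
      commutatorElement_eq_one_iff_mul_comm.2 (ha.mul_comm (inv_mem hx) h1.1), D.one]
  · rw [← map_commutator]
    rintro _ ⟨b, hb, rfl⟩ _ ⟨x, hx, rfl⟩
    refine LinearMap.ext fun w => D.ext _ fun v hv' => ?_
    have h1 := hv hb hv'
    have h2 := hv hb h1.2
    rw [End.mul_apply, End.mul_apply, QuotientGroup.mk'_apply, QuotientGroup.mk'_apply,
      D.comm _ _ hv', D.comm _ _ h1.2, D.comm _ _ h2.2,
      commutatorElement_eq_one_iff_mul_comm.2 (ha.mul_comm (inv_mem hx)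
        (commutator_mem_commutator (inv_mem hb) h1.1)), D.one]

theorem pLen_of_der.{u} (hp2 : p ≠ 2) {G : Type u} [Group G] [Finite G] (hG : IsPSolvable p G)
    {d : ℕ} (h : DerLE p d G) : PLengthLE p d G :=
  pLen_induction (fun G _ _ d => DerLE p d G) (fun _ _ _ a => ExpLE.coprime fun x ⟨_, hm⟩ => by
      simpa using (a _ (isPGroup_zpowers hm)).le (mem_zpowers x))
    (fun _ _ _ _ a => a.of_surjective (QuotientGroup.mk'_surjective _))
    (fun _ _ _ _ a b c => c.quotient hp2 a b) d G hG h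

end CF.Fgs2
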