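/-
Elements of a `p`-group with small commutator space on an abelian `p'`-group commute.
-/
import Cfsg.Agent.Fgs2.HHDer
import Cfsg.Agent.BG2.P4a
set_option autoImplicit false
set_option linter.unusedSectionVars false

namespace CF.Fgs2
open Subgroup Cfsg CF.BG
open scoped commutatorElement

variable {Γ : Type*} [Group Γ] [Finite Γ] {p : ℕ}

theorem indep_three {E : Subgroup Γ} (a : Abel E) {u w : Γ} (hw : w ∈ 𝐍 E) (c : Commute u w)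
    (h1 : ∀ e ∈ E, Commute e u → e = 1) (h2 : ∀ e ∈ E, Commute e (u * u) → e = 1)
    {e₀ e₁ e₂ : Γ} (m₀ : e₀ ∈ E ⊓ 𝐂₁ w) (m₁ : e₁ ∈ E ⊓ 𝐂₁ (u * w))
    (m₂ : e₂ ∈ E ⊓ 𝐂₁ (u * (u * w))) (h : e₀ * e₁ * e₂ = 1) : e₀ = 1 ∧ e₁ = 1 ∧ e₂ = 1 := by
  have c₀ : Commute e₀ w := mem_cent1.1 m₀.2
  have c₁ : Commute e₁ (u * w) := mem_cent1.1 m₁.2
  have c₂ : Commute e₂ (u * (u * w)) := mem_cent1.1 m₂.2
  have d₁ : Commute w (u * w) := c.symm.mul_right (Commute.refl w)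
  have d₂ : Commute w (u * (u * w)) := c.symm.mul_right d₁
  have f₁ : Commute (e₁⁻¹ * (w * e₁ * w⁻¹)) (u * w) :=
    c₁.inv_left.mul_left ((d₁.mul_left c₁).mul_left d₁.inv_left)
  have f₂ : Commute (e₂⁻¹ * (w * e₂ * w⁻¹)) (u * (u * w)) :=
    c₂.inv_left.mul_left ((d₂.mul_left c₂).mul_left d₂.inv_left)
  have n₁ := conj_mem_of_norm hw m₁.1
  have n₂ := conj_mem_of_norm hw m₂.1
  have e : e₁⁻¹ * (w * e₁ * w⁻¹) = (e₂⁻¹ * (w * e₂ * w⁻¹))⁻¹ := by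
    have h' : e₀ * (w * e₁ * w⁻¹) * (w * e₂ * w⁻¹) = e₀ * e₁ * e₂ := by
      rw [h, show e₀ = w * e₀ * w⁻¹ by rw [← c₀.eq, mul_inv_cancel_right]]
      calc _ = w * (e₀ * e₁ * e₂) * w⁻¹ := by group
        _ = 1 := by rw [h]; group
    rw [mul_assoc, mul_assoc e₀, mul_right_inj] at h'
    rw [mul_inv_rev, inv_inv, inv_mul_eq_iff_eq_mul, a.mul_comm (inv_mem n₂) m₂.1, ← mul_assoc,
      ← h', mul_inv_cancel_right]
  have g₁ : e₁⁻¹ * (w * e₁ * w⁻¹) = 1 := h1 _ (mul_mem (inv_mem m₁.1) n₁) (by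
    have := (e ▸ f₂.inv_left).mul_right f₁.inv_right
    rwa [mul_inv_cancel_right] at this)
  have g₂ : e₂⁻¹ * (w * e₂ * w⁻¹) = 1 := by rw [← inv_eq_one, ← e, g₁]
  have k₁ : Commute e₁ w := by
    rw [inv_mul_eq_one, eq_mul_inv_iff_mul_eq] at g₁; exact g₁
  have k₂ : Commute e₂ w := by
    rw [inv_mul_eq_one, eq_mul_inv_iff_mul_eq] at g₂; exact g₂
  have l₁ : e₁ = 1 := h1 _ m₁.1 (by simpa using c₁.mul_right k₁.inv_right)
  have l₂ : e₂ = 1 := h2 _ m₂.1 (by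
    have := c₂.mul_right k₂.inv_right
    rwa [← mul_assoc u u w, mul_inv_cancel_right] at this)
  exact ⟨by simpa [l₁, l₂] using h, l₁, l₂⟩

/-- `y` is a `p ^ a`-th power in `T` with small commutator space on `E` -/
def Small (p : ℕ) (T E : Subgroup Γ) (y : Γ) : Prop :=
  ∃ g ∈ T, ∃ a : ℕ, y = g ^ p ^ a ∧ ♯⁅E, zpowers y⁆ ≤ (p ^ (a + 1) - 1) ^ 2

theorem Small.mem {T E : Subgroup Γ} {y : Γ} (h : Small p T E y) : y ∈ T := by
  obtain ⟨g, hg, a, rfl, -⟩ := h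
  exact T.pow_mem hg _

theorem Small.mono {T E E' : Subgroup Γ} {y : Γ} (h : Small p T E y) (hE : E' ≤ E) :
    Small p T E' y := by
  obtain ⟨g, hg, a, e, h⟩ := h
  exact ⟨g, hg, a, e, (card_le_of_le (commutator_mono hE le_rfl)).trans h⟩

theorem Small.qt {T E K : Subgroup Γ} {y : Γ} (h : Small p T E y) (hT : T ≤ 𝐍 K) (hE : E ≤ 𝐍 K) :
    Small p (qt K T) (qt K E) (qe K y) := by
  have hy := hT h.mem
  obtain ⟨g, hg, a, e, h⟩ := h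
  refine ⟨qe K g, qe_mem_qt hg (hT hg), a, by rw [e, qe_pow (hT hg)], ?_⟩
  rw [← qt_zpowers hy, ← qt_comm hE (zpowers_le.2 hy)]
  exact (Nat.le_of_dvd Nat.card_pos (card_qt_dvd _ _)).trans h

theorem small_arith (h3 : 3 ≤ p) (a : ℕ) : p ^ (a + 1 + 1) - 1 ≤ (p ^ (a + 1) - 1) ^ 3 := by
  have h1 : p ≤ p ^ (a + 1) := Nat.le_self_pow a.succ_ne_zero p
  rw [pow_succ]
  obtain ⟨x, hx⟩ : ∃ x, p ^ (a + 1) = x + 1 := ⟨p ^ (a + 1) - 1, by omega⟩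
  rw [hx] at h1 ⊢
  have h2 : 2 ≤ x := by omega
  rw [Nat.add_sub_cancel, Nat.sub_le_iff_le_add]
  nlinarith [Nat.mul_le_mul_left (x + 1) h1, Nat.mul_le_mul h2 h2, Nat.mul_le_mul_left (x * x) h2]

theorem Small.restrict (hp : p.Prime) (hp2 : p ≠ 2) {T E A : Subgroup Γ} (hT : PiGrp {p} T)
    (a : Abel E) (n : T ≤ 𝐍 E) (hA : Elem p 2 A T) (nA : T ≤ 𝐍 A)
    (hf : ∀ u ∈ A ⊓ 𝐂 T, u ≠ 1 → E ⊓ 𝐂₁ u = ⊥) {w : Γ} (hw : w ∈ A) (hwT : w ∉ 𝐂 T)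
    (hne : E ⊓ 𝐂₁ w ≠ ⊥) {y : Γ} (h : Small p T E y) : Small p (T ⊓ 𝐂 A) (E ⊓ 𝐂₁ w) y := by
  haveI := Fact.mk hp
  obtain ⟨g, hg, b, e, h⟩ := h
  by_cases hgA : g ∈ 𝐂 A
  · exact ⟨g, ⟨hg, hgA⟩, b, e, (card_le_of_le (commutator_mono inf_le_left le_rfl)).trans h⟩
  have h3 : 3 ≤ p := by have := hp.two_le; omega
  have hZ : ⁅A, T⁆ ≤ 𝐂 T := by
    have h1 : ⁅A, T⁆ < A := CF.Coprime.commutator_lt_of_isPGroup hA.pi.isPGroup hT.isPGroup nA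
      hA.ne_bot
    by_cases h0 : ⁅A, T⁆ = ⊥
    · simp [h0]
    · have h2 := hA.one_of_lt h1 h0
      by_contra c
      exact hT.inf_cent_ne_bot h2.pi (norm_comm_right A T) h0
        (inf_eq_bot_of_prime_of_not_le h2.card_prime c)
  obtain ⟨u, hu⟩ : ∃ u, u = ⁅g, w⁆ := ⟨_, rfl⟩
  have huAT : u ∈ ⁅A, T⁆ := by
    rw [hu, commutator_comm]; exact commutator_mem_commutator hg hw
  have huZ : u ∈ A ⊓ 𝐂 T := ⟨comm_le_left nA huAT, hZ huAT⟩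
  have hu1 : u ≠ 1 := by
    intro c
    have h1 : A ⊓ 𝐂 T < A ⊓ 𝐂₁ g := lt_of_le_of_ne (inf_le_inf_left _ (cent_le_cent1 hg))
      fun e => hwT (e.ge ⟨hw, mem_cent1.2
        (commutatorElement_eq_one_iff_mul_comm.1 (hu ▸ c)).symm⟩).2
    have h2 : A ⊓ 𝐂₁ g < A := lt_of_le_of_ne inf_le_left fun e =>
      hgA (le_cent1_iff.1 (e.ge.trans inf_le_right))
    have h4 := hT.inf_cent_ne_bot hA.pi nA hA.ne_bot
    exact h1.ne ((hA.one_of_lt (h1.trans h2) h4).eq_of_le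
      (hA.one_of_lt h2 (ne_bot_of_gt h1)) h1.le)
  have hup : u ^ p = 1 := hA.ab.pow u huZ.1
  have hgu : g * u * g⁻¹ = u := by rw [mem_cent.1 huZ.2 g hg, mul_inv_cancel_right]
  have hgw : g * w * g⁻¹ = u * w := by rw [hu, commutatorElement_def, inv_mul_cancel_right]
  have hgw2 : g * (u * w) * g⁻¹ = u * (u * w) := by
    rw [show g * (u * w) * g⁻¹ = (g * u * g⁻¹) * (g * w * g⁻¹) by group, hgu, hgw]
  have k1 : ∀ v ∈ A ⊓ 𝐂 T, v ≠ 1 → ∀ e ∈ E, Commute e v → e = 1 := fun v hv h1 e he c =>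
    mem_bot.1 ((hf v hv h1).le ⟨he, mem_cent1.2 c⟩)
  have ind := fun {e₀ e₁ e₂ : Γ} => indep_three (e₀ := e₀) (e₁ := e₁) (e₂ := e₂) a
    (n (hA.le hw)) (hA.abel.mul_comm huZ.1 hw) (k1 u huZ hu1) (k1 _ (mul_mem huZ huZ) fun c =>
      hu1 (mem_bot.1 (mem_of_sq_mem hp2 hA.pi.isPGroup huZ.1 (mem_bot.2 c))))
  have c1 : cj g (E ⊓ 𝐂₁ w) = E ⊓ 𝐂₁ (u * w) := by rw [cj_inf, cj_of_norm (n hg), cj_cent1, hgw]
  have c2 : cj g (E ⊓ 𝐂₁ (u * w)) = E ⊓ 𝐂₁ (u * (u * w)) := by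
    rw [cj_inf, cj_of_norm (n hg), cj_cent1, hgw2]
  have nA' : ∀ v ∈ A, T ⊓ 𝐂 A ≤ 𝐍 (E ⊓ 𝐂₁ v) := fun v hv => norm_inf (inf_le_left.trans n)
    (norm_of_le (inf_le_right.trans (cent_le_cent1 hv)))
  rcases b with _ | b
  · exfalso
    rw [pow_zero, pow_one] at e
    subst e
    have hr : p < ♯(E ⊓ 𝐂₁ w) := by
      have := (reg_of_prime (K := E ⊓ 𝐂₁ w) (H := zpowers u) (by
        rw [Nat.card_zpowers, orderOf_eq_prime hup hu1]; exact hp) (by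
          rw [cent_zpowers, eq_bot_iff, ← hf u huZ hu1]
          exact inf_le_inf_right _ inf_le_left)).card_lt (zpowers_le.2 (nA' w hw
            ⟨hA.le huZ.1, hA.abel huZ.1⟩)) hne
      rwa [Nat.card_zpowers, orderOf_eq_prime hup hu1] at this
    have := Nat.card_le_card_of_injective
      (fun x : (E ⊓ 𝐂₁ w : Subgroup Γ) × (E ⊓ 𝐂₁ (u * w) : Subgroup Γ) =>
        (⟨⁅(x.1 * x.2 : Γ), y⁆, commutator_mem_commutator (mul_mem x.1.2.1 x.2.2.1)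
          (mem_zpowers y)⟩ : (⁅E, zpowers y⁆ : Subgroup Γ))) (by
      rintro ⟨⟨a₀, m₀⟩, ⟨a₁, m₁⟩⟩ ⟨⟨b₀, n₀⟩, ⟨b₁, n₁⟩⟩ e
      simp only [Subtype.mk.injEq, Prod.mk.injEq] at e ⊢
      have d₀ := mul_mem (inv_mem n₀) m₀
      have d₁ := mul_mem (inv_mem n₁) m₁
      have e1 : y * ((b₀⁻¹ * a₀) * (b₁⁻¹ * a₁)) * y⁻¹ = (b₀⁻¹ * a₀) * (b₁⁻¹ * a₁) := by
        have e2 : (b₀⁻¹ * a₀) * (b₁⁻¹ * a₁) = (b₀ * b₁)⁻¹ * (a₀ * a₁) := by
          rw [mul_inv_rev, a.mul_comm (inv_mem n₁.1) (inv_mem n₀.1), mul_assoc, mul_assoc,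
            ← mul_assoc a₀, a.mul_comm m₀.1 (inv_mem n₁.1), mul_assoc]
        rw [e2]
        simp only [commutatorElement_def, mul_left_inj] at e
        calc _ = (b₀ * b₁)⁻¹ * ((b₀ * b₁) * y * (b₀ * b₁)⁻¹) * (a₀ * a₁) * y⁻¹ := by group
          _ = _ := by rw [← e]; group
      have := ind (inv_mem d₀) (mul_mem (inv_mem d₁) (c1 ▸ conj_mem_cj.2 d₀))
        (c2 ▸ conj_mem_cj.2 d₁) (by
          calc _ = ((b₁⁻¹ * a₁) * (b₀⁻¹ * a₀))⁻¹ * (y * ((b₀⁻¹ * a₀) * (b₁⁻¹ * a₁)) * y⁻¹) := by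
                group
            _ = 1 := by rw [e1, a.mul_comm d₁.1 d₀.1, inv_mul_cancel])
      refine ⟨(inv_mul_eq_one.1 (inv_eq_one.1 this.1)).symm, (inv_mul_eq_one.1 ?_).symm⟩
      simpa using this.2.2)
    rw [Nat.card_prod, ← c1, card_cj] at this
    have h5 := this.trans h
    rw [zero_add, pow_one, sq] at h5
    exact absurd h5 (not_le.2 (Nat.mul_lt_mul'' (by omega) (by omega)))
  · have hgp : g ^ p ∈ T ⊓ 𝐂 A := by
      refine ⟨T.pow_mem hg p, ?_⟩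
      haveI := (normalIn_inf_cent nA).normal
      obtain ⟨c, hc⟩ := hA.relIndex_cent_dvd_two hT nA
      have := ((T ⊓ 𝐂 A).subgroupOf T).pow_index_mem ⟨g, hg⟩
      rw [← relIndex, inf_relIndex_left] at this
      rw [hc, pow_mul]
      exact pow_mem this.2 c
    have hy : y = (g ^ p) ^ p ^ b := by rw [e, ← pow_mul, pow_succ']
    refine ⟨g ^ p, hgp, b, hy, ?_⟩
    have hyT : zpowers y ≤ T ⊓ 𝐂 A := zpowers_le.2 (hy ▸ pow_mem hgp _)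
    have cy : cj g (zpowers y) = zpowers y := by
      rw [cj_zpowers, e, ← conj_pow, mul_inv_cancel_right]
    have l₀ := comm_le_left (hyT.trans (nA' w hw))
    have l₁ := comm_le_left (hyT.trans (nA' _ (mul_mem huZ.1 hw)))
    have l₂ := comm_le_left (hyT.trans (nA' _ (mul_mem huZ.1 (mul_mem huZ.1 hw))))
    have j : ∀ v, ⁅E ⊓ 𝐂₁ v, zpowers y⁆ ≤ ⁅E, zpowers y⁆ := fun v =>
      commutator_mono inf_le_left le_rfl
    have := Nat.card_le_card_of_injective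
      (fun x : (⁅E ⊓ 𝐂₁ w, zpowers y⁆ : Subgroup Γ) × (⁅E ⊓ 𝐂₁ (u * w), zpowers y⁆ : Subgroup Γ) ×
          (⁅E ⊓ 𝐂₁ (u * (u * w)), zpowers y⁆ : Subgroup Γ) =>
        (⟨x.1 * x.2.1 * x.2.2, mul_mem (mul_mem (j _ x.1.2) (j _ x.2.1.2)) (j _ x.2.2.2)⟩ :
          (⁅E, zpowers y⁆ : Subgroup Γ))) (by
      rintro ⟨⟨a₀, m₀⟩, ⟨a₁, m₁⟩, ⟨a₂, m₂⟩⟩ ⟨⟨b₀, n₀⟩, ⟨b₁, n₁⟩, ⟨b₂, n₂⟩⟩ e
      simp only [Subtype.mk.injEq, Prod.mk.injEq] at e ⊢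
      have := ind (l₀ (mul_mem (inv_mem n₀) m₀)) (l₁ (mul_mem (inv_mem n₁) m₁))
        (l₂ (mul_mem m₂ (inv_mem n₂))) (by
          rw [mul_assoc b₀⁻¹, ← mul_assoc a₀, a.mul_comm (l₀ m₀).1 (inv_mem (l₁ n₁).1)]
          calc _ = b₀⁻¹ * b₁⁻¹ * (a₀ * a₁ * a₂) * b₂⁻¹ := by group
            _ = _ := by rw [e, a.mul_comm (inv_mem (l₀ n₀).1) (inv_mem (l₁ n₁).1)]; group)
      exact ⟨(inv_mul_eq_one.1 this.1).symm, (inv_mul_eq_one.1 this.2.1).symm,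
        mul_inv_eq_one.1 this.2.2⟩)
    have r : ∀ X : Subgroup Γ, ♯⁅cj g X, zpowers y⁆ = ♯⁅X, zpowers y⁆ := fun X => by
      conv_lhs => rw [← cy, ← cj_comm, card_cj]
    rw [Nat.card_prod, Nat.card_prod, ← c2, r, ← c1, r] at this
    have h5 := (this.trans h).trans (Nat.pow_le_pow_left (small_arith h3 b) 2)
    rw [← pow_mul, mul_comm 3 2, pow_mul, ← sq, ← pow_succ'] at h5
    exact (Nat.pow_le_pow_iff_left three_ne_zero).1 h5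

theorem small_comm.{u} (hp : p.Prime) (hp2 : p ≠ 2) (m : ℕ) :
    ∀ {Γ : Type u} [Group Γ] [Finite Γ] (T E : Subgroup Γ), ♯T + ♯E ≤ m → PiGrp {p} T →
      PiGrp {p}ᶜ E → Abel E → T ≤ 𝐍 E → ∀ y z, Small p T E y → Small p T E z → E ≤ 𝐂₁ ⁅y, z⁆ := by
  induction m with
  | zero =>
    intro Γ _ _ T E h
    have := Nat.card_pos (α := T)
    omega
  | succ m ih =>
    intro Γ _ _ T E hm hT hE a n y z hy hz
    have hc : ⁅y, z⁆ ∈ T := CF.BG.der_le T (commutator_mem_commutator hy.mem hz.mem)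
    by_cases hK : T ⊓ 𝐂 E = ⊥
    swap
    · have n1 := (normalIn_inf_cent n).2
      have n2 : E ≤ 𝐍 (T ⊓ 𝐂 E) := norm_of_le_center inf_le_right
      have := ih _ _ (by
        have h1 := card_qt_lt (normalIn_inf_cent n) hK
        have h2 := Nat.le_of_dvd Nat.card_pos (card_qt_dvd (T ⊓ 𝐂 E) E)
        omega) (hT.qt _) (hE.qt _) (a.qt _) (qt_norm _ n) _ _ (hy.qt n1 n2) (hz.qt n1 n2)
      rw [← qe_comm (n1 hy.mem) (n1 hz.mem), ← cent_zpowers, ← qt_zpowers (n1 hc),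
        qt_cent_iff n2 (zpowers_le.2 (n1 hc))] at this
      rw [← cent_zpowers, ← comm_eq_bot, eq_bot_iff, ← hT.inf_eq_bot hE]
      exact le_inf (this.trans inf_le_left) (comm_le_left ((zpowers_le.2 hc).trans n))
    have sub : ∀ E', E' < E → T ≤ 𝐍 E' → E' ≤ 𝐂₁ ⁅y, z⁆ := fun E' h n' =>
      ih T E' (by have := CF.Transfer.card_lt_of_lt h; omega) hT (hE.le h.le) (a.mono h.le) n' y z
        (hy.mono h.le) (hz.mono h.le)
    have lt : ∀ w ∈ T, w ≠ 1 → E ⊓ 𝐂₁ w < E := fun w hw h1 => lt_of_le_of_ne inf_le_left fun e =>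
      h1 (mem_bot.1 (hK.le ⟨hw, le_cent1_iff.1 (e.ge.trans inf_le_right)⟩))
    have nz : ∀ w ∈ 𝐂 T, T ≤ 𝐍 (E ⊓ 𝐂₁ w) := fun w hw =>
      norm_inf n (norm_of_le (le_cent1_iff.2 hw))
    by_cases hcyc : Cyc T
    · rw [commutatorElement_eq_one_iff_mul_comm.2 (hcyc.abel.mul_comm hy.mem hz.mem)]
      simp
    obtain ⟨A, hA, nA⟩ := CF.BG2.exists_normal_elem_two hp hp2 hT hcyc
    by_cases hf : ∀ u ∈ A ⊓ 𝐂 T, u ≠ 1 → E ⊓ 𝐂₁ u = ⊥
    · haveI := hA.abel.comm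
      refine CF.Coprime.le_of_forall_centralizer_le A E hA.not_cyc (hA.le.trans n)
        (hA.pi.coprime hE) _ fun w hw h1 => ?_
      by_cases hwT : w ∈ 𝐂 T
      · exact sub _ (lt w (hA.le hw) h1) (nz w hwT)
      by_cases hne : E ⊓ 𝐂₁ w = ⊥
      · exact hne.le.trans bot_le
      refine ih (T ⊓ 𝐂 A) _ (by
        have h2 := CF.Transfer.card_lt_of_lt (lt w (hA.le hw) h1)
        have h3 := card_le_of_le (inf_le_left : T ⊓ 𝐂 A ≤ T)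
        omega) hT.inf_left hE.inf_left (a.mono inf_le_left) (norm_inf (inf_le_left.trans n)
          (norm_of_le (inf_le_right.trans (cent_le_cent1 hw)))) y z
        (hy.restrict hp hp2 hT a n hA nA.2 hf hw hwT hne)
        (hz.restrict hp hp2 hT a n hA nA.2 hf hw hwT hne)
    · push Not at hf
      obtain ⟨w, hw, h1, hne⟩ := hf
      have hwT := zpowers_le.2 (hA.le hw.1)
      have cop := (hT.le hwT).coprime hE
      rw [← comm_sup_inf_cent (hwT.trans n) cop (Or.inr a.sol), cent_zpowers]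
      refine sup_le (sub _ (lt_of_le_of_ne (comm_le_left (hwT.trans n)) fun e => hne ?_)
        (norm_commutator n (norm_of_le_center (zpowers_le.2 hw.2))))
        (sub _ (lt w (hA.le hw.1) h1) (nz w hw.2))
      haveI := a.comm
      have := CF.Coprime.inf_centralizer_inf_commutator_eq_bot _ E (hwT.trans n) cop
      rwa [e, cent_zpowers, inf_eq_left.2 inf_le_left] at this

end CF.Fgs2
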