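/-
The bound `l_p ≤ 2 e_p` of Hall and Higman.
-/
import Cfsg.Agent.Fgs2.HHSmall
import Cfsg.Agent.Fgs2.Yoshida
set_option autoImplicit false
set_option linter.unusedSectionVars false

namespace CF.Fgs2
open Module Subgroup Cfsg CF.BG CF.Fgs1 Polynomial
open scoped commutatorElement

variable {H : Type*} [Group H] [Finite H] {p : ℕ} [hp : Fact p.Prime]
variable {k : Type*} [Field k] {W : Type*} [AddCommGroup W] [Module k W]

section
variable {Q R : Subgroup H} {η : H → k}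

theorem eta_conj (c : IsChar R η) {g r : H} (hg : g ∈ StabCh R η) (hr : r ∈ R) :
    η (g * r * g⁻¹) = η r := by
  simpa using (mem_stabCh.1 (inv_mem hg)).2 r hr

theorem eta_mul_left (t : IsType Q R η) {a b c : H} (ha : a ∈ Q) (hb : b ∈ Q) (hc : c ∈ Q) :
    η ⁅a * b, c⁆ = η ⁅a, c⁆ * η ⁅b, c⁆ := by
  rw [show ⁅a * b, c⁆ = a * ⁅b, c⁆ * a⁻¹ * ⁅a, c⁆ by simp only [commutatorElement_def]; group,
    t.char.mul _ (conj_mem_of_norm (t.le_stabCh ha).1 (t.comm_mem hb hc)) _ (t.comm_mem ha hc),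
    eta_conj t.char (t.le_stabCh ha) (t.comm_mem hb hc), mul_comm]

/-- the orthogonal complement of `c` -/
def perpT (t : IsType Q R η) {c : H} (hc : c ∈ Q) : Subgroup H where
  carrier := {n | n ∈ Q ∧ η ⁅n, c⁆ = 1}
  one_mem' := ⟨Q.one_mem, by simpa using t.char.one⟩
  mul_mem' := fun a b => ⟨Q.mul_mem a.1 b.1, by rw [eta_mul_left t a.1 b.1 hc, a.2, b.2, one_mul]⟩
  inv_mem' := fun a => ⟨Q.inv_mem a.1, by
    have := eta_mul_left t (Q.inv_mem a.1) a.1 hc
    rwa [inv_mul_cancel, commutatorElement_one_left, t.char.one, a.2, mul_one, eq_comm] at this⟩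

theorem eta_symm (t : IsType Q R η) {a b : H} (ha : a ∈ Q) (hb : b ∈ Q) (h : η ⁅a, b⁆ = 1) :
    η ⁅b, a⁆ = 1 := by
  rw [← commutatorElement_inv, t.char.inv (t.comm_mem ha hb), h, inv_one]

theorem isType_comm (t : IsType Q R η) {A : Subgroup H} (n : A ≤ 𝐍 Q) (hA : A ≤ StabCh R η)
    (c : (♯A).Coprime (♯Q)) (s : Sol A) : IsType (⁅Q, A⁆ ⊔ R) R η := by
  have l : ⁅Q, A⁆ ⊔ R ≤ Q := sup_le (comm_le_left n) t.le
  refine ⟨le_sup_right, (CF.BG.der_mono l).trans t.der, t.char, fun x hx => ⟨fun a m hm =>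
    (t.rad x (l hx)).1 a m (l hm), fun a => (t.rad x (l hx)).2 fun m hm => ?_⟩⟩
  have : Q ≤ perpT t (l hx) := by
    conv_lhs => rw [← comm_sup_inf_cent n c (Or.inl s)]
    refine sup_le (fun y hy => ⟨comm_le_left n hy, eta_symm t (l hx) (comm_le_left n hy)
      (a y (mem_sup_left hy))⟩) fun y hy => ⟨hy.1, eta_symm t (l hx) hy.1 ?_⟩
    have : ⁅Q, A⁆ ⊔ R ≤ perpT t hy.1 := by
      refine sup_le (commutator_le.2 fun a ha b hb => ⟨comm_le_left n
        (commutator_mem_commutator ha hb), ?_⟩) fun r hr =>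
          ⟨t.le hr, (t.rad r (t.le hr)).1 hr y hy.1⟩
      have h1 := conj_mem_of_norm (n hb) (inv_mem ha)
      have h2 : ⁅b * a⁻¹ * b⁻¹, y⁆ = b * ⁅a⁻¹, y⁆ * b⁻¹ := by
        rw [conjugate_commutatorElement, mem_cent.1 hy.2 b hb, mul_inv_cancel_right]
      rw [show ⁅a, b⁆ = a * (b * a⁻¹ * b⁻¹) by simp only [commutatorElement_def, mul_assoc],
        eta_mul_left t ha h1 hy.1, h2, eta_conj t.char (hA hb) (t.comm_mem (inv_mem ha) hy.1),
        ← eta_mul_left t ha (inv_mem ha) hy.1, mul_inv_cancel, commutatorElement_one_left,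
        t.char.one]
    exact (this hx).2
  exact eta_symm t hm (l hx) (this hm).2

end

variable [IsAlgClosed k] [CharP k p] [FiniteDimensional k W]

theorem small_of_type {ρ : H →* End k W} {Q R : Subgroup H} {η : H → k} (t : IsType Q R η)
    (hk : ((♯Q : ℕ) : k) ≠ 0) (hU : Wt ρ R η ≠ ⊥) {x : H} (n : x ∈ 𝐍 Q) {l : ℕ}
    (ho : x ^ p ^ (l + 1) = 1)
    (hg : aeval (ρ x) (∑ i ∈ Finset.range (p ^ (l + 1)), (X : k[X]) ^ i) = 0) :
    ∃ s a, l = s + a ∧ x ^ p ^ s ∈ StabCh R η ∧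
      R.relIndex ⁅Q, zpowers (x ^ p ^ l)⁆ ≤ (p ^ (a + 1) - 1) ^ 2 := by
  have h := repOn_hom ρ
  obtain ⟨u, hu, hu0⟩ := (Submodule.ne_bot_iff _).1 hU
  obtain ⟨a, ha, hper⟩ := exists_period (StabCh R η) x
  obtain ⟨s, hs, rfl⟩ := (Nat.dvd_prime_pow hp.out).mp
    ((hper (p ^ (l + 1))).mp (by rw [ho]; simp))
  have hpos := pow_pos hp.out.pos (l + 1)
  obtain ⟨g', h0, h1, h2⟩ : ∃ g' : k[X], g' ≠ 0 ∧
      p ^ s * g'.natDegree ≤ (∑ i ∈ Finset.range (p ^ (l + 1)), (X : k[X]) ^ i).natDegree ∧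
      ∀ u ∈ Wt ρ R η, aeval (ρ (x ^ p ^ s)) g' u = 0 := by
    rw [map_pow]
    refine poly_descend (e := proj ρ R η) ha (cast_card_ne_zero hk t.le) (h.injective (mem_top x))
      (fun m hm v hv => ?_) (fun m hm v hv => ?_) (geom_ne_zero hpos) (fun v _ => by rw [hg]; rfl)
    · rw [← map_pow]
      exact proj_of_mem t.char (h.map_wt_stab le_top (mem_top _) ((hper m).mpr hm) hv)
    · rw [← map_pow]
      exact h.proj_type_eq_zero le_top t (mem_top _) ((𝐍 Q).pow_mem n m)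
        (fun e => hm ((hper m).mp e)) hv
  have h3 : p ^ s * g'.natDegree < p ^ (l + 1) := by
    have := h1.trans (natDegree_geom _)
    omega
  have hsl : s ≤ l := by
    by_contra e
    rw [show s = l + 1 by omega] at h3
    exact absurd (Nat.le_mul_of_pos_right _ (natDegree_pos_of_aeval hu0 h0 (h2 u hu))) h3.not_ge
  obtain ⟨a, rfl⟩ := Nat.exists_eq_add_of_le hsl
  have hxS : x ^ p ^ s ∈ StabCh R η := (hper _).mpr dvd_rfl
  refine ⟨s, a, rfl, hxS, ?_⟩
  have hyS : zpowers (x ^ p ^ (s + a)) ≤ StabCh R η :=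
    zpowers_le.mpr ((hper _).mpr (pow_dvd_pow p hsl))
  have nQ : zpowers (x ^ p ^ (s + a)) ≤ 𝐍 Q := zpowers_le.mpr ((𝐍 Q).pow_mem n _)
  have pi : PiGrp {p} (zpowers (x ^ p ^ (s + a))) :=
    (card_zpowers_pi hp.out ho).le (zpowers_le.2 (pow_mem (mem_zpowers x) _))
  have hcop : (♯(zpowers (x ^ p ^ (s + a)))).Coprime (♯Q) := pi.coprime
    ((piNat_compl_single hp.out).2 fun e => hk ((CharP.cast_eq_zero_iff k p _).2 e))
  have t' := isType_comm t nQ hyS hcop pi.sol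
  have l : ⁅Q, zpowers (x ^ p ^ (s + a))⁆ ⊔ R ≤ Q := sup_le (comm_le_left nQ) t.le
  have nR : Q ≤ 𝐍 R := norm_of_der_le t.le t.der
  rw [← relIndex_sup_of_le_normalizer ((comm_le_left nQ).trans nR), sup_comm]
  by_cases hne : R = ⁅Q, zpowers (x ^ p ^ (s + a))⁆ ⊔ R
  · rw [← hne, relIndex_self]
    have : 1 < p ^ (a + 1) := Nat.one_lt_pow a.succ_ne_zero hp.out.one_lt
    exact Nat.one_le_pow _ _ (by omega)
  obtain ⟨D, -, e1, -, e2⟩ := h.hh_type le_top (cast_card_ne_zero hk l) t' hU (mem_top _)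
    (zpowers_le.1 (norm_sup (norm_commutator (zpowers_le.2 ((𝐍 Q).pow_mem n _))
      ((abel_zpowers x).cent (zpowers_le.2 (pow_mem (mem_zpowers x) _))
        (zpowers_le.2 (pow_mem (mem_zpowers x) _)) |> norm_of_cent))
      ((zpowers_le.2 hxS).trans (stabCh_le R η)))) hxS (p ^ (a + 1)) (by
      intro m hm hmR i hi0 hi e
      obtain ⟨c, hc, r, hr, rfl⟩ := (mem_sup_norm ((comm_le_left nQ).trans nR)).1 hm
      have n1 := (𝐍 R).pow_mem hxS.1 i
      refine hmR (mul_mem (mem_of_fpf nQ (hyS.trans (stabCh_le R η)) t.der hcop n1 ?_ hc ?_) hr)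
      · rw [zpowers_le, ← pow_mul]
        refine pow_mem_zpowers_pow hp.out ho (Nat.mul_pos ha hi0).ne' ?_
        rw [add_assoc, pow_add]
        exact Nat.mul_lt_mul_of_pos_left hi ha
      · have := mul_mem (mul_mem hr e) (inv_mem (conj_mem_of_norm n1 hr))
        convert this using 1
        group) hne
  rw [add_assoc, pow_add, Nat.mul_lt_mul_left ha] at h3
  rw [← e1, show D = p ^ (a + 1) - 1 by have := e2 g' h0 h2; omega]

theorem hh_comm (hp2 : p ≠ 2) (hH : IsPSolvable p H) (h0 : pCore p H = ⊥) {ρ : H →* End k W}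
    (hρ : Function.Injective ρ) {S : Subgroup H} (hS : IsPGroup p S) {l : ℕ}
    (ho : ∀ x ∈ S, x ^ p ^ (l + 1) = 1)
    (hg : ∀ x ∈ S, aeval (ρ x) (∑ i ∈ Finset.range (p ^ (l + 1)), (X : k[X]) ^ i) = 0)
    {x y : H} (hx : x ∈ S) (hy : y ∈ S) : ⁅x ^ p ^ l, y ^ p ^ l⁆ = 1 := by
  let A := closure {c | ∃ x ∈ S, ∃ y ∈ S, c = ⁅x ^ p ^ l, y ^ p ^ l⁆}
  by_contra hne
  have hAS : A ≤ S := (closure_le _).2 (by
    rintro _ ⟨x, hx, y, hy, rfl⟩
    exact CF.BG.der_le S (commutator_mem_commutator (pow_mem hx _) (pow_mem hy _)))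
  have nA : S ≤ 𝐍 A := by
    rw [le_norm_iff]
    intro g hg c hc
    refine ((closure_le (cj g⁻¹ A)).2 ?_ hc |> mem_cj_inv.1)
    rintro _ ⟨x, hx, y, hy, rfl⟩
    refine mem_cj_inv.2 (subset_closure ⟨_, conj_mem_of_norm (le_norm_self S hg) hx, _,
      conj_mem_of_norm (le_norm_self S hg) hy, ?_⟩)
    rw [conjugate_commutatorElement, conj_pow, conj_pow]
  obtain ⟨q, Q, hQ⟩ := exists_minQ hH h0 hS hAS nA fun e =>
    hne (mem_bot.1 (e.le (subset_closure ⟨x, hx, y, hy, rfl⟩)))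
  obtain ⟨b, hb, hb1⟩ := exists_ne_one hQ.ne_bot hρ
  obtain ⟨R, η, t, -, u, hu, hbu⟩ := (repOn_hom ρ).exists_type le_top hQ.cast_ne_zero
    (hQ.der_le_rad ρ) hb hb1
  have hU : Wt ρ R η ≠ ⊥ := (Submodule.ne_bot_iff _).2 ⟨u, hu, fun a => hbu (by rw [a, map_zero])⟩
  have nR : Q ≤ 𝐍 R := norm_of_der_le t.le t.der
  have nT : S ⊓ StabCh R η ≤ 𝐍 R := inf_le_right.trans (stabCh_le R η)
  have key : ∀ x ∈ S, x ^ p ^ l ∈ StabCh R η ∧
      Small p (qt R (S ⊓ StabCh R η)) (qt R Q) (qe R (x ^ p ^ l)) := fun x hx => by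
    obtain ⟨s, a, rfl, h1, h2⟩ := small_of_type t hQ.cast_ne_zero hU (hQ.norm hx) (ho x hx) (hg x hx)
    have h3 : x ^ p ^ (s + a) ∈ StabCh R η := by rw [pow_add, pow_mul]; exact pow_mem h1 _
    refine ⟨h3, _, qe_mem_qt ⟨pow_mem hx _, h1⟩ h1.1, a, by rw [← qe_pow h1.1, pow_add, pow_mul], ?_⟩
    rwa [← qt_zpowers h3.1, ← qt_comm nR (zpowers_le.2 h3.1), card_qt ((comm_le_left
      (zpowers_le.2 (pow_mem (hQ.norm hx) _))).trans nR)]
  have h1 : A ≤ StabCh R η ⊓ qp R (𝐂 (qt R Q)) := (closure_le _).2 (by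
    rintro _ ⟨x, hx, y, hy, rfl⟩
    have h2 := CF.BG.der_le _ (commutator_mem_commutator (key x hx).1 (key y hy).1)
    refine ⟨h2, mem_qp.2 ⟨h2.1, ?_⟩⟩
    rw [qe_comm (key x hx).1.1 (key y hy).1.1, ← le_cent1_iff]
    exact small_comm hp.out hp2 _ _ _ le_rfl (((piGrp_of_isPGroup hp.out hS).inf_left).qt R)
      (PiGrp.qt ((piNat_compl_single hp.out).2 hQ.not_dvd) R) ((abel_qt_iff nR).2 t.der)
      (qt_norm R (inf_le_left.trans hQ.norm)) _ _ (key x hx).2 (key y hy).2)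
  have nA' := (h1.trans inf_le_left).trans (stabCh_le R η)
  have h2 := (qt_cent_iff nA' nR).1 ((qt_le_iff nA').2 (h1.trans inf_le_right))
  rw [commutator_comm, hQ.comm] at h2
  exact ne_of_comm_eq t hQ.comm (h1.trans inf_le_left) hb hu hbu (le_antisymm t.le h2)

variable {G : Type*} [Group G] [Finite G]

/-- the `p ^ l`-th powers of the elements of a `p`-subgroup commute -/
def CommP (p l : ℕ) (G : Type*) [Group G] : Prop :=
  ∀ S : Subgroup G, IsPGroup p S → ∀ x ∈ S, ∀ y ∈ S, ⁅x ^ p ^ l, y ^ p ^ l⁆ = 1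

theorem CommP.of_surjective {G' : Type*} [Group G'] {l : ℕ} (h : CommP p l G) {f : G →* G'}
    (hf : Function.Surjective f) : CommP p l G' := fun S hS => by
  obtain ⟨T, hT, rfl⟩ := exists_pGroup_map_eq hf hS
  rintro _ ⟨x, hx, rfl⟩ _ ⟨y, hy, rfl⟩
  rw [← map_pow, ← map_pow, ← map_commutatorElement, h T hT x hx y hy, map_one]

theorem ExpLE.commP (hp2 : p ≠ 2) {l : ℕ} (h : ExpLE p (l + 1) G) (hG : IsPSolvable p G)
    (h0 : pPrimeCore p G = ⊥) : CommP p l (G ⧸ pCore p G) := fun S hS x hx y hy => by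
  obtain ⟨U, σ, d⟩ := exists_dual (CF.Solv.centralizer_pCore_le_of_isPSolvable hG h0)
  exact hh_comm hp2 (CF.Solv.isPSolvable_quotient hG _) CF.Solv.pCore_quotient_pCore d.inj hS
    (fun x hx => h.of_surjective (QuotientGroup.mk'_surjective _) x (exists_pow_of_mem hS hx))
    (fun x hx => h.geom d (exists_pow_of_mem hS hx)) hx hy

theorem CommP.expLE (hp2 : p ≠ 2) {l : ℕ} (h : ExpLE p (l + 1) G) (hc : CommP p l G)
    (hG : IsPSolvable p G) (h0 : pPrimeCore p G = ⊥) : ExpLE p l (G ⧸ pCore p G) := by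
  intro x hx
  by_contra e
  obtain ⟨U, σ, d⟩ := exists_dual (CF.Solv.centralizer_pCore_le_of_isPSolvable hG h0)
  have hpos := pow_pos hp.out.pos l
  have ho := h.of_surjective (QuotientGroup.mk'_surjective _) x hx
  obtain ⟨g, rfl⟩ := QuotientGroup.mk_surjective x
  obtain ⟨n, hn⟩ := exists_pow_of_mk ho
  have h1 : (X ^ p ^ l - C 1 : (kp p)[X]) ≠ 0 := X_pow_sub_C_ne_zero hpos 1
  have := hh_lower (CF.Solv.isPSolvable_quotient hG _) CF.Solv.pCore_quotient_pCore d.inj ho e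
    (mul_ne_zero (geom_ne_zero hpos) h1) (LinearMap.ext fun w => d.ext _ fun v hv => by
      obtain ⟨y, hy, e1, e2⟩ := d.pow g hv (p ^ l)
      have e3 := hc (zpowers g ⊔ pCore p G) ((isPGroup_zpowers hn).to_sup_of_normal_right
        CF.Solv.pCore_isPGroup) g (mem_sup_left (mem_zpowers g)) (g * v)
        (mul_mem (mem_sup_left (mem_zpowers g)) (mem_sup_right hv))
      rw [e1, commutatorElement_eq_one_iff_mul_comm, mul_assoc, mul_right_inj] at e3
      rw [map_mul, End.mul_apply, ← e2, map_sub, map_pow, aeval_X, map_one, map_one, ← map_pow,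
        ← QuotientGroup.mk_pow, d.comm _ _ hy, commutatorElement_eq_one_iff_mul_comm.2
          (Commute.inv_left e3).eq, d.one])
  have h2 := (natDegree_mul_le).trans (add_le_add (natDegree_geom (k := kp p) (p ^ l))
    (natDegree_X_pow_sub_C (n := p ^ l) (r := (1 : kp p))).le)
  have h3 : p ^ l * 2 ≤ p ^ l * (p - 1) :=
    Nat.mul_le_mul_left _ (by have := hp.out.two_le; omega)
  omega

theorem pLen_of_exp_two.{u} (hp2 : p ≠ 2) (e : ℕ) : ∀ {G : Type u} [Group G] [Finite G],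
    IsPSolvable p G → ExpLE p e G → PLengthLE p (2 * e) G := by
  induction e with
  | zero => exact fun _ h => pLen_zero_iff.2 h.coprime
  | succ l ih =>
    intro G _ _ hG h
    have s1 := CF.Solv.isPSolvable_quotient hG (pPrimeCore p G)
    have h1 := h.of_surjective (QuotientGroup.mk'_surjective (pPrimeCore p G))
    have s2 := CF.Solv.isPSolvable_quotient s1 (pCore p _)
    have h2 := h1.of_surjective (QuotientGroup.mk'_surjective (pCore p _))
    have c2 := h1.commP hp2 s1 CF.Solv.pPrimeCore_quotient_pPrimeCore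
    have s3 := CF.Solv.isPSolvable_quotient s2 (pPrimeCore p _)
    have h3 := h2.of_surjective (QuotientGroup.mk'_surjective (pPrimeCore p _))
    have c3 := c2.of_surjective (QuotientGroup.mk'_surjective (pPrimeCore p _))
    exact pLen_of_quotient_coprime (pLen_of_quotient_pGroup (pLen_of_quotient_coprime
      (pLen_of_quotient_pGroup (ih (CF.Solv.isPSolvable_quotient s3 _)
        (c3.expLE hp2 h3 s3 CF.Solv.pPrimeCore_quotient_pPrimeCore)) CF.Solv.pCore_isPGroup)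
      CF.Solv.pPrimeCore_coprime) CF.Solv.pCore_isPGroup) CF.Solv.pPrimeCore_coprime

end CF.Fgs2
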