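import Mathlib

/-! Binary affine groups, I: reflections. -/

set_option autoImplicit false

namespace CF.Fgs2.Bin

variable {H V : Type*} [Group H] [AddCommGroup V] [DistribMulAction H V]

/-- `v ↦ h v - v` -/
def dd (V : Type*) [AddCommGroup V] [DistribMulAction H V] (h : H) : V →+ V :=
  DistribSMul.toAddMonoidHom V h - AddMonoidHom.id V

theorem dd_apply (h : H) (v : V) : dd V h v = h • v - v := rfl

/-- fixed space -/
def C (V : Type*) [AddCommGroup V] [DistribMulAction H V] (h : H) : AddSubgroup V := (dd V h).ker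

/-- commutator space -/
def W (V : Type*) [AddCommGroup V] [DistribMulAction H V] (h : H) : AddSubgroup V := (dd V h).range

theorem mem_C {h : H} {v : V} : v ∈ C V h ↔ h • v = v := sub_eq_zero

theorem mem_W {h : H} {v : V} : v ∈ W V h ↔ ∃ x, h • x - x = v := Iff.rfl

theorem sub_mem_W (h : H) (x : V) : h • x - x ∈ W V h := ⟨x, rfl⟩

theorem card_W_mul (h : H) : Nat.card (W V h) * Nat.card (C V h) = Nat.card V := by
  rw [W, C, ← AddSubgroup.index_ker, mul_comm, AddSubgroup.card_mul_index]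

theorem smul_mem_W {k h : H} {w : V} (hw : w ∈ W V h) : k • w ∈ W V (k * h * k⁻¹) := by
  obtain ⟨x, rfl⟩ := hw
  exact ⟨k • x, by rw [dd_apply, dd_apply, smul_sub, mul_smul, mul_smul, inv_smul_smul]⟩

theorem smul_mem_C {k h : H} {w : V} (hw : w ∈ C V h) : k • w ∈ C V (k * h * k⁻¹) := by
  rw [mem_C] at hw ⊢
  rw [mul_smul, mul_smul, inv_smul_smul, hw]

theorem card_W_conj (k h : H) : Nat.card (W V (k * h * k⁻¹)) = Nat.card (W V h) := by
  refine Nat.card_congr ⟨fun w => ⟨k⁻¹ • w.1, ?_⟩, fun w => ⟨k • w.1, smul_mem_W w.2⟩,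
    fun w => Subtype.ext (smul_inv_smul _ _), fun w => Subtype.ext (inv_smul_smul _ _)⟩
  have := smul_mem_W (k := k⁻¹) w.2
  rwa [show k⁻¹ * (k * h * k⁻¹) * k⁻¹⁻¹ = h by group] at this

theorem card_sup {U X : AddSubgroup V} (h : ∀ v ∈ U, v ∈ X → v = 0) :
    Nat.card (U ⊔ X : AddSubgroup V) = Nat.card U * Nat.card X := by
  rw [← Nat.card_prod]
  symm
  refine Nat.card_congr (Equiv.ofBijective
    (fun p => ⟨p.1.1 + p.2.1, AddSubgroup.add_mem_sup p.1.2 p.2.2⟩) ⟨?_, ?_⟩)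
  · rintro ⟨a, b⟩ ⟨c, d⟩ e
    have e : a.1 + b.1 = c.1 + d.1 := congrArg Subtype.val e
    have e1 : a.1 - c.1 = d.1 - b.1 := by rw [sub_eq_sub_iff_add_eq_add, e, add_comm]
    have e2 := h _ (U.sub_mem a.2 c.2) (e1 ▸ X.sub_mem d.2 b.2)
    rw [e2] at e1
    exact Prod.ext (Subtype.ext (sub_eq_zero.1 e2)) (Subtype.ext (sub_eq_zero.1 e1.symm).symm)
  · rintro ⟨v, hv⟩
    obtain ⟨a, ha, b, hb, rfl⟩ := AddSubgroup.mem_sup.1 hv
    exact ⟨(⟨a, ha⟩, ⟨b, hb⟩), rfl⟩

/-- the consequence of being binary that is used -/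
structure Bn (H V : Type*) [Group H] [AddCommGroup V] [DistribMulAction H V] : Prop where
  b1 : ∀ Y : Set V, 0 ∈ Y → ∀ y y' : V, (∀ c ∈ Y, ∃ h : H, h • (y - c) = y' - c) →
    ∃ g : H, (∀ c ∈ Y, g • c = c) ∧ g • y = y'
  faith : ∀ h : H, (∀ v : V, h • v = v) → h = 1
  two : (∀ v : V, v + v = 0) ∨ ∀ v : V, v + v = 0 → v = 0

/-- reflections: non-identity elements with maximal fixed space -/
def T (V : Type*) [AddCommGroup V] [DistribMulAction H V] (t : H) : Prop :=
  t ≠ 1 ∧ ∀ g : H, g ≠ 1 → C V t ≤ C V g → C V g ≤ C V t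

theorem exists_T [Finite V] {g : H} (hg : g ≠ 1) : ∃ t : H, T V t ∧ C V g ≤ C V t := by
  obtain ⟨U, hU, ⟨t, ht, rfl⟩, hm⟩ :=
    Finite.exists_le_maximal (p := fun U : AddSubgroup V => ∃ t : H, t ≠ 1 ∧ C V t = U) ⟨g, hg, rfl⟩
  exact ⟨t, ⟨ht, fun g hg h => hm ⟨g, hg, rfl⟩ h⟩, hU⟩

theorem T.conj {t : H} (ht : T V t) (k : H) : T V (k * t * k⁻¹) := by
  refine ⟨fun h => ht.1 ?_, fun g hg h v hv => ?_⟩
  · calc t = k⁻¹ * (k * t * k⁻¹) * k := by group
      _ = 1 := by rw [h]; group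
  · have h1 : C V t ≤ C V (k⁻¹ * g * k⁻¹⁻¹) := fun x hx => by
      have := smul_mem_C (k := k⁻¹) (h (smul_mem_C (k := k) hx))
      rwa [inv_smul_smul] at this
    have h2 := ht.2 _ (fun e => hg (by
      calc g = k * (k⁻¹ * g * k⁻¹⁻¹) * k⁻¹ := by group
        _ = 1 := by rw [e]; group)) h1 (smul_mem_C (k := k⁻¹) hv)
    have := smul_mem_C (k := k) h2
    rwa [smul_inv_smul] at this

namespace Bn

variable (B : Bn H V)
include B

theorem swap (h : H) (v : V) : ∃ g : H, C V h ≤ C V g ∧ g • v = h • v ∧ g • h • v = v := by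
  obtain ⟨g, h1, h2⟩ := B.b1 (insert (v + h • v) (C V h : Set V)) (Or.inr (C V h).zero_mem) v (h • v)
    (by
      rintro c (rfl | hc)
      · exact ⟨h⁻¹, by simp⟩
      · exact ⟨h, by rw [smul_sub, mem_C.1 hc]⟩)
  refine ⟨g, fun c hc => mem_C.2 (h1 c (Or.inr hc)), h2, ?_⟩
  have := h1 _ (Or.inl rfl)
  rw [smul_add, h2, add_comm v] at this
  exact add_left_cancel this

theorem factC {g k : H} {v : V} (hg : g • v = v) (hk : k • v - v ∈ W V g) : k • v = v := by
  obtain ⟨w, hw⟩ := mem_W.1 hk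
  obtain ⟨g', h1, h2⟩ := B.b1 {0, v, w} (Or.inl rfl) (v + w) (v + g • w) (by
    rintro c (rfl | rfl | rfl)
    · exact ⟨g, by simp [hg]⟩
    · exact ⟨g, by simp⟩
    · exact ⟨k, by rw [add_sub_cancel_right, add_sub_assoc, hw]; abel⟩)
  rw [smul_add, h1 v (by simp), h1 w (by simp)] at h2
  rw [← add_left_cancel h2, sub_self] at hw
  exact sub_eq_zero.1 hw.symm

theorem exists_neg {h : H} {d : V} (hd : d ∈ W V h) : ∃ g : H, g • d = -d := by
  obtain ⟨x, rfl⟩ := mem_W.1 hd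
  obtain ⟨g, -, h1, h2⟩ := B.swap h x
  exact ⟨g, by rw [smul_sub, h1, h2, neg_sub]⟩

theorem ss {h : H} {d : V} (hd : d ∈ W V h) (hc : d ∈ C V h) : d + d = 0 := by
  obtain ⟨g, hg⟩ := B.exists_neg hd
  have := B.factC (k := g) (mem_C.1 hc) (by rw [hg]; exact sub_mem (neg_mem hd) hd)
  rw [hg] at this
  nth_rw 1 [← this]; exact neg_add_cancel d

theorem inversion (h : H) (v : V) :
    ∃ g : H, C V h ≤ C V g ∧ g • v = v ∧ g • h • v = h⁻¹ • v := by
  obtain ⟨g, h1, h2⟩ := B.b1 (insert v (C V h : Set V)) (Or.inr (C V h).zero_mem) (h • v) (h⁻¹ • v)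
    (by
      rintro c (rfl | hc)
      · obtain ⟨g, hg⟩ := B.exists_neg (sub_mem_W h c)
        exact ⟨h⁻¹ * g, by rw [mul_smul, hg, neg_sub, smul_sub, inv_smul_smul]⟩
      · refine ⟨h⁻¹ * h⁻¹, ?_⟩
        have : h⁻¹ • c = c := inv_smul_eq_iff.2 (mem_C.1 hc).symm
        rw [smul_sub, mul_smul, mul_smul, inv_smul_smul, this, this])
  exact ⟨g, fun c hc => mem_C.2 (h1 c (Or.inr hc)), h1 v (Or.inl rfl), h2⟩

variable {t t' r : H}

theorem sq_smul (ht : T V t) (v : V) : t • t • v = v := by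
  by_cases hv : t • v = v
  · rw [hv, hv]
  obtain ⟨g, h1, h2, h3⟩ := B.swap t v
  have h4 := ht.2 g (by rintro rfl; exact hv (by rw [← h2, one_smul])) h1
    (mem_C.2 (show g • (v + t • v) = _ by rw [smul_add, h2, h3, add_comm]))
  rw [mem_C, smul_add, add_comm v] at h4
  exact add_left_cancel h4

theorem sq (ht : T V t) : t * t = 1 := B.faith _ fun v => by rw [mul_smul, B.sq_smul ht]

theorem inv (ht : T V t) : t⁻¹ = t := inv_eq_of_mul_eq_one_right (B.sq ht)

theorem neg_W (ht : T V t) {w : V} (hw : w ∈ W V t) : t • w = -w := by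
  obtain ⟨x, rfl⟩ := mem_W.1 hw
  rw [smul_sub, B.sq_smul ht, neg_sub]

theorem exists_W (ht : t ≠ 1) : ∃ w ∈ W V t, w ≠ 0 := by
  by_contra! h
  exact ht (B.faith _ fun v => sub_eq_zero.1 (h _ (sub_mem_W t v)))

theorem t2 (ht : T V t) {k : H} {x : V} (h : k • x - x ∈ W V t) : k • x = x ∨ k • x = t • x := by
  refine or_iff_not_imp_left.2 fun hne => ?_
  have h1 : t • x - k • x ∈ W V t := by
    have := sub_mem (sub_mem_W t x) h
    rwa [sub_sub_sub_cancel_right] at this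
  obtain ⟨z, hz⟩ := mem_W.1 h1
  obtain ⟨g, h2, h3⟩ := B.b1 (insert 0 {y | y - z ∈ C V t}) (Or.inl rfl) x (k • x) (by
    rintro c (rfl | hc)
    · exact ⟨k, by simp⟩
    · refine ⟨t, ?_⟩
      have hc : t • (c - z) = c - z := mem_C.1 hc
      rw [smul_sub] at hc ⊢
      have : t • c = c + (t • z - z) := by rw [sub_eq_iff_eq_add.1 hc]; abel
      rw [this, hz]; abel)
  have hz1 : g • z = z := h2 z (Or.inr (by simp))
  have h4 := ht.2 g (by rintro rfl; exact hne (by rw [← h3, one_smul])) (fun c hc => by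
    have := h2 (c + z) (Or.inr (by simpa using hc))
    rw [smul_add, hz1] at this
    exact mem_C.2 (add_right_cancel this)) (mem_C.2 hz1)
  rw [mem_C.1 h4, sub_self] at hz
  exact (sub_eq_zero.1 hz.symm).symm

theorem t3 (ht : T V t) (ht' : T V t') {d : V} (h : d ∈ W V t) (h' : d ∈ W V t') (hd : d ≠ 0) :
    t = t' := by
  obtain ⟨x, rfl⟩ := mem_W.1 h'
  have h1 := (B.t2 ht h).resolve_left fun e => hd (sub_eq_zero.2 e)
  have h2 : C V t' ≤ C V (t * t') := fun c hc => by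
    have e : t' • (x + c) - (x + c) = t' • x - x := by rw [smul_add, mem_C.1 hc]; abel
    have := (B.t2 ht (e ▸ h)).resolve_left fun e' => hd (by rw [← e, e', sub_self])
    rw [smul_add, smul_add, h1, add_right_inj, mem_C.1 hc] at this
    rw [mem_C, mul_smul, mem_C.1 hc, ← this]
  by_contra hne
  have := ht'.2 (t * t') (fun e => hne (by rw [eq_inv_of_mul_eq_one_left e, B.inv ht'])) h2
    (mem_C.2 (show (t * t') • x = x by rw [mul_smul, h1, B.sq_smul ht]))
  exact hd (sub_eq_zero.2 (mem_C.1 this))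

theorem fix_of_eq (ht : T V t) (ht' : T V t') (hne : t ≠ t') {x : V} (h : t • x = t' • x) :
    t • x = x := by
  by_contra hx
  exact hne (B.t3 ht ht' (sub_mem_W t x) (h ▸ sub_mem_W t' x) (sub_ne_zero.2 hx))

theorem C_mul (ht : T V t) (ht' : T V t') (hne : t ≠ t') : C V (t * t') = C V t ⊓ C V t' := by
  ext x
  rw [AddSubgroup.mem_inf, mem_C, mem_C, mem_C, mul_smul]
  refine ⟨fun h => ?_, fun h => by rw [h.2, h.1]⟩
  have h1 : t • x = t' • x := by rw [← B.sq_smul ht (t' • x), h]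
  have := B.fix_of_eq ht ht' hne h1
  exact ⟨this, h1 ▸ this⟩

theorem t4 (ht : T V t) {k : H} (h : Commute k t) :
    (∀ w ∈ W V t, k • w = w) ∨ ∀ w ∈ W V t, k • w = -w := by
  have h1 : ∀ w ∈ W V t, k • w = w ∨ k • w = -w := fun w hw => by
    have := smul_mem_W (k := k) hw
    rw [h.eq, mul_inv_cancel_right] at this
    rw [← B.neg_W ht hw]
    exact B.t2 ht (sub_mem this hw)
  refine or_iff_not_imp_left.2 fun hn w hw => ?_
  push Not at hn
  obtain ⟨u, hu, hne⟩ := hn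
  have h2 := (h1 u hu).resolve_left hne
  refine (h1 w hw).elim (fun h3 => ?_) id
  rcases h1 _ (add_mem hw hu) with h4 | h4
  · rw [smul_add, h3, add_right_inj] at h4
    exact absurd h4 hne
  · rw [smul_add, h2, neg_add, add_left_inj] at h4
    exact h4

theorem comm_of_mem (ht : T V t) {k : H} {w : V} (hw : w ∈ W V t) (h0 : w ≠ 0)
    (h : k • w ∈ W V t) : Commute k t := by
  have := B.t3 (ht.conj k) ht (smul_mem_W hw) h (mt (smul_eq_zero_iff_eq k).1 h0)
  exact mul_inv_eq_iff_eq_mul.1 this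

theorem t5 (ht : T V t) (hr : T V r) (hne : t ≠ r) (h : Commute r t) : W V t ≤ C V r := by
  intro w hw
  rcases B.t4 ht h with h1 | h1
  · exact mem_C.2 (h1 w hw)
  · by_contra hn
    exact hne (B.t3 ht hr (by rw [h1 w hw]; exact sub_mem (neg_mem hw) hw) (sub_mem_W r w)
      (sub_ne_zero.2 (mt mem_C.2 hn)))

/-- in characteristic two, distinct commuting reflections are not conjugate -/
theorem not_conj (h2 : ∀ v : V, v + v = 0) (hr : T V r) {k : H} (hne : r ≠ k * r * k⁻¹)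
    (hc : Commute r (k * r * k⁻¹)) : False := by
  have hn : ∀ v : V, -v = v := fun v => neg_eq_of_add_eq_zero_left (h2 v)
  have hr' := hr.conj k
  obtain ⟨v, hv, hv0⟩ := B.exists_W hr.1
  obtain ⟨g, -, g1, g2⟩ := B.swap k v
  have hkv : k • v ≠ 0 := mt (smul_eq_zero_iff_eq k).1 hv0
  have e1 : g * r * g⁻¹ = k * r * k⁻¹ :=
    B.t3 (hr.conj g) hr' (smul_mem_W hv) (g1 ▸ smul_mem_W hv) (g1 ▸ hkv)
  generalize k * r * k⁻¹ = s at *
  have e2 : g * s * g⁻¹ = r :=
    B.t3 (hr'.conj g) hr (by have := smul_mem_W (k := g) (e1 ▸ smul_mem_W (k := g) hv); rwa [g1, g2] at this)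
      hv hv0
  have c1 : Commute (g * g) s := by
    change g * g * s = s * (g * g)
    calc g * g * s = g * (g * s * g⁻¹) * g⁻¹ * (g * g) := by group
      _ = _ := by rw [e2, e1]
  have f1 : ∀ w ∈ W V s, (g * g) • w = w := fun w hw =>
    (B.t4 hr' c1).elim (fun h => h w hw) fun h => (h w hw).trans (hn w)
  -- it suffices to find `x` moved by `r` with `g⁻¹ x - x` fixed by `r`
  have key : ∀ x : V, g⁻¹ • x - x ∈ C V r → r • x = x := fun x hx => by
    by_contra hne'
    have h1 : r • g⁻¹ • x - g⁻¹ • x = r • x - x := by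
      have := mem_C.1 hx
      rw [smul_sub] at this
      rw [sub_eq_iff_eq_add.1 this]; abel
    have h3 : s • x - x = g • (r • x - x) := by
      rw [← h1, ← e1, smul_sub, smul_inv_smul, mul_smul, mul_smul]
    have w1 := sub_mem_W r x
    have w2 := sub_mem_W s x
    have c2 : r • (s • x - x) = s • x - x := mem_C.1 (B.t5 hr' hr hne.symm hc w2)
    have c3 : s • (r • x - x) = r • x - x := mem_C.1 (B.t5 hr hr' hne hc.symm w1)
    have := B.factC (g := r * s) (k := g) (v := r • x - x)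
      (by rw [mul_smul, c3, B.neg_W hr w1, hn]) ⟨x, by
        rw [dd_apply, ← h3, mul_smul, sub_eq_add_neg (s • x - x), hn, ← c2, smul_sub]; abel⟩
    rw [← h3] at this
    exact hne (B.t3 hr hr' w1 (this ▸ w2) (sub_ne_zero.2 hne'))
  refine hr.1 (B.faith _ fun y => key y ?_)
  have h1 : ∀ y : V, y + g • y ∈ C V r := fun y => mem_C.2 (key _ (by
    have h3 : y - (g * g) • y ∈ C V s := by
      have h4 := f1 _ (sub_mem_W s y)
      rw [smul_sub, ← mul_smul, c1.eq, mul_smul] at h4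
      rw [mem_C, smul_sub, sub_eq_iff_eq_add.1 h4]; abel
    have := smul_mem_C (k := g⁻¹) h3
    rw [show g⁻¹ * s * g⁻¹⁻¹ = r by rw [← e1]; group, smul_sub, mul_smul, inv_smul_smul] at this
    rw [smul_add, inv_smul_smul]
    convert this using 1; abel))
  have := h1 (g⁻¹ • y)
  rwa [smul_inv_smul, ← sub_neg_eq_add, hn y] at this

end Bn

end CF.Fgs2.Bin
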