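import Cfsg.Agent.Fgs2.Bin1

/-! Binary affine groups, II: the plane spanned by two non-commuting reflections. -/

set_option autoImplicit false

namespace CF.Fgs2.Bin

variable {H V : Type*} [Group H] [AddCommGroup V] [DistribMulAction H V]

theorem card_sup_le [Finite V] {U X : AddSubgroup V} (h : ∀ v ∈ U, v ∈ X → v = 0) :
    Nat.card U * Nat.card X ≤ Nat.card V := by
  rw [← card_sup h]; exact AddSubgroup.card_le_card_addGroup _

theorem eq_of_le_card [Finite V] {U X : AddSubgroup V} (h : U ≤ X) (hc : Nat.card X ≤ Nat.card U) :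
    U = X := AddSubgroup.eq_of_le_of_card_ge h hc

theorem W_mul_le (g h : H) : W V (g * h) ≤ W V g ⊔ W V h := by
  rintro _ ⟨x, rfl⟩
  have := AddSubgroup.add_mem_sup (sub_mem_W g (h • x)) (sub_mem_W h x)
  rwa [sub_add_sub_cancel, ← mul_smul] at this

/-- a non-commuting pair of reflections -/
structure NC (V : Type*) [AddCommGroup V] [DistribMulAction H V] (t t' : H) : Prop where
  B : Bn H V
  l : T V t
  r : T V t'
  nc : ¬ Commute t t'

/-- reflections fixing the common fixed space of `t` and `t'` -/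
def TK (V : Type*) [AddCommGroup V] [DistribMulAction H V] (t t' r : H) : Prop :=
  T V r ∧ C V t ⊓ C V t' ≤ C V r

namespace NC

variable {t t' r s : H} (N : NC V t t')
include N

theorem symm : NC V t' t := ⟨N.B, N.r, N.l, fun h => N.nc h.symm⟩

theorem ne : t ≠ t' := fun h => N.nc (h ▸ Commute.refl t)

theorem n1 {w : V} (hw : w ∈ W V t') (h : t • w = w) : w = 0 := by
  by_contra h0
  exact N.nc (N.B.comm_of_mem N.r hw h0 (h.symm ▸ hw))

theorem card_le [Finite V] : Nat.card (W V t') ≤ Nat.card (W V t) := by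
  refine Nat.card_le_card_of_injective (fun w => ⟨t • w.1 - w.1, sub_mem_W _ _⟩) fun a b h => ?_
  have h : t • a.1 - a.1 = t • b.1 - b.1 := congrArg Subtype.val h
  refine Subtype.ext (sub_eq_zero.1 (N.n1 (sub_mem a.2 b.2) ?_))
  rw [smul_sub, sub_eq_iff_eq_add.1 h]; abel

theorem card_eq [Finite V] : Nat.card (W V t') = Nat.card (W V t) :=
  le_antisymm N.card_le N.symm.card_le

theorem C_mul : C V (t * t') = C V t ⊓ C V t' := N.B.C_mul N.l N.r N.ne

theorem inf_bot {u : V} (hu : u ∈ W V t ⊔ W V t') (h : u ∈ C V t ⊓ C V t') : u = 0 := by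
  obtain ⟨a, ha, b, hb, rfl⟩ := AddSubgroup.mem_sup.1 hu
  have h1 := mem_C.1 h.1
  have h2 := mem_C.1 h.2
  have ta := N.B.neg_W N.l ha
  rw [smul_add, ta] at h1
  rw [smul_add, N.B.neg_W N.r hb] at h2
  rcases N.B.two with h3 | h3
  · rw [N.symm.n1 ha (by linear_combination (norm := abel1) h2 + h3 b),
      N.n1 hb (by linear_combination (norm := abel1) h1 + h3 a), add_zero]
  · refine h3 _ (h3 _ (N.B.ss (h := t * t') ?_ (N.C_mul ▸ add_mem h h)))
    have := neg_mem (sub_mem_W (t * t') (t' • a))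
    rw [mul_smul, N.B.sq_smul N.r, ta] at this
    convert this using 1
    linear_combination (norm := abel1) -h2

theorem disj {w : V} (h : w ∈ W V t) (h' : w ∈ W V t') : w = 0 := by
  by_contra h0
  exact N.ne (N.B.t3 N.l N.r h h' h0)

theorem card_M [Finite V] :
    Nat.card (W V t ⊔ W V t' : AddSubgroup V) = Nat.card (W V t) * Nat.card (W V t) := by
  rw [card_sup fun _ => N.disj, N.card_eq]

theorem W_mul [Finite V] : W V (t * t') = W V t ⊔ W V t' := by
  refine eq_of_le_card (W_mul_le t t') ?_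
  have h1 := card_sup_le fun _ => N.inf_bot
  rw [← card_W_mul (V := V) (t * t'), N.C_mul] at h1
  exact Nat.le_of_mul_le_mul_right h1 Nat.card_pos

theorem card_V [Finite V] : Nat.card V =
    Nat.card (W V t) * Nat.card (W V t) * Nat.card (C V t ⊓ C V t' : AddSubgroup V) := by
  rw [← card_W_mul (t * t'), N.C_mul, N.W_mul, N.card_M]

theorem sup_top [Finite V] : (W V t ⊔ W V t') ⊔ (C V t ⊓ C V t') = ⊤ := by
  refine eq_of_le_card le_top ?_
  rw [card_sup fun _ => N.inf_bot, N.card_M, ← N.card_V, AddSubgroup.card_top]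

theorem eq_one [Finite V] {k : H} (h1 : W V t ≤ C V k) (h2 : W V t' ≤ C V k)
    (h3 : C V t ⊓ C V t' ≤ C V k) : k = 1 :=
  N.B.faith _ fun v => mem_C.1 (sup_le (sup_le h1 h2) h3 (N.sup_top ▸ AddSubgroup.mem_top v))

theorem n5 {x : V} (h : (t * t') • (t * t') • x = x) : x ∈ C V t ⊓ C V t' := by
  have h1 : (t * (t' * t * t'⁻¹)) • x = x := by
    rw [N.B.inv N.r]; simpa only [← mul_smul, mul_assoc] using h
  have h2 := N.B.C_mul N.l (N.l.conj t') (fun e => N.nc (mul_inv_eq_iff_eq_mul.1 e.symm).symm) ▸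
    mem_C.2 h1
  have h3 := mem_C.1 h2.2
  rw [mul_smul, mul_smul, N.B.inv N.r, smul_eq_iff_eq_inv_smul, N.B.inv N.r] at h3
  exact ⟨h2.1, mem_C.2 (sub_eq_zero.1 (N.n1 (sub_mem_W t' x) (by rw [smul_sub, h3, mem_C.1 h2.1])))⟩

theorem tk_l : TK V t t' t := ⟨N.l, inf_le_left⟩

theorem tk_r : TK V t t' t' := ⟨N.r, inf_le_right⟩

theorem k1 [Finite V] (x : V) : ∃ r, TK V t t' r ∧ r • x = x := by
  by_cases hx : x ∈ C V t ⊓ C V t'
  · exact ⟨t, N.tk_l, mem_C.1 hx.1⟩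
  obtain ⟨g, h1, h2, h3⟩ := N.B.inversion (t * t') x
  obtain ⟨r, hr, h4⟩ := exists_T (V := V) (g := g) (by
    rintro rfl
    rw [one_smul, eq_inv_smul_iff] at h3
    exact hx (N.n5 h3))
  exact ⟨r, ⟨hr, N.C_mul ▸ h1.trans h4⟩, mem_C.1 (h4 (mem_C.2 h2))⟩

theorem k2 [Finite V] (hr : TK V t t' r) : NC V t r ∨ NC V t' r := by
  by_cases h1 : Commute t r
  · refine Or.inr ⟨N.B, N.r, hr.1, fun h2 => hr.1.1 (N.eq_one ?_ ?_ hr.2)⟩
    · exact N.B.t5 N.l hr.1 (fun e => N.nc (e ▸ h2).symm) h1.symm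
    · exact N.B.t5 N.r hr.1 (fun e => N.nc (e ▸ h1)) h2.symm
  · exact Or.inl ⟨N.B, N.l, hr.1, h1⟩

theorem card_tk [Finite V] (hr : TK V t t' r) : Nat.card (W V r) = Nat.card (W V t) :=
  (N.k2 hr).elim (fun h => h.card_eq) fun h => h.card_eq.trans N.card_eq

theorem tk_disj [Finite V] (hr : TK V t t' r) {w : V} (hw : w ∈ W V r) (h : w ∈ C V t ⊓ C V t') :
    w = 0 :=
  (N.k2 hr).elim (fun M => M.n1 hw (mem_C.1 h.1)) fun M => M.n1 hw (mem_C.1 h.2)

theorem conj2 [Finite V] [Finite H] (h2 : ∀ v : V, v + v = 0) : ∃ k : H, t' = k * t * k⁻¹ := by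
  have hn : ∀ v : V, -v = v := fun v => neg_eq_of_add_eq_zero_left (h2 v)
  have i1 : ∀ n : ℕ, t * (t * t') ^ n = ((t * t') ^ n)⁻¹ * t := fun n => by
    rw [← inv_pow, mul_inv_rev, N.B.inv N.l, N.B.inv N.r]
    have : t' * t = t * (t * t') * t⁻¹ := by rw [← mul_assoc, N.B.sq N.l, N.B.inv N.l, one_mul]
    rw [this, conj_pow, inv_mul_cancel_right]
  have ho := pow_orderOf_eq_one (t * t')
  rcases Nat.even_or_odd' (orderOf (t * t')) with ⟨m, hm | hm⟩
  · exfalso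
    have hp := orderOf_pos (t * t')
    have e : ((t * t') ^ m)⁻¹ = (t * t') ^ m :=
      inv_eq_of_mul_eq_one_right (by rw [← pow_add, ← two_mul, ← hm, ho])
    have c1 : Commute ((t * t') ^ m) t := ((i1 m).trans (by rw [e])).symm
    have c2 : Commute ((t * t') ^ m) t' := by
      have := c1.mul_right (Commute.pow_self (t * t') m)
      rwa [← mul_assoc, N.B.sq N.l, one_mul] at this
    have f : ∀ s, T V s → Commute ((t * t') ^ m) s → W V s ≤ C V ((t * t') ^ m) :=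
      fun s hs c w hw => mem_C.2 ((N.B.t4 hs c).elim (fun h => h w hw) fun h => (h w hw).trans (hn w))
    refine pow_ne_one_of_lt_orderOf (n := m) (by omega) (by omega)
      (N.eq_one (f t N.l c1) (f t' N.r c2) fun c hc => ?_)
    rw [← N.C_mul, mem_C] at hc
    exact mem_C.2 (MulAction.mem_stabilizer_iff.1 (pow_mem (MulAction.mem_stabilizer_iff.2 hc) m))
  · refine ⟨(t * t') ^ m, ?_⟩
    have e : ((t * t') ^ m)⁻¹ * ((t * t') ^ m)⁻¹ = t * t' := by
      rw [← mul_inv_rev, inv_eq_iff_mul_eq_one, ← pow_add, ← pow_succ, ← two_mul, ← hm, ho]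
    have e2 : (t * t') ^ m * t = t * ((t * t') ^ m)⁻¹ := by
      rw [eq_mul_inv_iff_mul_eq, mul_assoc, i1, mul_inv_cancel_left]
    rw [e2, mul_assoc, e, ← mul_assoc, N.B.sq N.l, one_mul]

theorem conj_tk [Finite V] [Finite H] (h2 : ∀ v : V, v + v = 0) (hr : TK V t t' r) :
    ∃ k : H, r = k * t * k⁻¹ := by
  refine (N.k2 hr).elim (fun M => M.conj2 h2) fun M => ?_
  obtain ⟨a, ha⟩ := N.conj2 h2
  obtain ⟨b, hb⟩ := M.conj2 h2
  exact ⟨b * a, by rw [hb, ha]; group⟩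

theorem k3 [Finite V] [Finite H] (hr : TK V t t' r) (hs : TK V t t' s) (hne : r ≠ s) :
    C V r ⊓ C V s = C V t ⊓ C V t' := by
  refine (eq_of_le_card (le_inf hr.2 hs.2) ?_).symm
  have h1 : ∀ u ∈ W V r ⊔ W V s, u ∈ C V r ⊓ C V s → u = 0 := by
    by_cases hc : Commute r s
    · rcases N.B.two with h2 | h2
      · obtain ⟨a, ha⟩ := N.conj_tk h2 hr
        obtain ⟨b, hb⟩ := N.conj_tk h2 hs
        have e : s = b * a⁻¹ * r * (b * a⁻¹)⁻¹ := by rw [hb, ha]; group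
        exact (N.B.not_conj h2 hr.1 (e ▸ hne) (e ▸ hc)).elim
      · intro u hu h
        obtain ⟨a, ha, b, hb, rfl⟩ := AddSubgroup.mem_sup.1 hu
        have h3 := mem_C.1 h.1
        have h4 := mem_C.1 h.2
        rw [smul_add, N.B.neg_W hr.1 ha, mem_C.1 (N.B.t5 hs.1 hr.1 hne.symm hc hb)] at h3
        rw [smul_add, N.B.neg_W hs.1 hb, mem_C.1 (N.B.t5 hr.1 hs.1 hne hc.symm ha)] at h4
        rw [h2 a (by linear_combination (norm := abel1) -h3),
          h2 b (by linear_combination (norm := abel1) -h4), add_zero]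
    · exact fun _ => NC.inf_bot ⟨N.B, hr.1, hs.1, hc⟩
  have h3 := card_sup_le h1
  rw [card_sup fun v h h' => by_contra fun h0 => hne (N.B.t3 hr.1 hs.1 h h' h0), N.card_tk hr,
    N.card_tk hs, N.card_V] at h3
  exact Nat.le_of_mul_le_mul_left h3 (Nat.mul_pos Nat.card_pos Nat.card_pos)

theorem k4 [Finite V] [Finite H] (hr : TK V t t' r) (hs : TK V t t' s) {x : V}
    (hx : x ∉ C V t ⊓ C V t') (h1 : r • x = x) (h2 : s • x = x) : r = s := by
  by_contra hne
  exact hx (N.k3 hr hs hne ▸ ⟨mem_C.2 h1, mem_C.2 h2⟩)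

theorem card_C [Finite V] (hr : TK V t t' r) :
    Nat.card (C V r) = Nat.card (W V t) * Nat.card (C V t ⊓ C V t' : AddSubgroup V) := by
  have := card_W_mul (V := V) r
  rw [N.card_V, N.card_tk hr, mul_assoc] at this
  exact Nat.eq_of_mul_eq_mul_left Nat.card_pos this

theorem tk_conj (hr : TK V t t' r) {k : H} (hk : C V t ⊓ C V t' ≤ C V k) :
    TK V t t' (k * r * k⁻¹) :=
  ⟨hr.1.conj k, fun c hc => by
    have := smul_mem_C (k := k) (hr.2 hc)
    rwa [mem_C.1 (hk hc)] at this⟩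

theorem k5 [Finite V] [Finite H] (hr : TK V t t' r) {x : V} (hx : x ∉ C V t ⊓ C V t')
    (h1 : r • x = x) {k : H} (hk : C V t ⊓ C V t' ≤ C V k) (h2 : k • x = x) : k = 1 ∨ k = r := by
  have key : ∀ k : H, C V t ⊓ C V t' ≤ C V k → k • x = x → W V r ≤ C V k → k = 1 ∨ k = r :=
    fun k hk h2 h3 => or_iff_not_imp_left.2 fun hk1 => by
      obtain ⟨s, hs, h4⟩ := exists_T (V := V) hk1
      obtain rfl := N.k4 ⟨hs, hk.trans h4⟩ hr hx (mem_C.1 (h4 (mem_C.2 h2))) h1
      have h5 : W V s ⊔ C V t ⊓ C V t' = C V s := eq_of_le_card ((sup_le h3 hk).trans h4) (by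
        rw [card_sup fun _ => N.tk_disj hr, N.card_C hr, N.card_tk hr])
      have h6 : C V s ≤ C V k := h5 ▸ sup_le h3 hk
      exact N.k4 ⟨⟨hk1, fun g hg h => (hs.2 g hg (h6.trans h)).trans h6⟩, hk⟩ hr hx h2 h1
  have hc : Commute k r := mul_inv_eq_iff_eq_mul.1 (N.k4 (N.tk_conj hr hk) hr hx (by
    have := smul_mem_C (k := k) (mem_C.2 h1)
    rwa [h2, mem_C] at this) h1)
  rcases N.B.t4 hr.1 hc with h3 | h3
  · exact key k hk h2 fun w hw => mem_C.2 (h3 w hw)
  · rcases key (k * r) (fun c hc => mem_C.2 (by rw [mul_smul, mem_C.1 (hr.2 hc), mem_C.1 (hk hc)]))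
      (by rw [mul_smul, h1, h2]) fun w hw => mem_C.2 (by
        rw [mul_smul, N.B.neg_W hr.1 hw, smul_neg, h3 w hw, neg_neg]) with h4 | h4
    · exact Or.inr (by rw [eq_inv_of_mul_eq_one_left h4, N.B.inv hr.1])
    · exact Or.inl (mul_eq_right.1 h4)

theorem one_lt [Finite V] : 1 < Nat.card (W V t) := by
  obtain ⟨w, hw, h0⟩ := N.B.exists_W N.l.1
  exact Finite.one_lt_card_iff_nontrivial.2 ⟨⟨w, hw⟩, 0, mt Subtype.ext_iff.1 h0⟩

theorem exists_fix [Finite V] (hr : TK V t t' r) : ∃ x, x ∉ C V t ⊓ C V t' ∧ r • x = x := by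
  by_contra! h
  have h1 : C V r ≤ C V t ⊓ C V t' := fun x hx => by_contra fun h' => h x h' (mem_C.1 hx)
  have h2 := AddSubgroup.card_le_of_le h1
  rw [N.card_C hr] at h2
  have := N.one_lt
  have := Nat.card_pos (α := (C V t ⊓ C V t' : AddSubgroup V))
  nlinarith

theorem k6 [Finite V] [Finite H] (hr : TK V t t' r) : r * (t * t') * r⁻¹ = (t * t')⁻¹ := by
  obtain ⟨x, hx, h1⟩ := N.exists_fix hr
  obtain ⟨g, g1, g2, g3⟩ := N.B.swap (t * t') x
  rw [N.C_mul] at g1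
  have hy : x + (t * t') • x ∉ C V t ⊓ C V t' := fun h => hx (N.n5 (by
    rw [← N.C_mul, mem_C, smul_add, add_comm x] at h
    exact add_left_cancel h))
  obtain ⟨s, hs, h2⟩ := N.k1 (x + (t * t') • x)
  have h3 : g⁻¹ = g := by
    rcases N.k5 hs hy h2 g1 (by rw [smul_add, g2, g3, add_comm]) with rfl | rfl
    exacts [inv_one, N.B.inv hs.1]
  rcases N.k5 hr hx h1 (k := g * (t * t')) (fun c hc => mem_C.2 (by
    rw [mul_smul, mem_C.1 (N.C_mul ▸ hc : c ∈ C V (t * t')), mem_C.1 (g1 hc)]))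
    (by rw [mul_smul, g3]) with h4 | h4
  · refine absurd (N.n5 ?_) hx
    rw [eq_inv_of_mul_eq_one_right h4, h3] at g3 ⊢
    exact g3
  · rw [← inv_mul_cancel_left g (t * t'), h4, h3, mul_inv_rev, h3, N.B.inv hr.1, mul_assoc,
      mul_assoc, N.B.sq hr.1, mul_one]

theorem smul_M [Finite V] [Finite H] (hr : TK V t t' r) {m : V} (hm : m ∈ W V t ⊔ W V t') :
    r • m ∈ W V t ⊔ W V t' := by
  rw [← N.W_mul] at hm ⊢
  have := smul_mem_W (k := r) hm
  rw [N.k6 hr] at this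
  obtain ⟨x, hx⟩ := mem_W.1 this
  rw [← hx, ← neg_sub]
  refine neg_mem ⟨(t * t')⁻¹ • x, ?_⟩
  rw [dd_apply, smul_inv_smul]

theorem W_le [Finite V] [Finite H] (hr : TK V t t' r) : W V r ≤ W V t ⊔ W V t' := by
  rintro _ ⟨v, rfl⟩
  obtain ⟨m, hm, c, hc, rfl⟩ := AddSubgroup.mem_sup.1 (N.sup_top ▸ AddSubgroup.mem_top v)
  rw [dd_apply, smul_add, mem_C.1 (hr.2 hc), add_sub_add_right_eq_sub]
  exact sub_mem (N.smul_M hr hm) hm

theorem cover [Finite V] [Finite H] {d : V} (hd : d ∈ W V t ⊔ W V t') :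
    ∃ r, TK V t t' r ∧ d ∈ W V r := by
  have h1 : C V (t * t' * (t * t')) = C V t ⊓ C V t' :=
    le_antisymm (fun x hx => N.n5 (by rw [← mul_smul]; exact mem_C.1 hx)) fun x hx => by
      rw [← N.C_mul, mem_C] at hx
      rw [mem_C, mul_smul, hx, hx]
  have h2 : W V (t * t' * (t * t')) = W V t ⊔ W V t' := by
    refine eq_of_le_card ((W_mul_le _ _).trans (by rw [sup_idem, N.W_mul])) ?_
    have := card_W_mul (V := V) (t * t' * (t * t'))
    rw [h1, N.card_V, ← N.card_M] at this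
    exact (Nat.eq_of_mul_eq_mul_right Nat.card_pos this).ge
  obtain ⟨y, rfl⟩ := mem_W.1 (h2 ▸ hd)
  obtain ⟨g, g1, g2, g3⟩ := N.B.inversion (t * t') ((t * t') • y)
  rw [inv_smul_smul, ← mul_smul (t * t')] at g3
  have h3 : (t * t' * (t * t')) • y - y ∈ W V g := by
    have := neg_mem (sub_mem_W g ((t * t' * (t * t')) • y))
    rwa [g3, neg_sub] at this
  by_cases hx : (t * t') • y ∈ C V t ⊓ C V t'
  · rw [← N.C_mul, mem_C, smul_left_cancel_iff] at hx
    exact ⟨t, N.tk_l, by rw [mul_smul, hx, hx, sub_self]; exact zero_mem _⟩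
  obtain ⟨r, hr, h4⟩ := N.k1 ((t * t') • y)
  rcases N.k5 hr hx h4 (N.C_mul ▸ g1) g2 with rfl | rfl
  · exact ⟨t, N.tk_l, by rw [one_smul] at g3; rw [g3, sub_self]; exact zero_mem _⟩
  · exact ⟨g, hr, h3⟩

end NC

end CF.Fgs2.Bin
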