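import Cfsg.Agent.Fgs2.Bin2

/-! Binary affine groups, III: an irreducible group is the whole plane. -/

set_option autoImplicit false

namespace CF.Fgs2.Bin

variable {H V : Type*} [Group H] [AddCommGroup V] [DistribMulAction H V]

/-- irreducibility -/
def Irr (H V : Type*) [Group H] [AddCommGroup V] [DistribMulAction H V] : Prop :=
  ∀ U : AddSubgroup V, (∀ k : H, ∀ v ∈ U, k • v ∈ U) → U = ⊥ ∨ U = ⊤

theorem Bn.gen [Finite V] (B : Bn H V) (h2 : ∀ v : V, v + v = 0 → v = 0) (S : Subgroup H)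
    (hS : ∀ t, T V t → t ∈ S) (h : H) : h ∈ S := by
  induction hC : C V h using WellFoundedGT.induction generalizing h with
  | ind U IH =>
  subst hC
  have A : ∀ h' : H, C V h ≤ C V h' → h' * h' ≠ 1 → h' ∈ S := fun h' hle hne => by
    obtain ⟨v, hv⟩ := not_forall.1 (mt (B.faith _) hne)
    rw [mul_smul] at hv
    obtain ⟨g, g1, g2, g3⟩ := B.swap h' v
    have h1 : g ∈ S := IH _ (hle.trans_lt (g1.lt_of_not_ge fun h => hv (by
      have := mem_C.1 (h (mem_C.2 (show g • (v + h' • v) = _ by rw [smul_add, g2, g3, add_comm])))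
      rw [smul_add, add_comm v] at this
      exact add_left_cancel this))) g rfl
    have h3 : g * h' ∈ S := IH _ (hle.trans_lt (lt_of_le_not_ge (fun c hc => mem_C.2 (by
      rw [mul_smul, mem_C.1 hc, mem_C.1 (g1 hc)])) fun h => hv (by
        have := mem_C.1 (h (mem_C.2 (show (g * h') • v = v by rw [mul_smul, g3])))
        rw [this, this]))) _ rfl
    exact (S.mul_mem_cancel_left h1).1 h3
  by_cases h1 : h = 1
  · exact h1 ▸ S.one_mem
  by_cases hh : h * h = 1
  swap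
  · exact A h le_rfl hh
  obtain ⟨t, ht, hle⟩ := exists_T (V := V) h1
  rw [← S.mul_mem_cancel_left (hS t ht)]
  have h3 : C V h ≤ C V (t * h) := fun c hc => mem_C.2 (by
    rw [mul_smul, mem_C.1 hc, mem_C.1 (hle hc)])
  by_cases h4 : t * h * (t * h) = 1
  swap
  · exact A _ h3 h4
  have hc : Commute h t := by
    have := eq_inv_of_mul_eq_one_left h4
    rw [mul_inv_rev, B.inv ht, inv_eq_of_mul_eq_one_left hh] at this
    exact this.symm
  obtain ⟨w, hw, h0⟩ := B.exists_W ht.1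
  have h5 : w ∉ C V h := fun h => h0 (h2 w (by
    have := mem_C.1 (hle h)
    rw [B.neg_W ht hw] at this
    linear_combination (norm := abel1) -this))
  rcases B.t4 ht hc with h6 | h6
  · exact absurd (mem_C.2 (h6 w hw)) h5
  · exact IH _ (lt_of_le_not_ge h3 fun h => h5 (h (mem_C.2 (by
      rw [mul_smul, h6 w hw, smul_neg, B.neg_W ht hw, neg_neg])))) _ rfl

/-- no three-dimensional space is covered by the lines of reflections -/
theorem Bn.no_three [Finite V] [Finite H] (B : Bn H V) (h2 : ∀ v : V, v + v = 0 → v = 0)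
    {X : AddSubgroup V} {Q : ℕ} (hQ : 1 < Q) (hX : Nat.card X = Q ^ 3)
    (cov : ∀ y ∈ X, ∃ s : H, T V s ∧ W V s ≤ X ∧ Nat.card (W V s) = Q ∧ y ∈ W V s) : False := by
  classical
  have := Fintype.ofFinite V
  have := Fintype.ofFinite H
  have cardf : ∀ U : AddSubgroup V, (Finset.univ.filter (· ∈ U)).card = Nat.card U := fun U => by
    rw [Nat.card_eq_fintype_card, Fintype.card_subtype]
  have key : ∀ v ∈ X, v ≠ 0 →
      (Finset.univ.filter fun y => y ∈ X ∧ ∃ k : H, k • v = y).card = Q ^ 2 + 1 := by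
    intro v hv h0
    obtain ⟨s₀, t₀, l₀, c₀, m₀⟩ := cov v hv
    have d₀ : ∀ w ∈ W V s₀, w ∈ C V s₀ → w = 0 := fun w hw h => h2 w (B.ss hw h)
    have k1 : Nat.card (X ⊓ C V s₀ : AddSubgroup V) = Q ^ 2 := by
      have e1 : X ⊓ C V s₀ ⊔ W V s₀ = X := by
        refine le_antisymm (sup_le inf_le_left l₀) fun x hx => ?_
        have hs : Function.Surjective fun w : W V s₀ => w + w :=
          Finite.surjective_of_injective fun a b h => Subtype.ext (sub_eq_zero.1 (h2 _ (by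
            have h : a.1 + a.1 = b.1 + b.1 := congrArg Subtype.val h
            linear_combination (norm := abel1) h)))
        obtain ⟨w, hw⟩ := hs ⟨_, sub_mem_W s₀ x⟩
        have hw : w.1 + w.1 = s₀ • x - x := congrArg Subtype.val hw
        refine AddSubgroup.mem_sup.2 ⟨x + w, ⟨add_mem hx (l₀ w.2), mem_C.2 ?_⟩, -w, neg_mem w.2, by simp⟩
        rw [smul_add, B.neg_W t₀ w.2]
        linear_combination (norm := abel1) -hw
      have e2 := card_sup (U := X ⊓ C V s₀) (X := W V s₀) fun w h h' => d₀ w h' h.2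
      rw [e1, hX, c₀, pow_succ] at e2
      exact (Nat.eq_of_mul_eq_mul_right (by omega) e2).symm
    let S := Finset.univ.filter fun s : H => (T V s ∧ W V s ≤ X ∧ Nat.card (W V s) = Q) ∧ s • v ≠ v
    have k2 : (Finset.univ.filter fun y => y ∈ X ∧ ∃ k : H, k • v = y) =
        insert v (S.image (· • v)) := by
      ext y
      simp only [S, Finset.mem_filter, Finset.mem_univ, true_and, Finset.mem_insert, Finset.mem_image]
      constructor
      · rintro ⟨hy, k, rfl⟩
        refine or_iff_not_imp_left.2 fun hne => ?_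
        obtain ⟨s, ts, ls, cs, ms⟩ := cov _ (sub_mem hy hv)
        have := (B.t2 ts ms).resolve_left hne
        exact ⟨s, ⟨⟨ts, ls, cs⟩, this ▸ hne⟩, this.symm⟩
      · rintro (rfl | ⟨s, ⟨⟨-, ls, -⟩, -⟩, rfl⟩)
        · exact ⟨hv, 1, one_smul _ _⟩
        · exact ⟨by simpa using add_mem (ls (sub_mem_W s v)) hv, s, rfl⟩
    have k3 : Finset.univ.filter (· ∈ X) \ Finset.univ.filter (· ∈ X ⊓ C V s₀) =
        S.biUnion fun s => (Finset.univ.filter (· ∈ W V s)).erase 0 := by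
      ext y
      simp only [S, Finset.mem_filter, Finset.mem_univ, true_and, Finset.mem_sdiff,
        Finset.mem_biUnion, Finset.mem_erase, AddSubgroup.mem_inf]
      constructor
      · rintro ⟨hy, hn⟩
        obtain ⟨s, ts, ls, cs, ms⟩ := cov y hy
        refine ⟨s, ⟨⟨ts, ls, cs⟩, fun e => hn ⟨hy, ?_⟩⟩, fun e => hn ⟨hy, e ▸ zero_mem _⟩, ms⟩
        have hc := B.comm_of_mem t₀ m₀ h0 (e.symm ▸ m₀)
        exact B.t5 ts t₀ (fun e' => h0 (d₀ v m₀ (e' ▸ mem_C.2 e))) hc.symm ms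
      · rintro ⟨s, ⟨⟨ts, ls, -⟩, hne⟩, hy0, ms⟩
        refine ⟨ls ms, fun h => hne ?_⟩
        have hc := B.comm_of_mem ts ms hy0 ((mem_C.1 h.2).symm ▸ ms)
        exact mem_C.1 (B.t5 t₀ ts (fun e => hy0 (d₀ y (e ▸ ms) h.2)) hc.symm m₀)
    have k4 := congrArg Finset.card k3
    rw [Finset.card_sdiff_of_subset (fun y hy => by
      simp only [Finset.mem_filter, Finset.mem_univ, true_and] at hy ⊢; exact hy.1), cardf, cardf, hX,
      k1, Finset.card_biUnion (fun a ha b hb hne => Finset.disjoint_left.2 fun y h h' => by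
        simp only [S, Finset.coe_filter, Finset.mem_filter, Finset.mem_univ, true_and,
          Finset.mem_erase, Set.mem_setOf_eq] at ha hb h h'
        exact hne (B.t3 ha.1.1 hb.1.1 h.2 h'.2 h.1)),
      Finset.sum_const_nat (m := Q - 1) (fun s hs => by
        simp only [S, Finset.mem_filter, Finset.mem_univ, true_and] at hs
        rw [Finset.card_erase_of_mem (by simp), cardf, hs.1.2.2])] at k4
    have k5 : S.card = Q ^ 2 := by
      refine Nat.eq_of_mul_eq_mul_right (show 0 < Q - 1 by omega) ?_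
      rw [← k4, Nat.mul_sub_one, ← pow_succ]
    rw [k2, Finset.card_insert_of_notMem (by
      simp only [S, Finset.mem_filter, Finset.mem_univ, true_and, Finset.mem_image]
      rintro ⟨s, hs, e⟩; exact hs.2 e), Finset.card_image_of_injOn, k5]
    intro a ha b hb e
    simp only [S, Finset.coe_filter, Finset.mem_univ, true_and, Set.mem_setOf_eq] at ha hb
    by_contra hne
    exact ha.2 (B.fix_of_eq ha.1.1 hb.1.1 hne e)
  have h1 := Finset.card_eq_sum_card_image (fun y : V => MulAction.orbit H y)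
    ((Finset.univ.filter (· ∈ X)).erase 0)
  have h3 : Q ^ 2 + 1 ∣ Q ^ 3 - 1 := by
    rw [← hX, ← cardf, ← Finset.card_erase_of_mem (a := 0) (by simp), h1]
    refine Finset.dvd_sum fun b hb => ?_
    obtain ⟨v, hv, rfl⟩ := Finset.mem_image.1 hb
    simp only [Finset.mem_filter, Finset.mem_univ, true_and, Finset.mem_erase] at hv
    rw [← key v hv.2 hv.1]
    refine dvd_of_eq (congrArg _ ?_)
    ext y
    simp only [Finset.mem_filter, Finset.mem_univ, true_and, Finset.mem_erase,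
      MulAction.orbit_eq_iff, MulAction.mem_orbit_iff]
    refine ⟨fun h => ⟨⟨?_, h.1⟩, h.2⟩, fun h => ⟨h.1.2, h.2⟩⟩
    obtain ⟨-, k, rfl⟩ := h
    exact mt (smul_eq_zero_iff_eq k).1 hv.1
  have h4 : Q ^ 2 + 1 ∣ Q + 1 := by
    have : Q * (Q ^ 2 + 1) = Q ^ 3 - 1 + (Q + 1) := by
      have : 1 ≤ Q ^ 3 := Nat.one_le_pow _ _ (by omega)
      rw [← add_assoc, add_right_comm, Nat.sub_add_cancel this]; ring
    exact (Nat.dvd_add_right h3).1 (this ▸ dvd_mul_left _ _)
  have := Nat.le_of_dvd (by omega) h4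
  nlinarith

namespace NC

variable [Finite V] [Finite H] {t t' u : H} (N : NC V t t')
include N

theorem not_third (h2 : ∀ v : V, v + v = 0 → v = 0) (hu : T V u) {m : V}
    (hm : m ∈ W V t ⊔ W V t') : u • m ∈ W V t ⊔ W V t' := by
  by_contra hn
  have ne : ∀ r, TK V t t' r → u ≠ r := fun r hr e => hn (e ▸ N.smul_M hr hm)
  have dj : ∀ w ∈ W V t ⊔ W V t', w ∈ W V u → w = 0 := fun w h h' => by
    obtain ⟨r, hr, h3⟩ := N.cover h
    by_contra h0
    exact ne r hr (N.B.t3 hu hr.1 h' h3 h0)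
  have uq : ∀ r s, TK V t t' r → TK V t t' s → Commute u r → Commute u s → r = s :=
    fun r s hr hs cr cs => by
      by_contra hne
      have e : W V r ⊔ W V s = W V t ⊔ W V t' := eq_of_le_card (sup_le (N.W_le hr) (N.W_le hs)) (by
        rw [card_sup fun v h h' => by_contra fun h0 => hne (N.B.t3 hr.1 hs.1 h h' h0), N.card_tk hr,
          N.card_tk hs, N.card_M])
      have := sup_le (N.B.t5 hr.1 hu (ne r hr).symm cr) (N.B.t5 hs.1 hu (ne s hs).symm cs) (e ▸ hm)
      exact hn ((mem_C.1 this).symm ▸ hm)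
  have cu : Nat.card (W V u) = Nat.card (W V t) := by
    by_cases h : Commute u t
    · exact (NC.card_eq ⟨N.B, N.r, hu, fun h' => N.ne (uq _ _ N.tk_l N.tk_r h h'.symm)⟩).trans
        N.card_eq
    · exact NC.card_eq ⟨N.B, N.l, hu, fun h' => h h'.symm⟩
  refine N.B.no_three h2 (X := (W V t ⊔ W V t') ⊔ W V u) N.one_lt
    (by rw [card_sup dj, N.card_M, cu]; ring) fun y hy => ?_
  by_contra hy'
  let P : V → Prop := fun y => ∃ s : H, T V s ∧ W V s ≤ (W V t ⊔ W V t') ⊔ W V u ∧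
    Nat.card (W V s) = Nat.card (W V t) ∧ y ∈ W V s
  have A : ∀ m ∈ W V t ⊔ W V t', ∀ w ∈ W V u, ¬ P (m + w) →
      ∃ r, TK V t t' r ∧ Commute u r ∧ m ∈ W V r := fun m hm w hw hP => by
    obtain ⟨r, hr, h3⟩ := N.cover hm
    refine ⟨r, hr, by_contra fun hc => hP ?_, h3⟩
    have M : NC V r u := ⟨N.B, hr.1, hu, fun h => hc h.symm⟩
    obtain ⟨s, hs, h4⟩ := M.cover (AddSubgroup.add_mem_sup h3 hw)
    exact ⟨s, hs.1, (M.W_le hs).trans (sup_le_sup_right (N.W_le hr) _),
      (M.card_tk hs).trans (N.card_tk hr), h4⟩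
  obtain ⟨a, ha, w, hw, rfl⟩ := AddSubgroup.mem_sup.1 hy
  obtain ⟨r₀, hr₀, c₀, m₀⟩ := A a ha w hw hy'
  have fx : ∀ r, TK V t t' r → r ≠ r₀ → r • (a + w) = a + w := fun r hr hne => by
    have e : r • (a + w) = (a + (r • (a + w) - (a + w))) + w := by abel
    obtain ⟨r₁, hr₁, c₁, m₁⟩ := A _ (add_mem ha (N.W_le hr (sub_mem_W r (a + w)))) w hw (by
      rw [← e]
      rintro ⟨s, ts, ls, cs, ms⟩
      refine hy' ⟨r⁻¹ * s * r⁻¹⁻¹, ts.conj _, fun x hx => ?_, (card_W_conj _ _).trans cs, ?_⟩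
      · have h3 := smul_mem_W (k := r) hx
        rw [show r * (r⁻¹ * s * r⁻¹⁻¹) * r⁻¹ = s by group] at h3
        have := sub_mem (ls h3) ((N.W_le hr).trans le_sup_left (sub_mem_W r x))
        rwa [sub_sub_cancel] at this
      · have := smul_mem_W (k := r⁻¹) ms
        rwa [inv_smul_smul] at this)
    obtain rfl := uq _ _ hr₀ hr₁ c₀ c₁
    by_contra h3
    refine hne (N.B.t3 hr.1 hr₀.1 (sub_mem_W r (a + w)) ?_ (sub_ne_zero.2 h3))
    simpa using sub_mem m₁ m₀
  obtain ⟨r, hr, M⟩ : ∃ r, TK V t t' r ∧ NC V r r₀ :=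
    (N.k2 hr₀).elim (fun h => ⟨_, N.tk_l, h⟩) fun h => ⟨_, N.tk_r, h⟩
  have h3 : a + w ∈ C V t ⊓ C V t' := by
    rw [← N.k3 hr (N.tk_conj hr hr₀.2) fun e => M.nc (mul_inv_eq_iff_eq_mul.1 e.symm).symm]
    refine ⟨mem_C.2 (fx r hr M.ne), mem_C.2 (fx _ (N.tk_conj hr hr₀.2) fun e => M.ne ?_)⟩
    rwa [mul_inv_eq_iff_eq_mul, mul_right_inj] at e
  have h4 := mem_C.1 (hr₀.2 h3)
  rw [smul_add, N.B.neg_W hr₀.1 m₀, mem_C.1 (N.B.t5 hu hr₀.1 (ne _ hr₀) c₀.symm hw)] at h4
  rw [h2 a (by linear_combination (norm := abel1) -h4), zero_add] at hy'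
  exact hy' ⟨u, hu, le_sup_right, cu, hw⟩

theorem C0_bot (hI : Irr H V) : C V t ⊓ C V t' = ⊥ := by
  rcases N.B.two with h2 | h2
  · let U : AddSubgroup V := ⨅ k : H, C V (k * t * k⁻¹)
    rcases hI U (fun g v hv => AddSubgroup.mem_iInf.2 fun k => by
      have := smul_mem_C (k := g) (AddSubgroup.mem_iInf.1 hv (g⁻¹ * k))
      rwa [show g * (g⁻¹ * k * t * (g⁻¹ * k)⁻¹) * g⁻¹ = k * t * k⁻¹ by group] at this) with h | h
    swap
    · refine absurd (N.B.faith t fun v => ?_) N.l.1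
      have := AddSubgroup.mem_iInf.1 (show v ∈ U from h ▸ AddSubgroup.mem_top v) 1
      rwa [one_mul, inv_one, mul_one, mem_C] at this
    refine le_bot_iff.1 (h ▸ le_iInf fun k => ?_)
    have hu := N.l.conj k
    obtain ⟨a, b, hab, e⟩ : ∃ a b : (W V t ⊔ W V t' : AddSubgroup V), a ≠ b ∧
        (⟨_, sub_mem_W (k * t * k⁻¹) a.1⟩ : W V (k * t * k⁻¹)) = ⟨_, sub_mem_W (k * t * k⁻¹) b.1⟩ := by
      by_contra! h
      have := Nat.card_le_card_of_injective _ (Function.injective_iff_pairwise_ne.2 h)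
      rw [card_W_conj, N.card_M] at this
      have := N.one_lt
      nlinarith
    have e : (k * t * k⁻¹) • (a.1 - b.1) = a.1 - b.1 := by
      have e : (k * t * k⁻¹) • a.1 - a.1 = (k * t * k⁻¹) • b.1 - b.1 := congrArg Subtype.val e
      rw [smul_sub]
      linear_combination (norm := abel1) e
    obtain ⟨r, hr, h3⟩ := N.cover (sub_mem a.2 b.2)
    have hc := N.B.comm_of_mem hr.1 h3 (sub_ne_zero.2 (mt Subtype.ext hab)) (e.symm ▸ h3)
    obtain ⟨g, hg⟩ := N.conj_tk h2 hr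
    have e2 : k * t * k⁻¹ = k * g⁻¹ * r * (k * g⁻¹)⁻¹ := by rw [hg]; group
    by_contra hn
    exact N.B.not_conj h2 hr.1 (k := k * g⁻¹) (fun e => hn (e2 ▸ e ▸ hr.2)) (e2 ▸ hc.symm)
  · let S : Subgroup H :=
      { carrier := {k | ∀ m, m ∈ W V t ⊔ W V t' ↔ k • m ∈ W V t ⊔ W V t'}
        mul_mem' := fun {a b} ha hb m => by rw [mul_smul, ← ha, ← hb]
        one_mem' := fun m => by rw [one_smul]
        inv_mem' := fun {a} ha m => by rw [ha (a⁻¹ • m), smul_inv_smul] }
    rcases hI (W V t ⊔ W V t') (fun k v hv => (N.B.gen h2 S (fun u hu m =>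
      ⟨N.not_third h2 hu, fun h => by
        have := N.not_third h2 hu h
        rwa [N.B.sq_smul hu] at this⟩) k v).1 hv) with h | h
    · obtain ⟨w, hw, h0⟩ := N.B.exists_W N.l.1
      exact absurd (AddSubgroup.mem_bot.1 (h ▸ AddSubgroup.mem_sup_left hw)) h0
    · exact le_bot_iff.1 fun c hc => N.inf_bot (h ▸ AddSubgroup.mem_top c) hc

end NC

end CF.Fgs2.Bin
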