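import Cfsg.Agent.Fgs2.Bin3

/-! Binary affine groups, IV: identification with the anisotropic orthogonal plane. -/

set_option autoImplicit false

namespace CF.Fgs2.Bin

theorem quad_small (E : Type) [Field E] (σ : RingAut E) (h1 : σ ≠ 1) (h2 : σ * σ = 1) :
    ∃ (F : Subfield E) (τ : E ≃ₐ[F] E), Module.finrank F E = 2 ∧ (∀ x, τ x = σ x) ∧
      (∀ φ : E ≃ₐ[F] E, φ = 1 ∨ φ = τ) ∧ ∀ a : E, Algebra.norm F a = 1 ↔ a * σ a = 1 := by
  classical
  have ho : orderOf σ = 2 := orderOf_eq_prime (by rw [pow_two, h2]) h1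
  let G := Subgroup.zpowers σ
  have hc : Nat.card G = 2 := by rw [Nat.card_zpowers, ho]
  have : Finite G := Nat.finite_of_card_ne_zero (by omega)
  have := Fintype.ofFinite G
  let f := MulSemiringAction.toAlgAut G (FixedPoints.subfield G E) E
  let τ := f ⟨σ, Subgroup.mem_zpowers σ⟩
  have hτ : ∀ x, τ x = σ x := fun x => rfl
  have hne : (1 : E ≃ₐ[FixedPoints.subfield G E] E) ≠ τ := fun h =>
    h1 (RingEquiv.ext fun x => by rw [← hτ, ← h]; rfl)
  have hall : ∀ φ : E ≃ₐ[FixedPoints.subfield G E] E, φ = 1 ∨ φ = τ := fun φ => by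
    obtain ⟨g, rfl⟩ := FixedPoints.toAlgAut_surjective G E φ
    obtain ⟨y, hy, hu⟩ := (Nat.card_eq_two_iff' (1 : G)).1 hc
    by_cases hg : g = 1
    · exact Or.inl (hg ▸ map_one _)
    · exact Or.inr (congrArg f ((hu g hg).trans (hu _ (mt Subtype.ext_iff.1 h1)).symm))
  refine ⟨FixedPoints.subfield G E, τ, ?_, hτ, hall, fun a => ?_⟩
  · rw [FixedPoints.finrank_eq_card, ← Nat.card_eq_fintype_card, hc]
  · rw [← (algebraMap (FixedPoints.subfield G E) E).injective.eq_iff, map_one,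
      Algebra.norm_eq_prod_automorphisms,
      show (Finset.univ : Finset (E ≃ₐ[FixedPoints.subfield G E] E)) = {1, τ} from
        Finset.ext fun φ => by simpa using hall φ, Finset.prod_pair hne, hτ]
    rfl

theorem quad (R : Type*) [Field R] [Finite R] (σ : RingAut R) (h1 : σ ≠ 1) (h2 : σ * σ = 1) :
    ∃ (F E : Type) (_ : Field F) (_ : Fintype F) (_ : Field E) (_ : Fintype E) (_ : Algebra F E)
      (ι : R ≃+* E) (τ : E ≃ₐ[F] E), Module.finrank F E = 2 ∧ (∀ x, τ (ι x) = ι (σ x)) ∧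
      (∀ φ : E ≃ₐ[F] E, φ = 1 ∨ φ = τ) ∧ ∀ a : R, Algebra.norm F (ι a) = 1 ↔ a * σ a = 1 := by
  let ι : R ≃+* Shrink.{0} R := (Shrink.ringEquiv.{0} R).symm
  have : Finite (Shrink.{0} R) := Finite.of_equiv _ ι.toEquiv
  obtain ⟨F, τ, a, b, c, d⟩ := quad_small (Shrink.{0} R) (ι.symm.trans (σ.trans ι))
    (fun h => h1 (RingEquiv.ext fun x => by
      have := DFunLike.congr_fun h (ι x)
      simpa using this))
    (RingEquiv.ext fun x => by
      have := DFunLike.congr_fun h2 (ι.symm x)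
      simp only [RingAut.mul_apply, RingAut.one_apply] at this ⊢
      simp [this])
  refine ⟨F, _, inferInstance, Fintype.ofFinite _, inferInstance, Fintype.ofFinite _, inferInstance,
    ι, τ, a, fun x => by simp [b], c, fun x => ?_⟩
  rw [d, ← ι.injective.eq_iff]
  simp

variable {H V : Type*} [Group H] [AddCommGroup V] [DistribMulAction H V]

/-- the second alternative, for the point stabilizer -/
def Orth (H V : Type*) [Group H] [AddCommGroup V] [DistribMulAction H V] : Prop :=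
  ∃ (F E : Type) (_ : Field F) (_ : Fintype F) (_ : Field E) (_ : Fintype E) (_ : Algebra F E)
    (e : V ≃+ E), Module.finrank F E = 2 ∧
    (∀ k : H, ∃ (a : E) (φ : E ≃ₐ[F] E), Algebra.norm F a = 1 ∧ ∀ v, e (k • v) = a * φ (e v)) ∧
    ∀ (a : E) (φ : E ≃ₐ[F] E), Algebra.norm F a = 1 → ∃ k : H, ∀ v, e (k • v) = a * φ (e v)

namespace NC

variable [Finite V] [Finite H] {t t' r s : H} (N : NC V t t') (hI : Irr H V)
include N hI

theorem tk (hr : T V r) : TK V t t' r := ⟨hr, N.C0_bot hI ▸ bot_le⟩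

theorem stab (hr : T V r) {x : V} (hx : x ≠ 0) (h1 : r • x = x) {k : H} (h2 : k • x = x) :
    k = 1 ∨ k = r :=
  N.k5 (N.tk hI hr) (by rwa [N.C0_bot hI, AddSubgroup.mem_bot]) h1 (N.C0_bot hI ▸ bot_le) h2

theorem fix (hr : T V r) : ∃ x : V, x ≠ 0 ∧ r • x = x := by
  simpa only [N.C0_bot hI, AddSubgroup.mem_bot] using N.exists_fix (N.tk hI hr)

theorem cov (d : V) : ∃ r : H, T V r ∧ d ∈ W V r := by
  have := N.sup_top
  rw [N.C0_bot hI, sup_bot_eq] at this
  obtain ⟨r, hr, h⟩ := N.cover (this ▸ AddSubgroup.mem_top d)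
  exact ⟨r, hr.1, h⟩

theorem exists_mul {k : H} (hk : ¬ T V k) (hr : T V r) : ∃ s, T V s ∧ k = s * r := by
  by_cases h1 : k = 1
  · exact ⟨r, hr, h1.trans (N.B.sq hr).symm⟩
  obtain ⟨x, hx, h2⟩ := N.fix hI hr
  obtain ⟨s, hs, h3⟩ := N.cov hI (k • x - x)
  have h4 := (N.B.t2 hs h3).resolve_left fun e =>
    (N.stab hI hr hx h2 e).elim h1 fun e' => hk (e' ▸ hr)
  refine ⟨s, hs, ?_⟩
  rcases N.stab hI hr hx h2 (k := s * k) (by rw [mul_smul, h4, N.B.sq_smul hs]) with h5 | h5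
  · rw [eq_inv_of_mul_eq_one_right h5, N.B.inv hs] at hk
    exact absurd hs hk
  · rw [← h5, ← mul_assoc, N.B.sq hs, one_mul]

theorem not_mul (hs : T V s) (hr : T V r) : ¬ T V (s * r) := fun h => by
  by_cases e : s = r
  · exact h.1 (e ▸ N.B.sq hs)
  obtain ⟨x, hx, h1⟩ := N.fix hI h
  have h2 := N.B.C_mul hs hr e ▸ mem_C.2 h1
  exact (N.stab hI hr hx (mem_C.1 h2.2) (mem_C.1 h2.1)).elim hs.1 e

theorem conj_eq {k : H} (hk : ¬ T V k) (hr : T V r) : r * k * r = k⁻¹ := by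
  obtain ⟨s, hs, rfl⟩ := N.exists_mul hI hk hr
  rw [mul_inv_rev, N.B.inv hs, N.B.inv hr, mul_assoc, mul_assoc, N.B.sq hr, mul_one]

theorem not_inv {k : H} (hk : ¬ T V k) : ¬ T V k⁻¹ := fun h =>
  hk (by rw [← inv_inv k, N.B.inv h]; exact h)

theorem not_mul' {k l : H} (hk : ¬ T V k) (hl : ¬ T V l) : ¬ T V (k * l) := by
  obtain ⟨a, ha, rfl⟩ := N.exists_mul hI hk N.l
  obtain ⟨b, hb, e⟩ := N.exists_mul hI (N.not_inv hI hl) N.l
  rw [← inv_inv l, e, mul_inv_rev, N.B.inv N.l, N.B.inv hb, mul_assoc, ← mul_assoc t, N.B.sq N.l,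
    one_mul]
  exact N.not_mul hI ha hb

theorem comm {k l : H} (hk : ¬ T V k) (hl : ¬ T V l) : k * l = l * k := by
  rw [← inv_inj, mul_inv_rev l, ← N.conj_eq hI (N.not_mul' hI hk hl) N.l, ← N.conj_eq hI hk N.l,
    ← N.conj_eq hI hl N.l]
  simp only [mul_assoc]
  rw [← mul_assoc t t, N.B.sq N.l, one_mul]

theorem irr0 (U : AddSubgroup V) (hU : ∀ k : H, ¬ T V k → ∀ v ∈ U, k • v ∈ U) {u : V}
    (hu : u ∈ U) (h0 : u ≠ 0) : U = ⊤ := by
  obtain ⟨r, hr, h1⟩ := N.k1 u
  rcases hI (U ⊓ U.comap (DistribSMul.toAddMonoidHom V r)) (fun k v hv => by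
    have h2 : r • v ∈ U := hv.2
    change k • v ∈ U ∧ r • k • v ∈ U
    by_cases hk : T V k
    · refine ⟨?_, by rw [← mul_smul]; exact hU _ (N.not_mul hI hr.1 hk) _ hv.1⟩
      have := hU _ (N.not_mul hI hk hr.1) _ h2
      rwa [mul_smul, N.B.sq_smul hr.1] at this
    · refine ⟨hU _ hk _ hv.1, ?_⟩
      have := hU _ (N.not_inv hI hk) _ h2
      rwa [← N.conj_eq hI hk hr.1, mul_smul, mul_smul, N.B.sq_smul hr.1] at this) with h | h
  · exact absurd (AddSubgroup.mem_bot.1 (h ▸ ⟨hu, show r • u ∈ U from h1.symm ▸ hu⟩)) h0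
  · exact top_le_iff.1 (h ▸ inf_le_left)

theorem orth : Orth H V := by
  have : Finite (AddMonoid.End V) := DFunLike.finite _
  let f := DistribMulAction.toAddMonoidEnd H V
  let R := Subring.closure (f '' {k | ¬ T V k})
  have hR : ∀ a, ¬ T V a → f a ∈ R := fun a ha => Subring.subset_closure ⟨a, ha, rfl⟩
  have ft : f t * f t = 1 := by rw [← map_mul, N.B.sq N.l, map_one]
  have ft' : ∀ x, f t * (f t * x) = x := fun x => by rw [← mul_assoc, ft, one_mul]
  have h1 : ∀ e ∈ R, f t * e * f t ∈ R := fun e he => by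
    induction he using Subring.closure_induction with
    | mem x hx =>
      obtain ⟨a, ha, rfl⟩ := hx
      rw [← map_mul, ← map_mul, N.conj_eq hI ha N.l]
      exact hR _ (N.not_inv hI ha)
    | zero => simp
    | one => rw [mul_one, ft]; exact R.one_mem
    | add x y _ _ hx hy => simpa only [mul_add, add_mul] using R.add_mem hx hy
    | neg x _ hx => simpa only [mul_neg, neg_mul] using R.neg_mem hx
    | mul x y _ _ hx hy => simpa only [mul_assoc, ft'] using R.mul_mem hx hy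
  have h2 : ∀ g, ¬ T V g → ∀ e ∈ R, f g * e = e * f g := fun g hg e he =>
    Subring.closure_le (t := Subring.centralizer {f g}).2 (by
      rintro _ ⟨a, ha, rfl⟩ _ rfl
      rw [← map_mul, N.comm hI hg ha, map_mul]) he _ rfl
  have h3 : ∀ e ∈ R, ∀ e' ∈ R, e * e' = e' * e := fun e he e' he' =>
    Subring.closure_le (t := Subring.centralizer {e}).2 (by
      rintro _ ⟨a, ha, rfl⟩ _ rfl
      exact (h2 a ha _ he).symm) he' _ rfl
  have h4 : ∀ e ∈ R, ∀ v : V, v ≠ 0 → e v = 0 → e = 0 := fun e he v h0 hv => by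
    have := N.irr0 hI (AddMonoidHom.ker e) (fun k hk w hw => by
      change (e * f k) w = 0
      rw [← h2 k hk e he]
      change k • e w = 0
      rw [show e w = 0 from hw, smul_zero]) hv h0
    exact AddMonoidHom.ext fun w => (this ▸ AddSubgroup.mem_top w : w ∈ AddMonoidHom.ker e)
  obtain ⟨v, hv, hv'⟩ := N.fix hI N.l
  have : Nontrivial (AddMonoid.End V) := ⟨1, 0, fun h => hv (DFunLike.congr_fun h v)⟩
  have : NoZeroDivisors R := ⟨fun {a b} hab => or_iff_not_imp_right.2 fun hb => by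
    obtain ⟨w, hw⟩ := DFunLike.ne_iff.1 (mt Subtype.ext hb)
    exact Subtype.ext (h4 _ a.2 _ hw (DFunLike.congr_fun (congrArg Subtype.val hab) w))⟩
  have : IsDomain R := NoZeroDivisors.to_isDomain _
  letI : Field R := (Finite.isDomain_to_isField R).toField
  let σ : RingAut R :=
    { toFun := fun e => ⟨_, h1 e e.2⟩
      invFun := fun e => ⟨_, h1 e e.2⟩
      left_inv := fun e => Subtype.ext (by simp only [mul_assoc, ft', ft, mul_one])
      right_inv := fun e => Subtype.ext (by simp only [mul_assoc, ft', ft, mul_one])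
      map_mul' := fun a b => Subtype.ext (show f t * (a * b) * f t = f t * a * f t * (f t * b * f t) by
        simp only [mul_assoc, ft'])
      map_add' := fun a b => Subtype.ext (show f t * (a + b) * f t = f t * a * f t + f t * b * f t by
        simp only [mul_add, add_mul]) }
  have hσ : ∀ (e : R) (w : V), (σ e).1 (t • w) = t • e.1 w := fun e w => by
    change t • e.1 (t • t • w) = _
    rw [N.B.sq_smul N.l]
  have hσk : ∀ k (hk : ¬ T V k), (⟨f k, hR k hk⟩ : R) * σ ⟨f k, hR k hk⟩ = 1 := fun k hk =>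
    Subtype.ext (show f k * (f t * f k * f t) = 1 by
      rw [← map_mul, ← map_mul, N.conj_eq hI hk N.l, ← map_mul, mul_inv_cancel, map_one])
  let ev : R →+ V := { toFun := fun e => e.1 v, map_zero' := rfl, map_add' := fun _ _ => rfl }
  have hb : Function.Bijective ev := by
    refine ⟨(injective_iff_map_eq_zero _).2 fun e he => Subtype.ext (h4 _ e.2 v hv he), ?_⟩
    rw [← AddMonoidHom.range_eq_top]
    refine N.irr0 hI _ ?_ ⟨1, rfl⟩ hv
    rintro k hk _ ⟨e, rfl⟩
    exact ⟨⟨f k, hR k hk⟩ * e, rfl⟩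
  obtain ⟨F, E, _, _, _, _, _, ι, τ, c1, c2, c3, c4⟩ := quad R σ (fun h => by
    have hk := N.not_mul hI N.l N.r
    have := hσk _ hk
    rw [h] at this
    have e := DFunLike.congr_fun (congrArg Subtype.val this) v
    have := N.n5 (x := v) e
    rw [N.C0_bot hI] at this
    exact hv this) (RingEquiv.ext fun e => σ.left_inv e)
  let e₀ := AddEquiv.ofBijective ev hb
  have e1 : ∀ k (hk : ¬ T V k) (w : V), e₀.symm (k • w) = ⟨f k, hR k hk⟩ * e₀.symm w :=
    fun k hk w => by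
      obtain ⟨x, rfl⟩ := e₀.surjective w
      rw [e₀.symm_apply_eq, e₀.symm_apply_apply]; rfl
  have e2 : ∀ w : V, e₀.symm (t • w) = σ (e₀.symm w) := fun w => by
    obtain ⟨x, rfl⟩ := e₀.surjective w
    rw [e₀.symm_apply_eq, e₀.symm_apply_apply]
    change t • x.1 v = (σ x).1 v
    rw [← hσ, hv']
  have e3 : ∀ w : V, τ (ι (e₀.symm w)) = ι (e₀.symm (t • w)) := fun w => by rw [c2, e2]
  refine ⟨F, E, inferInstance, inferInstance, inferInstance, inferInstance, inferInstance,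
    e₀.symm.trans ι.toAddEquiv, c1, fun k => ?_, fun a φ ha => ?_⟩
  · by_cases hk : T V k
    · have hk' := N.not_mul hI hk N.l
      refine ⟨ι ⟨_, hR _ hk'⟩, τ, (c4 _).2 (hσk _ hk'), fun w => ?_⟩
      change ι (e₀.symm (k • w)) = _ * τ (ι (e₀.symm w))
      rw [e3, ← map_mul, ← e1 _ hk', mul_smul, N.B.sq_smul N.l]
    · refine ⟨ι ⟨_, hR _ hk⟩, 1, (c4 _).2 (hσk _ hk), fun w => ?_⟩
      change ι (e₀.symm (k • w)) = _ * ι (e₀.symm w)
      rw [← map_mul, e1 _ hk]
  · obtain ⟨a, rfl⟩ := ι.surjective a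
    rw [c4] at ha
    obtain ⟨k, hk, rfl⟩ : ∃ k, ∃ hk : ¬ T V k, a = ⟨f k, hR k hk⟩ := by
      by_cases h : a = 1
      · exact ⟨1, fun h => h.1 rfl, h.trans (Subtype.ext (map_one f).symm)⟩
      obtain ⟨r, hr, h5⟩ := N.cov hI (e₀ (a - 1))
      have hk := N.not_mul hI hr N.l
      refine ⟨_, hk, ?_⟩
      have h6 := e1 _ hk (t • e₀ (a - 1))
      rw [mul_smul, N.B.sq_smul N.l, N.B.neg_W hr h5, e2, map_neg, e₀.symm_apply_apply, map_sub,
        map_one] at h6
      refine mul_left_cancel₀ (sub_ne_zero.2 h) ?_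
      linear_combination (-a) * h6 - (⟨f (r * t), hR _ hk⟩ : R) * ha
    rcases c3 φ with rfl | rfl
    · refine ⟨k, fun w => ?_⟩
      change ι (e₀.symm (k • w)) = _ * ι (e₀.symm w)
      rw [← map_mul, e1 _ hk]
    · refine ⟨k * t, fun w => ?_⟩
      change ι (e₀.symm ((k * t) • w)) = _ * φ (ι (e₀.symm w))
      rw [e3, ← map_mul, ← e1 _ hk, mul_smul]

end NC

theorem Bn.main [Finite V] [Finite H] [Nontrivial V] (B : Bn H V) (hI : Irr H V) :
    ((Nat.card V).Prime ∧ Nat.card H ≤ 2) ∨ Orth H V := by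
  by_cases h : ∃ t t' : H, NC V t t'
  · obtain ⟨t, t', N⟩ := h
    exact Or.inr (N.orth hI)
  have hc : ∀ t t' : H, T V t → T V t' → Commute t t' := fun t t' a b =>
    by_contra fun e => h ⟨t, t', B, a, b, e⟩
  obtain ⟨t, ht⟩ : ∃ t : H, (∀ k : H, k = 1 ∨ k = t) ∧ (t = 1 ∨ ∀ v : V, t • v = -v) := by
    by_cases h1 : ∀ k : H, k = 1
    · exact ⟨1, fun k => Or.inl (h1 k), Or.inl rfl⟩
    obtain ⟨g, hg⟩ := not_forall.1 h1
    obtain ⟨t, ht, -⟩ := exists_T (V := V) hg
    have h2 : ∀ k : H, Commute k t := fun k => by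
      rcases B.two with h2 | h2
      · exact mul_inv_eq_iff_eq_mul.1 (by_contra fun e =>
          B.not_conj h2 ht (Ne.symm e) (hc _ _ ht (ht.conj k)))
      · exact Subgroup.mem_centralizer_singleton_iff.1 (B.gen h2 (Subgroup.centralizer {t})
          (fun u hu => Subgroup.mem_centralizer_singleton_iff.2 (hc _ _ hu ht)) k)
    have h3 : W V t = ⊤ := (hI _ fun k v hv => by
      have := smul_mem_W (k := k) hv
      rwa [(h2 k).eq, mul_inv_cancel_right] at this).resolve_left fun e => by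
        obtain ⟨w, hw, h0⟩ := B.exists_W ht.1
        exact h0 (AddSubgroup.mem_bot.1 (e ▸ hw))
    have h4 : ∀ v : V, t • v = -v := fun v => B.neg_W ht (h3 ▸ AddSubgroup.mem_top v)
    refine ⟨t, fun k => (B.t4 ht (h2 k)).imp (fun h => B.faith _ fun v => h v (h3 ▸ trivial))
      fun h => ?_, Or.inr h4⟩
    rw [← B.inv ht]
    exact eq_inv_of_mul_eq_one_left (B.faith _ fun v => by
      rw [mul_smul, h4, smul_neg, h v (h3 ▸ trivial), neg_neg])
  refine Or.inl ⟨?_, ?_⟩
  · have : IsSimpleAddGroup V := ⟨fun U _ => hI U fun k v hv => by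
      rcases ht.1 k with rfl | rfl
      · rwa [one_smul]
      · rcases ht.2 with rfl | h
        · rwa [one_smul]
        · rw [h]; exact neg_mem hv⟩
    exact IsSimpleAddGroup.prime_card
  · have := Nat.card_le_card_of_surjective (fun b : Bool => if b then (1 : H) else t) fun k =>
      (ht.1 k).elim (fun h => ⟨true, h.symm⟩) fun h => ⟨false, h.symm⟩
    simpa using this

end CF.Fgs2.Bin
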