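import Cfsg.Agent.Coprime.Abelian
import Cfsg.Agent.Solv.Symplectic
import Cfsg.Agent.Solv.Fitting

/-!
# A vector fixed by no conjugate of a given element of a normal `p`-subgroup (`p` odd)
-/

namespace CF.FM

open Subgroup CF.Solv CF.Coprime
open scoped Pointwise commutatorElement

universe u

variable {G V : Type*} [Group G] [CommGroup V] [MulDistribMulAction G V] {p : ℕ}

/-- The vectors fixed by an element. -/
def Fx (V : Type*) [CommGroup V] [MulDistribMulAction G V] (g : G) : Subgroup V where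
  carrier := {v | g • v = v}
  one_mem' := smul_one g
  mul_mem' := fun {a b} ha hb => by
    simp only [Set.mem_ofPred_eq] at *; rw [smul_mul', ha, hb]
  inv_mem' := fun {a} ha => by
    simp only [Set.mem_ofPred_eq] at *; rw [smul_inv', ha]

theorem mem_Fx {g : G} {v : V} : v ∈ Fx V g ↔ g • v = v := Iff.rfl

theorem indep {ι : Type*} [Finite ι] (W : ι → Subgroup V)
    (h : ∀ i j, j ≠ i → ∃ σ : G, (∀ x ∈ W j, σ • x = x) ∧ (∀ x ∈ W i, σ • x = x → x = 1) ∧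
      ∀ k, ∀ x ∈ W k, σ • x ∈ W k) : iSupIndep W := by
  classical
  rw [iSupIndep_def]
  intro i
  have key : ∀ s : Finset ι, i ∉ s → ∃ P : V →* V, (∀ j ∈ s, ∀ x ∈ W j, P x = 1) ∧
      (∀ k, ∀ x ∈ W k, P x ∈ W k) ∧ ∀ x ∈ W i, P x = 1 → x = 1 := by
    intro s
    induction s using Finset.induction_on with
    | empty => exact fun _ => ⟨MonoidHom.id V, by simp, by simp, by simp⟩
    | insert j s _ ih =>
      intro hi
      rw [Finset.mem_insert, not_or] at hi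
      obtain ⟨P, h1, h2, h3⟩ := ih hi.2
      obtain ⟨σ, h4, h5, h6⟩ := h i j (Ne.symm hi.1)
      refine ⟨(MulDistribMulAction.toMonoidHom V σ / MonoidHom.id V).comp P, ?_, ?_, ?_⟩
      · intro k hk x hx
        rcases Finset.mem_insert.1 hk with rfl | hk
        · simp [h4 _ (h2 _ x hx)]
        · simp [h1 k hk x hx]
      · intro k x hx
        exact div_mem (h6 k _ (h2 k x hx)) (h2 k x hx)
      · intro x hx h7
        exact h3 x hx (h5 _ (h2 i x hx) (div_eq_one.1 h7))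
  have := Fintype.ofFinite ι
  obtain ⟨P, h1, -, h3⟩ := key (Finset.univ.erase i) (Finset.notMem_erase _ _)
  have h4 : (⨆ j, ⨆ _ : j ≠ i, W j) ≤ P.ker := iSup₂_le fun j hj x hx =>
    h1 j (Finset.mem_erase.2 ⟨hj, Finset.mem_univ _⟩) x hx
  exact disjoint_def.2 fun hx hx' => h3 _ hx (h4 hx')

theorem exists_pow_order_p [Fact p.Prime] {x : G} (h : ∃ k : ℕ, x ^ p ^ k = 1) (hx : x ≠ 1) :
    ∃ n : ℕ, x ^ n ≠ 1 ∧ (x ^ n) ^ p = 1 := by
  obtain ⟨k, hk⟩ := h
  induction k with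
  | zero => exact absurd (by simpa using hk) hx
  | succ k ih =>
    by_cases h : x ^ p ^ k = 1
    exacts [ih h, ⟨p ^ k, h, by rw [← pow_mul, ← pow_succ, hk]⟩]

theorem mem_zpowers_of_ne [hp : Fact p.Prime] {z y : G} (hz : z ^ p = 1) (hy : y ∈ zpowers z)
    (h1 : y ≠ 1) : z ∈ zpowers y := by
  by_cases h : z = 1
  · exact h ▸ one_mem _
  have h2 := orderOf_eq_prime hz h
  have : Finite (zpowers z) := finite_zpowers.2 (isOfFinOrder_iff_pow_eq_one.2 ⟨p, hp.out.pos, hz⟩)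
  have h3 : Fact (Nat.card (zpowers z)).Prime := ⟨by rw [Nat.card_zpowers, h2]; exact hp.out⟩
  obtain ⟨n, hn⟩ := mem_zpowers_of_prime_card (G := zpowers z) rfl (g := ⟨y, hy⟩)
    (g' := ⟨z, mem_zpowers z⟩) fun h => h1 (congrArg Subtype.val h)
  exact ⟨n, congrArg Subtype.val hn⟩

theorem pow_fix {g : G} {v : V} (h : g • v = v) {x : G} (hx : x ∈ zpowers g) : x • v = v :=
  (zpowers_le.2 (show g ∈ MulAction.stabilizer G v from h)) hx

theorem one_of_smul (g : G) {v : V} (h : g • v = 1) : v = 1 := by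
  rw [← inv_smul_smul g v, h, smul_one]

/-- A regular orbit for a group of symplectic type. -/
theorem reg [Finite G] [hp : Fact p.Prime] (hp2 : p ≠ 2) {z : G} (hz : z ^ p = 1) (hz1 : z ≠ 1)
    (hf : ∀ v : V, z • v = v → v = 1) (B : Subgroup G) (hB : IsPGroup p B) (hzB : z ∈ B)
    (hc : ∀ x ∈ B, Commute z x) (hcomm : ∀ x ∈ B, ∀ y ∈ B, x * y * x⁻¹ * y⁻¹ ∈ zpowers z)
    (hcen : ∀ x ∈ B, x ^ p = 1 → (∀ y ∈ B, Commute x y) → x ∈ zpowers z)
    (W : Subgroup V) (hW : W ≠ ⊥) (hBW : ∀ x ∈ B, ∀ w ∈ W, x • w ∈ W) :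
    ∃ v ∈ W, ∀ x ∈ B, x • v = v → x = 1 := by
  induction hn : Nat.card B using Nat.strong_induction_on generalizing B W with | _ n ih
  have hf' : ∀ t ∈ zpowers z, t ≠ 1 → ∀ v : V, t • v = v → v = 1 := fun t ht h1 v h =>
    hf v (pow_fix h (mem_zpowers_of_ne hz ht h1))
  have hc' : ∀ t ∈ zpowers z, ∀ x ∈ B, Commute t x := by
    rintro _ ⟨k, rfl⟩ x hx
    exact (hc x hx).zpow_left k
  by_contra! hcon
  obtain ⟨⟨w, hw⟩, hw1⟩ := ne_bot_iff_exists_ne_one.1 hW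
  replace hw1 : w ≠ 1 := fun h => hw1 (Subtype.ext h)
  obtain ⟨x, hx, hxw, hx1⟩ := hcon w hw
  obtain ⟨k, hc1, hcp⟩ := exists_pow_order_p (p := p) (x := x) (by
    obtain ⟨k, hk⟩ := hB ⟨x, hx⟩
    exact ⟨k, congrArg Subtype.val hk⟩) hx1
  have hcB : x ^ k ∈ B := pow_mem hx k
  have hcw : x ^ k • w = w := pow_fix hxw (pow_mem (mem_zpowers x) k)
  generalize x ^ k = c at hc1 hcp hcB hcw
  obtain ⟨b, hb, hbc⟩ : ∃ b ∈ B, ¬ Commute c b := by
    by_contra! h
    exact hw1 (hf' c (hcen c hcB hcp h) hc1 w hcw)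
  -- the commutator
  have ht : ∀ g ∈ B, ∀ e ∈ B, ∃ t ∈ zpowers z, g * e = t * e * g := fun g hg e he =>
    ⟨_, hcomm g hg e he, by group⟩
  obtain ⟨y, hy, hby⟩ := ht b hb c hcB
  have hy1 : y ≠ 1 := by
    rintro rfl
    exact hbc (by rw [one_mul] at hby; exact hby.symm)
  have hyz : ∀ t ∈ zpowers z, ∃ j : ℕ, y ^ j = t := fun t ht =>
    (isOfFinOrder_of_finite y).mem_powers_iff_mem_zpowers.2
      (zpowers_le.2 (mem_zpowers_of_ne hz hy hy1) ht)
  have hyB : ∀ t ∈ zpowers z, t ∈ B := fun t ht => zpowers_le.2 hzB ht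
  have hbj : ∀ j : ℕ, b ^ j * c = y ^ j * c * b ^ j := fun j => by
    induction j with
    | zero => simp
    | succ j ih =>
      rw [pow_succ', mul_assoc, ih, ← mul_assoc, ← mul_assoc,
        ← (hc' _ (pow_mem hy j) b hb).eq, mul_assoc _ b, hby, pow_succ y]
      simp only [mul_assoc]
  have hcj : ∀ j : ℕ, b * c ^ j = y ^ j * c ^ j * b := fun j => by
    induction j with
    | zero => simp
    | succ j ih =>
      rw [pow_succ, ← mul_assoc, ih, mul_assoc, hby, pow_succ y, mul_assoc, mul_assoc, mul_assoc,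
        mul_assoc, mul_assoc, ← mul_assoc (c ^ j), ← (hc' y hy _ (pow_mem hcB j)).eq]
      simp only [mul_assoc]
  set C := B ⊓ centralizer {c} ⊓ centralizer {b}
  have hC : ∀ {g}, g ∈ C ↔ g ∈ B ∧ Commute g c ∧ Commute g b := by
    simp only [C, mem_inf, mem_centralizer_singleton_iff, and_assoc, commute_iff_eq, implies_true]
  have hdec : ∀ g ∈ B, Commute g c → ∃ m : ℕ, ∃ e ∈ C, g = c ^ m * e := fun g hg hgc => by
    obtain ⟨t, ht, h1⟩ := ht b hb g hg
    obtain ⟨m, rfl⟩ := hyz t ht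
    refine ⟨m, (c ^ m)⁻¹ * g, hC.2 ⟨mul_mem (inv_mem (pow_mem hcB m)) hg,
      ((Commute.refl c).pow_left m).inv_left.mul_left hgc, ?_⟩, by group⟩
    exact (calc b * ((c ^ m)⁻¹ * g) = (b * c ^ m * b⁻¹)⁻¹ * (b * g) := by group
      _ = (c ^ m)⁻¹ * g * b := by rw [hcj m, h1]; group).symm
  have hCB : C ≤ B := inf_le_left.trans inf_le_left
  obtain ⟨v, hv, hvC⟩ := ih _ (hn ▸ lt_of_le_of_ne (card_le_of_le hCB) fun h =>
      hbc (hC.1 (eq_of_le_of_card_ge hCB h.ge ▸ hcB)).2.2) C (hB.to_le hCB)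
    (hC.2 ⟨hzB, hc c hcB, hc b hb⟩) (fun x hx => hc x (hCB hx))
    (fun x hx y hy => hcomm x (hCB hx) y (hCB hy))
    (fun e he h1 h2 => hcen e (hCB he) h1 fun g hg => by
      obtain ⟨t, ht, h3⟩ := ht g hg c hcB
      obtain ⟨j, rfl⟩ := hyz t ht
      obtain ⟨m, e', he', h4⟩ := hdec ((b ^ j)⁻¹ * g) (mul_mem (inv_mem (pow_mem hb j)) hg)
        (((by rw [mul_assoc, h3]; group : (b ^ j)⁻¹ * g * c =
          (b ^ j)⁻¹ * (y ^ j * c * b ^ j) * (b ^ j)⁻¹ * g)).trans (by rw [← hbj]; group))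
      rw [inv_mul_eq_iff_eq_mul.1 h4]
      exact ((hC.1 he).2.2.pow_right j).mul_right
        (((hC.1 he).2.1.pow_right m).mul_right (h2 e' he')))
    (W ⊓ Fx V c) (ne_bot_iff_exists_ne_one.2 ⟨⟨w, hw, hcw⟩, fun h => hw1 (congrArg Subtype.val h)⟩)
    (fun e he u hu => ⟨hBW e (hCB he) u hu.1, mem_Fx.2 (by
      rw [← mul_smul, ← (hC.1 he).2.1.eq, mul_smul, mem_Fx.1 hu.2])⟩) rfl
  have hv1 : v ≠ 1 := fun h => hz1 (hvC z (hC.2 ⟨hzB, hc c hcB, hc b hb⟩) (by rw [h, smul_one]))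
  -- the eigenspaces of `c`
  let U : zpowers z → Subgroup V := fun t => Fx V (t.1 * c)
  have hU : iSupIndep U := indep (G := G) U fun i j hij => ⟨j.1 * c, fun x hx => hx,
    fun x hx h => hf' (j.1 * i.1⁻¹) (mul_mem j.2 (inv_mem i.2))
      (fun h => hij (Subtype.ext (mul_inv_eq_one.1 h))) x (by
        conv_lhs => rw [← mem_Fx.1 hx, ← mul_smul, mul_assoc, inv_mul_cancel_left, h]),
    fun k x hx => mem_Fx.2 (by
      rw [← mul_smul, (show Commute (k.1 * c) (j.1 * c) from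
        ((hc' _ k.2 _ (hyB _ j.2)).mul_right (hc' _ k.2 c hcB)).mul_left
          ((hc' _ j.2 c hcB).symm.mul_right (Commute.refl c))).eq, mul_smul, mem_Fx.1 hx])⟩
  have hmv : ∀ g ∈ B, ∀ t s : zpowers z, g * c = t.1 * c * g → ∀ u ∈ U s, g • u ∈ U (s * t) :=
    fun g hg t s h u hu => mem_Fx.2 (by
      rw [← mul_smul, coe_mul, mul_assoc s.1, mul_assoc s.1, ← h, ← mul_assoc, (hc' _ s.2 g hg).eq,
        mul_assoc, mul_smul, mem_Fx.1 hu])
  have hv0 : v ∈ U 1 := mem_Fx.2 (by rw [coe_one, one_mul]; exact hv.2)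
  have hv2 : b • v ∈ U ⟨y, hy⟩ := by simpa using hmv b hb ⟨y, hy⟩ 1 hby v hv0
  have hy1' : (⟨y, hy⟩ : zpowers z) ≠ 1 := fun h => hy1 (congrArg Subtype.val h)
  obtain ⟨g, hg, hgv, hg1⟩ := hcon (v * b • v) (mul_mem hv.1 (hBW b hb v hv.1))
  obtain ⟨t, ht, h1⟩ := ht g hg c hcB
  have h2 := hmv g hg ⟨t, ht⟩ _ h1 v hv0
  have h3 := hmv g hg ⟨t, ht⟩ _ h1 _ hv2
  have hin : ∀ {i j : zpowers z}, j ≠ i → ∀ {u}, u ∈ U j → u ∈ ⨆ j, ⨆ _ : j ≠ i, U j :=
    fun {i j} hj u hu => le_iSup₂ (f := fun j (_ : j ≠ i) => U j) j hj hu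
  rw [smul_mul'] at hgv
  rw [one_mul] at h2
  by_cases ht1 : (⟨t, ht⟩ : zpowers z) = 1
  · rw [ht1] at h2 h3
    rw [mul_one] at h3
    have h4 : g • v / v = 1 := disjoint_def.1 (hU 1) (div_mem h2 hv0) (by
      rw [show g • v / v = b • v / g • b • v by rw [div_eq_div_iff_mul_eq_mul, hgv, mul_comm]]
      exact hin hy1' (div_mem hv2 h3))
    rw [div_eq_one] at h4
    rw [h4, mul_right_inj] at hgv
    obtain rfl : t = 1 := congrArg Subtype.val ht1
    obtain ⟨m, e, he, rfl⟩ := hdec g hg (by rwa [one_mul] at h1)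
    have hcv : c ^ m • v = v := pow_fix hv.2 (pow_mem (mem_zpowers c) m)
    obtain rfl : e = 1 := hvC e he (by
      rwa [← ((hC.1 he).2.1.pow_right m).eq, mul_smul, hcv] at h4)
    rw [mul_one] at hgv hg1
    have h5 : y ^ m = 1 := by
      by_contra h5
      refine hv1 (one_of_smul b (hf' _ (pow_mem hy m) h5 _ ?_))
      conv_lhs => rw [← hgv, ← mul_smul, ← mul_smul, ← hcj, mul_smul, hcv]
    rw [← orderOf_dvd_iff_pow_eq_one, orderOf_eq_prime (by
      obtain ⟨k, rfl⟩ := hy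
      rw [← zpow_natCast, ← zpow_mul, mul_comm, zpow_mul, zpow_natCast, hz, one_zpow]) hy1,
      ← orderOf_eq_prime hcp hc1, orderOf_dvd_iff_pow_eq_one] at h5
    exact hg1 h5
  by_cases ht2 : (⟨y, hy⟩ : zpowers z) * ⟨t, ht⟩ = 1
  · refine hv1 (one_of_smul b (disjoint_def.1 (hU _) hv2 ?_))
    rw [show b • v = g • v * g • b • v / v by rw [hgv, mul_div_cancel_left]]
    refine div_mem (mul_mem (hin (fun h => ?_) h2) (hin (ht2 ▸ hy1'.symm) h3)) (hin hy1'.symm hv0)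
    rw [h, ← sq] at ht2
    have h5 : y ^ 2 = 1 := congrArg Subtype.val ht2
    rw [← orderOf_dvd_iff_pow_eq_one, orderOf_eq_prime (by
      obtain ⟨k, rfl⟩ := hy
      rw [← zpow_natCast, ← zpow_mul, mul_comm, zpow_mul, zpow_natCast, hz, one_zpow]) hy1] at h5
    exact hp2 ((Nat.prime_dvd_prime_iff_eq hp.out Nat.prime_two).1 h5)
  · refine hv1 (disjoint_def.1 (hU _) hv0 ?_)
    rw [show v = g • v * g • b • v / b • v by rw [hgv, mul_div_cancel_right]]
    exact div_mem (mul_mem (hin ht1 h2) (hin ht2 h3)) (hin hy1' hv2)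

theorem exists_fix [Finite G] [Finite V] [Nontrivial V] (D : Subgroup G) [IsMulCommutative D]
    (hD : ¬ IsCyclic D) : ∃ d ∈ D, d ≠ 1 ∧ ∃ v : V, v ≠ 1 ∧ d • v = v := by
  obtain ⟨U, -, hU⟩ := exists_minimal_le_of_wellFoundedLT
    (fun U : Subgroup V => U ≠ ⊥ ∧ ∀ d : D, ∀ u ∈ U, d.1 • u ∈ U) ⊤ ⟨top_ne_bot, by simp⟩
  let φ := subAct ((MulDistribMulAction.toMulAut G V).comp D.subtype) U hU.1.2
  have := (nontrivial_iff_ne_bot U).2 hU.1.1
  have h1 := isCyclic_range_of_irreducible φ (fun a b => by rw [← map_mul, mul_comm' a b, map_mul])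
    fun W hW => by
      by_cases h : W = ⊥
      · exact .inl h
      refine .inr (top_le_iff.1 fun u _ => ?_)
      obtain ⟨w, hw, h1⟩ := hU.2 (y := W.map U.subtype) ⟨by
        rwa [Ne, map_eq_bot_iff_of_injective _ U.subtype_injective], by
        rintro d _ ⟨w, hw, rfl⟩
        exact ⟨_, hW d w hw, rfl⟩⟩ (map_subtype_le W) u.2
      exact Subtype.ext h1 ▸ hw
  by_contra! h
  refine hD ((MonoidHom.ofInjective (f := φ) ((injective_iff_map_eq_one φ).2 fun d hd => ?_)).isCyclic.2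
    h1)
  by_contra h2
  obtain ⟨u, hu⟩ := exists_ne (1 : U)
  exact h d d.2 (fun h => h2 (Subtype.ext h)) u (fun h => hu (Subtype.ext h))
    (congrArg Subtype.val (DFunLike.congr_fun hd u))

/-- The vectors fixed by a subgroup. -/
def FS (V : Type*) [CommGroup V] [MulDistribMulAction G V] (E : Subgroup G) : Subgroup V :=
  ⨅ e ∈ E, Fx V e

theorem mem_FS {E : Subgroup G} {v : V} : v ∈ FS V E ↔ ∀ e ∈ E, e • v = v := by
  simp only [FS, mem_iInf, mem_Fx]

theorem smul_mem_FS {E : Subgroup G} {v : V} (h : v ∈ FS V E) (g : G) :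
    g • v ∈ FS V (MulAut.conj g • E) := mem_FS.2 fun e he => by
  obtain ⟨f, hf, rfl⟩ := (mem_smul_pointwise_iff_exists _ _ _).1 he
  simp [mul_smul, mem_FS.1 h f hf]

/-- A system of imprimitivity indexed by the cosets of a maximal subgroup. -/
theorem exists_system [Finite G] [Finite V] [Nontrivial V] [FaithfulSMul G V]
    (hirr : ∀ U : Subgroup V, (∀ g : G, ∀ u ∈ U, g • u ∈ U) → U = ⊥ ∨ U = ⊤)
    (D : Subgroup G) [hDn : D.Normal] [IsMulCommutative D] (hD : ¬ IsCyclic D) :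
    ∃ (M : Subgroup G) (U U' : G → Subgroup V), IsCoatom M ∧ U 1 ≠ ⊥ ∧
      (∀ g h, ∀ u ∈ U g, h • u ∈ U (h * g)) ∧ (∀ g, ∀ m ∈ M, U (g * m) = U g) ∧
      (∀ g, Disjoint (U g) (U' g)) ∧ ∀ g h, g⁻¹ * h ∉ M → U h ≤ U' g := by
  obtain ⟨d, hd, hd1, v, hv1, hv⟩ := exists_fix (V := V) D hD
  let Q : Subgroup G → Prop := fun E => E ≤ D ∧ FS V E ≠ ⊥
  obtain ⟨E, hdE, hE⟩ := exists_maximal_ge_of_wellFoundedGT Q (zpowers d) ⟨zpowers_le.2 hd,
    ne_bot_iff_exists_ne_one.2 ⟨⟨v, mem_FS.2 fun e he => pow_fix hv he⟩,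
      fun h => hv1 (congrArg Subtype.val h)⟩⟩
  have hQ : ∀ (g : G) F, Q F → Q (MulAut.conj g • F) := fun g F hF => by
    refine ⟨fun e he => ?_, ?_⟩
    · obtain ⟨f, hf, rfl⟩ := (mem_smul_pointwise_iff_exists e (MulAut.conj g) F).1 he
      exact hDn.conj_mem f (hF.1 hf) g
    · obtain ⟨⟨w, hw⟩, hw1⟩ := ne_bot_iff_exists_ne_one.1 hF.2
      exact ne_bot_iff_exists_ne_one.2 ⟨⟨_, smul_mem_FS hw g⟩,
        fun h => hw1 (Subtype.ext (one_of_smul (v := w) g (congrArg Subtype.val h)))⟩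
  have hmax : ∀ g : G, Maximal Q (MulAut.conj g • E) := fun g => ⟨hQ g E hE.1, fun F hF h => by
    have := hE.2 (hQ g⁻¹ F hF) (by rw [map_inv]; exact pointwise_smul_subset_iff.1 h)
    rw [map_inv] at this
    exact subset_pointwise_smul_iff.2 this⟩
  let W : {F // Maximal Q F} → Subgroup V := fun F => FS V F.1
  have hW : iSupIndep W := indep (G := G) W fun i j hij => by
    obtain ⟨σ, h1, h2⟩ := SetLike.not_le_iff_exists.1 fun h : j.1 ≤ i.1 =>
      hij (Subtype.ext (le_antisymm h (j.2.2 i.2.1 h)))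
    refine ⟨σ, fun x hx => mem_FS.1 hx σ h1, fun x hx h => ?_, fun k x hx => mem_FS.2 fun e he => ?_⟩
    · by_contra h3
      refine h2 (i.2.2 (y := i.1 ⊔ zpowers σ) ⟨sup_le i.2.1.1 (zpowers_le.2 (j.2.1.1 h1)),
        ne_bot_iff_exists_ne_one.2 ⟨⟨x, mem_FS.2 fun e he => ?_⟩, fun h => h3
          (congrArg Subtype.val h)⟩⟩ le_sup_left (mem_sup_right (mem_zpowers σ)))
      exact (sup_le (show i.1 ≤ MulAction.stabilizer G x from mem_FS.1 hx) (zpowers_le.2 h)) he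
    · rw [← mul_smul, setLike_mul_comm (k.2.1.1 he) (j.2.1.1 h1), mul_smul, mem_FS.1 hx e he]
  have hL : normalizer (E : Set G) ≠ ⊤ := fun h => by
    rcases hirr (FS V E) fun g u hu => by
      have := smul_mem_FS hu g
      rwa [conj_smul_eq_iff.2 (h ▸ mem_top g)] at this with h1 | h1
    · exact hE.1.2 h1
    · exact hd1 (eq_of_smul_eq_smul fun w : V => by
        rw [one_smul, mem_FS.1 (h1 ▸ mem_top w) d (hdE (mem_zpowers d))])
  obtain ⟨M, hM, hLM⟩ := (eq_top_or_exists_le_coatom _).resolve_left hL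
  let X : G → Set {F // Maximal Q F} := fun g => {F | ∃ m ∈ M, F.1 = MulAut.conj (g * m) • E}
  refine ⟨M, fun g => ⨆ F ∈ X g, W F, fun g => ⨆ F ∈ (X g)ᶜ, W F, hM, fun h => hE.1.2 ?_,
    fun g h u hu => ?_, fun g m hm => ?_,
    fun g => hW.disjoint_biSup_biSup' disjoint_compl_right (Set.toFinite _),
    fun g h hgh => biSup_mono fun F ⟨m, hm, h1⟩ ⟨m', hm', h2⟩ => hgh ?_⟩
  · exact eq_bot_iff.2 ((le_iSup₂ (f := fun F (_ : F ∈ X 1) => W F) ⟨E, hE⟩
      ⟨1, one_mem M, by simp⟩).trans h.le)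
  · refine (show (⨆ F ∈ X g, W F) ≤ (⨆ F ∈ X (h * g), W F).comap
      (MulDistribMulAction.toMonoidHom V h) from iSup₂_le fun F ⟨m, hm, h1⟩ x hx => ?_) hu
    refine le_iSup₂ (f := fun F (_ : F ∈ X (h * g)) => W F) ⟨_, hmax (h * g * m)⟩ ⟨m, hm, rfl⟩ ?_
    have := smul_mem_FS hx h
    rwa [h1, ← mul_smul, ← map_mul, ← mul_assoc] at this
  · have : X (g * m) = X g := Set.ext fun F => ⟨fun ⟨m', hm', h⟩ => ⟨m * m', mul_mem hm hm', by
      rwa [← mul_assoc]⟩, fun ⟨m', hm', h⟩ => ⟨m⁻¹ * m', mul_mem (inv_mem hm) hm', by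
        rwa [mul_assoc, mul_inv_cancel_left]⟩⟩
    simp only [this]
  · rw [h1, ← inv_smul_eq_iff, ← map_inv, ← mul_smul, ← map_mul] at h2
    have h3 := hLM (conj_smul_eq_iff.1 h2)
    rw [show g⁻¹ * h = m' * ((g * m')⁻¹ * (h * m)) * m⁻¹ by group]
    exact mul_mem (mul_mem hm' h3) (inv_mem hm)

/-- The statement for modules of order `n`. -/
def ML (p n : ℕ) : Prop := ∀ (V G : Type u) [CommGroup V] [Finite V] [Group G] [Finite G]
  [MulDistribMulAction G V] [FaithfulSMul G V], Nat.card V = n → ¬ p ∣ n →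
  ∀ B : Subgroup G, B.Normal → IsPGroup p B → ∀ a ∈ B, a ≠ 1 →
  ∃ v : V, ∀ h : G, (h * a * h⁻¹) • v ≠ v

theorem ML.phi {V : Type u} [CommGroup V] [Finite V] (h : ML.{u} p (Nat.card V))
    (hp : ¬ p ∣ Nat.card V) {K : Type*} [Group K] (φ : K →* MulAut V) (B : Subgroup K)
    [hBn : B.Normal] (hB : IsPGroup p (B.map φ)) {a : K} (ha : a ∈ B) (ha1 : φ a ≠ 1) :
    ∃ v : V, ∀ h : K, φ (h * a * h⁻¹) v ≠ v := by
  obtain ⟨v, hv⟩ := h V φ.range rfl hp (B.map φ.rangeRestrict)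
    (hBn.map _ φ.rangeRestrict_surjective) (by
      rintro ⟨_, b, hb, rfl⟩
      obtain ⟨k, hk⟩ := hB ⟨φ b, b, hb, rfl⟩
      exact ⟨k, Subtype.ext (Subtype.ext (congrArg Subtype.val hk :))⟩)
    (φ.rangeRestrict a) ⟨a, ha, rfl⟩ fun h => ha1 (congrArg Subtype.val h)
  exact ⟨v, fun k => by rw [map_mul, map_mul, map_inv]; exact hv (φ.rangeRestrict k)⟩

theorem sympl [Finite G] [Finite V] [Nontrivial V] [FaithfulSMul G V] [hp : Fact p.Prime]
    (hp2 : p ≠ 2) (hirr : ∀ U : Subgroup V, (∀ g : G, ∀ u ∈ U, g • u ∈ U) → U = ⊥ ∨ U = ⊤)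
    (B : Subgroup G) [hBn : B.Normal] (hB : IsPGroup p B) (hB1 : B ≠ ⊥)
    (h : ∀ D : Subgroup G, D ≤ B → D.Normal → IsMulCommutative D → IsCyclic D) :
    ∃ v : V, ∀ x ∈ B, x • v = v → x = 1 := by
  have hs : ∀ A : Subgroup B, A.Characteristic → IsMulCommutative A → IsCyclic A :=
    fun A _ _ => (equivMapOfInjective A _ B.subtype_injective).isCyclic.2
      (h _ (map_subtype_le A) inferInstance inferInstance)
  obtain ⟨E, R, h1, h2, h3, h4⟩ := symplectic_type hB hs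
  have h5 := h4.resolve_right fun h => hp2 h.1
  have := (nontrivial_iff_ne_bot B).2 hB1
  have := hB.center_nontrivial
  obtain ⟨⟨x, hx⟩, hx1⟩ := exists_ne (1 : center B)
  obtain ⟨k, hz1, hzp⟩ := exists_pow_order_p (hB x) fun h => hx1 (Subtype.ext h)
  have hz := pow_mem hx k
  generalize x ^ k = z at hz1 hzp hz
  have hcen : ∀ w ∈ center B, w ^ p = 1 → w ∈ zpowers z := fun w hw =>
    mem_zpowers_of_isCyclic_of_pow_eq_one (hs _ inferInstance inferInstance) hz hw hz1 hzp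
  have hcen' : ∀ w ∈ center B, w ^ p = 1 → w.1 ∈ zpowers z.1 := fun w hw h =>
    let ⟨k, hk⟩ := hcen w hw h; ⟨k, congrArg Subtype.val hk⟩
  have hR : R ≤ center B := fun r hr => mem_center_iff.2 fun g =>
    (mem_centralizer_iff.1 (sup_le (le_centralizer_iff.1 h1) (le_centralizer R) (h2 ▸ mem_top g))
      r hr).symm
  have hdec : ∀ x : B, ∃ e ∈ E, ∃ r ∈ center B, e * r = x := fun x =>
    mem_sup_of_normal_right.1 (sup_le_sup_left hR E (h2 ▸ mem_top x))
  obtain ⟨v, -, hv⟩ := reg (V := V) hp2 (z := z.1) (congrArg Subtype.val hzp)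
    (fun h => hz1 (Subtype.ext h)) (fun v hv => by
      rcases hirr (Fx V z.1) fun g u hu => by
        have h6 := hcen' ⟨g⁻¹ * z * g, hBn.conj_mem' _ z.2 g⟩ (mem_center_iff.2 fun y => Subtype.ext (by
          have := congrArg Subtype.val (mem_center_iff.1 hz ⟨_, hBn.conj_mem _ y.2 g⟩)
          simp only [coe_mul] at this ⊢
          rw [show y.1 * (g⁻¹ * z * g) = g⁻¹ * (g * y * g⁻¹ * z) * g by group, this]
          group)) (Subtype.ext (by
            have := conj_pow (a := g⁻¹) (b := z.1) (i := p)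
            rw [inv_inv] at this
            rw [coe_pow, this, ← coe_pow, hzp]; simp))
        rw [mem_Fx, ← mul_smul, show z.1 * g = g * (g⁻¹ * z * g) by group, mul_smul,
          pow_fix hu h6] with h6 | h6
      · exact mem_bot.1 (h6 ▸ hv)
      · exact absurd (Subtype.ext (eq_of_smul_eq_smul fun w : V => by
          rw [mem_Fx.1 (h6 ▸ mem_top w), coe_one, one_smul])) hz1)
    B hB z.2 (fun x hx => (congrArg Subtype.val (mem_center_iff.1 hz ⟨x, hx⟩)).symm)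
    (fun x hx y hy => by
      obtain ⟨e, he, r, hr, h6⟩ := hdec ⟨x, hx⟩
      obtain ⟨e', he', r', hr', h7⟩ := hdec ⟨y, hy⟩
      have h8 : (⟨x, hx⟩ * ⟨y, hy⟩ * ⟨x, hx⟩⁻¹ * ⟨y, hy⟩⁻¹ : B) = ⁅e, e'⁆ := by
        rw [← h6, ← h7, commutatorElement_def, mul_inv_rev, mul_inv_rev,
          show e * r * (e' * r') * (r⁻¹ * e⁻¹) * (r'⁻¹ * e'⁻¹) =
            e * (r * (e' * r')) * r⁻¹ * (e⁻¹ * r'⁻¹) * e'⁻¹ by group,
          ← mem_center_iff.1 hr, mem_center_iff.1 (inv_mem hr') e⁻¹]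
        group
      rw [show x * y * x⁻¹ * y⁻¹ = (⁅e, e'⁆ : B) from congrArg Subtype.val h8]
      rcases h3 with rfl | h3
      · rw [mem_bot.1 he, commutatorElement_one_left]
        exact one_mem _
      obtain ⟨h9, h10, -⟩ := isExtraspecial_facts h3
      have h11 : ⁅e, e'⁆ ∈ E ⊓ centralizer (E : Set B) := h10 ▸ commutator_mem_commutator he he'
      refine hcen' _ (mem_center_iff.2 fun w => ?_) (congrArg Subtype.val
        (h9 ▸ pow_card_eq_one' (x := (⟨_, h11⟩ : ↥(E ⊓ centralizer (E : Set B))))))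
      obtain ⟨f, hf, s, hs, rfl⟩ := hdec w
      rw [mul_assoc, ← mem_center_iff.1 hs, ← mul_assoc, mem_centralizer_iff.1 h11.2 f hf, mul_assoc])
    (fun x hx h1 h2 => hcen' ⟨x, hx⟩ (mem_center_iff.2 fun y => Subtype.ext (h2 y y.2).symm)
      (Subtype.ext h1)) ⊤ top_ne_bot (by simp)
  exact ⟨v, hv⟩

theorem ml [hp : Fact p.Prime] (hp2 : p ≠ 2) (n : ℕ) : ML.{u} p n := by
  induction n using Nat.strong_induction_on with | _ n ih
  intro V G _ _ _ _ _ _ hn hpn B hBn hB a ha ha1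
  subst hn
  classical
  have hsub : ∀ U : Subgroup V, U ≠ ⊤ → Nat.card U < Nat.card V ∧ ¬ p ∣ Nat.card U := fun U hU =>
    ⟨lt_of_le_of_ne (card_le_card_group U) fun h => hU (eq_top_of_card_eq U h),
      fun h => hpn (h.trans (card_subgroup_dvd_card U))⟩
  have hact : ∀ g : G, g ≠ 1 → ∃ v : V, g • v ≠ v := fun g hg => by
    by_contra! h
    exact hg (eq_of_smul_eq_smul fun v : V => by rw [h, one_smul])
  by_cases hirr : ∀ U : Subgroup V, (∀ g : G, ∀ u ∈ U, g • u ∈ U) → U = ⊥ ∨ U = ⊤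
  swap
  · push Not at hirr
    obtain ⟨U, hU, h0, h1⟩ := hirr
    let φ := MulDistribMulAction.toMulAut G V
    by_cases h2 : subAct φ U hU a = 1
    swap
    · obtain ⟨v, hv⟩ := (ih _ (hsub U h1).1).phi (hsub U h1).2 _ B (hB.map _) ha h2
      exact ⟨v, fun h h3 => hv h (Subtype.ext h3)⟩
    by_cases h3 : quotAct φ U hU a = 1
    swap
    · have h4 := card_eq_card_quotient_mul_card_subgroup U
      have h5 := (one_lt_card_iff_ne_bot U).2 h0
      obtain ⟨v, hv⟩ := (ih (Nat.card (V ⧸ U)) (h4 ▸ lt_mul_of_one_lt_right Nat.card_pos h5)).phi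
        (fun h => hpn (h4 ▸ h.mul_right _)) _ B (hB.map _) ha h3
      obtain ⟨v, rfl⟩ := QuotientGroup.mk_surjective v
      exact ⟨v, fun h h3 => hv h ((quotAct_mk φ U hU _ v).trans (congrArg _ h3))⟩
    obtain ⟨v, hv⟩ := hact a ha1
    have h4 : v⁻¹ * a • v ∈ U := QuotientGroup.eq.1 (DFunLike.congr_fun h3 (v : V ⧸ U)).symm
    have h5 : a • (v⁻¹ * a • v) = v⁻¹ * a • v :=
      congrArg Subtype.val (DFunLike.congr_fun h2 ⟨_, h4⟩ :)
    have h6 : ∀ m : ℕ, a ^ m • v = v * (v⁻¹ * a • v) ^ m := fun m => by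
      induction m with
      | zero => simp
      | succ m ih => rw [pow_succ', mul_smul, ih, smul_mul', smul_pow', h5, pow_succ', ← mul_assoc,
          mul_inv_cancel_left]
    obtain ⟨k, hk⟩ := hB ⟨a, ha⟩
    have h7 := h6 (p ^ k)
    rw [show a ^ p ^ k = 1 from congrArg Subtype.val hk, one_smul, left_eq_mul] at h7
    have h8 := Nat.eq_one_of_dvd_coprimes ((hp.out.coprime_iff_not_dvd.2 hpn).pow_left k)
      (orderOf_dvd_of_pow_eq_one h7) (orderOf_dvd_natCard _)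
    exact absurd (inv_mul_eq_one.1 (orderOf_eq_one_iff.1 h8)).symm hv
  have : Nontrivial V := let ⟨v, hv⟩ := hact a ha1; ⟨_, _, hv⟩
  by_cases hD : ∀ D : Subgroup G, D ≤ B → D.Normal → IsMulCommutative D → IsCyclic D
  · obtain ⟨v, hv⟩ := sympl (V := V) hp2 hirr B hB (fun h => ha1 (mem_bot.1 (h ▸ ha))) hD
    exact ⟨v, fun h h1 => ha1 (conj_eq_one_iff.1 (hv _ (hBn.conj_mem a ha h) h1))⟩
  push Not at hD
  obtain ⟨D, -, hDn, hDc, hD⟩ := hD
  obtain ⟨M, U, U', hM, hU0, hU1, hU2, hU3, hU4⟩ := exists_system hirr D hD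
  obtain ⟨⟨u, hu⟩, hu1⟩ := ne_bot_iff_exists_ne_one.1 hU0
  replace hu1 : u ≠ 1 := fun h => hu1 (Subtype.ext h)
  have hU5 : ∀ g : G, g • u ∈ U 1 → g ∈ M := fun g hg => by
    by_contra h
    exact hu1 (one_of_smul g (disjoint_def.1 (hU3 1) hg
      (hU4 1 (g * 1) (by simpa using h) (hU1 1 g u hu))))
  by_cases hc : ∀ h : G, h * a * h⁻¹ ∈ M
  swap
  · refine ⟨u, fun k hk => hc fun h => ?_⟩
    have h1 : k * a * k⁻¹ ∈ B ⊓ M := ⟨hBn.conj_mem a ha k, hU5 _ (hk.symm ▸ hu)⟩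
    have := hB.isNilpotent
    obtain ⟨x, hx, hx1, hx2⟩ := exists_mem_normalizer_notMem (H := B ⊓ M) (K := B)
      (inf_lt_left.2 fun h => hc fun g => h (hBn.conj_mem a ha g))
    have h2 : (B ⊓ M).Normal := normalizer_eq_top_iff.1 (hM.2 _ (lt_of_le_of_ne
      (fun m hm => mem_normalizer_iff.2 fun g => by
        rw [mem_inf, mem_inf]
        exact and_congr ⟨fun h => hBn.conj_mem g h m, fun h => by simpa [mul_assoc] using hBn.conj_mem' _ h m⟩
          ⟨fun h => mul_mem (mul_mem hm h) (inv_mem hm), fun h => by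
            simpa [mul_assoc] using mul_mem (mul_mem (inv_mem hm) h) hm⟩)
      fun h => hx2 ⟨hx, h ▸ hx1⟩))
    simpa [mul_assoc] using (h2.conj_mem _ h1 (h * k⁻¹)).2
  have hMU : ∀ m : M, ∀ x ∈ U 1, m.1 • x ∈ U 1 := fun m x hx => by
    have := hU1 1 m x hx
    rwa [show m.1 * 1 = 1 * m.1 by simp, hU2 1 m m.2] at this
  have hUt : U 1 ≠ ⊤ := fun h => hM.1 (eq_top_iff.2 fun g _ => hU5 g (h ▸ mem_top _))
  obtain ⟨h, hh⟩ : ∃ h : G, (h * a * h⁻¹) • u ≠ u := by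
    by_contra! h
    rcases hirr (⨅ h : G, Fx V (h * a * h⁻¹)) fun g w hw => mem_iInf.2 fun k => mem_Fx.2 (by
      rw [← mul_smul, show k * a * k⁻¹ * g = g * (g⁻¹ * k * a * (g⁻¹ * k)⁻¹) by group, mul_smul,
        mem_Fx.1 (mem_iInf.1 hw _)]) with h1 | h1
    · exact hu1 (mem_bot.1 (h1 ▸ mem_iInf.2 h))
    · obtain ⟨v, hv⟩ := hact a ha1
      have h2 : v ∈ ⨅ h : G, Fx V (h * a * h⁻¹) := h1 ▸ mem_top v
      exact hv (by simpa using mem_Fx.1 (mem_iInf.1 h2 1))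
  obtain ⟨⟨v, hv⟩, hv1⟩ := (ih _ (hsub _ hUt).1).phi (hsub _ hUt).2
    (subAct ((MulDistribMulAction.toMulAut G V).comp M.subtype) (U 1) hMU) (B.subgroupOf M)
    (hB.comap_subtype.map _) (a := ⟨_, hc h⟩) (hBn.conj_mem a ha h)
    fun h1 => hh (congrArg Subtype.val (DFunLike.congr_fun h1 ⟨u, hu⟩) :)
  have := Fintype.ofFinite (G ⧸ M)
  refine ⟨∏ q : G ⧸ M, q.out • v, fun k hk => ?_⟩
  set c := k * a * k⁻¹
  have h1 : ∀ g : G, g • v ∈ U g := fun g => by simpa using hU1 1 g v hv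
  have h2 : ∀ g : G, c • g • v ∈ U g := fun g => by
    have := hU1 _ c _ (h1 g)
    rwa [show c * g = g * (g⁻¹ * k * a * (g⁻¹ * k)⁻¹) by simp only [c]; group, hU2 _ _ (hc _)] at this
  obtain ⟨m, hm⟩ := QuotientGroup.mk_out_eq_mul M (k * h⁻¹)
  set q : G ⧸ M := QuotientGroup.mk (k * h⁻¹)
  rw [Finset.smul_prod', ← div_eq_one, ← Finset.prod_div_distrib,
    ← Finset.mul_prod_erase _ _ (Finset.mem_univ q), mul_eq_one_iff_eq_inv] at hk
  have h3 := disjoint_def.1 (hU3 q.out) (div_mem (h2 _) (h1 _)) (hk ▸ inv_mem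
    (prod_mem fun r hr => hU4 _ r.out (fun h => (Finset.mem_erase.1 hr).1 (by
      rw [← q.out_eq', ← r.out_eq', eq_comm, QuotientGroup.eq]; exact h)) (div_mem (h2 _) (h1 _))))
  rw [div_eq_one, ← mul_smul, ← inv_smul_eq_iff.symm.symm, hm] at h3
  refine hv1 m⁻¹ (Subtype.ext ?_)
  change ((m⁻¹ : M) * (h * a * h⁻¹) * ((m⁻¹ : M) : G)⁻¹) • v = v
  rw [← mul_smul] at h3
  convert h3 using 2
  simp only [c, coe_inv]
  group

/-- The theorem, for one element. -/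
theorem elt [hp : Fact p.Prime] (hp2 : p ≠ 2) (G : Type u) [Group G] [Finite G] [Group.IsSolvable G]
    (a : G) (h : ∀ c : G, ∃ g, IsConj c g ∧ IsPGroup p (closure {a, g * a * g⁻¹})) :
    a ∈ Cfsg.pCore p G := by
  induction hn : Nat.card G using Nat.strong_induction_on generalizing G with | _ n ih
  rcases subsingleton_or_nontrivial G with _ | _
  · rw [Subsingleton.elim a 1]; exact one_mem _
  obtain ⟨V, hV⟩ := exists_isMinNormal (G := G)
  have := hV.1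
  have h1 : (a : G ⧸ V) ∈ Cfsg.pCore p (G ⧸ V) := ih _ (by
      rw [← hn, card_eq_card_quotient_mul_card_subgroup V]
      exact lt_mul_of_one_lt_right Nat.card_pos ((one_lt_card_iff_ne_bot V).2 hV.2.1)) (G ⧸ V) a
    (fun c => by
      obtain ⟨c, rfl⟩ := QuotientGroup.mk_surjective c
      obtain ⟨g, hg, h1⟩ := h c
      refine ⟨g, (QuotientGroup.mk' V).map_isConj hg, ?_⟩
      have := h1.map (QuotientGroup.mk' V)
      rwa [MonoidHom.map_closure, Set.image_pair] at this) rfl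
  obtain ⟨q, hq, hVq⟩ := hV.exists_prime_pow_eq_one
  by_cases hqp : q = p
  · rw [← comap_mk'_pCore V (isPGroup_of_forall_pow_eq_one (hqp ▸ hVq))]
    exact h1
  have := hV.isMulCommutative
  have := Fact.mk hq
  set R := (Cfsg.pCore p (G ⧸ V)).comap (QuotientGroup.mk' V)
  have hR : ∀ x ∈ R, ∃ k : ℕ, x ^ p ^ k ∈ V := fun x hx =>
    let ⟨k, hk⟩ := pCore_isPGroup (⟨_, hx⟩ : Cfsg.pCore p (G ⧸ V))
    ⟨k, (QuotientGroup.eq_one_iff _).1 (congrArg Subtype.val hk)⟩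
  have hcop : ∀ x ∈ V, ∀ k : ℕ, x ^ p ^ k = 1 → x = 1 := fun x hx k hk =>
    orderOf_eq_one_iff.1 (Nat.eq_one_of_dvd_coprimes
      (((Nat.coprime_primes hq hp.out).2 hqp).pow_right k) (orderOf_dvd_of_pow_eq_one (hVq x hx))
      (orderOf_dvd_of_pow_eq_one hk))
  have hc : a ∈ centralizer (V : Set G) := by
    by_contra hc
    let _ : CommGroup V := { (inferInstance : Group V) with mul_comm := mul_comm' }
    obtain ⟨v, hv⟩ := (ml hp2 (Nat.card V)).phi (fun h => by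
        obtain ⟨x, hx⟩ := exists_prime_orderOf_dvd_card' p h
        have := hcop x x.2 1 (by rw [pow_one, ← hx, ← coe_pow, pow_orderOf_eq_one, coe_one])
        rw [show x = 1 from Subtype.ext this, orderOf_one] at hx
        exact hp.out.one_lt.ne hx) (MulAut.conjNormal : G →* MulAut V) R (by
        rintro ⟨_, x, hx, rfl⟩
        obtain ⟨k, hk⟩ := hR x hx
        refine ⟨k, Subtype.ext (MulEquiv.ext fun v => Subtype.ext ?_)⟩
        rw [coe_pow, ← map_pow, MulAut.conjNormal_apply, setLike_mul_comm hk v.2]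
        simp) h1 fun h => hc fun v hv => by
        have := congrArg Subtype.val (DFunLike.congr_fun h ⟨v, hv⟩)
        exact (mul_inv_eq_iff_eq_mul.1 this).symm
    obtain ⟨g, hg, h2⟩ := h v
    obtain ⟨x, rfl⟩ := isConj_iff.1 hg
    have hg : x * v * x⁻¹ ∈ V := hV.1.conj_mem _ v.2 x
    obtain ⟨k, hk⟩ := h2 ⟨a⁻¹ * (x * v * x⁻¹ * a * (x * v * x⁻¹)⁻¹), mul_mem
      (inv_mem (subset_closure (by simp))) (subset_closure (by simp))⟩
    have h3 := hcop (a⁻¹ * (x * v * x⁻¹ * a * (x * v * x⁻¹)⁻¹)) (by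
      rw [← mul_assoc, ← mul_assoc]
      exact mul_mem (hV.1.conj_mem' _ hg a) (inv_mem hg)) k (congrArg Subtype.val hk)
    refine hv x⁻¹ (Subtype.ext ?_)
    rw [MulAut.conjNormal_apply]
    calc _ = x⁻¹ * a * (a⁻¹ * (x * v * x⁻¹ * a * (x * v * x⁻¹)⁻¹))⁻¹ * a⁻¹ * x * v := by group
      _ = _ := by rw [h3]; group
  set K := R ⊓ centralizer (V : Set G)
  have : Group.IsNilpotent K := by
    have h2 : IsPGroup p ((QuotientGroup.mk' V).comp K.subtype).range := by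
      rintro ⟨_, x, rfl⟩
      obtain ⟨k, hk⟩ := hR x x.2.1
      exact ⟨k, Subtype.ext ((QuotientGroup.eq_one_iff _).2 hk)⟩
    have := h2.isNilpotent
    refine Subgroup.isNilpotent_of_ker_le_center ((QuotientGroup.mk' V).comp K.subtype).rangeRestrict
      fun x hx => mem_center_iff.2 fun y => Subtype.ext ?_
    exact (y.2.2 x ((QuotientGroup.eq_one_iff _).1 (congrArg Subtype.val hx))).symm
  obtain ⟨g, -, h2⟩ := h 1
  exact le_pCore_of_le_normal_nilpotent (N := K) (zpowers_le.2 ⟨h1, hc⟩)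
    (h2.to_le (zpowers_le.2 (subset_closure (by simp)))) (mem_zpowers a)

theorem main {G : Type u} [Group G] [Finite G] [Group.IsSolvable G] [Fact p.Prime] (hp : p ≠ 2)
    (A : Subgroup G) (hA : IsPGroup p A)
    (h : ∀ c : G, ∃ g : G, IsConj c g ∧ (A.subgroupOf (A ⊔ MulAut.conj g • A)).IsSubnormal) :
    A ≤ Cfsg.pCore p G := fun a ha => elt hp G a fun c => by
  obtain ⟨g, hg, h1⟩ := h c
  refine ⟨g, hg, ?_⟩
  set L := A ⊔ MulAut.conj g • A
  have h2 := le_pCore_of_isSubnormal h1 hA.comap_subtype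
  have h3 : IsPGroup p (MulAut.conj g • A : Subgroup G) := hA.map _
  have h4 : IsPGroup p (⊤ : Subgroup L) :=
    (IsPGroup.to_sup_of_normal_left pCore_isPGroup
      (h3.comap_subtype : IsPGroup p ((MulAut.conj g • A).subgroupOf L))).to_le (by
      rw [← subgroupOf_self]
      exact (subgroupOf_sup (B := L) le_sup_left le_sup_right).le.trans (sup_le_sup_right h2 _))
  refine (h4.of_equiv topEquiv).to_le ((closure_le _).2 (Set.pair_subset (mem_sup_left ha)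
    (mem_sup_right (smul_mem_pointwise_smul _ _ _ ha))))

end CF.FM
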