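import Cfsg.Agent.Sig.OutSol
import Cfsg.Agent.Fgs3.SL2Even
import Cfsg.Agent.Coprime.Abelian
import Cfsg.Agent.Solv.FrattiniP

/-! A perfect group of automorphisms of a `2`-group fixing every involution is trivial. -/

open Subgroup Cfsg CF.BG
open scoped commutatorElement Pointwise IsMulCommutative

namespace CF.Fgs2

universe u

/-- an anisotropic quadratic map with a "non-singular" polar map -/
structure QB {U V : Type*} [CommGroup U] [CommGroup V] (q : U → V) (b : U → U →* V) : Prop where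
  sq : ∀ x : U, x * x = 1
  sym : ∀ x y, b x y = b y x
  alt : ∀ x, b x x = 1
  mul : ∀ x y, q (x * y) = q x * q y * b x y
  an : ∀ x, q x = 1 → x = 1
  on : ∀ x, x ≠ 1 → ∀ u, ∃ w, q u = b x w

namespace QB

variable {U V : Type*} [CommGroup U] [CommGroup V] {q : U → V} {b : U → U →* V}

theorem q_one (h : QB q b) : q 1 = 1 := by
  have := h.mul 1 1
  rw [h.alt, mul_one, mul_one] at this
  exact (mul_eq_left.1 this.symm)

theorem q_sq (h : QB q b) (x : U) : q x * q x = 1 := by
  have := h.mul x x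
  rw [h.alt, mul_one, h.sq, h.q_one] at this
  exact this.symm

theorem b_sq (h : QB q b) (x y : U) : b x y * b x y = 1 := by
  rw [← map_mul, h.sq, map_one]

theorem b_mul (h : QB q b) (x y z : U) : b (x * y) z = b x z * b y z := by
  rw [h.sym, map_mul, h.sym z, h.sym z]

theorem b_iso (h : QB q b) {g : MulAut U} (hg : ∀ x, q (g x) = q x) (x y : U) :
    b (g x) (g y) = b x y := by
  have := h.mul (g x) (g y)
  rw [← map_mul, hg, hg, hg, h.mul] at this
  exact (mul_left_cancel this).symm

theorem eq_of_mul (h : QB q b) {x y : U} (e : x * y = 1) : x = y := by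
  rw [← mul_one x, ← h.sq y, ← mul_assoc, e, one_mul]

theorem inj (h : QB q b) {x y : U} (e : q x = q y) (hb : b x y = 1) : x = y := by
  refine h.eq_of_mul (h.an _ ?_)
  rw [h.mul, hb, mul_one, e, h.q_sq]

/-- the map `x ↦ x * t x` -/
def tr (t : MulAut U) : U →* U := MonoidHom.id U * t.toMonoidHom

theorem tr_apply (t : MulAut U) (x : U) : tr t x = x * t x := rfl

theorem mem_ker_tr (h : QB q b) {t : MulAut U} {x : U} : x ∈ (tr t).ker ↔ t x = x :=
  ⟨fun e => (h.eq_of_mul e).symm, fun e => by rw [MonoidHom.mem_ker, tr_apply, e, h.sq]⟩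

theorem b_tr (h : QB q b) {t : MulAut U} (ht : ∀ x, q (t x) = q x) (u : U) {x : U}
    (hx : t x = x) : b (tr t u) x = 1 := by
  rw [tr_apply, h.b_mul]
  conv_lhs => rw [← h.b_iso ht u x, hx]
  exact h.b_sq _ _

theorem tr_fix {t : MulAut U} (t2 : t * t = 1) (u : U) : t (tr t u) = tr t u := by
  rw [tr_apply, map_mul, ← MulAut.mul_apply, t2, MulAut.one_apply, mul_comm]

theorem key [Finite U] (h : QB q b) {t : MulAut U} (t2 : t * t = 1) (ht : ∀ x, q (t x) = q x)
    {y : U} (hy : y ∈ (tr t).range) (y1 : y ≠ 1) :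
    (tr t).ker = (b y).ker ∧ (tr t).ker ≤ (tr t).range := by
  obtain ⟨u, rfl⟩ := hy
  have l1 : (tr t).ker ≤ (b (tr t u)).ker := fun x hx => h.b_tr ht u (h.mem_ker_tr.1 hx)
  haveI : Finite (b (tr t u)).range := Finite.of_surjective _ (b (tr t u)).rangeRestrict_surjective
  let f : (tr t).range → (b (tr t u)).range := fun z => ⟨q z, by
    obtain ⟨w, hw⟩ := h.on _ y1 z
    exact ⟨w, hw.symm⟩⟩
  have hf : Function.Injective f := by
    rintro ⟨_, v, rfl⟩ ⟨_, w, rfl⟩ e
    exact Subtype.ext (h.inj (congrArg Subtype.val e) (h.b_tr ht v (tr_fix t2 w)))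
  have c1 := Nat.card_le_card_of_injective f hf
  have c2 := card_le_of_le l1
  have c3 := (tr t).ker.card_mul_index
  have c4 := (b (tr t u)).ker.card_mul_index
  rw [index_ker] at c3 c4
  have p1 : 0 < Nat.card (tr t).ker := Nat.card_pos
  have p2 : 0 < Nat.card (b (tr t u)).range := Nat.card_pos
  have e1 : Nat.card (b (tr t u)).ker ≤ Nat.card (tr t).ker := by
    by_contra hh
    push Not at hh
    have := Nat.mul_lt_mul_of_lt_of_le hh c1 p2
    omega
  have e2 : Nat.card (b (tr t u)).range ≤ Nat.card (tr t).range := by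
    by_contra hh
    push Not at hh
    have := Nat.mul_lt_mul_of_le_of_lt c2 hh Nat.card_pos
    omega
  refine ⟨eq_of_le_of_card_ge l1 e1, fun x hx => ?_⟩
  have hs := (hf.bijective_of_nat_card_le e2).2
  obtain ⟨w, hw⟩ := h.on _ y1 x
  obtain ⟨⟨_, v, rfl⟩, e⟩ := hs ⟨q x, w, hw.symm⟩
  exact ⟨v, h.inj (congrArg Subtype.val e) (h.b_tr ht v (h.mem_ker_tr.1 hx))⟩

/-- the centralizer of an involutory isometry among the isometries has order two -/
theorem cent [Finite U] (h : QB q b) {t g : MulAut U} (t2 : t * t = 1) (t1 : t ≠ 1)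
    (ht : ∀ x, q (t x) = q x) (hg : ∀ x, q (g x) = q x) (c : g * t = t * g) : g = 1 ∨ g = t := by
  obtain ⟨u0, hu0⟩ : ∃ u, tr t u ≠ 1 := by
    by_contra hh
    push Not at hh
    exact t1 (MulEquiv.ext fun x => h.mem_ker_tr.1 (hh x))
  obtain ⟨k0, r0⟩ := h.key t2 ht ⟨u0, rfl⟩ hu0
  have bY : ∀ x y, t x = x → t y = y → b x y = 1 := fun x y hx hy => by
    obtain ⟨v, rfl⟩ := r0 (h.mem_ker_tr.2 hx)
    exact h.b_tr ht v hy
  have gY : ∀ x, t x = x → g x = x := fun x hx =>
    h.inj (hg x) (bY _ _ (by rw [← MulAut.mul_apply, ← c, MulAut.mul_apply, hx]) hx)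
  have cY : ∀ u, t (u * g u) = u * g u := fun u => by
    rw [← h.mem_ker_tr, k0, MonoidHom.mem_ker, map_mul]
    conv_lhs => rw [← h.b_iso hg, gY _ (tr_fix t2 u0)]
    exact h.b_sq _ _
  have qc : ∀ {s : MulAut U}, (∀ x, q (s x) = q x) → ∀ u, q (u * s u) = b u (u * s u) := by
    intro s hs u
    rw [h.mul, hs, h.q_sq, one_mul, map_mul, h.alt, one_mul]
  have alt : ∀ u, g u = u ∨ g u = t u := fun u => by
    by_cases e : u * g u = 1
    · exact Or.inl (h.eq_of_mul e).symm
    right
    obtain ⟨v, hv⟩ := r0 (h.mem_ker_tr.2 (cY u))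
    obtain ⟨k1, -⟩ := h.key t2 ht ⟨v, hv⟩ e
    have e1 := qc hg u
    have e2 := qc ht v
    rw [← tr_apply, hv, e1] at e2
    have e3 : u * v ∈ (tr t).ker := by
      rw [k1, MonoidHom.mem_ker, h.sym, h.b_mul, e2, h.b_sq]
    rw [MonoidHom.mem_ker, map_mul, hv] at e3
    have := h.eq_of_mul e3
    rw [tr_apply] at this
    exact (mul_left_cancel this).symm
  by_contra hh
  push Not at hh
  obtain ⟨x, hx⟩ : ∃ x, g x ≠ x := by
    by_contra h1
    push Not at h1
    exact hh.1 (MulEquiv.ext h1)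
  obtain ⟨y, hy⟩ : ∃ y, g y ≠ t y := by
    by_contra h1
    push Not at h1
    exact hh.2 (MulEquiv.ext h1)
  have hx' := (alt x).resolve_left hx
  have hy' := (alt y).resolve_right hy
  rcases alt (x * y) with e | e
  · rw [map_mul, hy'] at e
    exact hx (mul_right_cancel e)
  · rw [map_mul, map_mul, hx'] at e
    exact hy (mul_left_cancel e)

/-- every group of isometries is solvable -/
theorem sol [Finite U] (h : QB q b) {X : Subgroup (MulAut U)} (hX : ∀ g ∈ X, ∀ x, q (g x) = q x) :
    Sol X := by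
  haveI : Fact (Nat.Prime 2) := ⟨Nat.prime_two⟩
  obtain ⟨T, hT⟩ := exists_syl 2 X
  refine CF.Fgs3.sol_of_cyc_syl hT ?_
  by_cases h1 : T = ⊥
  · rw [h1]; exact cyc_bot
  obtain ⟨t, ht, ot⟩ := exists_mem_orderOf_eq Nat.prime_two ((hT.pi.le inf_le_left).dvd_card
    (hT.pi.nil.inf_center_ne_bot (NormalIn.refl T) h1))
  have t2 : t * t = 1 := (pow_two t).symm.trans (ot ▸ pow_orderOf_eq_one t)
  have t1 : t ≠ 1 := by rintro rfl; simp at ot
  have e : T = zpowers t := by
    refine le_antisymm (fun g hg => ?_) (zpowers_le.2 ht.1)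
    rcases h.cent t2 t1 (hX t (hT.le ht.1)) (hX g (hT.le hg)) (mem_cent.1 ht.2.2 g hg) with e | e
    · rw [e]; exact one_mem _
    · rw [e]; exact mem_zpowers _
  rw [e]; exact cyc_zpowers t

end QB

theorem hom_triv {A H : Type*} [Group A] [Group H] [Finite H] (hA : _root_.commutator A = ⊤)
    (f : A →* H) (hs : Sol f.range) (a : A) : f a = 1 := by
  have e : f.range = ⊥ := hs.eq_bot_of_le_der (by
    rw [MonoidHom.range_eq_map, ← map_commutator, ← _root_.commutator_def, hA])
  rw [← mem_bot, ← e]; exact ⟨a, rfl⟩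

/-- fixed points of an action by automorphisms -/
def fixS {A S : Type*} [Group A] [Group S] (φ : A →* MulAut S) : Subgroup S where
  carrier := {s | ∀ a, φ a s = s}
  mul_mem' hx hy a := by rw [map_mul, hx a, hy a]
  one_mem' a := map_one _
  inv_mem' hx a := by rw [map_inv, hx a]

theorem fixS_eq_top {A S : Type*} [Group A] [Group S] [Finite S] [Group.IsSolvable S]
    (hA : _root_.commutator A = ⊤) (φ : A →* MulAut S)
    (h : ∀ a k, k⁻¹ * φ a k ∈ fixS φ) : fixS φ = ⊤ := by
  rw [eq_top_iff]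
  intro k _ a
  let f : A →* S := MonoidHom.mk' (fun a => k⁻¹ * φ a k) fun a b => by
    have := h b k a
    rw [map_mul, map_inv, inv_mul_eq_iff_eq_mul] at this
    rw [map_mul, MulAut.mul_apply, this, mul_assoc]
  have := hom_triv hA f inferInstance a
  exact (inv_mul_eq_one.1 this).symm

theorem fix_step {A S : Type*} [Group A] [Group S] [Finite S] (hS : IsPGroup 2 S)
    (hA : _root_.commutator A = ⊤) (φ : A →* MulAut S) (hi : ∀ a s, s * s = 1 → φ a s = s)
    (ih : ∀ L : Subgroup S, L ≠ ⊤ → (∀ a, ∀ k ∈ L, φ a k ∈ L) → L ≤ fixS φ) : fixS φ = ⊤ := by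
  haveI : Fact (Nat.Prime 2) := ⟨Nat.prime_two⟩
  haveI := hS.isNilpotent
  by_contra hne
  have top : ∀ L : Subgroup S, (∀ a, ∀ k ∈ L, φ a k ∈ L) → (∀ a k, k⁻¹ * φ a k ∈ L) → L = ⊤ := by
    intro L h1 h2
    by_contra hL
    exact hne (fixS_eq_top hA φ fun a k => ih L hL h1 (h2 a k))
  haveI : Nontrivial S := by
    by_contra hh
    rw [not_nontrivial_iff_subsingleton] at hh
    exact hne (Subsingleton.elim _ _)
  have fr : frattini S ≤ fixS φ := ih _ CF.Solv.frattini_ne_top fun a k hk =>
    (characteristic_iff_le_comap.1 inferInstance (φ a)) hk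
  have hsq : ∀ k : S, k * k ∈ fixS φ := fun k => fr (sq k ▸ CF.Solv.pow_mem_frattini hS k)
  have hcm : ∀ k l : S, ⁅k, l⁆ ∈ fixS φ := fun k l =>
    fr (CF.Solv.commutator_le_frattini_of_isPGroup hS
      (commutator_mem_commutator (mem_top k) (mem_top l)))
  haveI hn : (fixS φ).Normal := ⟨fun v hv k => by
    have := mul_mem (hcm k v) hv
    rwa [commutatorElement_def, inv_mul_cancel_right] at this⟩
  have cen : fixS φ ≤ center S := fun v hv => by
    have := top (centralizer {v}) (fun a k hk => by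
        rw [mem_centralizer_singleton_iff] at hk ⊢
        conv_lhs => rw [← hv a, ← map_mul, hk, map_mul, hv a])
      (fun a k => by
        have := hn.conj_mem v hv k a
        rw [map_mul, map_mul, map_inv, hv a] at this
        rw [mem_centralizer_singleton_iff]
        calc k⁻¹ * φ a k * v = k⁻¹ * (φ a k * v * (φ a k)⁻¹) * φ a k := by group
          _ = v * (k⁻¹ * φ a k) := by rw [this]; group)
    rw [mem_center_iff]
    intro g
    exact mem_centralizer_singleton_iff.1 (this ▸ mem_top g)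
  have zc : ∀ k l g : S, g * ⁅k, l⁆ = ⁅k, l⁆ * g := fun k l g => mem_center_iff.1 (cen (hcm k l)) g
  have cmul : ∀ k l m : S, ⁅k, l * m⁆ = ⁅k, l⁆ * ⁅k, m⁆ := fun k l m => by
    calc ⁅k, l * m⁆ = ⁅k, l⁆ * (l * ⁅k, m⁆) * l⁻¹ := by simp only [commutatorElement_def]; group
      _ = _ := by rw [zc k m l]; group
  have cv : ∀ k v : S, v ∈ fixS φ → ⁅k, v⁆ = 1 := fun k v hv =>
    commutatorElement_eq_one_iff_mul_comm.2 (mem_center_iff.1 (cen hv) k)
  have csym : ∀ k l : S, ⁅k, l⁆ = ⁅l, k⁆ := fun k l => by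
    rw [← commutatorElement_inv l k, inv_eq_iff_mul_eq_one, ← cmul, cv _ _ (hsq _)]
  have sqm : ∀ k l : S, k * l * (k * l) = k * k * (l * l) * ⁅k, l⁆ := fun k l => by
    calc k * l * (k * l) = k * ⁅l, k⁆ * (k * l * l) := by simp only [commutatorElement_def]; group
      _ = _ := by rw [csym l k, mul_assoc, ← zc k l]; group
  let N : Subgroup (center S) := ((fixS φ).subgroupOf (center S)).map (powMonoidHom 2)
  let Q : S → center S ⧸ N := fun k => QuotientGroup.mk ⟨k * k, cen (hsq k)⟩
  let B : S → S →* center S ⧸ N := fun k => MonoidHom.mk'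
    (fun l => QuotientGroup.mk ⟨⁅k, l⁆, cen (hcm k l)⟩) fun l m => by
      rw [← QuotientGroup.mk_mul]; congr 1; exact Subtype.ext (cmul k l m)
  have Bs : ∀ k l, B k l = B l k := fun k l => by
    change QuotientGroup.mk _ = QuotientGroup.mk _
    congr 1; exact Subtype.ext (csym k l)
  have Bv : ∀ k v, v ∈ fixS φ → B k v = 1 := fun k v hv => by
    change QuotientGroup.mk _ = QuotientGroup.mk 1
    congr 1; exact Subtype.ext (cv k v hv)
  have Qm : ∀ k l, Q (k * l) = Q k * Q l * B k l := fun k l => by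
    change QuotientGroup.mk _ = QuotientGroup.mk _ * QuotientGroup.mk _ * QuotientGroup.mk _
    rw [← QuotientGroup.mk_mul, ← QuotientGroup.mk_mul]
    congr 1; exact Subtype.ext (sqm k l)
  have Qv : ∀ v, v ∈ fixS φ → Q v = 1 := fun v hv =>
    (QuotientGroup.eq_one_iff _).2 ⟨⟨v, cen hv⟩, hv, Subtype.ext (sq v)⟩
  letI : CommGroup (S ⧸ fixS φ) := { QuotientGroup.Quotient.group (fixS φ) with
    mul_comm := fun x y => by
      obtain ⟨k, rfl⟩ := QuotientGroup.mk_surjective x
      obtain ⟨l, rfl⟩ := QuotientGroup.mk_surjective y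
      rw [← commutatorElement_eq_one_iff_mul_comm]
      exact (QuotientGroup.eq_one_iff ⁅k, l⁆).2 (hcm k l) }
  let q : S ⧸ fixS φ → center S ⧸ N := fun x => Quotient.liftOn' x Q fun k l h => by
    rw [QuotientGroup.leftRel_apply] at h
    rw [← mul_inv_cancel_left k l, Qm, Qv _ h, Bv _ _ h, mul_one, mul_one]
  let b : S ⧸ fixS φ → S ⧸ fixS φ →* center S ⧸ N := fun x => Quotient.liftOn' x
    (fun k => QuotientGroup.lift (fixS φ) (B k) (Bv k)) fun k l h => by
      rw [QuotientGroup.leftRel_apply] at h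
      ext m
      change B k m = B l m
      rw [← mul_inv_cancel_left k l, Bs _ m, Bs _ m, map_mul, Bv _ _ h, mul_one]
  have hq : QB q b := by
    refine ⟨fun x => ?_, fun x y => ?_, fun x => ?_, fun x y => ?_, fun x hx => ?_,
      fun x hx u => ?_⟩
    · obtain ⟨k, rfl⟩ := QuotientGroup.mk_surjective x
      exact (QuotientGroup.eq_one_iff (k * k)).2 (hsq k)
    · obtain ⟨k, rfl⟩ := QuotientGroup.mk_surjective x
      obtain ⟨l, rfl⟩ := QuotientGroup.mk_surjective y
      exact Bs k l
    · obtain ⟨k, rfl⟩ := QuotientGroup.mk_surjective x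
      change QuotientGroup.mk _ = QuotientGroup.mk 1
      congr 1; exact Subtype.ext (commutatorElement_self k)
    · obtain ⟨k, rfl⟩ := QuotientGroup.mk_surjective x
      obtain ⟨l, rfl⟩ := QuotientGroup.mk_surjective y
      exact Qm k l
    · obtain ⟨k, rfl⟩ := QuotientGroup.mk_surjective x
      obtain ⟨v, hv, e⟩ := (QuotientGroup.eq_one_iff _).1 hx
      have e' : (v : S) * v = k * k := (sq (v : S)).symm.trans (congrArg Subtype.val e)
      have : k * (v : S)⁻¹ ∈ fixS φ := fun a => hi a _ (by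
        rw [sqm, cv k (v : S)⁻¹ (inv_mem hv), ← e']; group)
      exact (QuotientGroup.eq_one_iff k).2 (by simpa using mul_mem this hv)
    · obtain ⟨k, rfl⟩ := QuotientGroup.mk_surjective x
      obtain ⟨u, rfl⟩ := QuotientGroup.mk_surjective u
      have hk : k ∉ fixS φ := fun h => hx ((QuotientGroup.eq_one_iff k).2 h)
      have Bi : ∀ a k l, B (φ a k) (φ a l) = B k l := fun a k l => by
        change QuotientGroup.mk _ = QuotientGroup.mk _
        congr 1; exact Subtype.ext ((map_commutatorElement (φ a) k l).symm.trans (hcm k l a))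
      have Qi : ∀ a k, Q (φ a k) = Q k := fun a k => by
        change QuotientGroup.mk _ = QuotientGroup.mk _
        congr 1; exact Subtype.ext ((map_mul (φ a) k k).symm.trans (hsq k a))
      let R : Subgroup S :=
        { carrier := {c | ∀ l, B l c ∈ (B k).range}
          mul_mem' := fun hx hy l => by rw [map_mul]; exact mul_mem (hx l) (hy l)
          one_mem' := fun l => by rw [map_one]; exact one_mem _
          inv_mem' := fun hx l => by rw [map_inv]; exact inv_mem (hx l) }
      have hR : R = ⊤ := by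
        by_contra hR
        refine hk (ih R hR (fun a c hc l => ?_) fun l => ⟨l, Bs k l⟩)
        have := hc (φ a⁻¹ l)
        rwa [← Bi a, ← MulAut.mul_apply, ← map_mul, mul_inv_cancel, map_one,
          MulAut.one_apply] at this
      have hB : ∀ l c, B l c ∈ (B k).range := fun l c => (hR ▸ mem_top c : c ∈ R) l
      have Q1 : Q 1 = 1 := Qv 1 (one_mem _)
      have Qinv : ∀ c, Q c⁻¹ * Q c ∈ (B k).range := fun c => by
        have := Qm c⁻¹ c
        rw [inv_mul_cancel, Q1, eq_comm, mul_eq_one_iff_eq_inv] at this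
        rw [this]; exact inv_mem (hB _ _)
      let R' : Subgroup S :=
        { carrier := {c | Q c ∈ (B k).range}
          mul_mem' := fun hx hy => by
            rw [Set.mem_setOf, Qm]; exact mul_mem (mul_mem hx hy) (hB _ _)
          one_mem' := by rw [Set.mem_setOf, Q1]; exact one_mem _
          inv_mem' := fun {c} hx => by simpa using mul_mem (Qinv c) (inv_mem hx) }
      have hR' : R' = ⊤ := top R' (fun a c hc => by
          change Q _ ∈ (B k).range
          rw [Qi]; exact hc) fun a c => by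
        change Q _ ∈ (B k).range
        rw [Qm, Qi]; exact mul_mem (Qinv c) (hB _ _)
      obtain ⟨w, hw⟩ : Q u ∈ (B k).range := (hR' ▸ mem_top u : u ∈ R')
      exact ⟨QuotientGroup.mk w, hw.symm⟩
  let ψ := CF.Coprime.quotAct φ (fixS φ) fun a m hm => by rw [hm a]; exact hm
  have hs : Sol ψ.range := hq.sol (by
    rintro _ ⟨a, rfl⟩ x
    obtain ⟨k, rfl⟩ := QuotientGroup.mk_surjective x
    change QuotientGroup.mk _ = QuotientGroup.mk _
    congr 1; exact Subtype.ext ((map_mul (φ a) k k).symm.trans (hsq k a)))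
  refine hne (fixS_eq_top hA φ fun a k => ?_)
  have := DFunLike.congr_fun (hom_triv hA ψ hs a) (QuotientGroup.mk k)
  exact QuotientGroup.eq.1 this.symm

theorem fix_aux {A : Type*} [Group A] (hA : _root_.commutator A = ⊤) (n : ℕ) :
    ∀ (S : Type u) [Group S] [Finite S], Nat.card S = n → IsPGroup 2 S →
      ∀ φ : A →* MulAut S, (∀ a s, s * s = 1 → φ a s = s) → fixS φ = ⊤ := by
  induction n using Nat.strong_induction_on with
  | _ n ih =>
    intro S _ _ hn hS φ hi
    refine fix_step hS hA φ hi fun L hL h k hk a => ?_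
    have := ih _ (hn ▸ CF.Solv.card_lt_of_ne_top hL) L rfl (hS.to_subgroup L) (CF.Coprime.subAct φ L h)
      fun a s hs => Subtype.ext (hi a s (congrArg Subtype.val hs))
    have h2 : (⟨k, hk⟩ : L) ∈ fixS (CF.Coprime.subAct φ L h) := by rw [this]; exact mem_top _
    exact congrArg Subtype.val (h2 a)

/-- a perfect group acting on a `2`-group and fixing every involution acts trivially -/
theorem fix_of_inv {A S : Type*} [Group A] [Group S] [Finite S] (hS : IsPGroup 2 S)
    (hA : _root_.commutator A = ⊤) (φ : A →* MulAut S) (hi : ∀ a s, s * s = 1 → φ a s = s)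
    (a : A) (s : S) : φ a s = s :=
  ((fix_aux hA _ S rfl hS φ hi) ▸ mem_top s : s ∈ fixS φ) a

end CF.Fgs2
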