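import Cfsg.Agent.Clifford.Glaub
import Cfsg.Agent.Coprime.Glauberman
import Cfsg.Agent.Char.PermLemma

/-!
Real characters and real classes under the Glauberman correspondence.
-/

set_option autoImplicit false

namespace CF.Fgs2.Isa

open Cfsg Subgroup CF.Clifford CF.Char
open scoped ComplexConjugate

variable {Γ : Type*} [Group Γ] [Finite Γ] {G S : Subgroup Γ}

theorem isConj_fix (n : S ≤ normalizer (G : Set Γ)) (cop : (Nat.card S).Coprime (Nat.card G))
    (hs : Group.IsSolvable S) {c d : ↥(G ⊓ centralizer (S : Set Γ))}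
    (h : IsConj (inclusion inf_le_left c : G) (inclusion inf_le_left d)) : IsConj c d := by
  obtain ⟨x, hx⟩ := isConj_iff.1 h
  have h1 : (x : Γ) * c * (x : Γ)⁻¹ = d := congrArg Subtype.val hx
  have f : ∀ y : ↥(G ⊓ centralizer (S : Set Γ)), ∀ a ∈ S, ConjAct.toConjAct a • (y : Γ) = y :=
    fun y a ha => by rw [ConjAct.toConjAct_smul, y.2.2 a ha, mul_inv_cancel_right]
  let _ : MulAction Γ Γ := MulAction.compHom Γ (ConjAct.toConjAct (G := Γ)).toMonoidHom
  obtain ⟨y, hy, e⟩ := CF.Coprime.exists_centralizer_smul_eq (X := Γ) S G n cop (.inl hs)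
    (c : Γ) x x.2 (f c) fun a ha => by
      change ConjAct.toConjAct a • ((x : Γ) * c * (x : Γ)⁻¹) = x * c * (x : Γ)⁻¹
      rw [h1, f d a ha]
  exact isConj_iff.2 ⟨⟨y, hy⟩, Subtype.ext (e.trans h1)⟩

theorem exists_conj_fix (n : S ≤ normalizer (G : Set Γ)) (cop : (Nat.card S).Coprime (Nat.card G))
    (hs : Group.IsSolvable S) {g : G}
    (h : ∀ a ∈ S, ∀ k : G, (k : Γ) = a * g * a⁻¹ → IsConj k g) :
    ∃ c : ↥(G ⊓ centralizer (S : Set Γ)), IsConj g (inclusion inf_le_left c) := by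
  let _ : MulAction Γ Γ := MulAction.compHom Γ (ConjAct.toConjAct (G := Γ)).toMonoidHom
  obtain ⟨k, hk, e⟩ := CF.Coprime.exists_fixed_of_orbit (X := Γ) S G n cop (.inl hs)
    (g : Γ) fun a ha => by
      obtain ⟨x, hx⟩ := isConj_iff.1 (h a ha ⟨_, (mem_normalizer_iff.1 (n ha) g).1 g.2⟩ rfl).symm
      exact ⟨x, x.2, congrArg Subtype.val hx⟩
  exact ⟨⟨k * g * k⁻¹, G.mul_mem (G.mul_mem hk g.2) (G.inv_mem hk), fun a ha =>
    mul_inv_eq_iff_eq_mul.1 (e a ha)⟩, isConj_iff.2 ⟨(⟨k, hk⟩ : G), rfl⟩⟩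

theorem real_iff {K : Type*} [Group K] [Finite K] {χ : K → ℂ} (h : IsIrrCharacter K χ) :
    (∀ g, (χ g).im = 0) ↔ (fun g => χ g⁻¹) = χ := by
  simp only [funext_iff, char_inv (irr_isCharacter h), Complex.conj_eq_iff_im]

theorem bij_real {K C : Type*} [Group K] [Group C] [Finite K] [Finite C] {p : ℕ} {j : C →* K}
    {A : Set (MulAut K)} (B : Bij (PCorr p j) (InvA A) fun _ => True) :
    Bij (PCorr p j) (fun χ => (∀ g, (χ g).im = 0) ∧ InvA A χ) fun β => ∀ g, (β g).im = 0 := by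
  have i : ∀ χ β, PCorr p j χ β → PCorr p j (fun g => χ g⁻¹) fun g => β g⁻¹ := by
    rintro χ β ⟨ε, hε, x, hx, f⟩
    refine ⟨ε, hε, fun g => x g⁻¹, ?_, fun c => by simp only [← map_inv, f]⟩
    obtain ⟨a, b, ha, hb, rfl⟩ := hx
    exact ⟨fun g => conj (a g), fun g => conj (b g), char_conj ha, char_conj hb,
      funext fun g => by simp [char_inv ha, char_inv hb]⟩
  refine ⟨fun χ a b => ?_, fun χ β γ a b c d _ _ => B.uniq χ β γ a b c d.2 trivial trivial,
    fun χ ψ β a b c d e _ => B.inj χ ψ β a b c d.2 e.2 trivial, fun β a b => ?_⟩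
  · obtain ⟨β, c, -, d⟩ := B.ex χ a b.2
    exact ⟨β, c, (real_iff c).2 (B.uniq χ _ β a (irr_comp_inv c) c b.2 trivial trivial
      ((real_iff a).1 b.1 ▸ i χ β d) d), d⟩
  · obtain ⟨χ, c, d, e⟩ := B.surj β a trivial
    exact ⟨χ, c, ⟨(real_iff c).2 (B.inj _ χ β (irr_comp_inv c) c a (fun s hs g => by
      simpa only [map_inv] using d s hs g⁻¹) d trivial ((real_iff a).1 b ▸ i χ β e) e), d⟩, e⟩

end CF.Fgs2.Isa
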