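import Cfsg.Agent.Fgs2.Cs4
import Cfsg.Agent.Fgs1.L2cs

/-! Solvable groups whose elements have class sizes of restricted shape. -/

set_option autoImplicit false
set_option linter.unusedSectionVars false

namespace CF.Fgs2.It
open Subgroup CF.BG CF.SolvStr CF.Fgs1
open scoped commutatorElement

variable {G : Type*} [Group G] [Finite G] {π : Set ℕ} {A K L P : Subgroup G} {u w x : G} {c p q r : ℕ}

theorem exists_cj_cent (s : Sol K) (hA : Hall π A K) (h : PiNat πᶜ ((𝐂₁ u).relIndex K)) :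
    ∃ g ∈ K, u ∈ 𝐂 (cj g A) := by
  obtain ⟨B, hB⟩ := (s.mono (inf_le_right : 𝐂₁ u ⊓ K ≤ K)).exists_hall π
  obtain ⟨g, hg, rfl⟩ := hA.conj s (hB.trans_idx inf_le_right (by rwa [inf_relIndex_right]))
  exact ⟨g, hg, le_cent1_iff.1 (hB.le.trans inf_le_left)⟩

theorem mem_O2 (s : Sol K) (hA : Hall π A K) (hu : u ∈ K) (h : PiNat πᶜ ((𝐂₁ u).relIndex K)) :
    u ∈ O2 πᶜ π K := by
  obtain ⟨g, hg, k⟩ := exists_cj_cent s hA h
  exact s.cent_le_O2 (hA.cj_of_mem hg).inf_O2 ⟨hu, cent_anti inf_le_left k⟩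

/-- a Hall `π`-subgroup whose elements have class sizes prime to `π` is abelian -/
theorem abel_hall (s : Sol K) (hA : Hall π A K)
    (h : ∀ u ∈ A, PiNat πᶜ ((𝐂₁ u).relIndex K)) : Abel A := by
  have n := (O_normal πᶜ K).norm
  have l : A ≤ O2 πᶜ π K := fun u hu => mem_O2 s hA (hA.le hu) (h u hu)
  have k := hA.of_le l (O2_le _ _ _)
  intro u hu
  obtain ⟨g, hg, c⟩ := exists_cj_cent s hA (h u hu)
  have e := k.qt_O2.trans (k.cj_of_norm ((O2_normal _ _ _).norm hg)).qt_O2.symm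
  have zu := zpowers_le.2 hu
  refine zpowers_le.1 (comm_eq_bot.1 (eq_bot_mono (hA.inf_eq_bot (O_pi πᶜ K)) (le_inf
    ((commutator_mono zu le_rfl).trans (der_le A))
    ((qt_cent_iff (zu.trans (hA.le.trans n)) (hA.le.trans n)).1 ?_))))
  rw [e]
  exact qt_cent _ (zpowers_le.2 c)

theorem cent_of_pp (s : Sol L) (hA : Hall {r}ᶜ A L)
    (h : ∀ q, q.Prime → ∀ u ∈ L, PiElt {q} u → PiNat {r} ((𝐂₁ u).relIndex L)) : A ≤ 𝐂 L := by
  obtain ⟨R, hR⟩ := exists_syl r L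
  have h' : ∀ u ∈ R, PiNat {r}ᶜᶜ ((𝐂₁ u).relIndex L) := fun u hu => by
    by_cases hr : r.Prime
    · exact (h r hr u (hR.le hu) (hR.pi.elt hu)).compl_compl
    · rw [eq_one_of_mem_bot (piGrp_eq_bot_of_not_prime hr hR.pi) hu, cent1_one, relIndex_top_left]
      exact piNat_one _
  have n : L ≤ 𝐍 R := by
    have : R ≤ 𝐎 {r}ᶜᶜ L := fun u hu => (hall_O_O2 {r}ᶜ L).mem_normal
      ((O2_le _ _ _).trans (O_normal _ _).norm) (mem_O2 s hA (hR.le hu) (h' u hu)) (hR.pi.elt hu).compl_compl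
    rw [← hR.compl_compl.O_eq_of_le this]
    exact (O_normal _ _).norm
  have c : R ≤ 𝐂 A := (le_of_forall_cj (H := R ⊓ 𝐂 A) inf_le_left fun u hu => by
    obtain ⟨g, hg, k⟩ := exists_cj_cent s hA (h' u hu)
    obtain ⟨a, ha, b, hb, rfl⟩ := hR.exists_mul hA hg
    rw [← cj_cj, cj_of_mem hb] at k
    exact ⟨a, ha, by rw [cj_inf, cj_of_mem ha, cj_cent]; exact ⟨hu, k⟩⟩).trans inf_le_right
  intro u hu
  by_contra nu
  obtain ⟨q, hq, v, hv, pv, nv⟩ := exists_prime_part nu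
  have vA := zpowers_le.2 hu hv
  exact nv (le_cent1_iff.1 (relIndex_eq_one.1 ((h q hq v (hA.le vA) pv).eq_one
    (hR.idx_of_le (c.trans (cent_le_cent1 vA))))))

theorem nil_of_cent (hA : Hall {r}ᶜ A L) (c : A ≤ 𝐂 L) : Nil L := by
  obtain ⟨R, hR⟩ := exists_syl r L
  rw [← hR.sup_eq hA]
  exact hR.pi.nil.sup_cent (Abel.nil (cent_mono c le_rfl hA.le)) (cent_symm (cent_mono c le_rfl hR.le))

theorem relIndex_of_card (e : ♯L = ♯(L ⊓ 𝐂₁ u) * q) : (𝐂₁ u).relIndex L = q := by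
  have := card_inf_mul_relIndex (𝐂₁ u) L
  rw [inf_comm, e] at this
  exact Nat.eq_of_mul_eq_mul_left (BG.card_pos' _) this

/-- all non-central elements of prime power order have the same class size -/
theorem ito_pp (s : Sol L)
    (h : ∀ q, q.Prime → ∀ u ∈ L, PiElt {q} u → u ∉ 𝐂 L → ♯(L ⊓ 𝐂₁ u) = c) :
    ∃ r A, r.Prime ∧ Hall {r}ᶜ A L ∧ A ≤ 𝐂 L := by
  by_cases a : Abel L
  · obtain ⟨A, hA⟩ := s.exists_hall {2}ᶜ
    exact ⟨2, A, Nat.prime_two, hA, hA.le.trans a⟩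
  obtain ⟨r, e, hr, k⟩ := exists_pow_index s a h
  obtain ⟨A, hA⟩ := s.exists_hall {r}ᶜ
  refine ⟨r, A, hr, hA, cent_of_pp s hA fun q hq u hu pu => ?_⟩
  by_cases z : u ∈ 𝐂 L
  · rw [relIndex_eq_one.2 (le_cent1_iff.2 z)]; exact piNat_one _
  · rw [relIndex_of_card (by rw [h q hq u hu pu z]; exact k)]; exact piNat_pow_self hr e

/-- if the non-trivial `p'`-elements have centralizers of the same order, its index is a `p`-number -/
theorem pi_index (h : ∀ u ∈ L, u ≠ 1 → PiElt {p}ᶜ u → ♯(L ⊓ 𝐂₁ u) = c) (e : ♯L = c * q) :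
    PiNat {p} q := fun s hs d => by
  by_contra n
  obtain ⟨S, hS⟩ := exists_syl s L
  obtain ⟨u, hu, u1⟩ := exists_mem_ne_one (hS.pi.center_ne_bot
    (hS.syl_ne_bot hs (e ▸ d.mul_left c)))
  have := (hS.idx_of_le (le_cent1_iff.2 hu.2)).not_dvd' hs rfl
  rw [relIndex_of_card (by rw [h u (hS.le hu.1) u1 ((hS.pi.elt hu.1).of_single' (π := {p}) n)]; exact e)] at this
  exact this d

end CF.Fgs2.It
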