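import Cfsg.Agent.Fgs2.It1

/-! Groups with at most one even centralizer order that is not maximal under divisibility. -/

set_option autoImplicit false
set_option linter.unusedSectionVars false

namespace CF.Fgs2.It
open Subgroup CF.BG CF.SolvStr CF.Fgs1
open scoped commutatorElement

variable {G : Type*} [Group G] [Finite G] {π : Set ℕ} {A H K L P S : Subgroup G} {g t u w x y z : G}
  {c p q r : ℕ}

theorem exists_pow_mem (hp : p.Prime) (k : PiElt {p} g) (h : g ∉ K) :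
    ∃ x ∈ zpowers g, x ∉ K ∧ x ^ p ∈ K := by
  obtain ⟨n, hn⟩ := k.exists_pow (orderOf_pos g).ne'
  have : g ^ p ^ n ∈ K := by rw [← hn, pow_orderOf_eq_one]; exact one_mem _
  clear hn
  induction n with
  | zero => exact absurd (by simpa using this) h
  | succ n ih =>
    by_cases c : g ^ p ^ n ∈ K
    · exact ih c
    · exact ⟨_, npow_mem_zpowers g _, c, by rwa [← pow_mul, ← pow_succ]⟩

theorem abel_of_sq (h : ∀ x ∈ H, x ^ 2 = 1) : Abel H := abel_of_forall fun x hx y hy => by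
  have i : ∀ x ∈ H, x⁻¹ = x := fun x hx => inv_eq_of_mul_eq_one_right (by rw [← sq, h x hx])
  rw [← i _ (mul_mem hx hy), mul_inv_rev, i x hx, i y hy]

theorem norm_of_two (i : H.relIndex K = 2) : K ≤ 𝐍 (K ⊓ H) := by
  have := normal_of_index_eq_two i
  rw [← inf_subgroupOf_right, inf_comm] at this
  have := normal_iff_map_subtype.1 this
  rw [map_subgroupOf inf_le_left] at this
  exact this.norm

/-- the order of the centralizer of `x` is maximal under divisibility -/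
def Hd (x : G) : Prop := ∀ y : G, y ≠ 1 → ♯(𝐂₁ x) ∣ ♯(𝐂₁ y) → ♯(𝐂₁ y) = ♯(𝐂₁ x)

theorem Hd.eq (h : Hd x) (y1 : y ≠ 1) (l : 𝐂₁ x ≤ 𝐂₁ y) : 𝐂₁ x = 𝐂₁ y :=
  eq_of_card_eq l (h y y1 (card_dvd l)).symm

theorem Hd.of_eq (h : Hd x) (e : ♯(𝐂₁ y) = ♯(𝐂₁ x)) : Hd y := fun u u1 d => e ▸ h u u1 (e ▸ d)

theorem cent1_pi (px : PiElt π x) (py : PiElt πᶜ y) (c : y ∈ 𝐂₁ x) : 𝐂₁ (x * y) = 𝐂₁ x ⊓ 𝐂₁ y :=
  cent1_mul (mem_cent1.1 c).symm (px.coprime py)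

theorem mul_ne_one (px : PiElt π x) (py : PiElt πᶜ y) (x1 : x ≠ 1) : x * y ≠ 1 := fun e =>
  x1 (px.eq_one (by rw [eq_inv_of_mul_eq_one_left e]; exact py.inv))

theorem inf_lt (h : w ∉ 𝐂 L) : L ⊓ 𝐂₁ w < L :=
  lt_of_le_of_ne inf_le_left fun e => h (le_cent1_iff.1 (inf_eq_left.1 e))

theorem pi_two (o : orderOf t = 2) : PiElt {2} t := by rw [PiElt, o]; exact piNat_self Nat.prime_two

theorem ne_one_of (hp : p.Prime) (o : orderOf t = p) : t ≠ 1 := fun e => hp.one_lt.ne (by simpa [e] using o)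

/-- at most one even centralizer order is not maximal -/
def Onh (G : Type*) [Group G] (c : ℕ) : Prop := ∀ x : G, x ≠ 1 → 2 ∣ ♯(𝐂₁ x) → Hd x ∨ ♯(𝐂₁ x) = c

namespace Onh
variable (h : Onh G c)
include h

theorem sub (x1 : x ≠ 1) (px : PiElt π x) (pw : PiElt πᶜ w) (hw : w ∈ 𝐂₁ x) (n : w ∉ 𝐂 (𝐂₁ x))
    (d : 2 ∣ ♯(𝐂₁ x ⊓ 𝐂₁ w)) : ♯(𝐂₁ x ⊓ 𝐂₁ w) = c := by
  have l := inf_lt n
  rw [← cent1_pi px pw hw] at d l ⊢
  exact (h _ (mul_ne_one px pw x1) d).resolve_left fun k => l.ne (k.eq x1 l.le)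

theorem sub2 (x1 : x ≠ 1) (px : PiElt {2} x) (pw : PiElt {2}ᶜ w) (hw : w ∈ 𝐂₁ x) (n : w ∉ 𝐂 (𝐂₁ x)) :
    ♯(𝐂₁ x ⊓ 𝐂₁ w) = c :=
  h.sub x1 px pw hw n ((px.zpowers.dvd_card (by simpa using x1)).trans (card_dvd
    (zpowers_le.2 ⟨self_mem_cent1 x, mem_cent1_comm.1 hw⟩)))

theorem sol (x1 : x ≠ 1) (px : PiElt {2} x) : Sol (𝐂₁ x) := by
  rcases camina Nat.prime_two fun u hu v hv pu nu pv nv =>
    (h.sub2 x1 px pu hu nu).trans (h.sub2 x1 px pv hv nv).symm with ⟨K, hK, a⟩ | ⟨q, -, -, k⟩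
  · exact sol_of_abel_hall Nat.prime_two hK a
  · exact sol_of_two k

theorem card (x1 : x ≠ 1) (px : PiElt {2} x) (n : ¬ Hd x) : ♯(𝐂₁ x) = c :=
  (h x x1 ((px.zpowers.dvd_card (by simpa using x1)).trans (card_dvd
    (zpowers_le.2 (self_mem_cent1 x))))).resolve_left n

theorem hall (x1 : x ≠ 1) (px : PiElt {2} x) (n : ¬ Hd x) :
    Hall {2}ᶜ (𝐎 {2}ᶜ (𝐙 (𝐂₁ x))) (𝐂₁ x) := hall_O_center fun w hw pw => by
  by_contra k
  exact (card_lt (inf_lt k)).ne ((h.sub2 x1 px pw hw k).trans (h.card x1 px n).symm)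

variable (o : orderOf t = 2) (b : ¬ NPC 2 (𝐂₁ t))
include o b

theorem odd (hw : w ∈ 𝐂₁ t) (w1 : w ≠ 1) (pw : PiElt {2}ᶜ w) : ♯(𝐂₁ t ⊓ 𝐂₁ w) = c := by
  have t1 := ne_one_of Nat.prime_two o
  refine h.sub2 t1 (pi_two o) pw hw fun k => b (Nil.npc ?_ 2)
  by_cases hd : Hd t
  swap
  · exact nil_of_cent (h.hall t1 (pi_two o) hd) ((O_le _ _).trans inf_le_right)
  have e := hd.eq w1 (le_cent1_iff.2 k)
  obtain ⟨r, A, -, hA, l⟩ := ito_pp (c := c) (h.sol t1 (pi_two o)) fun q hq u hu pu nu => by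
    by_cases q2 : q = 2
    · subst q2
      have : t ∈ 𝐂₁ t ⊓ 𝐂₁ u := ⟨self_mem_cent1 t, mem_cent1_comm.1 hu⟩
      rw [e] at hu nu this ⊢
      exact h.sub w1 pw pu.compl_compl hu nu (o ▸ orderOf_dvd_card' this)
    · exact h.sub2 t1 (pi_two o) (pu.of_single' q2) hu nu
  exact nil_of_cent hA l

theorem idx : ∃ q s, ♯(𝐂₁ t) = c * q ∧ PiNat {2} q ∧ ¬ q ∣ 2 ∧ s.Prime ∧ s ≠ 2 ∧ s ∣ c := by
  have s := h.sol (ne_one_of Nat.prime_two o) (pi_two o)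
  obtain ⟨A, hA⟩ := s.exists_hall {2}ᶜ
  have A1 : ¬ A ≤ 𝐎 {2}ᶜ (𝐂₁ t) := fun l => b (hA.hall_O_of_le l)
  obtain ⟨r, hr, d⟩ := exists_prime_dvd_card (H := A) fun e => A1 (e ▸ bot_le)
  obtain ⟨w, hw, ow⟩ := exists_mem_orderOf_eq hr d
  have k := fun w (hw : w ∈ A) w1 => h.odd o b (hA.le hw) w1 (hA.pi.elt hw)
  have e := (BG.card_mul_relIndex (inf_le_left : 𝐂₁ t ⊓ 𝐂₁ w ≤ _)).symm
  rw [k w hw (ne_one_of hr ow)] at e
  refine ⟨_, r, e, pi_index (fun _ => h.odd o b) e, fun d2 => A1 fun u hu => ?_, hr, hA.pi r hr d,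
    k w hw (ne_one_of hr ow) ▸ ow ▸ orderOf_dvd_card' ⟨hA.le hw, self_mem_cent1 w⟩⟩
  by_cases u1 : u = 1
  · exact u1 ▸ one_mem _
  have i := relIndex_of_card (L := 𝐂₁ t) (u := u) (by rw [k u hu u1]; exact e)
  have n : 𝐂₁ t ⊓ 𝐂₁ u ⊴ 𝐂₁ t := ⟨inf_le_left, by
    rcases (Nat.dvd_prime Nat.prime_two).1 d2 with d | d
    · rw [inf_eq_left.2 (relIndex_eq_one.1 (i.trans d))]; exact le_norm_self _
    · exact norm_of_two (i.trans d)⟩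
  exact O_le_O_of_normal (n.char inf_le_left (norm_center _)) _ (mem_O_center
    ⟨⟨hA.le hu, self_mem_cent1 u⟩, le_cent1_iff.1 inf_le_right⟩ (hA.pi.elt hu))

theorem hd (hg : g ∈ 𝐂₁ t) (g1 : g ≠ 1) (pg : PiElt {2} g) : Hd g := by
  by_contra n
  obtain ⟨q, -, e, pq, -⟩ := h.idx o b
  have k := h.hall g1 pg n
  have z : 𝐎 {2}ᶜ (𝐙 (𝐂₁ g)) ≤ 𝐂 (𝐂₁ g) := (O_le _ _).trans inf_le_right
  have l : 𝐎 {2}ᶜ (𝐙 (𝐂₁ g)) ≤ 𝐂₁ t ⊓ 𝐂₁ g :=
    le_inf (z.trans (cent_le_cent1 (mem_cent1_comm.1 hg))) k.le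
  have l2 := (le_O ⟨l, norm_of_cent' (cent_mono z le_rfl inf_le_right)⟩ k.pi).trans (cent_zpowers g ▸
    (h.sol (ne_one_of Nat.prime_two o) (pi_two o)).O_cent_le (zpowers_le.2 hg) pg.zpowers)
  refine b (npc_of_normal (O_normal _ _) (O_pi _ _) (PiNat.dvd ?_ (relIndex_dvd_left _ l2)))
  have e1 := BG.card_mul_relIndex (l.trans inf_le_left)
  rw [e, ← h.card g1 pg n, ← k.card_mul, mul_assoc] at e1
  rw [Nat.eq_of_mul_eq_mul_left (BG.card_pos' _) e1]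
  exact k.idx.of_compl_compl.mul pq

theorem sq (hS : Syl 2 S (𝐂₁ t)) (hg : g ∈ S) : g ^ 2 = 1 := by
  have t1 := ne_one_of Nat.prime_two o
  have tS : t ∈ S := hS.mem_of_norm (self_mem_cent1 t) (cent_le_norm _ (le_cent1_iff.1 hS.le)) (pi_two o)
  have t2 : t ^ 2 = 1 := o ▸ pow_orderOf_eq_one t
  have hd := fun g (hg : g ∈ S) g1 => h.hd o b (hS.le hg) g1 (hS.pi.elt hg)
  have key : ∀ g ∈ S, g ^ 2 ≠ 1 → g ∈ 𝐂 (𝐂₁ t) := fun g hg g2 => by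
    have e : ∀ g ∈ S, g ^ 2 ≠ 1 → 𝐂₁ g = 𝐂₁ (g ^ 2) := fun g hg g2 =>
      (hd g hg fun e => g2 (by simp [e])).eq g2 (Fgs1.cent1_le_of_mem_zpowers (npow_mem_zpowers g 2))
    have c : Commute g t := mem_cent1.1 (hS.le hg)
    have e2 : (g * t) ^ 2 = g ^ 2 := by rw [c.mul_pow, t2, mul_one]
    have e3 := e _ (mul_mem hg tS) (e2 ▸ g2)
    rw [e2, ← e g hg g2] at e3
    refine le_cent1_iff.1 ((hd g hg fun e => g2 (by simp [e])).eq t1 fun a ha => ?_).ge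
    simpa using mul_mem (inv_mem (mem_cent1_comm.1 ha)) (mem_cent1_comm.1 (e3.ge ha)) |> mem_cent1_comm.1
  by_contra g2
  refine b (hS.burnside (inf_le_left.trans (cent_symm fun u hu => ?_)))
  by_cases u2 : u ^ 2 = 1
  · have c : Commute u g := mem_cent.1 (key g hg g2) u (hS.le hu)
    simpa using mul_mem (key _ (mul_mem hu hg) (by rwa [c.mul_pow, u2, one_mul])) (inv_mem (key g hg g2))
  · exact key u hu u2

theorem abel : ∃ S : Subgroup G, Syl 2 S ⊤ ∧ Abel S := by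
  obtain ⟨V, hV⟩ := exists_syl 2 (𝐂₁ t)
  obtain ⟨S, hS, l⟩ := exists_syl_le le_top hV.pi
  have sq := fun g (hg : g ∈ V) => h.sq o b hV hg
  have aV := abel_of_sq sq
  refine ⟨S, hS, by_contra fun na => ?_⟩
  have t2 : t ^ 2 = 1 := o ▸ pow_orderOf_eq_one t
  have tV : t ∈ V := hV.mem_of_norm (self_mem_cent1 t) (cent_le_norm _ (le_cent1_iff.1 hV.le)) (pi_two o)
  have V1 := ne_bot_of_mem tV (ne_one_of Nat.prime_two o)
  obtain ⟨z, hz, oz⟩ := exists_mem_orderOf_eq Nat.prime_two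
    ((hS.pi.le inf_le_left).dvd_card (hS.pi.center_ne_bot (ne_bot_mono V1 l)))
  have z1 := ne_one_of Nat.prime_two oz
  have lz := le_cent1_iff.2 hz.2
  have np : NPC 2 (𝐂₁ z) := by_contra fun k =>
    na (abel_of_sq fun g hg => h.sq oz k (hS.of_le lz le_top) hg)
  have eV : V = S ⊓ 𝐂₁ t := hV.eq_of_le (le_inf l hV.le) inf_le_right hS.pi.inf_left
  obtain ⟨a, ha, na⟩ := SetLike.exists_of_lt (hS.pi.nil.lt_inf_norm
    (lt_of_le_of_ne l fun e => na (e ▸ aV)))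
  obtain ⟨a, ha', na, a2⟩ := exists_pow_mem Nat.prime_two (hS.pi.elt ha.1) na
  replace ha := zpowers_le.2 ha ha'
  obtain ⟨g, hg, ng, g2, g1⟩ : ∃ g ∈ S, g ∉ V ∧ g ^ 2 ∈ V ∧ g ^ 2 ≠ 1 := by
    by_cases a1 : a ^ 2 = 1
    swap
    · exact ⟨a, ha.1, na, a2, a1⟩
    refine ⟨a * t, mul_mem ha.1 (l tV), by rwa [mul_mem_cancel_right tV], ?_, fun e => na ?_⟩
    · rw [show (a * t) ^ 2 = a * t * a⁻¹ * a ^ 2 * t by rw [pow_two, pow_two]; group]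
      exact mul_mem (mul_mem (conj_mem_of_norm ha.2 tV) a2) tV
    · have i : ∀ x : G, x ^ 2 = 1 → x⁻¹ = x := fun x hx =>
        inv_eq_of_mul_eq_one_right (by rw [← pow_two, hx])
      refine eV ▸ ⟨ha.1, mem_cent1.2 ?_⟩
      rw [← i _ e, mul_inv_rev, i a a1, i t t2]
  have g0 : g ≠ 1 := fun e => g1 (by simp [e])
  have nh : ¬ Hd g := fun k => ng (eV ▸ ⟨hg, mem_cent1_comm.1 ((k.eq g1
    (Fgs1.cent1_le_of_mem_zpowers (npow_mem_zpowers g 2))).ge (mem_cent1.2 (aV.mul_comm tV g2)))⟩)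
  obtain ⟨q, s, e, pq, q2, hs, s2, ds⟩ := h.idx o b
  have k := h.hall g0 (hS.pi.elt hg) nh
  have B1 : 𝐎 {2}ᶜ (𝐂₁ z) ≠ ⊥ := ne_bot_mono (k.ne_bot hs s2 (h.card g0 (hS.pi.elt hg) nh ▸ ds))
    (np.le_O ((O_le _ _).trans (inf_le_right.trans (cent_le_cent1 (mem_cent1_comm.1 (lz hg))))) k.pi)
  have eV := (Abelem.mk' Nat.prime_two aV sq).elem le_rfl
  obtain ⟨m, hm⟩ := Nat.exists_eq_succ_of_ne_zero (hV.pi.logn_pos.2 V1).ne'
  rw [hm] at eV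
  obtain ⟨U, hU, U1⟩ := eV.exists_cent_ne_bot ((l.trans lz).trans (O_normal _ _).norm) (O_pi _ _) B1
  obtain ⟨w, hw, w1⟩ := exists_mem_ne_one U1
  have pw := (O_pi _ _).elt hw.1
  have d : ♯U ∣ c := by
    by_cases c : w ∈ 𝐂 (𝐂₁ z)
    · rw [← h.odd o b (cent_le_cent1 (lz (l tV)) c) w1 pw]
      exact card_dvd (le_inf (hU.le.trans hV.le) (le_cent1_iff.2 hw.2))
    · rw [← h.sub2 z1 (pi_two oz) pw (O_le _ _ hw.1) c]
      exact card_dvd (le_inf (hU.le.trans (l.trans lz)) (le_cent1_iff.2 hw.2))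
  have := hV.dvd_card (e ▸ Nat.mul_dvd_mul_right d q) (hU.pi.mul pq)
  rw [eV.card, hU.card, pow_succ] at this
  exact q2 (Nat.dvd_of_mul_dvd_mul_left (pow_pos two_pos m) this)

end Onh

end CF.Fgs2.It
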