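import Cfsg.Agent.Fgs2.It2

/-! Simple groups with two maximal centralizer orders. -/

set_option autoImplicit false
set_option linter.unusedSectionVars false

namespace CF.Fgs2.It
open Subgroup CF.BG CF.SolvStr CF.Fgs1
open scoped commutatorElement

variable {G : Type*} [Group G] [Finite G] {π : Set ℕ} {A H K L N P S : Subgroup G} {g t u w x y z : G}
  {a b c p q r : ℕ}

theorem ind_dvd (h : ♯(𝐂₁ x) ∣ ♯(𝐂₁ y)) : ind y ∣ ind x := by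
  obtain ⟨k, hk⟩ := h
  refine ⟨k, Nat.eq_of_mul_eq_mul_left (BG.card_pos' (𝐂₁ x)) ?_⟩
  rw [card_mul_ind, ← card_mul_ind y, hk]; ring

theorem dvd_cent (px : PiElt {p} x) (x1 : x ≠ 1) (hx : x ∈ K) : p ∣ ♯K :=
  (px.zpowers.dvd_card (by simpa using x1)).trans (card_dvd (zpowers_le.2 hx))

theorem card_inf_mul (h : (ind x).Coprime (ind y)) : ♯(𝐂₁ x ⊓ 𝐂₁ y) * ind y = ♯(𝐂₁ x) := by
  have d : ind y ∣ (𝐂₁ y).relIndex (𝐂₁ x) := h.symm.dvd_of_dvd_mul_right (by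
    rw [← inf_relIndex_right, ind, relIndex_mul_index inf_le_right]; exact index_dvd_of_le inf_le_left)
  have l : (𝐂₁ y).relIndex (𝐂₁ x) ≤ ind y := by
    rw [ind, ← relIndex_top_right]
    exact relIndex_le_of_le_right le_top (relIndex_ne_zero' _ _)
  rw [← le_antisymm l (Nat.le_of_dvd (relIndex_pos _ _) d), inf_comm, card_inf_mul_relIndex]

section
variable [IsSimpleGroup G] (ns : ¬ Sol (⊤ : Subgroup G))

theorem eq_top (n : ⊤ ≤ 𝐍 N) (N1 : N ≠ ⊥) : N = ⊤ :=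
  (IsSimpleGroup.eq_bot_or_eq_top_of_normal N (normalIn_top.1 ⟨le_top, n⟩)).resolve_left N1

include ns

theorem eq_bot (n : ⊤ ≤ 𝐍 N) (s : Sol N) : N = ⊥ := by_contra fun k => ns (eq_top n k ▸ s)

theorem center_bot : center G = ⊥ :=
  eq_bot ns (norm_center_top ⊤) (Abel.sol (center_le_cent _))

theorem npp (x1 : x ≠ 1) (hp : p.Prime) : ¬ PiNat {p} (ind x) := fun h => by
  obtain ⟨k, e⟩ := h.exists_pow (ind_pos x).ne'
  obtain ⟨N, n, s, hx⟩ := kazarin hp G x k e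
  exact x1 (eq_one_of_mem_bot (eq_bot ns (normalIn_top.2 n).norm s) hx)

theorem ncomm (x1 : x ≠ 1) (y1 : y ≠ 1) (h : (ind x).Coprime (ind y)) : y ∉ 𝐂₁ x := fun k => by
  have : normalClosure {y} ≤ 𝐂₁ x := (closure_le _).2 fun u hu => by
    obtain ⟨v, hv, hc⟩ := Group.mem_conjugatesOfSet_iff.1 hu
    obtain ⟨g, rfl⟩ := isConj_iff.1 hc
    obtain ⟨l, hl, e⟩ := exists_conj_cent1 h (conj_mem_cls g y)
    rw [show v = y from hv]
    exact e ▸ mul_mem (mul_mem hl k) (inv_mem hl)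
  rw [eq_top (N := normalClosure {y}) (normalIn_top.2 inferInstance).norm
    (ne_bot_of_mem (subset_normalClosure rfl) y1), top_le_iff,
    cent1_eq_top, center_bot ns] at this
  exact x1 this

theorem nnpc (hp : p.Prime) (d : p ∣ Nat.card G) : ¬ NPC p (⊤ : Subgroup G) := fun h => by
  by_cases e : 𝐎 {p}ᶜ (⊤ : Subgroup G) = ⊥
  · have := h.idx.of_compl_compl
    rw [e, relIndex_bot_left] at this
    exact ns (PiGrp.sol this)
  · have := O_pi {p}ᶜ (⊤ : Subgroup G)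
    rw [eq_top (O_normal _ _).norm e] at this
    exact this.not_dvd' hp rfl (by rwa [card_top'])

end

/-- `a` and `b` are the maximal centralizer orders -/
structure Tw (G : Type*) [Group G] (a b : ℕ) : Prop where
  ea : a ∈ cos G
  eb : b ∈ cos G
  dvd : ∀ u : G, u ≠ 1 → ♯(𝐂₁ u) ∣ a ∨ ♯(𝐂₁ u) ∣ b
  ab : ¬ a ∣ b
  ba : ¬ b ∣ a

namespace Tw
variable (h : Tw G a b)
include h

theorem symm : Tw G b a := ⟨h.eb, h.ea, fun u u1 => (h.dvd u u1).symm, h.ba, h.ab⟩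

theorem hd (e : ♯(𝐂₁ x) = a) : Hd x := fun y y1 d =>
  (h.dvd y y1).elim (fun k => Nat.dvd_antisymm (e ▸ k) d) fun k => absurd (e ▸ d.trans k) h.ab

theorem ne_one (e : ♯(𝐂₁ x) = a) : x ≠ 1 := by
  rintro rfl
  obtain ⟨y, -, ey⟩ := h.eb
  exact h.ba (e ▸ ey ▸ card_dvd (by simp))

theorem part : ∃ (p : ℕ) (x : G), p.Prime ∧ orderOf x = p ∧ ♯(𝐂₁ x) = a := by
  obtain ⟨x, x1, e⟩ := h.ea
  obtain ⟨p, hp, d⟩ := exists_prime_dvd_card (H := zpowers x) (by simpa using x1)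
  obtain ⟨u, hu, o⟩ := exists_mem_orderOf_eq hp d
  exact ⟨p, u, hp, o, ((h.hd e).eq (ne_one_of hp o) (Fgs1.cent1_le_of_mem_zpowers hu)) ▸ e⟩

variable (ex : ♯(𝐂₁ x) = a) (ey : ♯(𝐂₁ y) = b)
include ex ey

theorem cop : (ind x).Coprime (ind y) := coprime_of_primes fun s hs d1 d2 => by
  obtain ⟨S, hS⟩ := exists_syl s (⊤ : Subgroup G)
  obtain ⟨z, -, z1, -, -, n⟩ := exists_central hs hS (d1.trans (ind_dvd_card x))
  rcases h.dvd z z1 with k | k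
  · exact n (d1.trans (ind_dvd (ex ▸ k)))
  · exact n (d2.trans (ind_dvd (ey ▸ k)))

theorem card : ♯(𝐂₁ x ⊓ 𝐂₁ y) = a.gcd b := by
  have e1 := card_inf_mul (h.cop ex ey)
  have e2 := card_inf_mul (h.cop ex ey).symm
  rw [inf_comm] at e2
  rw [← ex, ← ey, ← e1, ← e2, Nat.gcd_mul_left, (h.cop ex ey).symm, mul_one]

variable [IsSimpleGroup G] (ns : ¬ Sol (⊤ : Subgroup G))
include ns

theorem nc : y ∉ 𝐂₁ x := ncomm ns (h.ne_one ex) (h.symm.ne_one ey) (h.cop ex ey)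

theorem big (px : PiElt {p} x) (hP : Syl p P (𝐂₁ x ⊓ 𝐂₁ y)) :
    PiGrp {p} (P ⊔ zpowers x) ∧ p * ♯P ∣ ♯(P ⊔ zpowers x) ∧ P ⊔ zpowers x ≤ 𝐂₁ x := by
  have l : P ≤ 𝐂₁ x := hP.le.trans inf_le_left
  have k := hP.pi.sup px.zpowers (Or.inl (norm_of_cent (cent_zpowers x ▸ l)))
  refine ⟨k, ?_, sup_le l (zpowers_le.2 (self_mem_cent1 x))⟩
  rw [← BG.card_mul_relIndex (le_sup_left : P ≤ P ⊔ zpowers x), mul_comm]
  refine Nat.mul_dvd_mul_left _ ?_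
  obtain ⟨n, hn⟩ := (k.relIndex P).exists_pow (relIndex_ne_zero' _ _)
  refine hn ▸ dvd_pow_self p fun e => h.nc ex ey ns (mem_cent1_comm.1 (hP.le ?_).2)
  exact relIndex_eq_one.1 (by rw [hn, e, pow_zero]) (mem_sup_right (mem_zpowers x))

theorem nd (hp : p.Prime) (hP : Syl p P (𝐂₁ x ⊓ 𝐂₁ y)) : ¬ p * ♯P ∣ a.gcd b := fun d =>
  (Nat.le_of_dvd (BG.card_pos' P) (hP.dvd_card (h.card ex ey ▸ d) ((piNat_self hp).mul hP.pi))).not_gt
    (lt_mul_of_one_lt_left (BG.card_pos' P) hp.one_lt)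

theorem ne (hp : p.Prime) (px : PiElt {p} x) (py : PiElt {r} y) : p ≠ r := by
  rintro rfl
  obtain ⟨P, hP⟩ := exists_syl p (𝐂₁ x ⊓ 𝐂₁ y)
  obtain ⟨-, d1, l1⟩ := h.big ex ey ns px hP
  obtain ⟨-, d2, l2⟩ := h.symm.big ey ex ns py (inf_comm (𝐂₁ x) _ ▸ hP)
  exact h.nd ex ey ns hp hP (Nat.dvd_gcd (ex ▸ d1.trans (card_dvd l1)) (ey ▸ d2.trans (card_dvd l2)))

theorem step (hp : p.Prime) (px : PiElt {p} x) (d : p ∣ a.gcd b) : ∃ w n, w ≠ 1 ∧ PiElt {p} w ∧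
    w ∈ 𝐂₁ x ⊓ 𝐂₁ y ∧ PiNat {p} n ∧ n ∣ ♯(𝐂₁ w) ∧ ¬ n ∣ b ∧ ♯(𝐂₁ w) ∣ a ∧ ♯(𝐂₁ w) ≠ a := by
  obtain ⟨P, hP⟩ := exists_syl p (𝐂₁ x ⊓ 𝐂₁ y)
  obtain ⟨k, d1, l1⟩ := h.big ex ey ns px hP
  obtain ⟨w, hw, w1⟩ := exists_mem_ne_one (hP.pi.center_ne_bot (hP.syl_ne_bot hp (h.card ex ey ▸ d)))
  have d2 : ♯(P ⊔ zpowers x) ∣ ♯(𝐂₁ w) := card_dvd (sup_le (le_cent1_iff.2 hw.2)
    (zpowers_le.2 (mem_cent1_comm.1 (hP.le hw.1).1)))
  have n : ¬ ♯(P ⊔ zpowers x) ∣ b := fun e =>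
    h.nd ex ey ns hp hP (d1.trans (Nat.dvd_gcd (ex ▸ card_dvd l1) e))
  exact ⟨w, _, w1, hP.pi.elt hw.1, hP.le hw.1, k, d2, n, (h.dvd w w1).resolve_right fun e => n (d2.trans e),
    fun e => h.nc e ey ns (mem_cent1_comm.1 (hP.le hw.1).2)⟩

theorem dvd_gcd (px : PiElt {p} x) (hr : r.Prime) (py : PiElt {r} y) (e : a.gcd b ≠ 1) : p ∣ a.gcd b := by
  have k : ∀ w ∈ 𝐂₁ x, ♯(𝐂₁ w) ∣ b → p ∣ a.gcd b := fun w hw d => Nat.dvd_gcd
    (ex ▸ dvd_cent px (h.ne_one ex) (self_mem_cent1 x))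
    ((dvd_cent px (h.ne_one ex) (mem_cent1_comm.1 hw)).trans d)
  rw [← h.card ex ey, Ne, card_eq_one'] at e
  obtain ⟨w, hw, w1⟩ := exists_mem_ne_one e
  refine (h.dvd w w1).elim (fun d => ?_) (k w hw.1)
  obtain ⟨v, -, -, -, hv, -, -, -, d, -⟩ := h.symm.step ey ex ns hr py (Nat.dvd_gcd
    (ey ▸ dvd_cent py (h.symm.ne_one ey) (self_mem_cent1 y))
    ((dvd_cent py (h.symm.ne_one ey) (mem_cent1_comm.1 hw.2)).trans d))
  exact k v hv.2 d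

omit ex ey in
theorem coprime (h5 : (cos G).ncard ≤ 5) : a.Coprime b := by
  by_contra e
  obtain ⟨p, x, hp, ox, ex⟩ := h.part
  obtain ⟨r, y, hr, oy, ey⟩ := h.symm.part
  have px : PiElt {p} x := piElt_of_pow_eq_one hp (ox ▸ pow_orderOf_eq_one x)
  have py : PiElt {r} y := piElt_of_pow_eq_one hr (oy ▸ pow_orderOf_eq_one y)
  have y1 := h.symm.ne_one ey
  have pr := h.ne ex ey ns hp px py
  have py' : PiElt {p}ᶜ y := py.of_single' pr.symm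
  obtain ⟨w, n, w1, pw, hw, -, dn, nb, wa, wa'⟩ := h.step ex ey ns hp px (h.dvd_gcd ex ey ns px hr py e)
  obtain ⟨v, k, v1, -, -, pk, dk, ka, vb, vb'⟩ := h.symm.step ey ex ns hr py
    (h.symm.dvd_gcd ey ex ns py hp px (by rwa [Nat.gcd_comm]))
  have wb : ¬ ♯(𝐂₁ w) ∣ b := fun d => nb (dn.trans d)
  have va : ¬ ♯(𝐂₁ v) ∣ a := fun d => ka (dk.trans d)
  have yw := mem_cent1_comm.1 hw.2
  have c1 : ♯(𝐂₁ w ⊓ 𝐂₁ y) ∣ a := (card_dvd inf_le_left).trans wa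
  have c2 : ♯(𝐂₁ w ⊓ 𝐂₁ y) ∣ b := ey ▸ card_dvd inf_le_right
  have all : ∀ u : G, u ≠ 1 → ♯(𝐂₁ u) ∈ ({♯(𝐂₁ w ⊓ 𝐂₁ y), ♯(𝐂₁ w), ♯(𝐂₁ v), a, b} : Set ℕ) := by
    have ab : a ≠ b := fun e => h.ab e.dvd
    refine fun u u1 => (Set.eq_of_subset_of_ncard_le (t := cos G) ?_ (h5.trans (Eq.le ?_)) cos_finite).ge
      ⟨u, u1, rfl⟩
    · rintro _ (rfl | rfl | rfl | rfl | rfl)
      exacts [⟨_, mul_ne_one pw py' w1, by rw [cent1_pi pw py' yw]⟩, ⟨w, w1, rfl⟩, ⟨v, v1, rfl⟩, h.ea, h.eb]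
    · rw [Set.ncard_insert_of_notMem, Set.ncard_insert_of_notMem, Set.ncard_insert_of_notMem, Set.ncard_pair ab]
      · rintro (e | e)
        exacts [va e.dvd, vb' e]
      · rintro (e | e | e)
        exacts [va (e ▸ wa), wa' e, wb (Eq.dvd e)]
      · rintro (e | e | e | e)
        exacts [wb (e ▸ c2), va (e ▸ c1), h.ab (e ▸ c2), h.ba (Eq.symm e ▸ c1)]
  have ec := card_inf_mul_relIndex (𝐂₁ y) (𝐂₁ w)
  rw [inf_comm] at ec
  have key : ∀ q, q.Prime → q ∣ (𝐂₁ y).relIndex (𝐂₁ w) → q = p ∨ q = r := by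
    have sub : ∀ u ∈ 𝐂₁ w, PiElt {p}ᶜ u → u ∉ 𝐂 (𝐂₁ w) → ♯(𝐂₁ w ⊓ 𝐂₁ u) = ♯(𝐂₁ w ⊓ 𝐂₁ y) := by
      intro u hu pu nu
      have d : ♯(𝐂₁ w ⊓ 𝐂₁ u) ∣ ♯(𝐂₁ w) := card_dvd inf_le_left
      have := all _ (mul_ne_one pw pu w1)
      rw [cent1_pi pw pu hu] at this
      rcases this with e | e | e | e | e
      · exact e
      · exact absurd e (card_lt (inf_lt nu)).ne
      · exact absurd (e ▸ d.trans wa) va
      · exact absurd (Nat.dvd_antisymm wa (e ▸ d)) wa'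
      · exact absurd (Eq.symm e ▸ d.trans wa) h.ba
    intro q hq d
    rcases camina hp fun u hu v hv pu nu pv nv => (sub u hu pu nu).trans (sub v hv pv nv).symm with
      ⟨A, hA, a⟩ | ⟨s, -, -, k⟩
    · obtain ⟨g, hg, l⟩ := hA.le_cj (sol_of_abel_hall hp hA a) (zpowers_le.2 yw) py'.zpowers
      exact Or.inl (((hA.cj_of_mem hg).idx_of_le (le_cent1_iff.2 (abel_cj.2 a (l (mem_zpowers y))))).of_compl_compl
        q hq d)
    · by_contra n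
      rw [not_or] at n
      have rs : r = s := by_contra fun c =>
        h.nc ex ey ns (cent_le_cent1 (mem_cent1_comm.1 hw.1) (k y yw py' (py.of_single' c)))
      obtain ⟨Q, hQ⟩ := exists_syl q (𝐂₁ w)
      exact (hQ.idx_of_le fun u hu => cent_le_cent1 yw (k u (hQ.le hu) ((hQ.pi.elt hu).of_single' n.1)
        ((hQ.pi.elt hu).of_single' (rs ▸ n.2)))).not_dvd' hq rfl d
  refine npp ns y1 hp fun q hq d => (key q hq ?_).resolve_right ?_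
  · obtain ⟨m, pm, dm, mb⟩ : ∃ m, PiNat {q} m ∧ m ∣ ♯(𝐂₁ w) ∧ ¬ m ∣ b := by
      obtain ⟨Q, hQ⟩ := exists_syl q (⊤ : Subgroup G)
      obtain ⟨z, -, z1, pz, l, -⟩ := exists_central hq hQ (d.trans (ind_dvd_card y))
      have nQ : ¬ ♯Q ∣ b := fun k => hQ.not_dvd hq (Nat.dvd_of_mul_dvd_mul_left (BG.card_pos' Q) (by
        rw [hQ.card_mul, card_top', ← card_mul_ind y, ey]; exact Nat.mul_dvd_mul k d))
      have T : ∀ u : G, u ≠ 1 → ¬ ♯(𝐂₁ u) ∣ b → ♯(𝐂₁ u) = ♯(𝐂₁ w) ∨ ♯(𝐂₁ u) = a := fun u u1 k => by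
        rcases all u u1 with e | e | e | e | e
        exacts [absurd (e ▸ c2) k, Or.inl e, absurd (e ▸ vb) k, Or.inr e, absurd (Eq.dvd e) k]
      rcases T z z1 fun k => nQ ((card_dvd l).trans k) with e' | e'
      · exact ⟨_, hQ.pi, e' ▸ card_dvd l, nQ⟩
      obtain ⟨u, m, u1, -, -, pm, dm, mb, -, ua⟩ := h.step e' ey ns hq pz (h.dvd_gcd e' ey ns pz hr py e)
      exact ⟨m, pm, (T u u1 fun k => mb (dm.trans k)).resolve_right ua ▸ dm, mb⟩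
    by_contra c
    rw [← ec] at dm
    exact mb (((pm.coprime ((piNat_compl_single hq).2 c)).dvd_of_dvd_mul_right dm).trans c2)
  · rintro rfl
    have e2 := card_inf_mul (h.cop ex ey).symm
    rw [ey] at e2
    rw [← e2] at vb
    exact ka (((pk.coprime ((piNat_compl_single hq).2 (not_dvd_of_coprime (h.cop ex ey).symm hq d))).dvd_of_dvd_mul_right
      (dk.trans vb)).trans (ex ▸ card_dvd inf_le_right))

end Tw

end CF.Fgs2.It
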