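import Cfsg.Agent.Fgs2.It3

/-! An isolated set of odd primes with two centralizer orders, I. -/

set_option autoImplicit false
set_option linter.unusedSectionVars false

namespace CF.Fgs2.It
open Subgroup CF.BG CF.SolvStr CF.Fgs1
open scoped commutatorElement

universe v
variable {G : Type v} [Group G] [Finite G] {π ρ : Set ℕ} {A B H K L N P S X : Subgroup G}
  {a g t u w x y z : G} {c n p q r s : ℕ}

/-- `π` is a set of odd primes, `n` the `π`-part of the group order, and the centralizers of the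
`π`-elements have order `n` or `c` -/
structure Od (G : Type v) [Group G] (π : Set ℕ) (n c : ℕ) : Prop where
  two : 2 ∉ π
  pn : PiNat π n
  card : ∃ m, PiNat πᶜ m ∧ n * m = Nat.card G
  dvd : c ∣ n
  all : ∀ x : G, x ≠ 1 → PiElt π x → ♯(𝐂₁ x) = n ∨ ♯(𝐂₁ x) = c
  npp : ∀ p, p.Prime → ¬ PiNat {p} n

/-- a nilpotent isolated subgroup of order `n` -/
def Iso (G : Type v) [Group G] (n : ℕ) : Prop :=
  ∃ K : Subgroup G, Nil K ∧ ♯K = n ∧ ∀ k ∈ K, k ≠ 1 → 𝐂₁ k ≤ K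

namespace Od
variable (h : Od G π n c)
include h

theorem n0 : n ≠ 0 := by
  obtain ⟨m, -, e⟩ := h.card
  exact left_ne_zero_of_mul (e ▸ Nat.card_pos.ne')

theorem cdvd (x1 : x ≠ 1) (px : PiElt π x) : ♯(𝐂₁ x) ∣ n :=
  (h.all x x1 px).elim Eq.dvd fun e => e ▸ h.dvd

theorem pi (x1 : x ≠ 1) (px : PiElt π x) : PiGrp π (𝐂₁ x) := h.pn.dvd (h.cdvd x1 px)

theorem odd (k : PiGrp π H) : Odd (♯H) :=
  Nat.coprime_two_right.1 ((piNat_compl_single_iff_coprime Nat.prime_two).1 (k.to_compl_single h.two))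

theorem sol (k : PiGrp π H) : Sol H := Fgs3.sol_of_odd (h.odd k)

theorem hall (e : ♯H = n) : Hall π H ⊤ := by
  obtain ⟨m, pm, k⟩ := h.card
  refine ⟨le_top, by rw [PiGrp, e]; exact h.pn, ?_⟩
  have := BG.card_mul_relIndex (le_top : H ≤ ⊤)
  rw [card_top', ← k, e] at this
  rwa [Nat.eq_of_mul_eq_mul_left (Nat.pos_of_ne_zero h.n0) this]

theorem dvd_n (k : PiGrp π H) : ♯H ∣ n := by
  obtain ⟨m, pm, e⟩ := h.card
  exact (k.coprime pm).dvd_of_dvd_mul_right (e ▸ card_subgroup_dvd_card H)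

theorem eq (e : ♯H = n) (y1 : y ≠ 1) (py : PiElt π y) (l : H ≤ 𝐂₁ y) : H = 𝐂₁ y :=
  (h.hall e).eq_of_le l le_top (h.pi y1 py)

theorem sub (x1 : x ≠ 1) (px : PiElt π x) (k : PiElt ρ x) (hw : w ∈ 𝐂₁ x) (pw : PiElt ρᶜ w)
    (nw : w ∉ 𝐂 (𝐂₁ x)) : ♯(𝐂₁ x ⊓ 𝐂₁ w) = c := by
  have l := card_lt (inf_lt nw)
  rw [← cent1_pi k pw hw] at l ⊢
  exact (h.all _ (mul_ne_one k pw x1) (px.mul ((h.pi x1 px).elt hw) (mem_cent1.1 hw).symm)).resolve_left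
    fun e => (Nat.le_of_dvd (Nat.pos_of_ne_zero h.n0) (h.cdvd x1 px)).not_gt (e ▸ l)

theorem reg (k : PiGrp π X) (g1 : g ≠ 1) (pg : PiElt πᶜ g) : X ⊓ 𝐂₁ g = ⊥ :=
  eq_bot_of_forall fun w hw => by_contra fun w1 =>
    g1 (((h.pi w1 (k.elt hw.1)).elt (mem_cent1_comm.1 hw.2)).eq_one pg)

theorem nil (k : PiGrp π X) (hq : q.Prime) (o : orderOf g = q) (nq : q ∉ π) (hg : g ∈ 𝐍 X) : Nil X :=
  nil_of_prime_fpf (H := zpowers g) (by rwa [Nat.card_zpowers, o]) (zpowers_le.2 hg) (h.sol k) (by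
    rw [cent_zpowers]
    exact h.reg k (ne_one_of hq o) (by rw [PiElt, o]; exact (piNat_prime hq).2 nq))

theorem syl (e : ♯K = n) (hp : p ∈ π) (hP : Syl p P K) : Syl p P ⊤ := hP.syl_trans (h.hall e) hp

theorem caseA (x1 : x ≠ 1) (w1 : w ≠ 1) (px : PiElt {q} x) (pw : PiElt {q}ᶜ w) (e : ♯(𝐂₁ x) = n)
    (hw : w ∈ 𝐙 (𝐂₁ x)) : Iso G n := by
  have pK := (h.hall e).pi
  have E : ∀ u ∈ 𝐙 (𝐂₁ x), u ≠ 1 → 𝐂₁ x = 𝐂₁ u := fun u hu u1 =>
    h.eq e u1 (pK.elt hu.1) (le_cent1_iff.2 hu.2)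
  obtain ⟨r, A, hr, hA, cA⟩ := ito_pp (c := c) (h.sol pK) fun s hs u hu pu nu => by
    by_cases sq : s = q
    · subst sq
      rw [E w hw w1] at hu nu ⊢
      exact h.sub w1 (pK.elt hw.1) pw hu pu.compl_compl nu
    · exact h.sub x1 (pK.elt (self_mem_cent1 x)) px hu (pu.of_single' sq) nu
  have nK := nil_of_cent hA cA
  refine ⟨_, nK, e, fun k hk k1 => ?_⟩
  by_cases c : constt {r}ᶜ k = 1
  swap
  · have : constt {r}ᶜ k ∈ A :=
      hA.mem_normal (norm_of_cent' cA) (constt_mem_of_mem _ hk) (constt_pi _ _)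
    exact (cent1_le_cent1_constt _ k).trans (E _ ⟨hA.le this, cA this⟩ c).ge
  replace c := (constt_eq_one.1 c).of_compl_compl
  obtain ⟨a, ha, a1⟩ := exists_mem_ne_one (H := A) fun k => h.npp r hr
    (e ▸ (k ▸ hA).pi'_of_eq_bot.of_compl_compl)
  have Ea := E a ⟨hA.le ha, cA ha⟩ a1
  have ak : a ∈ 𝐂₁ k := cent_le_cent1 hk (cA ha)
  by_cases z : k ∈ 𝐂 (𝐂₁ x)
  · exact (E k ⟨hk, z⟩ k1).ge
  rcases h.all k k1 (pK.elt hk) with ek | ek
  swap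
  · rw [Ea] at hk z ⊢
    exact inf_eq_right.1 (eq_of_card_eq inf_le_right
      ((h.sub a1 (hA.pi.elt ha |> fun k => pK.elt (hA.le ha)) (hA.pi.elt ha) hk c.compl_compl z).trans ek.symm))
  have rπ : r ∈ π := c.zpowers.mem_of_ne_bot (by simpa using k1) (pK.elt hk).zpowers
  obtain ⟨R, hR⟩ := exists_syl r (𝐂₁ x)
  obtain ⟨P, hP, l⟩ := exists_syl_le (zpowers_le.2 (self_mem_cent1 k)) c.zpowers
  obtain ⟨g, -, rfl⟩ := (h.syl e rπ hR).syl_conj (h.syl ek rπ hP)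
  have kR := l (mem_zpowers k)
  have e2 : cj g (𝐂₁ x) = 𝐂₁ k := h.eq (by rwa [card_cj]) k1 (pK.elt hk) (by
    rw [← hR.sup_eq hA, cj_sup]
    exact sup_le hP.le (le_cent1_iff.2 (cent_symm (by
      rw [cj_cent_iff]; exact cent_mono cA le_rfl hR.le) kR)))
  have : a ∈ cj g A := (hA.cj g).mem_normal (norm_of_cent' (cj_cent_iff.2 cA)) (e2 ▸ ak) (hA.pi.elt ha)
  rw [← e2, Ea]
  exact le_cent1_iff.2 (Ea ▸ cj_cent_iff.2 cA this)

end Od

end CF.Fgs2.It
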