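import Cfsg.Agent.Fgs2.It4
import Cfsg.Agent.Block.Zero

/-! An isolated set of odd primes with two centralizer orders, II. -/

set_option autoImplicit false
set_option linter.unusedSectionVars false

namespace CF.Fgs2.It
open Subgroup CF.BG CF.SolvStr CF.Fgs1
open scoped commutatorElement

universe v
variable {G : Type v} [Group G] [Finite G] {π ρ : Set ℕ} {A B H K L N P S T X : Subgroup G}
  {a g t u w x y z : G} {c m n p q r s : ℕ}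

structure Bt (G : Type v) [Group G] (π : Set ℕ) (n c p m : ℕ) : Prop extends Od G π n c where
  hp : p.Prime
  pπ : p ∈ π
  e : n = c * m
  dm : p ∣ m
  nz : ∀ q (x w : G), x ≠ 1 → w ≠ 1 → PiElt {q} x → PiElt {q}ᶜ w → ♯(𝐂₁ x) = n → w ∉ 𝐙 (𝐂₁ x)

/-- a Hall `p'`-subgroup of the centralizer of a `p`-element -/
def Gd (n p : ℕ) (A : Subgroup G) : Prop :=
  ∃ z : G, z ≠ 1 ∧ PiElt {p} z ∧ ♯(𝐂₁ z) = n ∧ Hall {p}ᶜ A (𝐂₁ z)

theorem Gd.cj (h : Gd n p A) (g : G) : Gd n p (cj g A) := by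
  obtain ⟨z, z1, pz, e, k⟩ := h
  exact ⟨g * z * g⁻¹, by simpa [conj_eq_one_iff] using z1, pz.conj g, by rwa [← cj_cent1, card_cj],
    cj_cent1 g z ▸ k.cj g⟩

namespace Bt
variable (h : Bt G π n c p m)
include h

theorem nd (hP : Syl p P ⊤) : ¬ ♯P ∣ c := fun d => by
  obtain ⟨k, -, e⟩ := h.card
  refine hP.not_dvd h.hp (Nat.dvd_of_mul_dvd_mul_left (BG.card_pos' P) ?_)
  rw [hP.card_mul, card_top', ← e, h.e]
  exact (Nat.mul_dvd_mul d h.dm).mul_right k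

theorem szn (hP : Syl p P ⊤) (z1 : z ≠ 1) (pz : PiElt {p} z) (l : P ≤ 𝐂₁ z) : ♯(𝐂₁ z) = n :=
  (h.all z z1 (pz.of_single h.pπ)).resolve_right fun e => h.nd hP (e ▸ card_dvd l)

theorem subz (z1 : z ≠ 1) (pz : PiElt {p} z) (e : ♯(𝐂₁ z) = n) (hu : u ∈ 𝐂₁ z) (u1 : u ≠ 1)
    (pu : PiElt {p}ᶜ u) : ♯(𝐂₁ z ⊓ 𝐂₁ u) = c :=
  h.sub z1 (pz.of_single h.pπ) pz hu pu fun k => h.nz p z u z1 u1 pz pu e ⟨hu, k⟩

theorem exists_z (hP : Syl p P ⊤) : ∃ z ∈ 𝐙 P, z ≠ 1 ∧ PiElt {p} z ∧ ♯(𝐂₁ z) = n := by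
  obtain ⟨k, -, e⟩ := h.card
  obtain ⟨z, hz, z1, pz, l, -⟩ := exists_central h.hp hP
    (by rw [← e, h.e]; exact (h.dm.mul_left c).mul_right k)
  exact ⟨z, ⟨hz, le_cent1_iff.1 l⟩, z1, pz, h.szn hP z1 pz l⟩

theorem pm : PiNat {p} m := by
  obtain ⟨P, hP⟩ := exists_syl p (⊤ : Subgroup G)
  obtain ⟨z, -, z1, pz, e⟩ := h.exists_z hP
  exact pi_index (fun u hu u1 pu => h.subz z1 pz e hu u1 pu) (e.trans h.e)

theorem nc : ¬ n ∣ c := fun d => by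
  obtain ⟨P, hP⟩ := exists_syl p (⊤ : Subgroup G)
  exact h.nd hP ((h.dvd_n (hP.pi.of_single h.pπ)).trans d)

theorem szc (a1 : a ≠ 1) (pa : PiElt π a) (pa' : PiElt {p}ᶜ a) : ♯(𝐂₁ a) = c := by
  obtain ⟨s, hs, u, hu, pu, u1⟩ := exists_prime_part (K := ⊥) a1
  refine (h.all a a1 pa).resolve_left fun e => ?_
  have pu' := pa.of_mem_zpowers hu
  rw [h.eq e u1 pu' (Fgs1.cent1_le_of_mem_zpowers hu)] at e
  obtain ⟨P, hP⟩ := exists_syl p (𝐂₁ u)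
  have k := h.syl e h.pπ hP
  obtain ⟨z, hz, z1, pz, -⟩ := h.exists_z k
  have pz' : PiElt {s}ᶜ z := pz.of_single' fun e => u1 (pu.eq_one (e ▸ pa'.of_mem_zpowers hu))
  exact h.nd k (h.sub u1 pu' pu (hP.le hz.1) pz' (fun c => h.nz s u z u1 z1 pu pz' e ⟨hP.le hz.1, c⟩) ▸
    card_dvd (le_inf hP.le (le_cent1_iff.2 hz.2)))

theorem exists_gd (z1 : z ≠ 1) (pz : PiElt {p} z) (e : ♯(𝐂₁ z) = n) : ∃ A, Gd n p A ∧ A ≤ 𝐂₁ z := by
  obtain ⟨A, hA⟩ := (h.sol (h.hall e).pi).exists_hall {p}ᶜ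
  exact ⟨A, ⟨z, z1, pz, e, hA⟩, hA.le⟩

section
variable (k : Gd n p A)
include k

theorem piA : PiGrp π A := by
  obtain ⟨z, -, -, e, k⟩ := k
  exact (h.hall e).pi.le k.le

theorem hallA (l : A ≤ X) (pX : PiGrp π X) : Hall {p}ᶜ A X := by
  obtain ⟨z, -, -, e, k⟩ := k
  refine ⟨l, k.pi, k.idx.dvd (Nat.dvd_of_mul_dvd_mul_left (BG.card_pos' A) ?_)⟩
  rw [k.card_mul, BG.card_mul_relIndex l, e]
  exact h.dvd_n pX

theorem neA : A ≠ ⊥ := by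
  obtain ⟨z, -, -, e, k⟩ := k
  exact fun c => h.npp p h.hp (e ▸ (c ▸ k).pi'_of_eq_bot.of_compl_compl)

theorem abA : Abel A := by
  obtain ⟨z, z1, pz, e, k⟩ := k
  refine abel_hall (h.sol (h.hall e).pi) k fun u hu => ?_
  by_cases u1 : u = 1
  · rw [u1, cent1_one, relIndex_top_left]; exact piNat_one _
  rw [relIndex_of_card (by rw [h.subz z1 pz e (k.le hu) u1 (k.pi.elt hu), e]; exact h.e)]
  exact h.pm.compl_compl

theorem cent (ha : a ∈ A) (a1 : a ≠ 1) : 𝐂₁ a = 𝐂 A ∧ Abel (𝐂 A) ∧ ♯(𝐂 A) = c := by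
  have pa := (h.piA k).elt ha
  have l := le_cent1_iff.2 (h.abA k ha)
  have hA := h.hallA k l (h.pi a1 pa)
  have e := h.szc a1 pa (hA.pi.elt ha)
  have z := hall_O_center (π := {p}) (K := 𝐂₁ a) fun u hu pu => by_contra fun c =>
    (card_lt (inf_lt c)).ne ((h.sub a1 pa (hA.pi.elt ha) hu pu.compl_compl c).trans e.symm)
  have ab : Abel (𝐂₁ a) := by
    rw [← z.sup_eq hA]
    exact ((center_abel _).mono (O_le _ _)).sup (h.abA k) (cent_mono ((O_le _ _).trans inf_le_right) le_rfl l)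
  have : 𝐂₁ a = 𝐂 A := le_antisymm (cent_mono ab le_rfl l) (cent_le_cent1 ha)
  exact ⟨this, this ▸ ab, this ▸ e⟩

theorem abW : Abel (𝐂 A) ∧ ♯(𝐂 A) = c :=
  let ⟨_, ha, a1⟩ := exists_mem_ne_one (h.neA k); (h.cent k ha a1).2

theorem piW : PiGrp π (𝐂 A) := h.pn.dvd ((h.abW k).2 ▸ h.dvd)

theorem centS (l : S ≤ A) (S1 : S ≠ ⊥) : 𝐂 S = 𝐂 A :=
  let ⟨_, ha, a1⟩ := exists_mem_ne_one S1
  le_antisymm ((cent_le_cent1 ha).trans (h.cent k (l ha) a1).1.le) (cent_anti l)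

theorem normS (l : S ≤ A) (S1 : S ≠ ⊥) : 𝐍 S ≤ 𝐍 A :=
  (h.centS k l S1 ▸ norm_le_norm_cent S).trans
    ((h.abW k).1.nil.hall_norm (h.hallA k (h.abA k) (h.piW k)))

theorem sylA : ∃ s S, s.Prime ∧ S ≠ ⊥ ∧ S ≤ A ∧ Syl s S ⊤ ∧ s ∣ c := by
  obtain ⟨s, hs, d⟩ := exists_prime_dvd_card (h.neA k)
  obtain ⟨S, hS⟩ := exists_syl s A
  have l := (h.abW k).2 ▸ card_dvd (h.abA k)
  obtain ⟨z, -, -, e, k⟩ := k
  exact ⟨s, S, hs, hS.syl_ne_bot hs d, hS.le, h.syl e ((h.hall e).pi s hs (d.trans (card_dvd k.le)))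
    (hS.syl_trans k (k.pi s hs d)), d.trans l⟩

theorem conj (u1 : u ≠ 1) (pu : PiElt {p} u) : ∃ g, u ∈ 𝐂 (cj g A) := by
  obtain ⟨s, S, hs, -, l, hS, d⟩ := h.sylA k
  obtain ⟨a, ha, a1, pa⟩ := exists_piElt (H := 𝐂₁ u) hs
    ((h.all u u1 (pu.of_single h.pπ)).elim (fun e => e ▸ d.trans h.dvd) fun e => e ▸ d)
  obtain ⟨g, -, l2⟩ := hS.syl_le_cj le_top pa.zpowers
  exact ⟨g, (h.cent (k.cj g) (cj_mono g l (l2 (mem_zpowers a))) a1).1 ▸ mem_cent1_comm.1 ha⟩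

theorem centc (hu : u ∈ 𝐂 A) (e : ♯(𝐂₁ u) = c) : 𝐂 A = 𝐂₁ u :=
  eq_of_card_eq (le_cent1_iff.2 ((h.abW k).1 hu)) ((h.abW k).2.trans e.symm)

theorem nle [IsSimpleGroup G] (ns : ¬ Sol (⊤ : Subgroup G)) : ¬ 𝐍 A ≤ 𝐂 A := fun c => by
  obtain ⟨s, S, hs, S1, l, hS, -⟩ := h.sylA k
  exact nnpc ns hs ((hS.pi.dvd_card S1).trans (card_subgroup_dvd_card S))
    (hS.burnside (inf_le_right.trans (h.centS k l S1 ▸ (h.normS k l S1).trans c)))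

end

theorem zj (hP : Syl p P ⊤) : ∃ W, W ≤ P ∧ W ≠ ⊥ ∧
    ∀ x ∈ P, ♯(𝐂₁ x) = n → ∃ g ∈ 𝐍 W, ∃ z ∈ 𝐙 P, x = g * z * g⁻¹ := by
  obtain ⟨z, hz, z1, -⟩ := h.exists_z hP
  obtain ⟨W, l, W1, k⟩ := Cs.exists_zj h.hp (fun e => h.two (e ▸ h.pπ)) (fun x d => by
    obtain ⟨u, hu, u1, pu⟩ := exists_piElt (H := zpowers x) h.hp
      (by rw [Nat.card_zpowers]; exact (Dvd.intro_left _ rfl).trans d)
    exact h.two ((h.pi u1 (pu.of_single h.pπ)).elt (Fgs1.cent1_le_of_mem_zpowers hu (self_mem_cent1 x)) 2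
      Nat.prime_two ((Dvd.intro _ rfl).trans d))) hP (ne_bot_of_mem hz.1 z1)
  refine ⟨W, l, W1, fun x hx e => ?_⟩
  obtain ⟨g, hg⟩ := exists_mem_cj_cent (x := x) hP (by
    have := (h.hall e).idx
    rw [relIndex_top_right] at this
    exact this.to_compl_single' h.pπ)
  have hz := mem_cj.1 hg
  have zP : g⁻¹ * x * g ∈ P := hP.mem_of_norm trivial (cent_le_norm P hz)
    (by simpa using (hP.pi.elt hx).conj g⁻¹)
  obtain ⟨n, hn, e, he, rfl⟩ := k (zpowers (g⁻¹ * x * g)) (zpowers_le.2 zP) g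
    (by rw [cj_zpowers]; simpa [mul_assoc] using hx)
  refine ⟨n, hn, _, ⟨zP, hz⟩, ?_⟩
  have := mem_cent.1 he _ (mem_zpowers _)
  calc x = n * (e * ((n * e)⁻¹ * x * (n * e))) * e⁻¹ * n⁻¹ := by group
    _ = _ := by rw [← this]; group

section
variable (u1 : u ≠ 1) (pu : PiElt {p} u) (eu : ♯(𝐂₁ u) = c)
include u1 pu eu

theorem norm (k : Gd n p A) (e : ♯K = n) (z1 : z ≠ 1) (hz : z ∈ 𝐙 K) (pz : PiElt {p} z) (l : A ≤ K) :
    K ≤ 𝐍 A := by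
  have pK := (h.hall e).pi
  obtain ⟨P, hP⟩ := exists_syl p K
  obtain ⟨g, -, l1⟩ := (h.syl e h.pπ hP).syl_cj_le le_top pu.zpowers
  rw [cj_zpowers, zpowers_le] at l1
  replace eu : ♯(𝐂₁ (g * u * g⁻¹)) = c := by rwa [← cj_cent1, card_cj]
  obtain ⟨a, ha⟩ := h.conj k (u := g * u * g⁻¹) (by simpa [conj_eq_one_iff] using u1) (pu.conj g)
  have e1 := h.centc (k.cj a) ha eu
  have l2 : cj a A ≤ K := h.eq e z1 (pz.of_single h.pπ) (le_cent1_iff.2 hz.2) ▸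
    le_cent1_iff.2 (e1.ge (cent_le_cent1 (hP.le l1) hz.2))
  have hA := h.hallA k l pK
  have l3 := (le_O ⟨le_inf l2 (e1 ▸ h.abA (k.cj a)), norm_of_cent (inf_le_right.trans e1.ge)⟩
    (hA.pi.cj a)).trans (cent_zpowers (g * u * g⁻¹) ▸
      (h.sol pK).O_cent_le (zpowers_le.2 (hP.le l1)) (pu.conj g).zpowers)
  rw [← eq_of_card_le hA.O_le (card_cj a A ▸ BG.card_le l3)]
  exact (O_normal _ _).norm

theorem uniq (k : Gd n p A) (k' : Gd n p B) (t1 : t ≠ 1) (pt : PiElt {p} t) (l : A ≤ 𝐂₁ t)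
    (l' : B ≤ 𝐂₁ t) : B = A := by
  have pC := h.pi t1 (pt.of_single h.pπ)
  refine (h.hallA k l pC).eq_of_normal ?_ (h.hallA k' l' pC)
  rcases h.all t t1 (pt.of_single h.pπ) with e | e
  · exact h.norm u1 pu eu k e t1 (self_mem_Z t) pt l
  · exact h.centc k (le_cent1_iff.1 l) e ▸ cent_le_norm A

theorem caseI : False := by
  obtain ⟨P, hP, l⟩ := exists_syl_le le_top pu.zpowers
  have pP := hP.pi.of_single h.pπ
  have na : ¬ Abel P := fun a => h.nc ((h.szn hP u1 pu (le_cent1_iff.2 (a (l (mem_zpowers u))))).symm.trans eu).dvd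
  have der : ∀ z ∈ 𝐙 P, z ≠ 1 → ∃ A, Gd n p A ∧ A ≤ 𝐂₁ z ∧ 𝐂₁ z ≤ 𝐍 A ∧ ⁅P, P⁆ ≤ 𝐂 A := fun z hz z1 => by
    have pz := hP.pi.elt hz.1
    have lz := le_cent1_iff.2 hz.2
    have e := h.szn hP z1 pz lz
    obtain ⟨A, k, lA⟩ := h.exists_gd z1 pz e
    have nA := h.norm u1 pu eu k e z1 (self_mem_Z z) pz lA
    have n1 := lz.trans nA
    have n2 : P ≤ 𝐍 (P ⊓ 𝐂 A) := (normalIn_inf_cent n1).norm
    have n3 : A ≤ 𝐍 (P ⊓ 𝐂 A) := norm_of_le_center inf_le_right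
    have i := hP.pi.inf_eq_bot (h.hallA k le_rfl (h.piA k)).pi
    refine ⟨A, k, lA, nA, ((abel_qt_iff n2).1 (Cyc.abel ?_)).trans inf_le_right⟩
    refine Reg.cyc_of_pi (K := qt _ A) (reg_of_forall fun x hx x1 y hy c => ?_) (qt_norm _ n1)
      (fun e => h.neA k (eq_bot_mono i (le_inf (((qt_eq_bot n3).1 e).trans inf_le_left) le_rfl)))
      (hP.pi.qt _) (odd_qt _ (h.odd pP))
    obtain ⟨a, ha, nx, rfl⟩ := mem_qt.1 hx
    obtain ⟨b, hb, ny, rfl⟩ := mem_qt.1 hy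
    by_contra y1
    rw [← commutatorElement_eq_one_iff_mul_comm, ← qe_comm nx ny,
      qe_eq_one (commutatorElement_def a b ▸ mul_mem (mul_mem (mul_mem nx ny) (inv_mem nx)) (inv_mem ny))] at c
    have := eq_one_of_mem_bot i ⟨c.1, commutatorElement_def a b ▸
      A.mul_mem (conj_mem_of_norm (n1 ha) hb) (A.inv_mem hb)⟩
    exact x1 (qe_of_mem ⟨ha, (h.cent k hb fun e => y1 (by simp [e])).1 ▸
      mem_cent1.2 (commutatorElement_eq_one_iff_mul_comm.1 this)⟩)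
  obtain ⟨t, ht, t1⟩ := exists_mem_ne_one (mt der_eq_bot.1 na)
  obtain ⟨z, hz, z1, pz, ez⟩ := h.exists_z hP
  obtain ⟨A, k, lA, nA, dA⟩ := der z hz z1
  have ZA : 𝐙 P ≤ 𝐂 A := fun w hw => by
    by_cases w1 : w = 1
    · exact w1 ▸ one_mem _
    obtain ⟨B, k', lB, -, dB⟩ := der w hw w1
    exact h.uniq u1 pu eu k k' t1 (hP.pi.elt (der_le P ht)) (le_cent1_iff.2 (dA ht))
      (le_cent1_iff.2 (dB ht)) ▸ le_cent1_iff.1 lB
  obtain ⟨W, lW, W1, zj⟩ := h.zj hP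
  have key : ∀ x ∈ P, x ∉ 𝐂 A → ∃ g ∈ 𝐍 W, ∃ z ∈ 𝐙 P, x = g * z * g⁻¹ := fun x hx nx => by
    have x1 : x ≠ 1 := fun e => nx (e ▸ one_mem _)
    refine zj x hx ((h.all x x1 (pP.elt hx)).resolve_right fun e => nx ?_)
    obtain ⟨g, hg⟩ := h.conj k x1 (hP.pi.elt hx)
    exact h.uniq u1 pu eu k (k.cj g) z1 pz lA (le_cent1_iff.2
      ((h.centc (k.cj g) hg e).ge (cent_le_cent1 hx hz.2))) ▸ hg
  obtain ⟨x, hx, nx⟩ : ∃ x ∈ P, x ∉ 𝐂 A := by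
    by_contra c
    push Not at c
    exact h.nd hP ((h.abW k).2 ▸ card_dvd c)
  have c1 : ∀ x ∈ P, x ∉ 𝐂 A → x ∈ 𝐂 W := fun x hx nx => by
    obtain ⟨g, hg, z, hz, rfl⟩ := key x hx nx
    exact conj_mem_of_norm (norm_le_norm_cent W hg) (cent_anti lW hz.2)
  have c2 : P ≤ 𝐂 W := fun y hy => by
    by_cases c : y ∈ 𝐂 A
    · simpa using mul_mem (c1 _ (mul_mem hy hx) (by rwa [mul_mem_cancel_left c])) (inv_mem (c1 x hx nx))
    · exact c1 y hy c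
  have lz := le_cent1_iff.2 hz.2
  have hA := h.hallA k lA (h.hall ez).pi
  obtain ⟨w, hw, w1⟩ := exists_mem_ne_one W1
  obtain ⟨g, hg, y, hy, rfl⟩ := key x hx nx
  have := norm_le_norm_cent W hg
  rw [← (h.hall ez).eq_of_le (K := 𝐂 W) ((hP.of_le lz le_top).sup_eq hA ▸
    sup_le c2 (cent_symm ((le_inf lW (cent_symm c2)).trans ZA))) le_top
    ((h.pi w1 (pP.elt (lW hw))).le (cent_le_cent1 hw))] at this
  exact nx (conj_mem_of_norm (norm_le_norm_cent A (hA.norm_le_norm nA this)) (ZA hy))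

end

end Bt

end CF.Fgs2.It
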