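import Cfsg.Agent.Fgs2.It5

/-! An isolated set of odd primes with two centralizer orders, III. -/

set_option autoImplicit false
set_option linter.unusedSectionVars false

namespace CF.Fgs2.It
open Subgroup CF.BG CF.SolvStr CF.Fgs1
open scoped commutatorElement

universe v
variable {G : Type v} [Group G] [Finite G] {π ρ : Set ℕ} {A B H K L N P S T X : Subgroup G}
  {a g t u w x y z : G} {c m n p q r s : ℕ}

theorem card_of_cyc (a : Abelem p X) (c : Cyc X) (X1 : X ≠ ⊥) : ♯X = p := by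
  have := a.cyc_iff.1 c
  have := a.pi.logn_pos.2 X1
  rw [a.pi.card_eq, show logn p (♯X) = 1 by omega, pow_one]

theorem Bt.abP (h : Bt G π n c p m) (hn : ∀ u : G, u ≠ 1 → PiElt {p} u → ♯(𝐂₁ u) = n)
    (hP : Syl p P ⊤) : Abel P := by
  obtain ⟨W, l, W1, k⟩ := h.zj hP
  replace k := fun x hx x1 => k x hx (hn x x1 (hP.pi.elt hx))
  have c : P ≤ 𝐂 W := fun x hx => by
    by_cases x1 : x = 1
    · exact x1 ▸ one_mem _
    obtain ⟨g, hg, z, hz, rfl⟩ := k x hx x1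
    exact conj_mem_of_norm (norm_le_norm_cent W hg) (cent_anti l hz.2)
  obtain ⟨w, hw, w1⟩ := exists_mem_ne_one W1
  have hD := hP.of_le c le_top
  refine abel_hall (h.sol ((h.pi w1 ((hP.pi.elt (l hw)).of_single h.pπ)).le (cent_le_cent1 hw))) hD
    fun x hx => ?_
  by_cases x1 : x = 1
  · rw [x1, cent1_one, relIndex_top_left]; exact piNat_one _
  obtain ⟨g, hg, z, hz, rfl⟩ := k x hx x1
  exact (hD.cj_of_norm (norm_le_norm_cent W hg)).idx_of_le (cj_cent1 g z ▸ cj_mono g (le_cent1_iff.2 hz.2))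

variable [IsSimpleGroup G] (ns : ¬ Sol (⊤ : Subgroup G))
include ns

theorem Bt.caseII (h : Bt G π n c p m) (hn : ∀ u : G, u ≠ 1 → PiElt {p} u → ♯(𝐂₁ u) = n) : False := by
  obtain ⟨P, hP⟩ := exists_syl p (⊤ : Subgroup G)
  obtain ⟨z, -, z1, pz, ez⟩ := h.exists_z hP
  obtain ⟨A, k, lA⟩ := h.exists_gd z1 pz ez
  clear hP P
  have nW := (h.abW k).1.nil
  have zT := nW.mem_O (le_cent1_iff.1 lA) pz
  have nT : 𝐍 A ≤ 𝐍 (𝐎 {p} (𝐂 A)) := (norm_le_norm_cent A).trans (norm_O _ _)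
  have TW := O_le {p} (𝐂 A)
  obtain ⟨P, hP, TP⟩ := exists_syl_le le_top (O_pi {p} (𝐂 A))
  have iT : P ⊓ 𝐂 A ≤ 𝐎 {p} (𝐂 A) := nW.le_O inf_le_right hP.pi.inf_left
  have cjT : ∀ g, ∀ u ∈ 𝐂 (cj g A), PiElt {p} u → u ∈ cj g (𝐎 {p} (𝐂 A)) := fun g u hu pu => by
    rw [cj_O, cj_cent]; exact (h.abW (k.cj g)).1.nil.mem_O hu pu
  generalize 𝐎 {p} (𝐂 A) = T at zT nT TW TP iT cjT
  have aP := h.abP hn hP
  have pP := hP.pi.of_single h.pπ
  have lP := le_cent1_iff.2 (aP (TP zT))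
  have hK := h.hall ez
  have hA := h.hallA k lA hK.pi
  have hP' := hP.of_le lP le_top
  have PW : ¬ P ≤ 𝐂 A := fun l => h.nd hP ((h.abW k).2 ▸ card_dvd l)
  have cT : 𝐂₁ z ≤ 𝐂 T := hP'.sup_eq hA ▸ sup_le (cent_mono aP le_rfl TP) (cent_symm TW)
  have eT : ∀ t ∈ T, t ≠ 1 → 𝐂₁ z = 𝐂₁ t := fun t ht t1 =>
    h.eq ez t1 (pP.elt (TP ht)) (cT.trans (cent_le_cent1 ht))
  have nK : 𝐍 A ≤ 𝐍 (𝐂₁ z) := le_antisymm cT (cent_le_cent1 zT) ▸ nT.trans (norm_le_norm_cent T)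
  generalize 𝐂₁ z = K at ez lA lP hK hA hP' cT eT nK
  have NK : 𝐍 A ≤ K := hK.le_of_norm le_top (fun q hq d => by
    by_contra nq
    obtain ⟨g, hg, o⟩ := exists_mem_orderOf_eq hq d
    exact PW ((h.nil hK.pi hq o nq (nK hg)).cent_of_pi lP lA hP.pi hA.pi)) (Or.inl nK)
  have i := hP.pi.inf_eq_bot hA.pi
  have KN : K ≤ 𝐍 A := by
    by_cases O1 : 𝐎 {p}ᶜ K = ⊥
    swap
    · exact (O_normal _ _).norm.trans (h.normS k hA.O_le O1)
    have n : K ≤ 𝐍 P := by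
      rw [← hP'.O_eq_of_le ((le_inf lP (cent_mono aP le_rfl hP'.O_le)).trans ((h.sol hK.pi).cent_O_le O1))]
      exact (O_normal _ _).norm
    refine absurd (fun g hg => ?_) (h.nle k ns)
    obtain ⟨u, hu, a, ha, rfl⟩ := hP'.exists_mul hA (NK hg)
    exact mul_mem (inf_norm_le_cent (lA.trans n) (inf_comm P A ▸ i)
      ⟨hu, (mul_mem_cancel_right (le_norm_self A ha)).1 hg⟩) (h.abA k ha)
  have ti : ∀ g ∈ 𝐍 P, ∀ t ∈ T, t ≠ 1 → g * t * g⁻¹ ∈ T → g ∈ P := fun g hg t ht t1 c => by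
    have : g ∈ 𝐍 K := by
      rw [← cj_eq_self]
      conv_lhs => rw [eT t ht t1, cj_cent1]
      exact (eT _ c (by simpa [conj_eq_one_iff] using t1)).symm
    obtain ⟨u, hu, a, ha, rfl⟩ := hP'.exists_mul hA (NK (hA.norm_le_norm KN this))
    by_cases a1 : a = 1
    · simpa [a1] using hu
    exact absurd ((h.cent k ha a1).1 ▸ le_cent1_iff.2 (inf_norm_le_cent (lP.trans KN) i
      ⟨ha, (mul_mem_cancel_left (le_norm_self P hu)).1 hg⟩)) PW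
  obtain ⟨E, hE, -⟩ := (hP.of_le (le_norm_self P) le_top).exists_compl le_rfl
  have cov : ∀ u ∈ P, u ≠ 1 → ∃ e ∈ E, ∃ t ∈ T, e * t * e⁻¹ = u := fun u hu u1 => by
    obtain ⟨g, hg⟩ := h.conj k u1 (hP.pi.elt hu)
    obtain ⟨t, ht, rfl⟩ := mem_cj_iff.1 (cjT g u hg (hP.pi.elt hu))
    have e := eT t ht fun e => u1 (by simp [e])
    obtain ⟨a, ha, b⟩ := hP'.syl_conj (Q := cj g⁻¹ P) ((hP.cj_top g⁻¹).of_le (by
      rw [cj_le_iff, inv_inv, e, cj_cent1]; exact le_cent1_iff.2 (aP hu)) le_top)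
    rw [cj_eq_iff, inv_inv, cj_cj, eq_comm, cj_eq_self] at b
    obtain ⟨e', he, v, hv, ev⟩ := hE.exists_mul' b
    refine ⟨e', he, t, ht, ?_⟩
    calc e' * t * e'⁻¹ = e' * (v * t * v⁻¹) * e'⁻¹ := by rw [aP.mul_comm hv (TP ht), mul_inv_cancel_right]
      _ = g * (a * t * a⁻¹) * g⁻¹ := by
        rw [eq_mul_inv_of_mul_eq ev]; group
      _ = _ := by rw [mem_cent1.1 (e.le ha), mul_inv_cancel_right]
  have cyc : ∀ X ≤ P, X ⊓ T = ⊥ → Cyc X := fun X l e => Reg.cyc_of_abel (K := A)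
    (reg_of_forall fun x hx x1 a ha c => by_contra fun a1 => x1 (eq_one_of_mem_bot e
      ⟨hx, iT ⟨l hx, (h.cent k ha a1).1 ▸ mem_cent1.2 c⟩⟩)) (l.trans (lP.trans KN)) (h.neA k) (aP.mono l)
  have T1 := ne_bot_of_mem zT z1
  obtain ⟨e, he, l2, i2⟩ : ∃ e ∈ E, cj e T ≤ P ∧ cj e T ⊓ T = ⊥ := by
    obtain ⟨u, hu, nu⟩ := SetLike.not_le_iff_exists.1 PW
    obtain ⟨e, he, t, ht, rfl⟩ := cov u hu fun e => nu (e ▸ one_mem _)
    refine ⟨e, he, cj_le_of_norm (hE.right_le he) TP, eq_bot_of_forall fun x hx => by_contra fun x1 => nu ?_⟩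
    obtain ⟨y, hy, rfl⟩ := mem_cj_iff.1 hx.1
    rw [aP.mul_comm (ti e (hE.right_le he) y hy (fun c => x1 (by simp [c])) hx.2) (TP ht), mul_inv_cancel_right]
    exact TW ht
  have aO := aP.abelem_Om h.hp
  have cV : ♯(T ⊓ 𝛀 p P) = p := card_of_cyc (aO.le inf_le_right)
    ((cyc_cj.1 (cyc _ l2 i2)).mono inf_le_left) ((hP.pi.le TP).inf_Om_ne_bot TP T1)
  obtain ⟨B, hB⟩ := aO.exists_compl (inf_le_right : T ⊓ 𝛀 p P ≤ _)
  have cB : ♯B = p := card_of_cyc (aO.le hB.right_le) (cyc _ (hB.right_le.trans (Om_le _ _))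
    (eq_bot_mono hB.inf (le_inf (le_inf inf_le_right (inf_le_left.trans hB.right_le)) inf_le_left))) fun e =>
      (hP.pi.le l2).inf_Om_ne_bot l2 (by simpa using T1) (eq_bot_mono i2 (inf_le_inf_left _ (by
        rw [← hB.sup, e, sup_bot_eq]; exact inf_le_left)))
  let f : E × {t // t ∈ T ⊓ 𝛀 p P ∧ t ≠ 1} → {t // t ∈ 𝛀 p P ∧ t ≠ 1} := fun x =>
    ⟨x.1 * x.2 * (x.1 : G)⁻¹, conj_mem_of_norm (norm_Om p P (hE.right_le x.1.2)) x.2.2.1.2,
      by simpa [conj_eq_one_iff] using x.2.2.2⟩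
  have cf := Nat.card_eq_of_bijective f ⟨fun ⟨a, x⟩ ⟨b, y⟩ e => by
    have e : (a : G) * x * (a : G)⁻¹ = b * y * (b : G)⁻¹ := congrArg Subtype.val e
    have m := mul_mem (inv_mem b.2) a.2
    have := eq_one_of_mem_bot hE.inf ⟨ti _ (hE.right_le m) x x.2.1.1 x.2.2 (by
      rw [show (b : G)⁻¹ * a * x * ((b : G)⁻¹ * a)⁻¹ = (b : G)⁻¹ * (a * x * (a : G)⁻¹) * b by group, e]
      simpa [mul_assoc] using y.2.1.1), m⟩
    obtain rfl : b = a := Subtype.ext (inv_mul_eq_one.1 this)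
    exact Prod.ext rfl (Subtype.ext (by simpa using e)), fun ⟨x, hx, x1⟩ => by
    obtain ⟨e, he, t, ht, rfl⟩ := cov x (Om_le _ _ hx) x1
    exact ⟨⟨⟨e, he⟩, t, ⟨ht, by simpa [mul_assoc] using conj_mem_of_norm' (norm_Om p P (hE.right_le he)) hx⟩,
      fun c => x1 (by simp [c])⟩, rfl⟩⟩
  have c1 := CF.Invol.card_subtype_ne_add_one (p := (· ∈ T ⊓ 𝛀 p P)) (a := 1) (one_mem _)
  have c2 := CF.Invol.card_subtype_ne_add_one (p := (· ∈ 𝛀 p P)) (a := 1) (one_mem _)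
  have c3 := hB.card
  rw [Nat.card_prod] at cf
  rw [cV] at c1 c3
  rw [← cf, ← c3, cB] at c2
  generalize Nat.card {t // t ∈ T ⊓ 𝛀 p P ∧ t ≠ 1} = j at c1 c2
  have j0 : 0 < j := by have := h.hp.two_le; omega
  have c4 : ♯E = j + 2 := Nat.eq_of_mul_eq_mul_right j0 (by subst c1; linarith)
  obtain ⟨τ, hτ, o⟩ := exists_mem_orderOf_eq (H := E) Nat.prime_two (by
    have := h.hp.eq_two_or_odd.resolve_left fun e => h.two (e ▸ h.pπ)
    omega)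
  have τ1 := ne_one_of Nat.prime_two o
  refine τ1 (eq_one_of_mem_bot hE.inf ⟨ti τ (hE.right_le hτ) z zT z1 ?_, hτ⟩)
  rw [CF.Block.inverts_of_fpf (by rw [← pow_two, ← o, pow_orderOf_eq_one]) (hE.right_le hτ) (fun x hx c =>
    eq_one_of_mem_bot (h.reg pP τ1 ((pi_two o).of_single' h.two)) ⟨hx, mem_cent1.2 c.eq.symm⟩) (TP zT)]
  exact inv_mem zT

theorem Od.iso (h : Od G π n c) : Iso G n := by
  by_contra ni
  have nz : ∀ q (x w : G), x ≠ 1 → w ≠ 1 → PiElt {q} x → PiElt {q}ᶜ w → ♯(𝐂₁ x) = n → w ∉ 𝐙 (𝐂₁ x) :=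
    fun q x w x1 w1 px pw e hw => ni (h.caseA x1 w1 px pw e hw)
  obtain ⟨m, e⟩ := h.dvd
  by_cases m1 : m = 1
  · rw [m1, mul_one] at e
    obtain ⟨p, hp, d⟩ := Nat.exists_prime_and_dvd (n := n) fun e => h.npp 2 Nat.prime_two (e ▸ piNat_one _)
    obtain ⟨k, -, ek⟩ := h.card
    obtain ⟨x, -, x1, px⟩ := exists_piElt (H := (⊤ : Subgroup G)) hp (by rw [card_top', ← ek]; exact d.mul_right k)
    have px' := px.of_single (h.pn p hp d)
    have ex := (h.all x x1 px').elim id (·.trans e.symm)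
    obtain ⟨q, hq⟩ := not_forall.1 (h.npp p hp)
    push Not at hq
    obtain ⟨w, hw, w1, pw⟩ := exists_piElt (H := 𝐂₁ x) hq.1 (ex ▸ hq.2.1)
    have pw' : PiElt {p}ᶜ w := pw.of_single' hq.2.2
    have nw : w ∉ 𝐂 (𝐂₁ x) := fun c => nz p x w x1 w1 px pw' ex ⟨hw, c⟩
    exact (card_lt (inf_lt nw)).ne ((h.sub x1 px' px hw pw' nw).trans (ex.trans e).symm)
  obtain ⟨p, hp, d⟩ := Nat.exists_prime_and_dvd m1
  have b : Bt G π n c p m := ⟨h, hp, h.pn p hp (e ▸ d.mul_left c), e, d, nz⟩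
  exact b.caseII ns fun u u1 pu => (h.all u u1 (pu.of_single b.pπ)).resolve_right (b.caseI u1 pu)

end CF.Fgs2.It
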