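import Cfsg.Agent.Fgs2.It6
import Cfsg.Agent.S1534
import Cfsg.Agent.Clifford.Coherent

/-! A conjugacy class whose size is the order of an isolated nilpotent subgroup. -/

set_option autoImplicit false
set_option linter.unusedSectionVars false

namespace CF.Fgs2.It
open Subgroup CF.BG CF.SolvStr CF.Fgs1 CF.Char CF.Clifford Cfsg
open scoped commutatorElement _root_.Classical

variable {G : Type*} [Group G] [Fintype G] {K : Subgroup G} {g y : G} {θ χ ψ : G → ℂ} {c : ℂ} {d e : ℕ}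

theorem sum_shift {f f' : G → ℂ} (h : ∀ k ∈ K, k ≠ 1 → f k - f' k = c) :
    ∑ k : K, f k - ∑ k : K, f' k = f 1 - f' 1 + (♯K - 1) * c := by
  rw [← Finset.sum_sub_distrib, ← Finset.add_sum_erase _ _ (Finset.mem_univ 1),
    Finset.sum_congr rfl (g := fun _ => c) fun (k : K) hk => h k k.2 (by simpa using hk)]
  simp [Finset.card_erase_of_mem, Nat.cast_sub Fintype.card_pos]

theorem sum_nat (h : IsCharacter G χ) (K : Subgroup G) : ∃ m : ℕ, ∑ k : K, χ k = ♯K * m := by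
  obtain ⟨m, hm⟩ := inner_char_eq_nat (char_restrict h K) char_const_one
  exact ⟨m, by rw [← hm, card_mul_inner]; simp⟩

theorem zero_of_coprime [IsSimpleGroup G] (ns : ¬ Sol (⊤ : Subgroup G)) (hχ : IsIrrCharacter G χ)
    (n1 : χ ≠ fun _ => 1) (e1 : χ 1 = d) (y1 : y ≠ 1) (c : d.Coprime (ind y)) : χ y = 0 :=
  (irr_eq_zero_or_mem_charCenter hχ e1 y c).resolve_right fun k => y1 (by
    rwa [charCenter_eq_center_of_faithful hχ (charKer_eq_bot_of_simple hχ n1), center_bot ns] at k)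

/-- `θ` restricts to the regular character of `K` -/
structure Rg (K : Subgroup G) (θ : G → ℂ) : Prop where
  ch : IsCharacter G θ
  one : θ 1 = ♯K
  van : ∀ k ∈ K, k ≠ 1 → θ k = 0
  inn : classInner θ (fun _ => 1) = 1

namespace Rg
variable (h : Rg K θ) (hχ : IsIrrCharacter G χ) (n1 : χ ≠ fun _ => 1) (i : classInner θ χ ≠ 0)
include h hχ n1 i

theorem con : IsCharacter G (θ - (fun _ => 1) - χ) :=
  char_sub_of_inner_ne_zero (char_sub_of_inner_ne_zero h.ch irr_one (by simp [h.inn])) hχ (by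
    rwa [Char.inner_sub_left, inner_irr_ne irr_one hχ n1.symm, sub_zero])

theorem sum : ∑ k : K, χ k = 0 := by
  obtain ⟨a, ha⟩ := sum_nat (irr_isCharacter hχ) K
  obtain ⟨b, hb⟩ := sum_nat (h.con hχ n1 i) K
  have := sum_shift (K := K) (f := θ) (f' := fun _ => 1) (c := -1) fun k hk k1 => by simp [h.van k hk k1]
  simp only [Pi.sub_apply, Finset.sum_sub_distrib] at hb
  rw [this, h.one, ha] at hb
  have : (♯K : ℂ) * (a + b) = 0 := by linear_combination -hb
  have : a + b = 0 := by exact_mod_cast (mul_eq_zero.1 this).resolve_left card_ne_zero_complex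
  rw [ha, show a = 0 by omega, Nat.cast_zero, mul_zero]

theorem deg (e1 : χ 1 = d) : d + 1 ≤ ♯K := by
  obtain ⟨m, hm⟩ := char_one_eq_nat (h.con hχ n1 i)
  simp only [Pi.sub_apply, h.one, e1] at hm
  have : ♯K = m + d + 1 := by exact_mod_cast (by linear_combination hm : (♯K : ℂ) = m + d + 1)
  omega

theorem deg2 (hψ : IsIrrCharacter G ψ) (n2 : ψ ≠ fun _ => 1) (j : classInner θ ψ ≠ 0) (ne : χ ≠ ψ)
    (e1 : χ 1 = d) (e2 : ψ 1 = e) : d + e + 1 ≤ ♯K := by
  obtain ⟨m, hm⟩ := char_one_eq_nat (char_sub_of_inner_ne_zero (h.con hχ n1 i) hψ (by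
    rwa [Char.inner_sub_left, Char.inner_sub_left, inner_irr_ne irr_one hψ n2.symm, inner_irr_ne hχ hψ ne,
      sub_zero, sub_zero]))
  simp only [Pi.sub_apply, h.one, e1, e2] at hm
  have : ♯K = m + d + e + 1 := by exact_mod_cast (by linear_combination hm : (♯K : ℂ) = m + d + e + 1)
  omega

theorem const (K1 : K ≠ ⊥) (hc : ∀ a ∈ K, ∀ b ∈ K, a ≠ 1 → b ≠ 1 → χ a = χ b) (e1 : χ 1 = d) :
    d.Coprime (♯K) := by
  obtain ⟨a, ha, a1⟩ := exists_mem_ne_one K1
  obtain ⟨z, hz⟩ := gen_eq_int_of_pow (g := a) (gen_of_irr hχ) fun m hm => hc _ (pow_mem ha m) a ha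
    (fun e => a1 (orderOf_eq_one_iff.1 (hm.symm.eq_one_of_dvd (orderOf_dvd_of_pow_eq_one e)))) a1
  have := sum_shift (K := K) (f := χ) (f' := 0) (c := z) fun k hk k1 => by simp [hc k hk a ha k1 a1, hz]
  simp only [h.sum hχ n1 i, e1, Pi.zero_apply, Finset.sum_const_zero, sub_zero] at this
  have e : (0 : ℤ) = d + (♯K - 1) * z := by exact_mod_cast this
  have l := h.deg hχ n1 i e1
  have d0 : d ≠ 0 := fun k => irr_one_ne_zero hχ (by simp [e1, k])
  have : z = -1 := by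
    have : z < 0 := by by_contra k; nlinarith [Nat.pos_of_ne_zero d0]
    have l : (d : ℤ) + 1 ≤ ♯K := by exact_mod_cast l
    by_contra k
    nlinarith [show z ≤ -2 by omega, Nat.pos_of_ne_zero d0]
  rw [show ♯K = d + 1 by subst this; omega]
  simp

end Rg

theorem arith {n e a t : ℕ} {m : ℤ} (e0 : 0 < e) (a0 : 0 < a) (t0 : 0 < t) (d : e ∣ n - 1)
    (l : a + t * a + 1 ≤ n) (k : (a : ℤ) = e - (n - 1) * m ∨ -(a : ℤ) = e - (n - 1) * m) : a.Coprime n := by
  obtain ⟨n, rfl⟩ : ∃ j, n = j + 1 := ⟨n - 1, by omega⟩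
  obtain ⟨j, rfl⟩ := d
  have l : 2 * (a : ℤ) ≤ e * j := by exact_mod_cast (by nlinarith : 2 * a ≤ e * j)
  have j0 : (0 : ℤ) < j := by by_contra c; nlinarith
  suffices a = e by rw [this]; simp
  push_cast at k
  rcases k with k | k
  · have : m = 0 := by
      by_contra c
      rcases (by omega : 1 ≤ m ∨ m ≤ -1) with c | c <;> nlinarith [mul_pos e0 (show 0 < j by omega)]
    subst this
    omega
  · have : m = 1 := by
      by_contra c
      rcases (by omega : 2 ≤ m ∨ m ≤ 0) with c | c <;> nlinarith [mul_pos e0 (show 0 < j by omega)]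
    subst this
    have : j = 2 := by
      by_contra c
      rcases (by omega : 3 ≤ (j : ℤ) ∨ (j : ℤ) ≤ 1) with c | c <;> nlinarith
    subst this
    omega

theorem Rg.zero [IsSimpleGroup G] (ns : ¬ Sol (⊤ : Subgroup G)) (h : Rg K θ) (nK : Nil K) {π : Set ℕ} (hK : Hall π K ⊤)
    (hC : ∀ k ∈ K, k ≠ 1 → 𝐂₁ k ≤ K) (o : Odd (♯K)) (npp : ∀ p, p.Prime → ¬ PiNat {p} (♯K))
    (y1 : y ≠ 1) (ey : ind y = ♯K) (ny : ∀ g, g * y * g⁻¹ ∉ K) (hχ : IsIrrCharacter G χ)
    (n1 : χ ≠ fun _ => 1) (i : classInner θ χ ≠ 0) : χ y = 0 := by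
  have K1 : K ≠ ⊥ := fun e => npp 2 Nat.prime_two (by rw [e]; exact piGrp_bot _)
  have hTI : ∀ g : G, g ∉ 𝐍 K → ∀ k ∈ K, g * k * g⁻¹ ∈ K → k = 1 := fun g hg k hk c => by
    by_contra k1
    obtain ⟨z, hz, z1⟩ := exists_mem_ne_one (nK.center_ne_bot K1)
    have l : ∀ x ∈ cj g K, x ≠ 1 → 𝐂₁ x ≤ cj g K := fun x hx x1 => by
      obtain ⟨u, hu, rfl⟩ := mem_cj_iff.1 hx
      exact cj_cent1 g u ▸ cj_mono g (hC u hu fun e => x1 (by simp [e]))
    exact hg (cj_eq_self.1 (eq_of_card_eq ((le_cent1_iff.2 hz.2).trans (l z (l _ (conj_mem_cj.2 hk)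
      (by simpa [conj_eq_one_iff] using k1) (cent_le_cent1 c hz.2)) z1)) (card_cj g K).symm).symm)
  have lt : K < 𝐍 K := lt_of_le_of_ne (le_norm_self K) fun e => by
    obtain ⟨N, hN, h1, h2⟩ := frobenius_kernel K fun g hg => hTI g (e ▸ hg)
    rw [eq_top (normalIn_top.2 hN).norm (ne_bot_of_mem ((h1 y).2 (Or.inr ny)) y1)] at h2
    exact K1 (by simpa using h2.disjoint)
  obtain ⟨d, -, e1⟩ := irr_one_eq_nat hχ
  by_cases hc : ∀ a ∈ K, ∀ b ∈ K, a ≠ 1 → b ≠ 1 → χ a = χ b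
  · exact zero_of_coprime ns hχ n1 e1 y1 (ey ▸ h.const hχ n1 i K1 hc e1)
  push Not at hc
  rcases Cfsg.Agent.S1534.result K K1 nK hTI lt hC with ⟨-, -, p, hp, k⟩ | ⟨k, -⟩ | ⟨⟨α, hα, α0⟩, star, k1, k2⟩
  · exact absurd (Abelem.of_isEA hp k).pi (npp p hp)
  · exact absurd (k ▸ piNat_pow_self Nat.prime_two _) (npp 2 Nat.prime_two)
  have H := cohSetup_of_ti hTI hC rfl k1 k2
  generalize {χ : 𝐍 K → ℂ | _} = S at hα H
  clear k1 k2
  have two : ∀ χ ∈ S, ∃ ξ ∈ S, χ ≠ ξ := fun χ hχ => by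
    by_contra c
    push Not at c
    obtain ⟨a, rfl⟩ := Submodule.mem_span_singleton.1
      (Submodule.span_mono (show S ⊆ {χ} from fun ξ hξ => (c ξ hξ).symm) hα.1)
    have := hα.2 1 (by simp)
    simp only [Pi.smul_apply, zsmul_eq_mul, mul_eq_zero, irr_one_ne_zero (H.irr hχ), or_false] at this
    exact α0 (by rw [show a = 0 by exact_mod_cast this, zero_smul])
  have fpf := fpf_subgroupOf_normalizer hC
  obtain ⟨m, hm⟩ := H.exists_int fpf
  set L := K.subgroupOf (𝐍 K)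
  obtain ⟨ξ, hξ, e0⟩ : ∃ ξ ∈ S, ξ 1 = L.index := by
    have : Nontrivial L := (nontrivial_iff_ne_bot L).2 fun e => K1 (by
      rw [← map_subgroupOf (le_norm_self K)]; exact (congrArg _ e).trans (Subgroup.map_bot _))
    have : Group.IsSolvable L := (nK.subgroupOf _).sol
    obtain ⟨g, -, hg⟩ := SetLike.exists_of_lt (IsSolvable.commutator_lt_top_of_nontrivial L)
    obtain ⟨τ, hτ, l, n⟩ := exists_irr_le_charKer_not_mem _ hg
    have t1 : τ ≠ fun _ => 1 := fun e => n (by rw [e, charKer_one]; trivial)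
    exact ⟨_, (H.mem _).2 ⟨irr_indFun_of_fpf L fpf hτ t1, not_le_charKer_indFun L hτ t1⟩, by
      rw [indFun_one, (irr_one_eq_one_iff hτ).2 l, mul_one]⟩
  have exc := fun ψ hψ => H.exceptional_iff (ψ := ψ) (le_norm_self K) ⟨ξ, hξ, two ξ hξ⟩ hψ
  obtain ⟨φ, hφ, eφ⟩ := (exc χ hχ).2 hc
  have sg : ∀ φ ∈ S, ∃ ψ, IsIrrCharacter G ψ ∧ (ψ = star φ ∨ ψ = -star φ) ∧ ψ ≠ (fun _ => 1) ∧
      classInner θ ψ ≠ 0 := fun φ' hφ' => by
    obtain ⟨ψ, hψ, e⟩ : ∃ ψ, IsIrrCharacter G ψ ∧ (ψ = star φ' ∨ ψ = -star φ') :=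
      (H.irr_or hφ').elim (fun k => ⟨_, k, Or.inl rfl⟩) fun k => ⟨_, k, Or.inr rfl⟩
    refine ⟨ψ, hψ, e, fun k => ?_, fun k => i ?_⟩
    · obtain ⟨a, -, b, -, -, -, c⟩ := (exc ψ hψ).1 ⟨φ', hφ', e⟩
      exact c (by rw [k])
    have := H.inner_comb (char_isClassFunction h.ch) hφ hφ'
    rw [H.inner_comb_eq_zero_of_const (c := 0) (fun k hk k1 => h.van k hk (by simpa using k1)) hφ hφ',
      show classInner θ (star φ') = 0 by rcases e with rfl | rfl <;> simpa [Char.inner_neg_right] using k,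
      mul_zero, sub_zero, eq_comm, mul_eq_zero, or_iff_right (irr_one_ne_zero (H.irr hφ'))] at this
    rcases eφ with rfl | rfl <;> simp [Char.inner_neg_right, this]
  obtain ⟨η, hη, ne⟩ := two ξ hξ
  obtain ⟨ψ, hψ, eψ, m1, j1⟩ := sg ξ hξ
  obtain ⟨ω, hω, eω, m2, j2⟩ := sg η hη
  obtain ⟨a, a0, ea⟩ := irr_one_eq_nat hψ
  obtain ⟨b, b0, eb⟩ := irr_one_eq_nat hω
  obtain ⟨τ, hτ, -, eτ⟩ := exists_eq_indFun_of_fpf L fpf (H.irr hη) ((H.mem η).1 hη).2
  obtain ⟨t, t0, et⟩ := irr_one_eq_nat hτ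
  have i0 : (L.index : ℂ) ≠ 0 := by exact_mod_cast index_ne_zero_of_finite
  have l := h.deg2 hψ m1 j1 hω m2 j2 (fun k => by
    have := H.inner_star hξ hη
    have k2 := inner_irr_self hψ
    rw [inner_irr_ne (H.irr hξ) (H.irr hη) ne] at this
    nth_rw 2 [k] at k2
    rcases eψ with rfl | rfl <;> rcases eω with k' | k' <;>
      simp [k', Char.inner_neg_right, Char.inner_neg_left, this] at k2) ea eb
  have bt : b = t * a := by
    have := H.comb_apply hξ hη 1
    rw [e0, eτ, indFun_one, et, ← eτ, OneMemClass.coe_one, mul_comm (L.index : ℂ) (_ * _), sub_self, mul_assoc,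
      ← mul_sub, mul_eq_zero, or_iff_right i0, sub_eq_zero] at this
    have : (b : ℂ) ^ 2 = (t * a) ^ 2 := by
      rw [← ea, ← eb]
      rcases eψ with rfl | rfl <;> rcases eω with rfl | rfl <;> simp [← this]
    exact (pow_left_inj₀ b.zero_le (Nat.zero_le _) two_ne_zero).1 (by exact_mod_cast this)
  have s0 : ∑ k : K, extendByZero _ ξ k = 0 := by
    have := inner_irr_ne (H.irr hξ) irr_one (H.ne_one hξ)
    rw [inner_one_right, mul_eq_zero, or_iff_right (inv_ne_zero card_ne_zero_complex)] at this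
    rw [← this, sum_sub_eq K (extendByZero _ ξ), ← Finset.sum_congr rfl fun x _ => extendByZero_coe _ ξ x,
      sum_sub_eq _ (extendByZero _ ξ)]
    refine Finset.sum_congr rfl fun x _ => ?_
    by_cases c : x ∈ K
    · rw [if_pos c, if_pos (le_norm_self K c)]
    · rw [if_neg c]
      split_ifs with n
      · exact ((extendByZero_coe _ ξ ⟨x, n⟩).trans (H.van ξ hξ _ c)).symm
      · rfl
  have s1 := sum_shift (K := K) (f := star ξ) (f' := extendByZero _ ξ) (c := m) fun k hk k1 => by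
    have := hm ξ hξ ⟨k, le_norm_self K hk⟩ hk (by simpa using k1)
    rwa [e0, mul_div_cancel_right₀ _ i0, ← extendByZero_coe _ ξ] at this
  have s2 := h.sum hψ m1 j1
  rw [s0, show extendByZero _ ξ 1 = L.index from (extendByZero_coe _ ξ 1).trans e0] at s1
  have z : star ξ y = 0 := by
    have := zero_of_coprime ns hψ m1 ea y1 (ey ▸ arith (e := L.index) (m := m)
      (Nat.pos_of_ne_zero index_ne_zero_of_finite) a0 t0 ?_ (bt ▸ l) ?_)
    · rcases eψ with rfl | rfl <;> simpa using this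
    · obtain ⟨E, hE, -⟩ := (hK.of_le (le_norm_self K) le_top).exists_compl le_rfl
      exact hE.relIndex_left.dvd.trans (Reg.card_dvd (fun x hx x1 => fpf_of_centralizer_le hC fun k =>
        x1 (eq_one_of_mem_bot hE.inf ⟨k, hx⟩)) hE.norm)
    · rcases eψ with rfl | rfl
      · exact Or.inl (by exact_mod_cast (by linear_combination s2 - s1 - ea : (a : ℂ) = L.index - (♯K - 1) * m))
      · simp only [Pi.neg_apply, Finset.sum_neg_distrib, neg_eq_zero] at s2 ea
        exact Or.inr (by exact_mod_cast (by linear_combination s2 - s1 + ea : -(a : ℂ) = L.index - (♯K - 1) * m))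
  have := congrFun (H.indFun_comb hφ hξ) y
  rw [indFun_eq_zero _ fun x hx => by simp [H.van φ hφ ⟨_, hx⟩ (ny x), H.van ξ hξ ⟨_, hx⟩ (ny x)]] at this
  simp only [Pi.sub_apply, Pi.smul_apply, smul_eq_mul, z, mul_zero, sub_zero] at this
  have := (mul_eq_zero.1 this.symm).resolve_left (irr_one_ne_zero (H.irr hξ))
  rcases eφ with rfl | rfl <;> simp [this]

end CF.Fgs2.It
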