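import Cfsg.Agent.Fgs2.It7

/-! A sharply transitive conjugacy class; reduction of the conjugate type problem to known groups. -/

set_option autoImplicit false
set_option linter.unusedSectionVars false

namespace CF.Fgs2.It
open Subgroup CF.BG CF.SolvStr CF.Fgs1 CF.Char Cfsg
open scoped commutatorElement _root_.Classical

universe v
variable {G : Type v} [Group G] {π : Set ℕ} {H K : Subgroup G} {g x y : G} {a b c n r : ℕ}

theorem sharp [Fintype G] (h : ∀ χ, IsIrrCharacter G χ → χ ≠ (fun _ => 1) →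
    classInner (indFun (𝐂₁ y) fun _ => 1) χ ≠ 0 → χ y = 0) (hg : g ∉ 𝐂₁ y) (x : G) :
    x * (g * y⁻¹ * g⁻¹ * y) * x⁻¹ ∉ 𝐂₁ y := fun k => by
  have hθ := char_isClassFunction (char_indFun_one (𝐂₁ y))
  have e : ∑ g, indFun (𝐂₁ y) (fun _ => 1) (g * y⁻¹ * g⁻¹ * y) = Nat.card G := by
    rw [Finset.sum_congr rfl fun g _ => classFun_apply_eq_sum hθ _, Finset.sum_comm,
      Finset.sum_eq_single (oneIrr G)]
    · simp [coe_oneIrr, inner_indFun_one_one]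
    · intro χ _ n
      rw [← Finset.mul_sum, sum_irr_conj_mul χ.2]
      refine mul_eq_zero.2 (or_iff_not_imp_left.2 fun i => ?_)
      rw [h χ χ.2 (fun e => n (Subtype.ext e)) i, mul_zero, zero_div]
    · simp
  have e2 : ∑ g, Nat.card {x : G // x * (g * y⁻¹ * g⁻¹ * y) * x⁻¹ ∈ 𝐂₁ y} = ♯(𝐂₁ y) * Nat.card G := by
    have := congrArg ((♯(𝐂₁ y) : ℂ) * ·) e
    simp only [Finset.mul_sum, card_mul_indFun_one] at this
    exact_mod_cast this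
  rw [← Finset.sum_filter_add_sum_filter_not _ (· ∈ 𝐂₁ y), Finset.sum_congr rfl (g := fun _ => Nat.card G)
    fun g hg => by
      rw [mem_cent1.1 (mem_cent1_comm.1 (inv_mem (mem_cent1_comm.1 (Finset.mem_filter.1 hg).2)))]
      simp, Finset.sum_const, smul_eq_mul, ← Fintype.card_subtype, ← Nat.card_eq_fintype_card,
    add_eq_left, Finset.sum_eq_zero_iff] at e2
  haveI : Nonempty {x : G // x * (g * y⁻¹ * g⁻¹ * y) * x⁻¹ ∈ 𝐂₁ y} := ⟨⟨x, k⟩⟩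
  exact Nat.card_pos.ne' (e2 g (by simpa using hg))

variable [Finite G] [IsSimpleGroup G] (ns : ¬ Sol (⊤ : Subgroup G))
include ns

theorem not_sharp (hr : r.Prime) (o : orderOf y = r) (hH : Hall π (𝐂₁ y) ⊤)
    (hC : ∀ u ∈ 𝐂₁ y, u ≠ 1 → PiGrp π (𝐂₁ u))
    (h : ∀ g, g ∉ 𝐂₁ y → ∀ x, x * (g * y⁻¹ * g⁻¹ * y) * x⁻¹ ∉ 𝐂₁ y) : False := by
  have y1 := ne_one_of hr o
  have yH := self_mem_cent1 y
  have inv : ∀ q Q, q ∈ π → PiGrp {q} Q → y ∈ 𝐍 Q → Q ≤ 𝐂₁ y := fun q Q hq pQ n g hg => by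
    by_contra c
    obtain ⟨S, hS⟩ := exists_syl q (𝐂₁ y)
    obtain ⟨x, -, l⟩ := (hS.syl_trans hH hq).syl_cj_le le_top pQ
    refine h g c x (hS.le (l (conj_mem_cj.2 ?_)))
    simpa [mul_assoc] using mul_mem hg (conj_mem_of_norm' n (inv_mem hg))
  obtain ⟨g₀, hg₀⟩ := not_forall.1 fun k : ∀ g, g ∈ 𝐂₁ y => y1 (eq_one_of_mem_bot (center_bot ns)
    (cent1_eq_top.1 (eq_top_iff.2 fun g _ => k g)))
  obtain ⟨U, ⟨g, hg, eU⟩, mx⟩ := exists_max_card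
    (P := fun U : Subgroup G => ∃ g, g ∉ 𝐂₁ y ∧ U = 𝐂₁ y ⊓ cj g (𝐂₁ y)) (H := _) ⟨g₀, hg₀, rfl⟩
  have ny : g * y * g⁻¹ ∉ 𝐂₁ y := fun k => h g hg 1 (by simpa [mul_assoc] using mul_mem (inv_mem k) yH)
  have U1 : U ≠ ⊥ := fun e => by
    obtain ⟨N, hN, h1, h2⟩ := frobenius_kernel (𝐂₁ y) fun g hg x hx k => by
      have := mx _ ⟨g, hg, rfl⟩
      rw [e, card_bot, card_le_one_iff_eq_bot] at this
      simpa [conj_eq_one_iff] using eq_one_of_mem_bot this ⟨k, conj_mem_cj.2 hx⟩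
    rcases IsSimpleGroup.eq_bot_or_eq_top_of_normal N hN with rfl | rfl
    · exact hg (h2.sup_eq_top.ge.trans (by simp) (mem_top g))
    · exact y1 (eq_one_of_mem_bot (by simpa using h2.disjoint) yH)
  have UH : U ≤ 𝐂₁ y := eU ▸ inf_le_left
  have yM := le_cent1_iff.1 UH
  have yM' : g * y * g⁻¹ ∈ 𝐂 U := le_cent1_iff.1 (cj_cent1 g y ▸ eU ▸ inf_le_right)
  have pM : PiGrp π (𝐂 U) :=
    let ⟨u, hu, u1⟩ := exists_mem_ne_one U1; (hC u (UH hu) u1).le (cent_le_cent1 hu)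
  obtain ⟨N, hN, -, h1, h2, -⟩ := frobenius_wielandt (H := (𝐂₁ y).subgroupOf (𝐂 U)) (L := U.subgroupOf (𝐂 U))
    (fun a _ l hl => conj_mem_of_norm (H := U) (cent_le_norm U a.2) hl) (fun a ha x hx k => by
      have := eq_of_card_le (K := 𝐂₁ y ⊓ cj a (𝐂₁ y)) (le_inf UH ((cj_of_cent a.2).ge.trans (cj_mono (a : G) UH))) (mx _ ⟨a, ha, rfl⟩)
      simpa [mul_assoc, mem_subgroupOf] using
        conj_mem_of_norm' (cent_le_norm U a.2) (this.ge ⟨k, conj_mem_cj.2 hx⟩))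
    (fun x hx => UH hx)
  have nN := normal_iff_map_subtype.1 hN
  have nZ := center_normal U
  have nM : 𝐂 U ≤ 𝐍 (𝐙 U) := (cent_le_norm U).trans (norm_center U)
  have NZ : N.map (𝐂 U).subtype ⊓ 𝐂₁ y ≤ 𝐙 U := by
    rintro _ ⟨⟨x, hx, rfl⟩, k⟩
    exact ⟨h1.le ⟨hx, k⟩, x.2⟩
  have ZN : 𝐙 U ≤ N.map (𝐂 U).subtype := fun x hx => ⟨⟨x, hx.2⟩, (h1.ge hx.1).1, rfl⟩
  refine ny (show (⟨_, yM'⟩ : 𝐂 U) ∈ (𝐂₁ y).subgroupOf (𝐂 U) from
    (h2.ge.trans (sup_le (fun x hx => ?_) le_rfl)) trivial)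
  suffices N.map (𝐂 U).subtype ≤ 𝐙 U from UH (this ⟨x, hx, rfl⟩).1
  generalize N.map (𝐂 U).subtype = N at nN NZ ZN
  have ly := zpowers_le.2 yM
  have key : ∀ q X, X ≤ qt (𝐙 U) N → PiGrp {q} X → qt (𝐙 U) (zpowers y) ≤ 𝐍 X → X = ⊥ := fun q X l pX n => by
    have l2 := qp_le_of_le_qt ⟨ZN, nN.le.trans nM⟩ l
    refine qp_eq_self.1 (le_antisymm ((le_inf l2 ((nil_of_qt_center (le_inf (le_qp X)
      (cent_symm ((l2.trans nN.le).trans (cent_anti inf_le_left)))) (by rw [qt_qp]; exact pX.nil)).le_of_forall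
      fun s hs d => inv s _ (pM s hs (d.trans (card_dvd (l2.trans nN.le)))) (O_pi _ _)
        (norm_O _ _ (norm_qp (ly.trans nM) n (mem_zpowers y))))).trans NZ) (le_qp X))
  have py : PiGrp {r} (qt (𝐙 U) (zpowers y)) := (piGrp_of_card_prime hr (by rwa [Nat.card_zpowers])).qt _
  obtain ⟨R, hR, l⟩ := exists_syl_le (qt_mono _ ly) py
  have nN' := nN.qt (𝐙 U)
  have hR' := hR.inf_normal nN'
  rw [key r _ inf_le_right hR'.pi (l.trans (normalIn_inf_left (hR.le.trans nN'.norm)).norm)] at hR'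
  refine (qt_eq_bot (nN.le.trans nM)).1 (by_contra fun e => ?_)
  obtain ⟨q, hq, d⟩ := exists_prime_dvd_card e
  obtain ⟨Q, hQ, n⟩ := exists_syl_inv ((qt_mono _ ly).trans nN'.norm) (py.coprime hR'.pi'_of_eq_bot)
    (Or.inl py.sol) q
  exact hQ.syl_ne_bot hq d (key q Q hQ.le hQ.pi n)

/-- two maximal centralizer orders: at most one even order is not maximal -/
theorem Tw.onh (h : Tw G a b) (h5 : (cos G).ncard ≤ 5) (o : ¬ 2 ∣ a) : ∃ c, Onh G c := by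
  by_contra k
  push Not at k
  have cop := h.coprime ns h5
  obtain ⟨r, y, hr, oy, ey⟩ := h.symm.part
  obtain ⟨x, x1, ex⟩ := h.ea
  have y1 := ne_one_of hr oy
  have ia : ind y = a := by
    have := card_inf_mul (h.cop ex ey)
    rwa [h.card ex ey, cop, one_mul, ex] at this
  have pa := piNat_piOf a
  have pb : PiNat (piOf a)ᶜ b := piNat_compl_piOf.2 cop.symm
  have T : ∀ c, ∃ u : G, u ≠ 1 ∧ ♯(𝐂₁ u) ∣ b ∧ ♯(𝐂₁ u) ≠ b ∧ ♯(𝐂₁ u) ≠ c := fun c => by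
    obtain ⟨u, hu⟩ := not_forall.1 (k c)
    push Not at hu
    exact ⟨u, hu.1, (h.dvd u hu.1).resolve_left fun d => o (hu.2.1.trans d),
      fun e => hu.2.2.1 (h.symm.hd e), hu.2.2.2⟩
  obtain ⟨u, u1, ub, ub', -⟩ := T 0
  obtain ⟨v, v1, vb, vb', vu⟩ := T (♯(𝐂₁ u))
  have nd : ∀ w : G, w ≠ 1 → ♯(𝐂₁ w) ∣ a → ¬ ♯(𝐂₁ w) ∣ b := fun w w1 d1 d2 =>
    ne_bot_of_mem (self_mem_cent1 w) w1 (card_eq_one'.1 (Nat.eq_one_of_dvd_coprimes cop d1 d2))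
  have da : ∀ w : G, w ≠ 1 → PiElt (piOf a) w → ♯(𝐂₁ w) ∣ a := fun w w1 pw =>
    (h.dvd w w1).resolve_right fun d => w1 (pw.eq_one (PiGrp.elt (pb.dvd d) (self_mem_cent1 w)))
  obtain ⟨c, hc, all⟩ : ∃ c, c ∣ a ∧ ∀ w : G, w ≠ 1 → ♯(𝐂₁ w) ∣ a → ♯(𝐂₁ w) = a ∨ ♯(𝐂₁ w) = c := by
    by_cases e : ∀ w : G, w ≠ 1 → ♯(𝐂₁ w) ∣ a → ♯(𝐂₁ w) = a
    · exact ⟨a, dvd_rfl, fun w w1 d => Or.inl (e w w1 d)⟩
    push Not at e
    obtain ⟨w, w1, wa, wa'⟩ := e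
    refine ⟨_, wa, fun s s1 sa => ?_⟩
    have wb := nd w w1 wa
    have := (Set.eq_of_subset_of_ncard_le (s := {♯(𝐂₁ w), a, ♯(𝐂₁ v), ♯(𝐂₁ u), b}) (t := cos G) ?_
      (h5.trans (Eq.le ?_)) cos_finite).ge ⟨s, s1, rfl⟩
    · rcases this with e | e | e | e | e
      exacts [Or.inr e, Or.inl e, absurd (e ▸ vb) (nd s s1 sa), absurd (e ▸ ub) (nd s s1 sa),
        absurd (Eq.dvd e) (nd s s1 sa)]
    · rintro _ (rfl | rfl | rfl | rfl | rfl)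
      exacts [⟨w, w1, rfl⟩, h.ea, ⟨v, v1, rfl⟩, ⟨u, u1, rfl⟩, h.eb]
    · rw [Set.ncard_insert_of_notMem, Set.ncard_insert_of_notMem, Set.ncard_insert_of_notMem, Set.ncard_pair ub']
      · rintro (e | e)
        exacts [vu e, vb' e]
      · rintro (e | e | e)
        exacts [h.ab (e ▸ vb), h.ab (e ▸ ub), h.ab (Eq.dvd e)]
      · rintro (e | e | e | e)
        exacts [wa' e, wb (e ▸ vb), wb (e ▸ ub), wb (Eq.dvd e)]
  have np := fun p hp => ia ▸ npp ns y1 (p := p) hp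
  have od : Od G (piOf a) a c := ⟨fun e => o e.2, pa, ⟨b, pb, by rw [← card_mul_ind y, ey, ia, mul_comm]⟩, hc,
    fun w w1 pw => all w w1 (da w w1 pw), np⟩
  obtain ⟨K, nK, eK, hC⟩ := od.iso ns
  have hK := od.hall eK
  have hH : Hall (piOf a)ᶜ (𝐂₁ y) ⊤ := ⟨le_top, pb.dvd ey.dvd, by
    rw [relIndex_top_right]; exact (pa.dvd ia.dvd).compl_compl⟩
  have := Fintype.ofFinite G
  refine not_sharp ns hr oy hH (fun w hw w1 => pb.dvd ((h.dvd w w1).resolve_left fun d =>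
    w1 ((PiGrp.elt (pa.dvd d) (self_mem_cent1 w)).eq_one (hH.pi.elt hw)))) fun g => sharp fun χ => ?_
  refine Rg.zero ns ⟨char_indFun_one _, by rw [indFun_one, eK, ← ia, mul_one], fun k hk k1 =>
    indFun_eq_zero_of_not_conj _ _ fun g hg => k1 ?_, inner_indFun_one_one _⟩ nK hK hC (od.odd hK.pi) (eK ▸ np) y1
    (ia.trans eK.symm) fun g hg => y1 ?_
  · simpa [conj_eq_one_iff] using ((hK.pi.elt hk).conj g).eq_one (hH.pi.elt hg)
  · simpa [conj_eq_one_iff] using (hK.pi.elt hg).eq_one ((hH.pi.elt (self_mem_cent1 y)).conj g)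

end CF.Fgs2.It
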