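import Cfsg.Agent.BG.B11
import Cfsg.Agent.Coprime.Thompson
import Cfsg.Agent.Fgs2.Basic2

/-! Normal subgroups all of whose noncentral elements have maximal centralizers. -/

set_option linter.unusedSectionVars false

namespace CF.Fgs2
open Subgroup CF.BG
open scoped commutatorElement

variable {G : Type*} [Group G] [Finite G] {N H K L : Subgroup G} {x y : G} {π : Set ℕ} {p : ℕ}

theorem exists_pp (hx : x ∉ H) : ∃ p y, p.Prime ∧ y ∈ zpowers x ∧ PiElt {p} y ∧ y ∉ H := by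
  by_contra! h
  exact hx (le_of_forall_syl' (K := zpowers x) (fun p hp _ P hP y hy => h p y hp (hP.le hy) (hP.pi.elt hy))
    (mem_zpowers x))

theorem cent1_le_of_mem (hy : y ∈ zpowers x) : 𝐂₁ x ≤ 𝐂₁ y := by
  rw [← cent_zpowers]; exact cent_le_cent1 hy

theorem npc_of_nil_local (hp : p.Prime) (hp2 : p ≠ 2) {S : Subgroup G} (hS : Syl p S K)
    (hJ : Nil (K ⊓ 𝐍 (Cfsg.thompsonSubgroupOf 0 S))) (hZ : Nil (K ⊓ 𝐂 (𝐙 S))) : NPC p K := by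
  have := Fact.mk hp
  rw [npc_iff hp]
  refine PLocal.thompson_hasNPC hp2 (dvd_zero p) (S := S.subgroupOf K)
    ⟨le_top, ((piGrp_iff_isPGroup hp).1 hS.pi).comap_subtype, by rw [relIndex_top_right]; exact hS.not_dvd hp⟩ ?_ ?_
  · rw [PLocal.thompson_subgroupOf hS.le,
      ← subgroupOf_normalizer_eq ((PLocal.thompson_le 0 S).trans hS.le)]
    have := Coprime.isNilpotent_subgroupOf_of_inf (h := hJ)
    exact Coprime.hasNPC_of_isNilpotent p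
  · rw [Coprime.centralizer_subgroupOf_eq hS.le, subgroupOf, subgroupOf, ← comap_inf, ← subgroupOf,
      Coprime.centralizer_subgroupOf_eq (inf_le_left.trans hS.le)]
    have := Coprime.isNilpotent_subgroupOf_of_inf (h := hZ)
    exact Coprime.hasNPC_of_isNilpotent p

theorem coatom_norm {M : Subgroup G} (hM : IsCoatom M) (n : M ≤ 𝐍 H) : 𝐍 H = M ∨ H ⊴ ⊤ := by
  rcases n.eq_or_lt with h | h
  · exact Or.inl h.symm
  · exact Or.inr ⟨le_top, (hM.2 _ h).ge⟩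

theorem eq_syl_sup {P Z : Subgroup G} (hP : Syl p P L) (hZ : Z ≤ L) (h : ∀ y ∈ L, PiElt {p}ᶜ y → y ∈ Z) :
    P ⊔ Z = L := by
  refine le_antisymm (sup_le hP.le hZ) (le_of_forall_syl fun r hr _ => ?_)
  by_cases e : r = p
  · exact ⟨P, e ▸ hP, le_sup_left⟩
  · obtain ⟨R, hR⟩ := exists_syl r L
    exact ⟨R, hR, fun y hy => mem_sup_right (h y (hR.le hy) ((hR.pi.elt hy).of_single' e))⟩

/-- centralizers of noncentral elements of `N` are maximal -/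
def MC (N : Subgroup G) : Prop := ∀ x ∈ N, x ∉ 𝐂 N → IsCoatom (𝐂₁ x)

namespace MC
variable (h : MC N)
include h

theorem eq_of_le (hx : x ∈ N) (hx' : x ∉ 𝐂 N) (hy : y ∉ 𝐂 N) (l : 𝐂₁ x ≤ 𝐂₁ y) : 𝐂₁ x = 𝐂₁ y := by
  refine l.eq_or_lt.resolve_right fun k => hy ?_
  rw [← le_cent1_iff, (h x hx hx').2 _ k]; exact le_top

theorem eq_of_coprime (hx : x ∈ N) (hx' : x ∉ 𝐂 N) (hy : y ∈ N) (hy' : y ∉ 𝐂 N) (a : PiElt π x)
    (b : PiElt πᶜ y) (c : x * y = y * x) : 𝐂₁ x = 𝐂₁ y := by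
  have e1 : x ∈ zpowers (x * y) := by have := constt_mem π (x * y); rwa [constt_eq a b c] at this
  have e2 : y ∈ zpowers (x * y) := by have := constt_mem πᶜ (x * y); rwa [constt_eq' a b c] at this
  have : x * y ∉ 𝐂 N := fun k => hx' (zpowers_le.2 k e1)
  rw [← h.eq_of_le (mul_mem hx hy) this hx' (cent1_le_of_mem e1),
    h.eq_of_le (mul_mem hx hy) this hy' (cent1_le_of_mem e2)]

theorem exists_pp (hx : x ∈ N) (hx' : x ∉ 𝐂 N) :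
    ∃ p y, p.Prime ∧ y ∈ zpowers x ∧ PiElt {p} y ∧ y ∈ N ∧ y ∉ 𝐂 N ∧ 𝐂₁ x = 𝐂₁ y := by
  obtain ⟨p, y, a, b, c, d⟩ := Fgs2.exists_pp hx'
  exact ⟨p, y, a, b, c, zpowers_le.2 hx b, d, h.eq_of_le hx hx' d (cent1_le_of_mem b)⟩

theorem cent_of_pi' (hx : x ∈ N) (hx' : x ∉ 𝐂 N) (a : PiElt π x) (hy : y ∈ N ⊓ 𝐂₁ x) (b : PiElt πᶜ y) :
    N ⊓ 𝐂₁ x ≤ 𝐂₁ y := by
  by_cases k : y ∈ 𝐂 N
  · exact inf_le_left.trans (le_cent1_iff.2 k)
  · rw [h.eq_of_coprime hx hx' hy.1 k a b (mem_cent1.1 hy.2).symm]; exact inf_le_right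

theorem nil (hx : x ∈ N) (hx' : x ∉ 𝐂 N) : Nil (N ⊓ 𝐂₁ x) := by
  obtain ⟨p, x, -, -, a, hx, hx', e⟩ := h.exists_pp hx hx'
  rw [e]
  have k : ∀ r R, r ≠ p → Syl r R (N ⊓ 𝐂₁ x) → N ⊓ 𝐂₁ x ≤ 𝐂 R := fun r R e hR =>
    cent_symm fun y hy => le_cent1_iff.1 (h.cent_of_pi' hx hx' a (hR.le hy) ((hR.pi.elt hy).of_single' e))
  refine nil_of_forall_syl fun r _ _ => ?_
  obtain ⟨R, hR⟩ := exists_syl r (N ⊓ 𝐂₁ x)
  refine ⟨R, hR, ?_⟩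
  by_cases e : r = p
  · subst e
    refine le_of_forall_syl fun s _ _ => ?_
    by_cases e : s = r
    · exact ⟨R, e ▸ hR, le_norm_self R⟩
    · obtain ⟨S, hS⟩ := exists_syl s (N ⊓ 𝐂₁ x)
      exact ⟨S, hS, norm_of_cent' (hR.le.trans (k s S e hS))⟩
  · exact norm_of_cent (k r R e hR)

theorem exists_normal (n : N ⊴ ⊤) (hN : ¬ N ≤ 𝐂 N) :
    ∃ p V, p.Prime ∧ PiGrp {p} V ∧ V ≤ N ∧ V ⊴ ⊤ ∧ ¬ V ≤ 𝐂 N := by
  by_contra! hc
  obtain ⟨p, x, hp, hp2, hx, hx', a⟩ : ∃ p x, p.Prime ∧ p ≠ 2 ∧ x ∈ N ∧ x ∉ 𝐂 N ∧ PiElt {p} x := by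
    by_contra! k
    obtain ⟨P, hP⟩ := exists_syl 2 N
    have e := eq_syl_sup hP (Z := 𝐙 N) inf_le_left fun y hy b => ⟨hy, by
      by_contra hy'
      obtain ⟨p, z, hp, c, d, e, f, -⟩ := h.exists_pp hy hy'
      refine k p z hp ?_ e f d
      rintro rfl
      exact f ((d.eq_one (b.of_mem_zpowers c)) ▸ one_mem _)⟩
    have : N ≤ 𝐍 P := e.ge.trans (sup_le (le_norm_self P) (norm_of_cent (inf_le_right.trans (cent_anti hP.le))))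
    exact hN (e.ge.trans (sup_le (hc 2 P Nat.prime_two hP.pi hP.le
      ⟨le_top, n.norm.trans (hP.norm_le_norm this)⟩) inf_le_right))
  have hM := h x hx hx'
  have hC := h.nil hx hx'
  have nC : 𝐂₁ x ≤ 𝐍 (N ⊓ 𝐂₁ x) := norm_inf (le_top.trans n.norm) (le_norm_self _)
  set M := 𝐂₁ x
  set C := N ⊓ M
  have k1 : ∀ q W, q.Prime → PiGrp {q} W → W ≤ N → M ≤ 𝐍 W → ¬ W ≤ 𝐂 N → 𝐍 W = M :=
    fun q W a b c d e => (coatom_norm hM d).resolve_right fun f => e (hc q W a b c f)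
  have k2 : ∀ q, q.Prime → ¬ 𝐎 {q} C ≤ 𝐂 N → Syl q (𝐎 {q} C) N ∧ N ⊓ 𝐍 (𝐎 {q} C) = C := fun q hq e => by
    have := k1 q _ hq (O_pi _ _) ((O_le _ _).trans inf_le_left) (le_norm_O _ nC) e
    exact ⟨syl_of_syl_norm ((O_le _ _).trans inf_le_left) (this ▸ hC.hall_O _), by rw [this]⟩
  have xP : x ∈ 𝐎 {p} C := hC.mem_O ⟨hx, self_mem_cent1 x⟩ a
  have xZ : x ∈ 𝐂 (𝐎 {p} C) := le_cent1_iff.1 ((O_le _ _).trans inf_le_right)
  have k3 : ∀ q, q.Prime → ¬ 𝐎 {q} C ≤ 𝐂 N → NPC q N := fun q hq e => by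
    obtain ⟨s, e'⟩ := k2 q hq e
    by_cases hqp : q = p
    · subst hqp
      refine npc_of_nil_local hq hp2 s ?_ (hC.mono (inf_le_inf_left _ (cent_le_cent1 (mem_inf.2 ⟨xP, xZ⟩))))
      rw [k1 q _ hq ((O_pi _ C).le (PLocal.thompson_le _ _)) ((PLocal.thompson_le _ _).trans s.le)
        ((le_norm_O _ nC).trans (PLocal.normalizer_le_normalizer_thompson _ _)) fun k => hx' (k
          (PLocal.centerThompson_le_thompson _ _ (PLocal.mem_centerThompson_of_center xP xZ (pow_zero x))))]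
      exact hC
    · refine s.burnside (e'.le.trans (cent_symm fun y hy => le_cent1_iff.1 ?_))
      exact h.cent_of_pi' hx hx' a (O_le _ _ hy) (((O_pi _ _).elt hy).of_single' hqp)
  obtain ⟨K, -, ⟨K1, K2, K3⟩, Km⟩ := exists_minimal (P := fun K => K ⊴ ⊤ ∧ K ≤ N ∧ C ⊔ K = N) (H := N)
    ⟨n, le_rfl, sup_eq_right.2 inf_le_left⟩
  have k4 : ∀ q, q.Prime → ¬ 𝐎 {q} C ≤ 𝐂 N → PiGrp {q}ᶜ K := fun q hq e => by
    have s := (k2 q hq e).1.inf_normal ⟨K2, le_top.trans K1.norm⟩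
    have d := ((k3 q hq e).mono K2).sdprod s
    rw [← Km (𝐎 {q}ᶜ K) ⟨K1.O _, (O_le _ _).trans K2, le_antisymm (sup_le inf_le_left ((O_le _ _).trans K2))
      (K3.ge.trans (sup_le le_sup_left (d.sup.ge.trans (sup_le le_sup_right
        (inf_le_left.trans ((O_le _ _).trans le_sup_left))))))⟩ (O_le _ _)]
    exact O_pi _ _
  have k5 : K ⊓ M ≤ 𝐂 N := le_of_forall_syl' fun r hr hd R hR => by
    by_contra e
    have l : R ≤ 𝐎 {r} C := hC.le_O (hR.le.trans (inf_le_inf_right _ K2)) hR.pi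
    exact k4 r hr (fun k => e (l.trans k)) r hr (hd.trans (card_dvd inf_le_left)) rfl
  have pK := k4 p hp fun k => hx' (k xP)
  have nP : 𝐎 {p} C ≤ 𝐍 K := le_top.trans K1.norm
  have cop := (O_pi {p} C).coprime pK
  have k6 : ¬ K ≤ 𝐂 N := fun k => hx' (le_cent1_iff.1 (K3.ge.trans (sup_le inf_le_right (k.trans (cent_le_cent1 hx)))))
  refine k6 (le_of_forall_syl fun r hr _ => ?_)
  obtain ⟨R, hR, nR⟩ := exists_syl_inv nP cop (Or.inl (O_pi _ _).nil.sol) r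
  refine ⟨R, hR, ?_⟩
  by_contra e
  have : M ≤ 𝐍 R := le_norm_of_cj fun m hm => by
    obtain ⟨g, hg, e⟩ := hR.syl_conj_inv (hR.cj_of_norm (K1.norm (mem_top m))) nP cop (Or.inl (O_pi _ _).nil.sol) nR
      (by rw [← cj_of_norm (le_norm_O {p} nC hm), cj_norm_iff]; exact nR)
    rw [e, cj_of_cent (cent_anti (hR.le.trans K2) (k5 ⟨hg.1, cent_le_cent1 xP hg.2⟩))]
  have := k1 r R hr hR.pi (hR.le.trans K2) this e
  exact e ((le_inf hR.le (this ▸ le_norm_self R)).trans k5)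

theorem pcase (n : N ⊴ ⊤) (k : ∀ y ∈ N, PiElt {p}ᶜ y → y ∈ 𝐂 N) :
    (∀ a ∈ N, ∀ b ∈ N, ⁅a, b⁆ ∈ 𝐂 N) ∧ ∀ a ∈ N, a ^ p ∈ 𝐂 N := by
  obtain ⟨P, hP⟩ := exists_syl p N
  have e := eq_syl_sup hP (Z := 𝐙 N) inf_le_left fun y hy b => ⟨hy, k y hy b⟩
  have c : 𝐙 N ≤ 𝐂 P := inf_le_right.trans (cent_anti hP.le)
  have nP : ⊤ ≤ 𝐍 P := n.norm.trans (hP.norm_le_norm (e.ge.trans (sup_le (le_norm_self P) (norm_of_cent c))))
  have hΦ : 𝚽 P ≤ 𝐂 N := cent_symm fun x hx => by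
    by_cases hx' : x ∈ 𝐂 N
    · exact cent_anti ((Phi_le P).trans hP.le) hx'
    rw [← le_cent1_iff]
    by_contra k
    have e1 := (h x hx hx').2 _ (right_lt_sup.2 k)
    have e2 := inf_sup_left (N := 𝐂₁ x) (Phi_le P) (Or.inr (le_top.trans (le_norm_Phi nP)))
    rw [e1, inf_top_eq, sup_comm] at e2
    have := eq_of_le_sup_Phi inf_le_left e2.le
    exact k ((Phi_le P).trans (this.ge.trans inf_le_right))
  rw [hP.pi.Phi_le_iff] at hΦ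
  have d : ∀ a ∈ N, ∃ u ∈ P, ∃ z ∈ 𝐙 N, u * z = a := fun a ha => (mem_sup_norm' (norm_of_cent c)).1 (e.ge ha)
  refine ⟨fun a ha b hb => ?_, fun a ha => ?_⟩
  · obtain ⟨u, hu, z, hz, rfl⟩ := d a ha
    obtain ⟨v, hv, w, hw, rfl⟩ := d b hb
    have : ⁅u * z, v * w⁆ = ⁅u, v⁆ := by
      have e1 := mem_cent.1 hz.2 _ hb
      have e2 := mem_cent.1 hw.2 _ (inv_mem (hP.le hu))
      simp only [commutatorElement_def, mul_inv_rev]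
      calc _ = u * (z * (v * w)) * z⁻¹ * u⁻¹ * w⁻¹ * v⁻¹ := by group
        _ = u * v * (w * u⁻¹) * w⁻¹ * v⁻¹ := by rw [← e1]; group
        _ = _ := by rw [← e2]; group
    exact this ▸ hΦ.1 (commutator_mem_commutator hu hv)
  · obtain ⟨u, hu, z, hz, rfl⟩ := d a ha
    rw [Commute.mul_pow (mem_cent.1 hz.2 _ (hP.le hu))]
    exact mul_mem (hΦ.2 u hu) (pow_mem hz.2 _)

theorem struct (n : N ⊴ ⊤) : (∃ p, p.Prime ∧ (∀ a ∈ N, ∀ b ∈ N, ⁅a, b⁆ ∈ 𝐂 N) ∧ ∀ a ∈ N, a ^ p ∈ 𝐂 N) ∨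
    ∃ (p q : ℕ) (V : Subgroup G) (w : G), p.Prime ∧ q.Prime ∧ p ≠ q ∧ V ⊴ ⊤ ∧ V ≤ N ∧ 𝐙 N < V ∧ Abel V ∧
      (∀ v ∈ V, v ^ p ∈ 𝐂 N) ∧ w ∈ N ∧ w ∉ 𝐂 N ∧ V ⊔ (N ⊓ 𝐂₁ w) = N ∧
      (∀ a ∈ N ⊓ 𝐂₁ w, ∀ b ∈ N ⊓ 𝐂₁ w, ⁅a, b⁆ ∈ 𝐂 N) ∧ (∀ a ∈ N ⊓ 𝐂₁ w, a ^ q ∈ 𝐂 N) ∧
      ∀ c ∈ N ⊓ 𝐂₁ w, c ∉ 𝐂 N → ∀ v ∈ V, ⁅c, v⁆ ∈ 𝐂 N → v ∈ 𝐂 N := by
  by_cases hN : N ≤ 𝐂 N
  · exact Or.inl ⟨2, Nat.prime_two, fun a ha b hb => hN (der_le _ (commutator_mem_commutator ha hb)),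
      fun a ha => hN (pow_mem ha _)⟩
  obtain ⟨p, V0, hp, p0, l0, n0, c0⟩ := h.exists_normal n hN
  by_cases k : ∀ y ∈ N, PiElt {p}ᶜ y → y ∈ 𝐂 N
  · exact Or.inl ⟨p, hp, h.pcase n k⟩
  right
  have nZ : 𝐙 N ⊴ ⊤ := ⟨le_top, norm_inf n.norm (norm_cent n.norm)⟩
  obtain ⟨V, lV, ch⟩ := exists_chief_above nZ (W := 𝐙 N ⊔ V0) ⟨le_top, norm_sup nZ.norm n0.norm⟩
    (left_lt_sup.2 fun k => c0 (k.trans inf_le_right))
  have VN : V ≤ N := lV.trans (sup_le inf_le_left l0)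
  have ab : Abelem p (qt (𝐙 N) V) := ch.minN.abelem_of_pi
    ((p0.qt _).le ((qt_mono _ lV).trans (qt_sup_left (le_top.trans nZ.norm)).le))
  have dV : ⁅V, V⁆ ≤ 𝐙 N := (abel_qt_iff (le_top.trans nZ.norm)).1 ab.abel
  have pV : ∀ v ∈ V, v ^ p ∈ 𝐂 N := fun v hv => by
    have m : v ∈ 𝐍 (𝐙 N) := nZ.norm (mem_top v)
    have := ab.pow _ (qe_mem_qt hv m)
    rw [← qe_pow m, qe_eq_one (pow_mem m _)] at this
    exact this.2
  have K1 : ∀ x ∈ N, x ∉ 𝐂 N → ¬ V ≤ 𝐂₁ x → V ⊓ 𝐂₁ x = 𝐙 N ∧ V ⊔ 𝐂₁ x = ⊤ := fun x hx hx' k => by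
    have e := (h x hx hx').2 _ (right_lt_sup.2 k)
    have l : 𝐙 N ≤ V ⊓ 𝐂₁ x := le_inf ch.lt.le (inf_le_right.trans (cent_le_cent1 hx))
    refine ⟨(ch.eq_or l inf_le_left (e.ge.trans (sup_le ?_ ?_))).resolve_right fun e => k (e.ge.trans inf_le_right), e⟩
    · exact norm_of_comm_le (((commutator_mono inf_le_left le_rfl).trans dV).trans l)
    · exact norm_inf (le_top.trans ch.normal.norm) (le_norm_self _)
  have K2 : Abel V := fun x hx => by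
    by_cases hx' : x ∈ 𝐂 N
    · exact cent_anti VN hx'
    rw [← le_cent1_iff]
    by_contra k
    exact hx' ((K1 x (VN hx) hx' k).1.le ⟨hx, self_mem_cent1 x⟩).2
  have red : ∀ x ∈ V, x ∉ 𝐂 N → ∃ v ∈ V, v ∉ 𝐂 N ∧ PiElt {p} v ∧ N ⊓ 𝐂₁ x ≤ 𝐂₁ v := fun x hx hx' => by
    obtain ⟨z, hz, v, hv, rfl⟩ := (mem_sup_norm (le_top.trans n0.norm)).1 (lV hx)
    refine ⟨v, (mul_mem_cancel_left (ch.lt.le hz)).1 hx, fun k => hx' (mul_mem hz.2 k), p0.elt hv, fun c hc => ?_⟩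
    have := mem_cent1.1 hc.2
    rw [← mul_assoc, mem_cent.1 hz.2 c hc.1, mul_assoc, mul_assoc] at this
    exact mem_cent1.2 (mul_left_cancel this)
  obtain ⟨w, hw, hw', pw, Vw⟩ : ∃ w ∈ N, w ∉ 𝐂 N ∧ PiElt {p}ᶜ w ∧ ¬ V ≤ 𝐂₁ w := by
    by_contra! k'
    obtain ⟨x, hx, hx'⟩ := SetLike.not_le_iff_exists.1 fun k : V ≤ 𝐂 N => ch.lt.not_ge (le_inf VN k)
    obtain ⟨x, hx, hx', px, -⟩ := red x hx hx'
    have e : ∀ w ∈ N, w ∉ 𝐂 N → PiElt {p}ᶜ w → 𝐂₁ x = 𝐂₁ w := fun w a b c =>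
      h.eq_of_coprime (VN hx) hx' a b px c (mem_cent1.1 (k' w a b c hx))
    have e' : ∀ w ∈ N, PiElt {p}ᶜ w → w ∈ 𝐂₁ x := fun w a c => by
      by_cases b : w ∈ 𝐂 N
      · exact cent_le_cent1 (VN hx) b
      · exact e w a b c ▸ self_mem_cent1 w
    obtain ⟨y, hy, hy', py⟩ : ∃ y ∈ N, y ∉ 𝐂₁ x ∧ PiElt {p} y := by
      obtain ⟨y, hy, hy'⟩ := SetLike.not_le_iff_exists.1 (mt le_cent1_iff.1 hx')
      obtain ⟨a, b, ha, hb, pa, pb, rfl⟩ := exists_piPart {p} y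
      exact ⟨a, zpowers_le.2 hy ha, fun k => hy' (mul_mem k (e' b (zpowers_le.2 hy hb) pb)), pa⟩
    have hy2 : y ∉ 𝐂 N := fun k => hy' (cent_le_cent1 (VN hx) k)
    have e1 := inf_sup_left (N := 𝐂₁ y) VN (Or.inr (le_top.trans ch.normal.norm))
    rw [(K1 y hy hy2 fun k => hy' (mem_cent1_comm.1 (k hx))).2, inf_top_eq] at e1
    obtain ⟨P, hP⟩ := exists_syl p (N ⊓ 𝐂₁ y)
    have e2 := eq_syl_sup hP (Z := 𝐙 N) (inf_le_inf_left _ (cent_le_cent1 hy)) fun u hu pu => ⟨hu.1, by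
      by_contra b
      exact hy' (e u hu.1 b pu ▸ mem_cent1_comm.1 hu.2)⟩
    have e3 : N ≤ 𝐙 N ⊔ (V0 ⊔ P) := e1.le.trans (sup_le (lV.trans (sup_le_sup_left le_sup_left _))
      (e2.ge.trans (sup_le (le_sup_of_le_right le_sup_right) le_sup_left)))
    refine k fun u hu pu => (pu.mem_of_relIndex (K := 𝐙 N) (e3 hu) (le_top.trans nZ.norm) ?_).2
    rw [relIndex_sup_norm' (Or.inl (le_top.trans nZ.norm)), compl_compl]
    exact fun r hr hd => p0.sup hP.pi (Or.inr (le_top.trans n0.norm)) r hr (hd.trans (relIndex_dvd_card _ _))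
  obtain ⟨q, w, hq, hw0, qw, hw, hw', e⟩ := h.exists_pp hw hw'
  have pw := pw.of_mem_zpowers hw0
  rw [e] at Vw
  have pq : p ≠ q := by rintro rfl; exact hw' (qw.eq_one pw ▸ one_mem _)
  obtain ⟨i1, i2⟩ := K1 w hw hw' Vw
  have e1 := inf_sup_left (N := 𝐂₁ w) VN (Or.inr (le_top.trans ch.normal.norm))
  rw [i2, inf_top_eq] at e1
  have K3 : ∀ c ∈ N ⊓ 𝐂₁ w, c ∉ 𝐂 N → ∀ x ∈ V, c ∈ 𝐂₁ x → x ∈ 𝐂 N := fun c hc hc' x hx cx => by
    by_contra hx'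
    obtain ⟨v, hv, hv', pv, l⟩ := red x hx hx'
    obtain ⟨r, d, -, hd, rd, d1, d2, -⟩ := h.exists_pp hc.1 hc'
    have dv : d ∈ 𝐂₁ v := zpowers_le.2 (l ⟨hc.1, cx⟩) hd
    have dw : d ∈ 𝐂₁ w := zpowers_le.2 hc.2 hd
    refine hv' (i1.le ⟨hv, ?_⟩).2
    by_cases e : r = p
    · subst e
      rw [← h.eq_of_coprime d1 d2 hw hw' rd pw (mem_cent1.1 dw)]; exact mem_cent1_comm.1 dv
    · refine mem_cent1_comm.1 ?_
      rw [h.eq_of_coprime (VN hv) hv' d1 d2 pv (rd.of_single' e) (mem_cent1.1 dv).symm]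
      exact mem_cent1_comm.1 dw
  obtain ⟨x, hx, hx'⟩ := SetLike.not_le_iff_exists.1 fun k : V ≤ 𝐂 N => ch.lt.not_ge (le_inf VN k)
  have Vx : V ≤ 𝐂₁ x := le_cent1_iff.2 (K2 hx)
  have K4 : N ⊓ 𝐂₁ x ≤ V := fun u hu => by
    obtain ⟨v, hv, c, hc, rfl⟩ := (mem_sup_norm' (le_top.trans ch.normal.norm)).1 (e1.le hu.1)
    refine mul_mem hv (ch.lt.le ⟨hc.1, ?_⟩)
    by_contra hc'
    exact hx' (K3 c hc hc' x hx ((mul_mem_cancel_left (Vx hv)).1 hu.2))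
  have wV : w ∉ V := fun k => hw' (i1.le ⟨k, self_mem_cent1 w⟩).2
  have ch2 : Chief ⊤ V N := ⟨lt_of_le_of_ne VN fun k => wV (k ▸ hw), ch.normal.norm, n, fun W a b c => by
    refine le_antisymm (le_trans (le_inf b.le ?_) K4) a
    by_contra k
    have e := inf_sup_left (N := 𝐂₁ x) b.le (Or.inr (le_top.trans c))
    rw [(h x (VN hx) hx').2 _ (right_lt_sup.2 k), inf_top_eq] at e
    exact b.not_ge (e.le.trans (sup_le le_rfl (K4.trans a)))⟩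
  obtain ⟨r, hr, ab2⟩ := ch2.minN.exists_abelem (by
    rw [e1, qt_sup_left (le_top.trans ch.normal.norm)]; exact ((h.nil hw hw').qt _).sol)
  have m : ∀ u : G, u ∈ 𝐍 V := fun u => ch.normal.norm (mem_top u)
  obtain rfl : r = q := by
    by_contra k
    exact wV ((qe_eq_one (m w)).1 ((ab2.pi.elt (qe_mem_qt hw (m w))).eq_one ((qw.qe (m w)).of_single' (Ne.symm k))))
  have K5 : ∀ a ∈ N ⊓ 𝐂₁ w, a ^ r ∈ 𝐂 N := fun a ha => by
    have := ab2.pow _ (qe_mem_qt ha.1 (m a))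
    rw [← qe_pow (m a), qe_eq_one (m _)] at this
    exact (i1.le ⟨this, pow_mem ha.2 _⟩).2
  refine ⟨p, r, V, w, hp, hq, pq, ch.normal, VN, ch.lt, K2, pV, hw, hw', e1.symm, fun a ha b hb => ?_, K5,
    fun c hc hc' v hv k => K3 c hc hc' v hv ?_⟩
  · exact (i1.le ⟨(abel_qt_iff (le_top.trans ch.normal.norm)).1 ab2.abel (commutator_mem_commutator ha.1 hb.1),
      der_le _ (commutator_mem_commutator ha.2 hb.2)⟩).2
  · have e1 : c * v * c⁻¹ = ⁅c, v⁆ * v := by simp [commutatorElement_def]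
    have e2 : v * c * v⁻¹ = ⁅c, v⁆⁻¹ * c := by simp [commutatorElement_def, mul_assoc]
    have f1 : ⁅c, v⁆ ^ p = 1 := by
      have := congrArg (· ^ p) e1
      simp only [conj_pow] at this
      rw [mem_cent.1 (pV v hv) c hc.1, mul_inv_cancel_right, Commute.mul_pow (mem_cent.1 k v (VN hv)).symm] at this
      exact right_eq_mul.1 this
    have f2 : ⁅c, v⁆ ^ r = 1 := by
      have := congrArg (· ^ r) e2
      simp only [conj_pow] at this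
      rw [mem_cent.1 (K5 c hc) v (VN hv), mul_inv_cancel_right,
        Commute.mul_pow (mem_cent.1 (inv_mem k) c hc.1).symm, inv_pow] at this
      exact inv_eq_one.1 (right_eq_mul.1 this)
    exact mem_cent1.2 (commutatorElement_eq_one_iff_mul_comm.1
      ((piElt_of_pow_eq_one hp f1).eq_one ((piElt_of_pow_eq_one hq f2).of_single' pq.symm)))

theorem quot (n : N ⊴ ⊤) {X : Type*} [Group X] [Finite X] (f : N →* X) (hf : Function.Surjective f)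
    (hk : ∀ a : N, f a = 1 ↔ (a : G) ∈ 𝐂 N) :
    (∃ p : ℕ, p.Prime ∧ Cfsg.IsElementaryAbelian p (⊤ : Subgroup X)) ∨
    ∃ (Q K : Subgroup X) (p : ℕ), p.Prime ∧ (♯Q).Prime ∧ p ≠ ♯Q ∧ K.Normal ∧ Abelem p K ∧ Frob K Q ⊤ ∧
      ∃ w ∈ N, w ∉ 𝐂 N ∧ Q = ((N ⊓ 𝐂₁ w).subgroupOf N).map f := by
  rcases h.struct n with ⟨p, hp, h1, h2⟩ | ⟨p, q, V, w, hp, hq, pq, nV, VN, lt, ab, pV, hw, hw', e, c1, c2, c3⟩
  · refine Or.inl ⟨p, hp, (abel_of_forall fun a _ b _ => ?_).comm, fun a _ => ?_⟩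
    · obtain ⟨a, rfl⟩ := hf a
      obtain ⟨b, rfl⟩ := hf b
      rw [← commutatorElement_eq_one_iff_mul_comm, ← map_commutatorElement, hk]; exact h1 a a.2 b b.2
    · obtain ⟨a, rfl⟩ := hf a
      rw [← map_pow, hk]; exact h2 a a.2
  right
  have nK : ((V.subgroupOf N).map f).Normal := ((normalIn_top.1 nV).subgroupOf N).map f hf
  have r : Reg ((V.subgroupOf N).map f) (((N ⊓ 𝐂₁ w).subgroupOf N).map f) := reg_of_forall (by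
    rintro _ ⟨c, hc, rfl⟩ c1 _ ⟨v, hv, rfl⟩ k
    rw [← commutatorElement_eq_one_iff_mul_comm, ← map_commutatorElement, hk] at k
    exact (hk v).2 (c3 c hc ((hk c).not.1 c1) v hv k))
  have k1 : (V.subgroupOf N).map f ≠ ⊥ := by
    obtain ⟨x, hx, hx'⟩ := SetLike.exists_of_lt lt
    exact ne_bot_of_mem (mem_map_of_mem f (x := ⟨x, VN hx⟩) hx) fun k => hx' ⟨VN hx, (hk _).1 k⟩
  have w1 : f ⟨w, hw⟩ ≠ 1 := fun k => hw' ((hk _).1 k)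
  have w2 : f ⟨w, hw⟩ ∈ ((N ⊓ 𝐂₁ w).subgroupOf N).map f := mem_map_of_mem f ⟨hw, self_mem_cent1 w⟩
  have aQ : Abelem q (((N ⊓ 𝐂₁ w).subgroupOf N).map f) := Abelem.mk' hq (abel_of_forall (by
    rintro _ ⟨a, ha, rfl⟩ _ ⟨b, hb, rfl⟩
    rw [← commutatorElement_eq_one_iff_mul_comm, ← map_commutatorElement, hk]; exact c1 a ha b hb)) (by
    rintro _ ⟨a, ha, rfl⟩
    rw [← map_pow, hk]; exact c2 a ha)
  have cQ : ♯(((N ⊓ 𝐂₁ w).subgroupOf N).map f) = q := by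
    obtain ⟨g, hg⟩ := (r.cyc_of_abel le_normalizer_of_normal k1 aQ.abel).exists_gen
    have g1 : g ≠ 1 := by rintro rfl; exact ne_bot_of_mem w2 w1 (by simpa using hg.symm)
    rw [← hg]; exact aQ.card_zpowers (hg ▸ mem_zpowers g) g1
  refine ⟨_, _, p, hp, cQ ▸ hq, cQ ▸ pq, nK, Abelem.mk' hp ((ab.subgroupOf N).map f) ?_,
    ⟨⟨le_normalizer_of_normal, ?_, r.inf_eq_bot⟩, k1, ne_bot_of_mem w2 w1, r⟩, w, hw, hw', rfl⟩
  · rintro _ ⟨a, ha, rfl⟩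
    rw [← map_pow, hk]; exact pV a ha
  · rw [← Subgroup.map_sup, ← subgroupOf_sup VN inf_le_left, e, subgroupOf_self, map_top_of_surjective f hf]

end MC

end CF.Fgs2
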