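import Mathlib
import Cfsg.Agent.Fgs2.Basic
import Cfsg.Agent.Invol.Dihedral

/-! `p`-by-cyclic subgroups. -/

set_option autoImplicit false

open Subgroup

namespace CF.Fgs2

universe u

variable {G : Type u} [Group G] [Finite G] {p : ℕ} [hp : Fact p.Prime]

theorem isCyclic_quotient_of_sup {X : Type*} [Group X] {N : Subgroup X} [N.Normal] {k : X}
    (h : N ⊔ zpowers k = ⊤) : IsCyclic (X ⧸ N) := by
  refine ⟨⟨(k : X ⧸ N), fun x => ?_⟩⟩
  obtain ⟨x, rfl⟩ := QuotientGroup.mk_surjective x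
  obtain ⟨n, hn, y, ⟨i, rfl⟩, rfl⟩ := mem_normal_sup_iff.1 (h ▸ mem_top x : x ∈ N ⊔ zpowers k)
  exact ⟨i, by simp [(QuotientGroup.eq_one_iff n).2 hn]⟩

theorem sup_subgroupOf_eq_top {S : Subgroup G} {k : G} :
    S.subgroupOf (S ⊔ zpowers k) ⊔ zpowers (⟨k, mem_sup_right (mem_zpowers k)⟩ : ↥(S ⊔ zpowers k)) = ⊤ := by
  apply map_injective (S ⊔ zpowers k).subtype_injective
  rw [Subgroup.map_sup, subgroupOf_map_subtype, MonoidHom.map_zpowers, ← MonoidHom.range_eq_map,
    subtype_range, inf_of_le_left le_sup_left]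
  rfl

theorem pbc_of {S : Subgroup G} (hS : IsPGroup p S) {k : G} (hk : k ∈ normalizer (S : Set G)) :
    (∀ T : Sylow p ↥(S ⊔ zpowers k), (T : Subgroup ↥(S ⊔ zpowers k)).Normal) ∧
    ∀ (T : Sylow p ↥(S ⊔ zpowers k)) [(T : Subgroup ↥(S ⊔ zpowers k)).Normal],
      IsCyclic (↥(S ⊔ zpowers k) ⧸ (T : Subgroup ↥(S ⊔ zpowers k))) := by
  haveI hN : (S.subgroupOf (S ⊔ zpowers k)).Normal :=
    normal_subgroupOf_of_le_normalizer (sup_le le_normalizer (by rwa [zpowers_le]))
  have hle : ∀ T : Sylow p ↥(S ⊔ zpowers k), S.subgroupOf (S ⊔ zpowers k) ≤ T := fun T =>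
    IsPGroup.le_sylow_of_normal (N := S.subgroupOf (S ⊔ zpowers k))
      (hS.comap_of_injective _ (subtype_injective _)) T
  haveI := isCyclic_quotient_of_sup (sup_subgroupOf_eq_top (S := S) (k := k))
  refine ⟨fun T => ?_, fun T _ => isCyclic_quotient_of_sup
    (eq_top_iff.2 (sup_subgroupOf_eq_top.symm.le.trans (sup_le_sup_right (hle T) _)))⟩
  refine ⟨fun x hx g => ?_⟩
  have h1 : g * x * g⁻¹ * x⁻¹ ∈ S.subgroupOf (S ⊔ zpowers k) := by
    rw [← QuotientGroup.eq_one_iff]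
    simp only [QuotientGroup.mk_mul, QuotientGroup.mk_inv]
    rw [mul_inv_eq_one, mul_inv_eq_iff_eq_mul]
    exact (IsCyclic.commGroup (α := ↥(S ⊔ zpowers k) ⧸ S.subgroupOf (S ⊔ zpowers k))).mul_comm _ _
  simpa using (T : Subgroup ↥(S ⊔ zpowers k)).mul_mem (hle T h1) hx

theorem exists_of_pbc {H : Subgroup G} (h1 : ∀ T : Sylow p H, (T : Subgroup H).Normal)
    (h2 : ∀ (T : Sylow p H) [(T : Subgroup H).Normal], IsCyclic (H ⧸ (T : Subgroup H))) :
    ∃ (S : Subgroup G) (k : G), IsPGroup p S ∧ k ∈ normalizer (S : Set G) ∧ ¬ p ∣ orderOf k ∧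
      H = S ⊔ zpowers k := by
  obtain ⟨T⟩ : Nonempty (Sylow p H) := inferInstance
  haveI := h1 T
  obtain ⟨g, hg⟩ := (h2 T).exists_generator
  obtain ⟨g, rfl⟩ := QuotientGroup.mk_surjective g
  obtain ⟨a, -, b, -, e, -, ⟨k, ha⟩, hb⟩ := exists_p_decomp p g
  have haT : a ∈ (T : Subgroup H) := by
    obtain ⟨Q, hQ⟩ := exists_sylow_mem ha
    haveI := Sylow.unique_of_normal T inferInstance
    rwa [Subsingleton.elim Q T] at hQ
  have htop : (T : Subgroup H) ⊔ zpowers b = ⊤ := by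
    rw [eq_top_iff]
    intro x _
    obtain ⟨i, hi⟩ := hg (x : H ⧸ (T : Subgroup H))
    have hi' : ((g ^ i : H) : H ⧸ (T : Subgroup H)) = x := by rw [QuotientGroup.mk_zpow]; exact hi
    rw [QuotientGroup.eq] at hi'
    have hgm : g ∈ (T : Subgroup H) ⊔ zpowers b :=
      e ▸ mul_mem (mem_sup_left haT) (mem_sup_right (mem_zpowers b))
    simpa using mul_mem (zpow_mem hgm i) (mem_sup_left hi')
  refine ⟨(T : Subgroup H).map H.subtype, b, T.2.map _, ?_, by rwa [orderOf_coe], ?_⟩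
  · exact le_normalizer_map H.subtype ⟨b, by rw [normalizer_eq_top]; trivial, rfl⟩
  · have := congrArg (map H.subtype) htop
    rw [Subgroup.map_sup, MonoidHom.map_zpowers, ← MonoidHom.range_eq_map, subtype_range] at this
    exact this.symm

theorem pbc_reduce (P : Sylow p G) (C : ∀ (X : Type u) [Group X], Prop)
    (hC : ∀ (X Y : Type u) [Group X] [Group Y], X ≃* Y → C X → C Y)
    (h : ∀ S ≤ (P : Subgroup G), ∀ k ∈ normalizer (S : Set G), ¬ p ∣ orderOf k → C ↥(S ⊔ zpowers k))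
    {H : Subgroup G} (h1 : ∀ T : Sylow p H, (T : Subgroup H).Normal)
    (h2 : ∀ (T : Sylow p H) [(T : Subgroup H).Normal], IsCyclic (H ⧸ (T : Subgroup H))) : C H := by
  obtain ⟨S, k, hS, hk, hpk, rfl⟩ := exists_of_pbc h1 h2
  obtain ⟨Q, hQ⟩ := hS.exists_le_sylow
  obtain ⟨g, rfl⟩ := MulAction.exists_smul_eq G Q P
  let φ := (MulAut.conj g).toMonoidHom
  have := h (S.map φ) (by
    rintro _ ⟨s, hs, rfl⟩
    show _ ∈ g • Q
    rw [mem_sylow_smul_iff]
    have : s ∈ Q := hQ hs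
    simpa [φ, mul_assoc] using this) (φ k) (le_normalizer_map φ ⟨k, hk, rfl⟩)
    (by rwa [show φ k = g * k * g⁻¹ from rfl, orderOf_conj])
  rw [← MonoidHom.map_zpowers, ← Subgroup.map_sup] at this
  exact hC _ _ (equivMapOfInjective _ φ (MulAut.conj g).injective).symm this

theorem isCyclic_sup_zpowers {S : Subgroup G} [IsCyclic S] (hS : IsPGroup p S) {k : G}
    (hk : k ∈ centralizer (S : Set G)) (hpk : ¬ p ∣ orderOf k) : IsCyclic ↥(S ⊔ zpowers k) := by
  obtain ⟨s, hs⟩ := (isCyclic_iff_exists_zpowers_eq_top (α := S)).1 inferInstance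
  have h1 : zpowers (s : G) = S := by
    have := congrArg (map S.subtype) hs
    rwa [MonoidHom.map_zpowers, ← MonoidHom.range_eq_map, subtype_range] at this
  obtain ⟨j, hj⟩ := orderOf_eq_pow_of_mem hS s.2
  have hc : Commute (s : G) k := hk s s.2
  have hcop : (orderOf (s : G)).Coprime (orderOf k) := by
    rw [hj]; exact Nat.Coprime.pow_left _ ((Nat.Prime.coprime_iff_not_dvd hp.out).2 hpk)
  have : S ⊔ zpowers k = zpowers (s * k : G) := by
    apply le_antisymm
    · refine sup_le ?_ ?_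
      · exact h1.ge.trans (zpowers_le.2 (mem_zpowers_mul_left hc hcop))
      · rw [zpowers_le]; exact mem_zpowers_mul_right hc hcop
    · rw [zpowers_le]; exact mul_mem (mem_sup_left s.2) (mem_sup_right (mem_zpowers k))
  rw [this]; infer_instance

omit [Finite G] in
theorem exists_zpowers_eq (S : Subgroup G) [IsCyclic S] : ∃ s, zpowers s = S := by
  obtain ⟨s, hs⟩ := (isCyclic_iff_exists_zpowers_eq_top (α := S)).1 inferInstance
  refine ⟨s, ?_⟩
  have := congrArg (map S.subtype) hs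
  rwa [MonoidHom.map_zpowers, ← MonoidHom.range_eq_map, subtype_range] at this

omit [Finite G] in
theorem dihedral_commute_of_sq {m : ℕ} {a b : DihedralGroup m} (ha : a ^ 2 ≠ 1) (hb : b ^ 2 ≠ 1) :
    Commute a b := by
  cases a with
  | sr i => exact absurd (by rw [sq, DihedralGroup.sr_mul_self]) ha
  | r i =>
    cases b with
    | sr j => exact absurd (by rw [sq, DihedralGroup.sr_mul_self]) hb
    | r j => show _ = _; simp [add_comm]

end CF.Fgs2
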