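/-
Doubly transitive groups of degree `p ^ 2 + 1`, part 2: an intermediate subgroup forces
two-point stabilizers of order prime to `p`; normal subgroups of the point stabilizer.
-/
import Cfsg.Agent.Fgs2.PSq1
import Cfsg.Agent.Perm.Linked
import Cfsg.Agent.Perm.PrimeDegree
set_option autoImplicit false
set_option linter.unusedSectionVars false

namespace CF.Fgs2.PSq
open Subgroup MulAction CF.BG
open scoped Pointwise

variable {G Ω : Type*} [Group G] [MulAction G Ω]

theorem eq_of_dvd_sq {p u : ℕ} (hp : p.Prime) (h : u ∣ p ^ 2) (h1 : u ≠ 1) (h2 : u ≠ p ^ 2) :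
    u = p := by
  obtain ⟨k, hk, rfl⟩ := (Nat.dvd_prime_pow hp).1 h
  interval_cases k
  · exact absurd (pow_zero p) h1
  · exact pow_one p
  · exact absurd rfl h2

theorem rel_D {a b : Ω} {X : Subgroup G} (hX : X ≤ stabilizer G a) :
    (stabilizer G a ⊓ stabilizer G b).relIndex X = (stabilizer G b).relIndex X := by
  rw [← inf_relIndex_right, inf_right_comm, inf_eq_right.2 hX, inf_relIndex_left]

theorem swap_D {a b : Ω} {s : G} (s1 : s • a = b) (s2 : s • b = a) :
    cj s (stabilizer G a ⊓ stabilizer G b) = stabilizer G a ⊓ stabilizer G b := by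
  rw [cj_inf, cj_stab, cj_stab, s1, s2, inf_comm]

theorem rel_dvd {D T K : Subgroup G} [Finite G] (hD : D ≤ K) (hT : T ⊴ K) :
    D.relIndex T ∣ D.relIndex K := by
  rw [← relIndex_sup_norm (Or.inr (hD.trans hT.norm))]
  exact relIndex_dvd_right le_sup_right (sup_le hT.le hD)

/-- fixed points -/
def fix (Ω : Type*) [MulAction G Ω] (X : Subgroup G) : Set Ω := {y | X ≤ stabilizer G y}

theorem mem_fix {X : Subgroup G} {y : Ω} : y ∈ fix Ω X ↔ X ≤ stabilizer G y := Iff.rfl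

theorem smul_mem_fix {X : Subgroup G} {y : Ω} (g : G) (h : y ∈ fix Ω X) :
    g • y ∈ fix Ω (cj g X) := by
  rw [mem_fix, ← cj_stab]
  exact cj_mono g h

theorem norm_mem_fix {X : Subgroup G} {y : Ω} {g : G} (hg : g ∈ 𝐍 X) (h : y ∈ fix Ω X) :
    g • y ∈ fix Ω X := by
  have := smul_mem_fix g h
  rwa [cj_of_norm hg] at this

namespace Cfg
variable [Finite G] [Finite Ω] {p : ℕ} (h : Cfg G Ω p) {a b c : Ω} {M P T : Subgroup G}
include h

theorem mid_idx (hb : b ≠ a) (h1 : stabilizer G a ⊓ stabilizer G b < M) (h2 : M < stabilizer G a) :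
    (stabilizer G b).relIndex M = p ∧ M.relIndex (stabilizer G a) = p := by
  have e := relIndex_mul_relIndex _ _ _ h1.le h2.le
  rw [inf_relIndex_left, h.idxD hb] at e
  have n1 : (stabilizer G a ⊓ stabilizer G b).relIndex M ≠ 1 := fun k =>
    h1.not_ge (relIndex_eq_one.1 k)
  have n2 : M.relIndex (stabilizer G a) ≠ 1 := fun k => h2.not_ge (relIndex_eq_one.1 k)
  have k : M.relIndex (stabilizer G a) = p :=
    eq_of_dvd_sq h.hp (Dvd.intro_left _ e) n2 fun k => n1 (by
      rw [k] at e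
      exact Nat.eq_of_mul_eq_mul_right (pow_pos h.hp.pos 2) (e.trans (one_mul _).symm))
  refine ⟨?_, k⟩
  rw [k, pow_two, rel_D h2.le] at e
  exact Nat.eq_of_mul_eq_mul_right h.hp.pos e

theorem mid_P (hP : Syl p P (stabilizer G a)) (hb : b ≠ a)
    (h1 : stabilizer G a ⊓ stabilizer G b < M) (h2 : M < stabilizer G a) :
    (stabilizer G b).relIndex (M ⊓ P) = p ∧ M.relIndex P = p := by
  obtain ⟨e1, e2⟩ := h.mid_idx hb h1 h2
  have e := relIndex_inf_mul_relIndex (stabilizer G b) M P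
  have e' : (stabilizer G b ⊓ M).relIndex P = p ^ 2 := by
    rw [← h.sylow_idx hP hb, ← inf_relIndex_right, ← inf_relIndex_right (stabilizer G b) P]
    congr 1
    exact le_antisymm (inf_le_inf_right _ inf_le_left) fun x hx =>
      ⟨⟨hx.1, h1.le ⟨hP.le hx.2, hx.1⟩⟩, hx.2⟩
  have l1 : (stabilizer G b).relIndex (M ⊓ P) ≤ p :=
    e1 ▸ relIndex_le_of_le_right inf_le_left (relIndex_ne_zero' _ _)
  have l2 : M.relIndex P ≤ p := e2 ▸ relIndex_le_of_le_right hP.le (relIndex_ne_zero' _ _)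
  rw [e', pow_two] at e
  have := h.hp.pos
  constructor <;> nlinarith

theorem not_dvd_D (hb : b ≠ a) (h1 : stabilizer G a ⊓ stabilizer G b < M)
    (h2 : M < stabilizer G a) : ¬ p ∣ ♯(stabilizer G a ⊓ stabilizer G b) := by
  obtain ⟨P, hP⟩ := exists_syl p (stabilizer G a)
  obtain ⟨e1, e2⟩ := h.mid_P hP hb h1 h2
  have hQ := h.sylow_D hP hb
  rw [← hQ.syl_eq_bot_iff h.hp]
  by_contra hne
  set Q := P ⊓ stabilizer G b with hQd
  have QR : Q ≤ M ⊓ P := le_inf (hQ.le.trans h1.le) inf_le_left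
  have iQ : Q.relIndex (M ⊓ P) = p := by
    rw [← e1, ← inf_relIndex_right, ← inf_relIndex_right (stabilizer G b)]
    congr 1
    exact le_antisymm (inf_le_inf_right _ inf_le_right) fun x hx => ⟨⟨hx.2.2, hx.1⟩, hx.2⟩
  have nQ : M ⊓ P ≤ 𝐍 Q := norm_prime hP.pi.inf_right.nil QR (iQ.symm ▸ h.hp)
  have oM : orb (M ⊓ P) b = orb M b :=
    Set.eq_of_subset_of_ncard_le (orb_mono inf_le_left b) (by
      rw [ncard_orb, ncard_orb, e1, (h.mid_idx hb h1 h2).1])
  have bQ : b ∈ fix Ω Q := hQ.le.trans inf_le_right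
  have aQ : a ∈ fix Ω Q := hQ.le.trans inf_le_left
  have hF : fix Ω Q = insert a (orb M b) := by
    refine Set.Subset.antisymm (fun c hc => ?_) ?_
    · by_contra hn
      rw [Set.mem_insert_iff, not_or] at hn
      obtain ⟨y, hy, rfl⟩ := h.sylow_trans hP hb hn.1
      have yn : y ∈ 𝐍 Q := by
        rw [← cj_eq_self]
        refine (eq_of_card_eq ?_ (card_cj _ _).symm).symm
        rw [hQd, cj_inf, cj_of_mem hy, cj_stab]
        exact le_inf inf_le_left hc
      have : P ⊓ 𝐍 Q = P := by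
        refine (Fgs1.eq_or_eq_of_relIndex_prime (H := M ⊓ P) ?_ (le_inf inf_le_right nQ)
          inf_le_left).resolve_left fun e => hn.2 ⟨y, ?_, rfl⟩
        · rw [inf_relIndex_right, e2]; exact h.hp
        · exact (e.le ⟨hy, yn⟩).1
      refine hne (h.eq_bot aQ fun c hc => ?_)
      obtain ⟨z, hz, rfl⟩ := h.sylow_trans hP hb hc
      exact norm_mem_fix (this.ge hz).2 bQ
    · rintro c (rfl | hc)
      · exact aQ
      · rw [← oM] at hc
        obtain ⟨r, hr, rfl⟩ := hc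
        exact norm_mem_fix (nQ hr) bQ
  have pres : ∀ m ∈ M, ∀ x ∈ fix Ω Q, m • x ∈ fix Ω Q := by
    intro m hm x hx
    rw [hF] at hx ⊢
    rcases hx with rfl | hx
    · exact Or.inl (h2.le hm)
    · exact Or.inr (smul_mem_orb hm hx)
  obtain ⟨s, s1, s2⟩ := h.two a b b a hb.symm hb
  obtain ⟨d, hd, e⟩ := (swap_D s1 s2 ▸ hQ.cj s).syl_conj hQ
  rw [cj_cj] at e
  refine h.no_line (F := fix Ω Q) ?_ hb aQ bQ (fun d hd => pres d (h1.le hd)) (fun y hy ya => ?_)
    (n := d * s) (fun x hx => norm_mem_fix (cj_eq_self.1 e.symm) hx) ?_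
  · rw [hF, Set.ncard_insert_of_notMem fun k => orb_subset h2.le hb k rfl, ncard_orb,
      (h.mid_idx hb h1 h2).1]
  · rw [hF] at hy
    obtain ⟨m, hm, rfl⟩ := hy.resolve_left ya
    exact ⟨m, h2.le hm, pres m hm, rfl⟩
  · rw [mul_smul, s1, mem_stabilizer_iff.1 hd.2]
    exact hb

theorem D_conj (hb : b ≠ a) (hc : c ≠ a) :
    ♯(stabilizer G a ⊓ stabilizer G c) = ♯(stabilizer G a ⊓ stabilizer G b) := by
  obtain ⟨g, hg, rfl⟩ := h.trans hb hc
  rw [← card_cj g (_ ⊓ stabilizer G b), cj_inf, cj_stab, cj_stab, mem_stabilizer_iff.1 hg]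

theorem idx_conj (hT : T ⊴ stabilizer G a) (hb : b ≠ a) (hc : c ≠ a) :
    (stabilizer G c).relIndex T = (stabilizer G b).relIndex T := by
  obtain ⟨g, hg, rfl⟩ := h.trans hb hc
  rw [← relIndex_cj g (stabilizer G b), cj_stab, cj_of_norm (hT.norm hg)]

theorem idx_dvd (hT : T ⊴ stabilizer G a) (hb : b ≠ a) :
    (stabilizer G b).relIndex T ∣ p ^ 2 := by
  rw [← h.idxD hb, ← rel_D hT.le, ← inf_relIndex_left (stabilizer G a)]
  exact rel_dvd inf_le_left hT

theorem idx_eq (hT : T ⊴ stabilizer G a) (hb : b ≠ a) (h1 : T ≠ ⊥) (h2 : ¬ p ^ 2 ∣ ♯T) :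
    (stabilizer G b).relIndex T = p :=
  eq_of_dvd_sq h.hp (h.idx_dvd hT hb)
    (fun e => h1 (h.eq_bot hT.le fun c hc => relIndex_eq_one.1 ((h.idx_conj hT hb hc).trans e)))
    fun e => h2 (e ▸ Dvd.intro_left _ (card_inf_mul_relIndex _ _))

theorem bot_of_normal {X : Subgroup G} (hT : T ⊴ stabilizer G a) (hb : b ≠ a)
    (e : (stabilizer G b).relIndex T = p) (hX : X ⊴ T) (k : ¬ p ∣ ♯X) : X = ⊥ := by
  refine h.eq_bot (hX.le.trans hT.le) fun c hc => ?_
  have d := rel_dvd (D := stabilizer G c ⊓ T) inf_le_right hX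
  rw [inf_relIndex_right, h.idx_conj hT hb hc, e, Nat.dvd_prime h.hp] at d
  rcases d with d | d
  · exact (relIndex_eq_one.1 d).trans inf_le_left
  · exact absurd (d ▸ Dvd.intro_left _ (card_inf_mul_relIndex _ _)) k

/-- a non-solvable normal subgroup with orbits of length `p` is doubly transitive on them, and
a point stabilizer fixes a point in every orbit -/
theorem nonsol (p2 : p ≠ 2) (hP : Syl p P (stabilizer G a)) (hT : T ⊴ stabilizer G a) (hb : b ≠ a)
    (e : (stabilizer G b).relIndex T = p) (hD : ¬ p ∣ ♯(stabilizer G a ⊓ stabilizer G b))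
    (ns : ¬ Sol T) :
    (∀ y ∈ orb T b, ∀ z ∈ orb T b, y ≠ b → z ≠ b → ∃ t ∈ T ⊓ stabilizer G b, t • y = z) ∧
      ∀ c, c ≠ a → ∃ δ ∈ orb T c, δ ∈ fix Ω (T ⊓ stabilizer G b) := by
  classical
  haveI := Fact.mk h.hp
  haveI := Fintype.ofFinite (orbit T b)
  have hW : ¬ p ∣ ♯(T ⊓ stabilizer G b) := fun k =>
    hD (k.trans (card_dvd (inf_le_inf_right _ hT.le)))
  have cX : Fintype.card (orbit T b) = p := by
    rw [← Nat.card_eq_fintype_card, Nat.card_coe_set_eq, ← orb_eq_orbit, ncard_orb, e]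
  haveI : FaithfulSMul T (orbit T b) := by
    have k : T ⊓ fixingSubgroup G (orb T b) = ⊥ := by
      refine h.bot_of_normal hT hb e (normalIn_inf_left (le_norm_iff.2 fun t ht g hg => ?_))
        fun k => hW (k.trans (card_dvd (inf_le_inf_left _ fun g hg => ?_)))
      · rw [mem_fixingSubgroup_iff] at hg ⊢
        intro y hy
        rw [mul_smul, mul_smul, hg _ (smul_mem_orb (inv_mem ht) hy), smul_inv_smul]
      · exact (mem_fixingSubgroup_iff G).1 hg b (self_mem_orb T b)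
    refine ⟨fun {t u} htu => ?_⟩
    have : (u⁻¹ * t : T).1 ∈ T ⊓ fixingSubgroup G (orb T b) := by
      refine ⟨(u⁻¹ * t).2, (mem_fixingSubgroup_iff G).2 fun y hy => ?_⟩
      have := congrArg Subtype.val (htu ⟨y, orb_eq_orbit T b ▸ hy⟩)
      change (t : G) • y = (u : G) • y at this
      change ((u : G)⁻¹ * t) • y = y
      rw [mul_smul, this, inv_smul_smul]
    exact (inv_mul_eq_one.1 (Subtype.ext (eq_one_of_mem_bot k this))).symm
  have h2 := (CF.Perm.solvable_or_twoTrans (G := T) cX).resolve_left ns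
  let o : orbit T b := ⟨b, mem_orbit_self b⟩
  refine ⟨fun y hy z hz y1 z1 => ?_, fun c hc => ?_⟩
  · rw [is_two_pretransitive_iff] at h2
    obtain ⟨t, t1, t2⟩ := @h2 o ⟨y, orb_eq_orbit T b ▸ hy⟩
      o ⟨z, orb_eq_orbit T b ▸ hz⟩ (fun k => y1 (congrArg Subtype.val k).symm)
      (fun k => z1 (congrArg Subtype.val k).symm)
    exact ⟨t, ⟨t.2, congrArg Subtype.val t1⟩, congrArg Subtype.val t2⟩
  · obtain ⟨x, hx, rfl⟩ := h.sylow_trans hP hb hc
    have xn : x⁻¹ ∈ 𝐍 T := hT.norm (hP.le (inv_mem hx))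
    let α : MulAut T := T.normalizerMonoidHom ⟨x⁻¹, xn⟩
    have oα : Odd (orderOf α) := by
      have d : orderOf α ∣ orderOf x⁻¹ :=
        (orderOf_map_dvd _ _).trans (by rw [← orderOf_coe])
      obtain ⟨k, hk⟩ := hP.pi.card_pow
      exact Odd.of_dvd_nat (Odd.pow (h.hp.odd_of_ne_two p2))
        (d.trans (hk ▸ orderOf_dvd_card' (inv_mem hx)))
    obtain ⟨q, hq⟩ := CF.Perm.exists_fix_of_odd h2 o oα o (by
      rw [cX]
      refine Nat.Coprime.coprime_dvd_left ?_
        ((Nat.Prime.coprime_iff_not_dvd h.hp).2 hW).symm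
      rw [Nat.card_coe_set_eq, ← index_stabilizer]
      refine (index_dvd_card _).trans ?_
      rw [card_map_of_injective (f := α.toMonoidHom) α.injective, ← card_map (f := T.subtype) T.subtype_injective]
      refine card_dvd ?_
      rintro _ ⟨t, ht, rfl⟩
      exact ⟨t.2, congrArg Subtype.val ht⟩)
    refine ⟨x • q.1, norm_smul_orb (hT.norm (hP.le hx)) ((orb_eq_orbit T b).ge q.2), fun w hw => ?_⟩
    have := congrArg Subtype.val (hq ⟨w, hw.1⟩ (Subtype.ext hw.2))
    change (x⁻¹ * w * x⁻¹⁻¹) • q.1 = q.1 at this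
    rw [mem_stabilizer_iff]
    rwa [inv_inv, mul_smul, mul_smul, inv_smul_eq_iff] at this

end Cfg

end CF.Fgs2.PSq
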