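/-
Doubly transitive groups of degree `p ^ 2 + 1`, part 3: a normal subgroup of the point stabilizer
whose order is not divisible by `p ^ 2` is solvable.
-/
import Cfsg.Agent.Fgs2.PSq2
set_option autoImplicit false
set_option linter.unusedSectionVars false

namespace CF.Fgs2.PSq
open Subgroup MulAction CF.BG
open scoped Pointwise

variable {G Ω : Type*} [Group G] [MulAction G Ω]

namespace Cfg
variable [Finite G] [Finite Ω] {p : ℕ} (h : Cfg G Ω p) {a b c : Ω} {M P T : Subgroup G}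
include h

theorem W_eq (hT : T ⊴ stabilizer G a) (hb : b ≠ a) (hc : c ≠ a)
    (k : c ∈ fix Ω (T ⊓ stabilizer G b)) : T ⊓ stabilizer G b = T ⊓ stabilizer G c := by
  refine eq_of_card_eq (le_inf inf_le_left k) ?_
  obtain ⟨g, hg, rfl⟩ := h.trans hb hc
  rw [← card_cj g (T ⊓ stabilizer G b), cj_inf, cj_stab, cj_of_norm (hT.norm hg)]

theorem sol (p2 : p ≠ 2) (hT : T ⊴ stabilizer G a) (hb : b ≠ a)
    (e : (stabilizer G b).relIndex T = p) (hD : ¬ p ∣ ♯(stabilizer G a ⊓ stabilizer G b)) :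
    Sol T := by
  by_contra ns
  obtain ⟨P, hP⟩ := exists_syl p (stabilizer G a)
  have p3 : 3 ≤ p := by have := h.hp.two_le; omega
  have hD' : ∀ c, c ≠ a → ¬ p ∣ ♯(stabilizer G a ⊓ stabilizer G c) := fun c hc => by
    rwa [h.D_conj hb hc]
  have e' : ∀ c, c ≠ a → (stabilizer G c).relIndex T = p := fun c hc => by
    rwa [h.idx_conj hT hb hc]
  set W := T ⊓ stabilizer G b with hW
  set D := stabilizer G a ⊓ stabilizer G b with hDd
  have WD : W ≤ D := inf_le_inf_right _ hT.le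
  have nW : D ≤ 𝐍 W := norm_inf (inf_le_left.trans hT.norm) (norm_of_le inf_le_right)
  have aF : a ∈ fix Ω W := WD.trans inf_le_left
  have bF : b ∈ fix Ω W := WD.trans inf_le_right
  -- `W` is transitive on an orbit minus its fixed point
  have tr : ∀ δ ∈ fix Ω W, δ ≠ a → ∀ y ∈ orb T δ, ∀ z ∈ orb T δ, y ≠ δ → z ≠ δ →
      ∃ t ∈ W, t • y = z := fun δ h1 h2 => by
    rw [hW, h.W_eq hT hb h2 h1]
    exact (h.nonsol p2 hP hT h2 (e' δ h2) (hD' δ h2) ns).1
  have uniq : ∀ δ ∈ fix Ω W, δ ≠ a → ∀ y ∈ orb T δ, y ∈ fix Ω W → y = δ := by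
    intro δ h1 h2 y hy yF
    by_contra n
    have : ¬ orb T δ ⊆ {δ, y} := fun k => by
      have h3 := (Set.ncard_le_ncard k).trans (Set.ncard_insert_le _ _)
      rw [ncard_orb, e' δ h2, Set.ncard_singleton] at h3
      omega
    obtain ⟨z, hz, z1⟩ := Set.not_subset.1 this
    rw [Set.mem_insert_iff, Set.mem_singleton_iff, not_or] at z1
    obtain ⟨t, ht, k⟩ := tr δ h1 h2 y hy z hz n z1.1
    exact z1.2 (k.symm.trans (yF ht))
  have ex := (h.nonsol p2 hP hT hb e hD ns).2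
  -- the fixed points other than `a` form a block
  set M := stabilizer G a ⊓ 𝐍 W with hM
  have oM : orb M b = fix Ω W \ {a} := by
    refine Set.Subset.antisymm ?_ fun y hy => ?_
    · rintro _ ⟨g, hg, rfl⟩
      exact ⟨norm_mem_fix hg.2 bF, ne_of_stab hg.1 hb⟩
    · obtain ⟨g, hg, rfl⟩ := h.trans hb hy.2
      refine ⟨g, ⟨hg, cj_eq_self.1 ?_⟩, rfl⟩
      rw [hW, cj_inf, cj_stab, cj_of_norm (hT.norm hg), ← h.W_eq hT hb hy.2 hy.1]
  have cF : (fix Ω W).ncard = p + 1 := by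
    rw [← Set.ncard_sdiff_singleton_add_one aF, ← oM, ncard_orb]
    congr 1
    refine eq_of_dvd_sq h.hp ?_ (fun k => ?_) fun k => ?_
    · rw [← h.idxD hb, ← rel_D (X := M) inf_le_left, ← inf_relIndex_left (stabilizer G a)]
      exact relIndex_dvd_right (le_inf inf_le_left nW) inf_le_left
    · have : ¬ ({a}ᶜ : Set Ω) ⊆ orb T b := fun l => by
        have h3 := Set.ncard_le_ncard l
        rw [ncard_orb, e, h.ncard_compl] at h3
        nlinarith
      obtain ⟨c, hc, c1⟩ := Set.not_subset.1 this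
      obtain ⟨δ, d1, d2⟩ := ex c hc
      have : δ ∈ orb M b := oM ▸ ⟨d2, orb_subset hT.le hc d1⟩
      obtain ⟨m, hm, rfl⟩ := this
      rw [mem_stabilizer_iff.1 (relIndex_eq_one.1 k hm)] at d1
      exact c1 (orb_symm d1)
    · have h3 : orb M b = {a}ᶜ := Set.eq_of_subset_of_ncard_le (orb_subset inf_le_left hb) (by
        rw [h.ncard_compl, ncard_orb, k])
      have h4 : W = ⊥ := h.eq_bot aF fun c hc => (oM.le (h3.ge hc)).1
      have h5 := card_inf_mul_relIndex (stabilizer G b) T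
      rw [inf_comm, ← hW, h4, card_bot, one_mul, e] at h5
      exact ns (cyc_of_prime (h5 ▸ h.hp)).sol
  obtain ⟨s, s1, s2⟩ := h.two a b b a hb.symm hb
  have mem' : ∀ y, y ∈ fix Ω (cj s W) ↔ s⁻¹ • y ∈ fix Ω W := fun y =>
    ⟨fun k => cj_inv_cj s W ▸ smul_mem_fix s⁻¹ k, fun k => smul_inv_smul s y ▸ smul_mem_fix s k⟩
  have cF' : (fix Ω (cj s W)).ncard = p + 1 := by
    rw [← cF, ← Set.ncard_smul_set s (fix Ω W)]
    congr 1
    ext y
    rw [mem', Set.mem_smul_set_iff_inv_smul_mem]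
  have nW' : D ≤ 𝐍 (cj s W) := by
    rw [← cj_norm, hDd, ← swap_D s1 s2]
    exact cj_mono s nW
  have WD' : cj s W ≤ D := by
    rw [hDd, ← swap_D s1 s2]
    exact cj_mono s WD
  have aF' : a ∈ fix Ω (cj s W) := WD'.trans inf_le_left
  have bF' : b ∈ fix Ω (cj s W) := WD'.trans inf_le_right
  by_cases eq : fix Ω (cj s W) ⊆ fix Ω W
  · have e2 := Set.eq_of_subset_of_ncard_le eq (by rw [cF, cF'])
    refine h.no_line cF hb aF bF (fun d hd x hx => norm_mem_fix (nW hd) hx) (fun y hy ya => ?_)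
      (n := s) (fun x hx => eq (smul_mem_fix s hx)) (s1 ▸ hb)
    obtain ⟨m, hm, rfl⟩ := oM.ge ⟨hy, ya⟩
    exact ⟨m, hm.1, fun x hx => norm_mem_fix hm.2 hx, rfl⟩
  obtain ⟨γ, g1, g2⟩ := Set.not_subset.1 eq
  have ga : γ ≠ a := fun k => g2 (k ▸ aF)
  have gb : γ ≠ b := fun k => g2 (k ▸ bF)
  obtain ⟨δ, d1, d2⟩ := ex γ ga
  have da : δ ≠ a := orb_subset hT.le ga d1
  have g3 : γ ∈ orb T δ := orb_symm d1
  have gd : γ ≠ δ := fun k => g2 (k ▸ d2)
  have hF' : insert a (insert b (orb T δ \ {δ})) = fix Ω (cj s W) := by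
    refine Set.eq_of_subset_of_ncard_le ?_ ?_
    · rintro y (rfl | rfl | hy)
      · exact aF'
      · exact bF'
      · obtain ⟨t, ht, rfl⟩ := tr δ d2 da γ g3 y hy.1 gd hy.2
        exact norm_mem_fix (nW' (WD ht)) g1
    · rw [Set.ncard_insert_of_notMem, Set.ncard_insert_of_notMem,
        Set.ncard_sdiff_singleton_add_one (self_mem_orb T δ), ncard_orb, e' δ da, cF']
      · exact fun k => k.2 (uniq δ d2 da b k.1 bF)
      · rintro (k | k)
        · exact hb k.symm
        · exact orb_subset hT.le da k.1 rfl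
  by_cases db : δ = b
  · subst db
    rw [Set.insert_sdiff_singleton, Set.insert_eq_of_mem (self_mem_orb T δ)] at hF'
    have pres : ∀ t ∈ T, ∀ x ∈ fix Ω (cj s W), t • x ∈ fix Ω (cj s W) := by
      intro t ht x hx
      rw [← hF'] at hx ⊢
      rcases hx with rfl | hx
      · exact Or.inl (hT.le ht)
      · exact Or.inr (smul_mem_orb ht hx)
    obtain ⟨m, hm, k⟩ : s⁻¹ • γ ∈ orb M δ := oM.ge ⟨(mem' γ).1 g1, fun k => gb (by
      rw [← s1, ← Set.mem_singleton_iff.1 k, smul_inv_smul])⟩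
    refine h.no_line cF' hb aF' bF' (fun d hd x hx => norm_mem_fix (nW' hd) hx) (fun y hy ya => ?_)
      (n := s * m * s⁻¹) (fun x hx => norm_mem_fix (cj_norm s W ▸ conj_mem_cj.2 hm.2) hx) ?_
    · rw [← hF'] at hy
      obtain ⟨t, ht, rfl⟩ := hy.resolve_left ya
      exact ⟨t, hT.le ht, pres t ht, rfl⟩
    · rw [← s2, mul_smul, mul_smul, inv_smul_smul, k, smul_inv_smul, s2]
      exact ga
  · have : δ ∈ fix Ω (cj s W) := fun d hd => by
      have hd' := WD' hd
      have k1 : d • γ ∈ orb T δ := by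
        have := norm_mem_fix (nW' hd') g1
        rw [← hF'] at this
        rcases this with k | k | k
        · exact absurd k (ne_of_stab hd'.1 ga)
        · exact absurd k (ne_of_stab hd'.2 gb)
        · exact k.1
      exact uniq δ d2 da _ (orb_trans k1 (norm_smul_orb (hT.norm hd'.1) d1))
        (norm_mem_fix (nW hd') d2)
    rw [← hF'] at this
    rcases this with k | k | k
    · exact da k
    · exact db k
    · exact k.2 rfl

end Cfg

end CF.Fgs2.PSq
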