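/-
Doubly transitive groups of degree `p ^ 2 + 1`, part 4: the point stabilizer has no intermediate
subgroup above a two-point stabilizer, except for the group of order `20`.
-/
import Cfsg.Agent.Fgs2.PSq3
import Cfsg.Agent.Transfer.Tate
import Cfsg.Agent.Invol.Count
import Cfsg.Agent.S0741
import Cfsg.Agent.S0054
set_option autoImplicit false
set_option linter.unusedSectionVars false

namespace CF.Fgs2.PSq
open Subgroup MulAction CF.BG
open scoped Pointwise commutatorElement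

variable {G Ω : Type*} [Group G] [MulAction G Ω]

theorem mem_der [Finite G] {p : ℕ} (hp : p.Prime) {S X : Subgroup G} {x : G} (hS : Syl p S X)
    (hx : x ∈ S) (c : X ≤ 𝐂₁ x) (e : x ∈ ⁅X, X⁆) : x ∈ ⁅S, S⁆ := by
  haveI : Fact p.Prime := ⟨hp⟩
  obtain ⟨P, rfl⟩ := hS.exists_sylow
  obtain ⟨x, hx, rfl⟩ := hx
  rw [← map_commutator]
  refine mem_map_of_mem _ (CF.Transfer.sylow_inf_center_inf_commutator_le P ⟨⟨hx, ?_⟩,
    Subgroup.mem_center_iff.2 fun g => Subtype.ext (mem_cent1.1 (c g.2))⟩)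
  obtain ⟨y, hy, f⟩ := X.map_subtype_commutator.ge e
  exact Subtype.ext f ▸ hy

namespace Cfg
variable [Finite G] [Finite Ω] {p : ℕ} (h : Cfg G Ω p) {a b c : Ω} {M P T R : Subgroup G}
include h

theorem P_reg (hP : Syl p P (stabilizer G a)) (hb : b ≠ a)
    (hD : ¬ p ∣ ♯(stabilizer G a ⊓ stabilizer G b)) : P ⊓ stabilizer G b = ⊥ :=
  ((h.sylow_D hP hb).syl_eq_bot_iff h.hp).2 hD

theorem P_card (hP : Syl p P (stabilizer G a)) (hb : b ≠ a)
    (hD : ¬ p ∣ ♯(stabilizer G a ⊓ stabilizer G b)) : ♯P = p ^ 2 := by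
  rw [← card_inf_mul_relIndex (stabilizer G b) P, inf_comm, h.P_reg hP hb hD, card_bot, one_mul,
    h.sylow_idx hP hb]

theorem small_normal (p2 : p ≠ 2) (hP : Syl p P (stabilizer G a)) (hb : b ≠ a)
    (hD : ¬ p ∣ ♯(stabilizer G a ⊓ stabilizer G b)) (hT : T ⊴ stabilizer G a) (h1 : T ≠ ⊥)
    (h2 : ¬ p ^ 2 ∣ ♯T) : ∃ R, R ≤ T ⊓ P ∧ R ⊴ stabilizer G a ∧ ♯R = p := by
  have e := h.idx_eq hT hb h1 h2
  obtain ⟨q, hq, k⟩ := (h.sol p2 hT hb e hD).exists_O_ne_bot h1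
  by_cases qp : q = p
  · subst qp
    have l := hP.le_of_normal (hT.O {q}) (O_pi _ _)
    refine ⟨_, le_inf (O_le _ _) l, hT.O {q}, eq_of_dvd_sq hq (h.P_card hP hb hD ▸ card_dvd l)
      (fun e => k (card_eq_one'.1 e)) fun e => h2 (e ▸ card_dvd (O_le _ _))⟩
  · exact absurd (h.bot_of_normal hT hb e (O_normal _ _)
      (PiNat.not_dvd (O_pi {q} T) h.hp (Ne.symm qp))) k

theorem exists_R (p2 : p ≠ 2) (hP : Syl p P (stabilizer G a)) (hb : b ≠ a)
    (h1 : stabilizer G a ⊓ stabilizer G b < M) (h2 : M < stabilizer G a) :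
    ∃ R, R ≤ P ∧ R ⊴ stabilizer G a ∧ ♯R = p := by
  have hD := h.not_dvd_D hb h1 h2
  obtain ⟨e1, e2⟩ := h.mid_P hP hb h1 h2
  have nR : P ≤ 𝐍 (M ⊓ P) :=
    norm_prime hP.pi.nil inf_le_right (by rw [inf_relIndex_right, e2]; exact h.hp)
  let K : Subgroup G := sSup ((fun g => cj g (M ⊓ P)) '' (stabilizer G a : Set G))
  have KM : K ≤ M := by
    refine sSup_le ?_
    rintro _ ⟨g, hg, rfl⟩
    obtain ⟨y, hy, e⟩ := h.sylow_trans hP hb (ne_of_stab (inv_mem hg) hb)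
    have : g = g * y * y⁻¹ := by group
    change cj g _ ≤ _
    rw [this, ← cj_cj, cj_of_norm (nR (inv_mem hy))]
    refine cj_le_of_mem (h1.le (mem_inf.2 ⟨mul_mem hg (hP.le hy), ?_⟩)) inf_le_left
    rw [mem_stabilizer_iff, mul_smul, e, smul_inv_smul]
  have Kn : K ⊴ stabilizer G a := by
    refine ⟨KM.trans h2.le, le_norm_of_cj_le fun g hg => ?_⟩
    rw [cj_sSup]
    refine sSup_le ?_
    rintro _ ⟨_, ⟨x, hx, rfl⟩, rfl⟩
    exact le_sSup ⟨g * x, mul_mem hg hx, (cj_cj _ _ _).symm⟩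
  have K1 : K ≠ ⊥ := by
    refine ne_bot_mono (fun e => ?_) (le_sSup ⟨1, one_mem _, cj_one _⟩)
    rw [e, relIndex_bot_right] at e1
    exact h.hp.one_lt.ne e1
  obtain ⟨R, r1, r2, r3⟩ := h.small_normal p2 hP hb hD Kn K1 fun k => by
    have d := k.trans (card_dvd KM)
    rw [← card_mul_relIndex h1.le, rel_D h2.le, (h.mid_idx hb h1 h2).1, pow_two,
      Nat.mul_dvd_mul_iff_right h.hp.pos] at d
    exact hD d
  exact ⟨R, r1.trans inf_le_right, r2, r3⟩

theorem P_normal (p2 : p ≠ 2) (hP : Syl p P (stabilizer G a)) (hb : b ≠ a)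
    (hD : ¬ p ∣ ♯(stabilizer G a ⊓ stabilizer G b)) (r1 : R ≤ P) (r2 : R ⊴ stabilizer G a)
    (r3 : ♯R = p) : P ⊴ stabilizer G a := by
  haveI := Fact.mk h.hp
  have cP := h.P_card hP hb hD
  have aP : Abel P := Abel.of_comm (IsPGroup.isMulCommutative_of_card_eq_prime_sq cP)
  have hC : stabilizer G a ⊓ 𝐂 R ⊴ stabilizer G a := normalIn_inf_cent r2.norm
  set C := stabilizer G a ⊓ 𝐂 R
  have PC : P ≤ C := le_inf hP.le (aP.cent le_rfl r1)
  have sC : Syl p P C := hP.of_le PC hC.le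
  have RL : R ⊓ ⁅C, C⁆ = ⊥ := eq_bot_of_forall fun x hx => by
    have := mem_der h.hp sC (r1 hx.1) (inf_le_right.trans (cent_le_cent1 hx.1)) hx.2
    rwa [der_eq_bot.2 aP, mem_bot] at this
  by_cases e : ⁅C, C⁆ = ⊥
  · exact hC.char PC (sC.norm_le_norm ((der_eq_bot.1 e).le_norm PC))
  obtain ⟨R', k1, k2, k3⟩ := h.small_normal p2 hP hb hD hC.der e fun k => by
    have s := hP.inf_normal hC.der
    have : P ⊓ ⁅C, C⁆ = P := eq_of_card_le inf_le_left (Nat.le_of_dvd (card_pos' _)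
      (cP ▸ s.dvd_card k (piNat_pow_self h.hp 2)))
    rw [inf_eq_left.2 (r1.trans (inf_eq_left.1 this))] at RL
    exact ne_bot_of_prime_card (r3 ▸ h.hp) RL
  have : R ⊔ R' = P := eq_of_card_eq (sup_le r1 (k1.trans inf_le_right)) (by
    rw [card_sup_of_inf_bot (Or.inl (r2.le.trans k2.norm))
      (eq_bot_mono RL (inf_le_inf_left _ (k1.trans inf_le_left))), r3, k3, cP, pow_two])
  exact this ▸ r2.sup k2

theorem no_fix (hP : Syl p P (stabilizer G a)) (hb : b ≠ a)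
    (hD : ¬ p ∣ ♯(stabilizer G a ⊓ stabilizer G b)) (nP : P ⊴ stabilizer G a) {d : G}
    (hd : d ∈ stabilizer G a ⊓ stabilizer G b) (d1 : d ≠ 1) (ca : c ≠ a) (cb : c ≠ b)
    (dc : d • c = c) (n : stabilizer G a ⊓ stabilizer G b ≤ 𝐍 (P ⊓ 𝐂₁ d)) : False := by
  have reg := h.P_reg hP hb hD
  have key : ∀ {a b : Ω} {P : Subgroup G}, P ⊓ stabilizer G b = ⊥ → P ⊴ stabilizer G a →
      d ∈ stabilizer G a → d ∈ stabilizer G b → ∀ y ∈ P, d • y • b = y • b → y ∈ 𝐂₁ d := by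
    intro a b P reg nP h1 h2 y hy e
    have : y⁻¹ * (d * y * d⁻¹) ∈ P ⊓ stabilizer G b := by
      refine mem_inf.2 ⟨mul_mem (inv_mem hy) (nP.conj_mem h1 hy), ?_⟩
      rw [mem_stabilizer_iff, mul_smul, mul_smul, mul_smul,
        mem_stabilizer_iff.1 (inv_mem h2), e, inv_smul_smul]
    have h3 := eq_one_of_mem_bot reg this
    rw [mem_cent1]
    calc y * d = y * (y⁻¹ * (d * y * d⁻¹)) * d := by rw [h3, mul_one]
      _ = d * y := by group
  set U := P ⊓ 𝐂₁ d
  have pres : ∀ y ∈ 𝐂₁ d, ∀ x ∈ fix Ω (zpowers d), y • x ∈ fix Ω (zpowers d) := fun y hy x hx =>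
    norm_mem_fix (cent_le_norm _ (cent_zpowers d ▸ hy)) hx
  have mf : ∀ x, x ∈ fix Ω (zpowers d) ↔ d • x = x := fun x => zpowers_le
  have hF : fix Ω (zpowers d) = insert a (orb U b) := by
    refine Set.Subset.antisymm (fun x hx => ?_) ?_
    · by_cases xa : x = a
      · exact Or.inl xa
      obtain ⟨y, hy, rfl⟩ := h.sylow_trans hP hb xa
      exact Or.inr ⟨y, ⟨hy, key reg nP hd.1 hd.2 y hy ((mf _).1 hx)⟩, rfl⟩
    · rintro x (rfl | ⟨y, hy, rfl⟩)
      · exact (mf _).2 hd.1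
      · exact pres y hy.2 b ((mf _).2 hd.2)
  have cU : (orb U b).ncard = p := by
    have e : (orb U b).ncard = ♯U := by
      rw [ncard_orb, relIndex_of_inf_bot (eq_bot_mono reg (le_inf (inf_le_right.trans inf_le_left)
        inf_le_left))]
    rw [e]
    refine eq_of_dvd_sq h.hp (h.P_card hP hb hD ▸ card_dvd inf_le_left) (fun k => ?_) fun k => ?_
    · obtain ⟨y, hy, k'⟩ := (hF.le ((mf c).2 dc)).resolve_left ca
      rw [eq_one_of_mem_bot (card_eq_one'.1 k) hy, one_smul] at k'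
      exact cb k'.symm
    · have : U = P := eq_of_card_eq inf_le_left (k.trans (h.P_card hP hb hD).symm)
      rw [this, h.sylow_orb hP hb] at hF
      refine d1 (h.faith d fun x => (mf x).1 (hF.ge ?_))
      by_cases xa : x = a
      · exact Or.inl xa
      · exact Or.inr xa
  obtain ⟨s, s1, s2⟩ := h.two a b b a hb.symm hb
  have hP' : Syl p (cj s P) (stabilizer G b) := s1 ▸ cj_stab s a ▸ hP.cj s
  have nP' : cj s P ⊴ stabilizer G b := s1 ▸ cj_stab s a ▸ nP.cj s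
  have reg' : cj s P ⊓ stabilizer G a = ⊥ := by
    rw [← s2, ← cj_stab, ← cj_inf, reg, cj_bot]
  obtain ⟨y, hy, e⟩ := h.sylow_trans hP' hb.symm cb
  refine h.no_line (F := fix Ω (zpowers d)) ?_ hb ((mf a).2 hd.1) ((mf b).2 hd.2)
    (fun g hg x hx => ?_) (fun x hx xa => ?_) (n := y)
    (pres y (key reg' nP' hd.2 hd.1 y hy (e ▸ dc))) (e ▸ ca)
  · rw [hF, Set.ncard_insert_of_notMem fun k => orb_subset (inf_le_left.trans hP.le) hb k rfl, cU]
  · rw [hF] at hx ⊢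
    rcases hx with rfl | hx
    · exact Or.inl hg.1
    · exact Or.inr (mem_stabilizer_iff.1 hg.2 ▸ norm_smul_orb (n hg) hx)
  · obtain ⟨u, hu, rfl⟩ := (hF.le hx).resolve_left xa
    exact ⟨u, hP.le hu.1, pres u hu.2, rfl⟩

theorem no_third (hP : Syl p P (stabilizer G a)) (hb : b ≠ a)
    (hD : ¬ p ∣ ♯(stabilizer G a ⊓ stabilizer G b)) (nP : P ⊴ stabilizer G a)
    (r1 : R ≤ P) (r2 : R ⊴ stabilizer G a) (r3 : ♯R = p) {d : G}
    (hd : d ∈ stabilizer G a ⊓ stabilizer G b) (ca : c ≠ a) (cb : c ≠ b)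
    (dc : d • c = c) : d = 1 := by
  by_contra d1
  set D := stabilizer G a ⊓ stabilizer G b with hDd
  by_cases e : D ⊓ 𝐂 R = ⊥
  · have aD : Abel D := der_eq_bot.1 (eq_bot_mono e (le_inf (der_le _)
      ((cyc_of_prime (r3 ▸ h.hp)).der_le_cent (inf_le_left.trans r2.norm))))
    refine h.no_fix hP hb hD nP hd d1 ca cb dc (norm_inf (inf_le_left.trans nP.norm) ?_)
    rw [← cent_zpowers]
    exact norm_cent (aD.le_norm (zpowers_le.2 hd))
  · obtain ⟨x, hx, x1⟩ := exists_mem_ne_one e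
    obtain ⟨r, hr, r0⟩ := exists_mem_ne_one (ne_bot_of_prime_card (r3 ▸ h.hp))
    have l : R ≤ P ⊓ 𝐂₁ x := le_inf r1 (le_cent1_iff.2 hx.2)
    have cP := h.P_card hP hb hD
    have : P ⊓ 𝐂₁ x = R := by
      refine (Fgs1.eq_or_eq_of_relIndex_prime ?_ l inf_le_left).resolve_right fun k => x1 ?_
      · have := card_mul_relIndex r1
        rw [r3, cP, pow_two] at this
        exact (Nat.eq_of_mul_eq_mul_left h.hp.pos this).symm ▸ h.hp
      · refine h.faith x fun y => ?_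
        by_cases ya : y = a
        · exact ya ▸ hx.1.1
        obtain ⟨z, hz, rfl⟩ := h.sylow_trans hP hb ya
        rw [← mul_smul, ← mem_cent1.1 (k.ge hz).2, mul_smul, mem_stabilizer_iff.1 hx.1.2]
    refine h.no_fix hP hb hD nP hx.1 x1 (c := r • b) (ne_of_stab (r2.le hr) hb)
      (fun k => r0 (eq_one_of_mem_bot (h.P_reg hP hb hD) ⟨r1 hr, k⟩)) ?_
      (this ▸ inf_le_left.trans r2.norm)
    rw [← mul_smul, ← mem_cent1.1 (l hr).2, mul_smul, mem_stabilizer_iff.1 hx.1.2]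

theorem even_D (p2 : p ≠ 2) (hb : b ≠ a) : Even (♯(stabilizer G a ⊓ stabilizer G b)) := by
  by_contra hn
  have o := Nat.not_even_iff_odd.1 hn
  have po := h.hp.odd_of_ne_two p2
  have oH : Odd (♯(stabilizer G a)) := h.cardH hb ▸ o.mul po.pow
  obtain ⟨N, hN⟩ := CF.Invol.exists_index_two_of_not_four_dvd (G := G) (by
    rw [h.cardG hb]; exact (po.pow.add_one).mul_left _) (by
    rw [h.cardG hb, ← h.cardH hb]
    intro k
    have := (Nat.Coprime.dvd_mul_left ((Nat.coprime_two_left.2 oH).pow_left 2)).1 k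
    obtain ⟨m, hm⟩ := po
    rw [hm, show (2 * m + 1) ^ 2 + 1 = 4 * (m * m + m) + 2 by ring] at this
    omega)
  haveI := normal_of_index_eq_two hN
  have l : ∀ c : Ω, stabilizer G c ≤ N := fun c => by
    obtain ⟨d, hd⟩ := h.exists_ne c
    obtain ⟨g, rfl, -⟩ := h.two a b c d hb.symm hd.symm
    refine le_of_coprime_relIndex_norm (L := ⊤) le_top (normalIn_top.2 ‹_›).norm ?_
    rw [relIndex_top_right, hN, ← cj_stab, card_cj]
    exact Nat.coprime_two_right.2 oH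
  have : N = ⊤ := by
    refine eq_top_iff.2 fun g _ => ?_
    obtain ⟨e, e1, e2⟩ := h.exists_ne2 a (g • a)
    obtain ⟨n, hn, k⟩ := h.trans e1.symm e2.symm
    have : n⁻¹ * g ∈ stabilizer G a := by
      rw [mem_stabilizer_iff, mul_smul, ← k, inv_smul_smul]
    exact (mul_mem_cancel_left (inv_mem (l e hn))).1 (l a this)
  rw [this, index_top] at hN
  omega

theorem is_two : IsMultiplyPretransitive G Ω 2 :=
  is_two_pretransitive_iff.2 fun h1 h2 => h.two _ _ _ _ h1 h2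

theorem no_mid (p2 : p ≠ 2) (hb : b ≠ a) (h1 : stabilizer G a ⊓ stabilizer G b < M)
    (h2 : M < stabilizer G a) : False := by
  have hD := h.not_dvd_D hb h1 h2
  obtain ⟨P, hP⟩ := exists_syl p (stabilizer G a)
  obtain ⟨R, r1, r2, r3⟩ := h.exists_R p2 hP hb h1 h2
  have nP := h.P_normal p2 hP hb hD r1 r2 r3
  have ev := h.even_D p2 hb
  haveI := Fintype.ofFinite Ω
  have cΩ : Fintype.card Ω = p ^ 2 + 1 := Nat.card_eq_fintype_card.symm.trans h.card
  have hZ : Cfsg.IsZassenhausGroup G Ω := by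
    refine ⟨⟨fun {g k} e => (inv_mul_eq_one.1 (h.faith (k⁻¹ * g) fun x => by
      rw [mul_smul, e, inv_smul_smul])).symm⟩, h.is_two, fun g x y z xy yz xz gx gy gz => ?_, ?_,
      fun N hN tN => ?_⟩
    · obtain ⟨u, rfl, rfl⟩ := h.two a b x y hb.symm xy
      have := h.no_third hP hb hD nP r1 r2 r3 (d := u⁻¹ * g * u) (c := u⁻¹ • z)
        (mem_inf.2 ⟨by rw [mem_stabilizer_iff, mul_smul, mul_smul, gx, inv_smul_smul],
          by rw [mem_stabilizer_iff, mul_smul, mul_smul, gy, inv_smul_smul]⟩)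
        (fun k => xz (by rw [← k, smul_inv_smul])) (fun k => yz (by rw [← k, smul_inv_smul]))
        (by rw [mul_smul, mul_smul, smul_inv_smul, gz])
      calc g = u * (u⁻¹ * g * u) * u⁻¹ := by group
        _ = 1 := by rw [this]; group
    · obtain ⟨x, hx, o⟩ := exists_mem_orderOf_eq Nat.prime_two ev.two_dvd
      exact ⟨x, fun e => by simp [e] at o, a, b, hb.symm, hx.1, hx.2⟩
    · by_contra hn
      push Not at hn
      haveI : Nonempty Ω := ⟨a⟩
      obtain ⟨-, q, hq, e⟩ := Cfsg.Agent.S0054.result h.is_two N tN hn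
      have cN : ♯N = p ^ 2 + 1 := by
        rw [← index_bot, ← hn a, index_stabilizer_of_transitive, h.card]
      have pN : PiGrp {q} N := piGrp_of_forall_elt fun x hx => piElt_of_pow_eq_one hq (e x hx)
      obtain ⟨m, hm⟩ := h.hp.odd_of_ne_two p2
      have e2 : ♯N = 2 * (2 * (m * m + m) + 1) := by rw [cN, hm]; ring
      have q2 : 2 = q := pN 2 Nat.prime_two (e2 ▸ dvd_mul_right _ _)
      subst q2
      have h3 : PiNat {2} (2 * (m * m + m) + 1) := pN.dvd (e2 ▸ dvd_mul_left _ _)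
      have h4 := h3.eq_one ((piNat_compl_single Nat.prime_two).2 (by omega))
      have := h.hp.two_le
      have : m = 0 := by nlinarith
      omega
  have z := Cfsg.Agent.S0741.result hZ hb.symm ev
  obtain ⟨r, hr, r0⟩ := exists_mem_ne_one (ne_bot_of_prime_card (r3 ▸ h.hp))
  have reg := h.P_reg hP hb hD
  have cb : r • b ≠ b := fun k => r0 (eq_one_of_mem_bot reg ⟨r1 hr, k⟩)
  have sub : orb (stabilizer G a ⊓ stabilizer G b) (r • b) ⊆ orb R b \ {b} := by
    rintro _ ⟨d, hd, rfl⟩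
    have := norm_smul_orb (r2.norm hd.1) (⟨r, hr, rfl⟩ : r • b ∈ orb R b)
    rw [mem_stabilizer_iff.1 hd.2] at this
    exact ⟨this, ne_of_stab hd.2 cb⟩
  have l := Set.ncard_le_ncard sub
  rw [Set.ncard_sdiff_singleton_of_mem (self_mem_orb R b), ncard_orb, ncard_orb,
    relIndex_of_inf_bot (eq_bot_of_forall fun d hd => h.no_third hP hb hD nP r1 r2 r3 hd.2
      (ne_of_stab (r2.le hr) hb) cb (mem_inf.1 hd).1),
    relIndex_of_inf_bot (eq_bot_mono reg (le_inf (inf_le_right.trans r1) inf_le_left)), r3] at l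
  rw [cΩ] at z
  have := h.hp.two_le
  have : 2 * p ≤ p ^ 2 := by nlinarith
  omega

omit h in
theorem mid_two (h : Cfg G Ω 2) (hb : b ≠ a) (h1 : stabilizer G a ⊓ stabilizer G b < M)
    (h2 : M < stabilizer G a) : Nat.card G = 20 := by
  obtain ⟨e1, e2⟩ := h.mid_idx hb h1 h2
  have two : ∀ {X Y : Subgroup G}, X ≤ Y → X.relIndex Y = 2 → X ⊴ Y := fun {X Y} l e => by
    have := normal_iff_map_subtype.1 (normal_of_index_eq_two e)
    rwa [map_subgroupOf l] at this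
  have := h.bot_of_normal (two h2.le e2) hb e1 (two h1.le ((rel_D h2.le).trans e1))
    (h.not_dvd_D hb h1 h2)
  rw [h.cardG hb, this, card_bot]
  rfl

end Cfg

end CF.Fgs2.PSq
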