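/-
Normal subgroups of triply transitive groups, part 1: language of permutation groups,
restriction to an invariant subset, Wagner's and Burnside's theorems in this language.
-/
import Cfsg.Agent.Fgs2.PSq1
import Cfsg.Agent.S0699
import Cfsg.Agent.S0700
set_option autoImplicit false
set_option linter.unusedSectionVars false

namespace CF.Fgs2.Sax
open Subgroup MulAction CF.BG Equiv CF.Fgs2.PSq

variable {Ω : Type*}

/-- point stabilizer in the full symmetric group -/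
abbrev St (a : Ω) : Subgroup (Perm Ω) := stabilizer (Perm Ω) a

theorem mem_St {a : Ω} {g : Perm Ω} : g ∈ St a ↔ g a = a := Iff.rfl

/-- three distinct points -/
def D3 (a b c : Ω) : Prop := a ≠ b ∧ a ≠ c ∧ b ≠ c

def T1 (G : Subgroup (Perm Ω)) : Prop := ∀ a b : Ω, ∃ g ∈ G, g a = b

def T2 (G : Subgroup (Perm Ω)) : Prop :=
  ∀ a b c d : Ω, a ≠ b → c ≠ d → ∃ g ∈ G, g a = c ∧ g b = d

def R3 (G : Subgroup (Perm Ω)) (a b c x y z : Ω) : Prop := ∃ g ∈ G, g a = x ∧ g b = y ∧ g c = z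

def T3 (G : Subgroup (Perm Ω)) : Prop :=
  ∀ a b c x y z : Ω, D3 a b c → D3 x y z → R3 G a b c x y z

/-- at most two orbits on ordered triples -/
def M2 (G : Subgroup (Perm Ω)) : Prop :=
  ∃ a b c a' b' c' : Ω, D3 a b c ∧ D3 a' b' c' ∧
    ∀ x y z, D3 x y z → R3 G a b c x y z ∨ R3 G a' b' c' x y z

variable {G H K : Subgroup (Perm Ω)} {a b c d e f x y z : Ω} {g : Perm Ω}

theorem D3.map (h : D3 a b c) (g : Perm Ω) : D3 (g a) (g b) (g c) :=
  ⟨g.injective.ne h.1, g.injective.ne h.2.1, g.injective.ne h.2.2⟩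

theorem R3.refl (G : Subgroup (Perm Ω)) (a b c : Ω) : R3 G a b c a b c := ⟨1, one_mem _, rfl, rfl, rfl⟩

theorem R3.symm (h : R3 G a b c x y z) : R3 G x y z a b c := by
  obtain ⟨g, hg, rfl, rfl, rfl⟩ := h
  exact ⟨g⁻¹, inv_mem hg, by simp, by simp, by simp⟩

theorem R3.trans (h : R3 G a b c d e f) (k : R3 G d e f x y z) : R3 G a b c x y z := by
  obtain ⟨g, hg, rfl, rfl, rfl⟩ := h
  obtain ⟨g', hg', rfl, rfl, rfl⟩ := k
  exact ⟨g' * g, mul_mem hg' hg, rfl, rfl, rfl⟩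

theorem R3.mono (h : R3 G a b c x y z) (k : G ≤ H) : R3 H a b c x y z := by
  obtain ⟨g, hg, e⟩ := h
  exact ⟨g, k hg, e⟩

theorem R3.d3 (h : R3 G a b c x y z) (k : D3 a b c) : D3 x y z := by
  obtain ⟨g, -, rfl, rfl, rfl⟩ := h
  exact k.map g

theorem R3.conj (h : R3 H a b c x y z) (hg : g ∈ 𝐍 H) :
    R3 H (g a) (g b) (g c) (g x) (g y) (g z) := by
  obtain ⟨k, hk, rfl, rfl, rfl⟩ := h
  exact ⟨g * k * g⁻¹, conj_mem_of_norm hg hk, by simp, by simp, by simp⟩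

theorem M2.mono (h : M2 G) (k : G ≤ H) : M2 H := by
  obtain ⟨a, b, c, a', b', c', h1, h2, h3⟩ := h
  exact ⟨a, b, c, a', b', c', h1, h2, fun x y z k3 => (h3 x y z k3).imp (·.mono k) (·.mono k)⟩

theorem T3.mono (h : T3 G) (k : G ≤ H) : T3 H := fun a b c x y z h1 h2 => (h a b c x y z h1 h2).mono k

theorem T2.mono (h : T2 G) (k : G ≤ H) : T2 H := fun a b c d h1 h2 =>
  let ⟨g, hg, e⟩ := h a b c d h1 h2; ⟨g, k hg, e⟩

theorem T3.m2 (h : T3 G) (k : D3 a b c) : M2 G :=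
  ⟨a, b, c, a, b, c, k, k, fun x y z k3 => Or.inl (h a b c x y z k k3)⟩

theorem exists_third [Finite Ω] (h : 3 ≤ Nat.card Ω) (a b : Ω) : ∃ c, c ≠ a ∧ c ≠ b := by
  by_contra! k
  have : (Set.univ : Set Ω) ⊆ {a, b} := fun c _ => by
    by_cases e : c = a
    exacts [Or.inl e, Or.inr (k c e)]
  have h1 := Set.ncard_le_ncard this
  have h2 : ({a, b} : Set Ω).ncard ≤ 2 := by simpa using Set.ncard_insert_le a {b}
  rw [Set.ncard_univ] at h1
  omega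

theorem exists_d3 [Finite Ω] (h : 3 ≤ Nat.card Ω) : ∃ a b c : Ω, D3 a b c := by
  have : Nonempty Ω := (Nat.card_pos_iff.1 (by omega)).1
  obtain ⟨a⟩ := this
  obtain ⟨b, hb, -⟩ := exists_third h a a
  obtain ⟨c, h1, h2⟩ := exists_third h a b
  exact ⟨a, b, c, hb.symm, h1.symm, h2.symm⟩

theorem T3.t2 [Finite Ω] (h : T3 G) (n : 3 ≤ Nat.card Ω) : T2 G := fun a b c d h1 h2 => by
  obtain ⟨x, x1, x2⟩ := exists_third n a b
  obtain ⟨y, y1, y2⟩ := exists_third n c d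
  obtain ⟨g, hg, e1, e2, -⟩ := h a b x c d y ⟨h1, x1.symm, x2.symm⟩ ⟨h2, y1.symm, y2.symm⟩
  exact ⟨g, hg, e1, e2⟩

theorem T2.t1 [Finite Ω] (h : T2 G) (n : 3 ≤ Nat.card Ω) : T1 G := fun a b => by
  obtain ⟨x, x1, -⟩ := exists_third n a a
  obtain ⟨y, y1, -⟩ := exists_third n b b
  obtain ⟨g, hg, e1, -⟩ := h a x b y x1.symm y1.symm
  exact ⟨g, hg, e1⟩

theorem t2_of (h : T1 G) (k : ∀ a b c : Ω, b ≠ a → c ≠ a → ∃ g ∈ G, g a = a ∧ g b = c) : T2 G :=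
  fun a b c d h1 h2 => by
    obtain ⟨g, hg, rfl⟩ := h a c
    obtain ⟨g', hg', e1, e2⟩ := k (g a) (g b) d (g.injective.ne h1.symm) h2.symm
    exact ⟨g' * g, mul_mem hg' hg, e1, e2⟩

theorem t3_of (h : T2 G) (k : ∀ a b c d : Ω, D3 a b c → D3 a b d → R3 G a b c a b d) : T3 G :=
  fun a b c x y z h1 h2 => by
    obtain ⟨g, hg, rfl, rfl⟩ := h a b x y h1.1 h2.1
    exact R3.trans ⟨g, hg, rfl, rfl, rfl⟩ (k _ _ _ _ (h1.map g) h2)

/-- a nontrivial normal subgroup of a doubly transitive group is transitive -/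
theorem T2.t1_of_normal (h : T2 G) (n : G ≤ 𝐍 H) (h0 : H ≠ ⊥) : T1 H := by
  obtain ⟨k, hk, k1⟩ := exists_mem_ne_one h0
  obtain ⟨x, hx⟩ : ∃ x, k x ≠ x := by
    by_contra! e
    exact k1 (Perm.ext e)
  intro a b
  by_cases e : a = b
  · exact ⟨1, one_mem _, e⟩
  obtain ⟨g, hg, rfl, rfl⟩ := h x (k x) a b hx.symm e
  exact ⟨g * k * g⁻¹, conj_mem_of_norm (n hg) hk, by simp⟩

theorem t2_iff : T2 G ↔ IsMultiplyPretransitive G Ω 2 := by
  rw [is_two_pretransitive_iff]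
  exact ⟨fun h a b c d h1 h2 => let ⟨g, hg, e⟩ := h a b c d h1 h2; ⟨⟨g, hg⟩, e⟩,
    fun h a b c d h1 h2 => let ⟨g, e⟩ := @h a b c d h1 h2; ⟨g, g.2, e⟩⟩

/-- the embedding with three given values -/
def emb (h : D3 a b c) : Fin 3 ↪ Ω :=
  ⟨![a, b, c], by
    obtain ⟨h1, h2, h3⟩ := h
    intro i j e
    fin_cases i <;> fin_cases j <;> simp_all [eq_comm]⟩

theorem d3_emb (t : Fin 3 ↪ Ω) : D3 (t 0) (t 1) (t 2) :=
  ⟨t.injective.ne (by decide), t.injective.ne (by decide), t.injective.ne (by decide)⟩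

theorem three_iff {X : Type*} [Group X] [MulAction X Ω] : IsMultiplyPretransitive X Ω 3 ↔
    ∀ a b c x y z : Ω, D3 a b c → D3 x y z → ∃ g : X, g • a = x ∧ g • b = y ∧ g • c = z := by
  constructor
  · intro h a b c x y z h1 h2
    obtain ⟨g, e⟩ := h.exists_smul_eq (emb h1) (emb h2)
    exact ⟨g, congrArg (· 0) e, congrArg (· 1) e, congrArg (· 2) e⟩
  · refine fun h => ⟨fun s t => ?_⟩
    obtain ⟨g, e0, e1, e2⟩ := h _ _ _ _ _ _ (d3_emb s) (d3_emb t)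
    refine ⟨g, Function.Embedding.ext fun i => ?_⟩
    fin_cases i
    exacts [e0, e1, e2]

theorem t3_iff : T3 G ↔ IsMultiplyPretransitive G Ω 3 := by
  rw [three_iff]
  exact ⟨fun h a b c x y z h1 h2 => let ⟨g, hg, e⟩ := h a b c x y z h1 h2; ⟨⟨g, hg⟩, e⟩,
    fun h a b c x y z h1 h2 => let ⟨g, e⟩ := h a b c x y z h1 h2; ⟨g, g.2, e⟩⟩

theorem subgroupOf_ne_bot {X : Type*} [Group X] {H G : Subgroup X} (l : H ≤ G) (h : H ≠ ⊥) :
    H.subgroupOf G ≠ ⊥ := fun e => h (by rw [← map_subgroupOf l, e, Subgroup.map_bot])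

theorem wagner [Finite Ω] (h : T3 G) (n : H ⊴ G) (h0 : H ≠ ⊥) (o : Odd (Nat.card Ω))
    (h5 : 5 ≤ Nat.card Ω) : T3 H := by
  classical
  have := Fintype.ofFinite Ω
  have := n.normal
  rw [Nat.card_eq_fintype_card] at o h5
  have k := three_iff.1 (Cfsg.Agent.S0699.result G o h5 (t3_iff.1 h) (H.subgroupOf G)
    (subgroupOf_ne_bot n.le h0))
  intro a b c x y z h1 h2
  obtain ⟨g, e⟩ := k a b c x y z h1 h2
  exact ⟨g.1.1, g.2, e⟩

/-- a transitive abelian group is regular -/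
theorem reg_of_abel (h : T1 H) (ab : Abel H) (a : Ω) : H ⊓ St a = ⊥ :=
  eq_bot_of_forall fun g hg => Perm.ext fun x => by
    obtain ⟨k, hk, rfl⟩ := h a x
    have := congrArg (· a) (ab.mul_comm hg.1 hk)
    simpa [mem_St.1 hg.2] using this

theorem burnside [Finite Ω] (h : T2 G) (l : H ≤ G) (m : MinN H G) :
    (∃ p, p.Prime ∧ Abelem p H) ∨ (IsSimpleGroup H ∧ ¬ Abel H ∧ IsPreprimitive H Ω) := by
  classical
  by_cases ab : Abel H
  · exact Or.inl (m.exists_abelem ab.sol)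
  have := Fintype.ofFinite Ω
  have := (⟨l, m.norm⟩ : H ⊴ G).normal
  have e := subgroupOfEquivOfLe l
  rcases Cfsg.Agent.S0700.result G (t2_iff.1 h) (H.subgroupOf G) (subgroupOf_ne_bot l m.ne_bot)
    (fun M hM k => by
      rcases m.eq_bot_or (N := M.map G.subtype) (map_le_iff_le_comap.2 k)
        (normal_iff_map_subtype.1 hM).norm with e | e
      · exact Or.inl ((map_eq_bot_iff_of_injective _ G.subtype_injective).1 e)
      · exact Or.inr (by rw [← e, subgroupOf, comap_map_eq_self_of_injective G.subtype_injective]))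
    with ⟨k, -⟩ | ⟨k1, k2⟩
  · exact (ab (abel_of_forall fun x hx y hy => congrArg (fun t : H.subgroupOf G => t.1.1)
      (k.is_comm.comm ⟨⟨x, l hx⟩, hx⟩ ⟨⟨y, l hy⟩, hy⟩))).elim
  · refine Or.inr ⟨e.symm.isSimpleGroup, ab, ?_⟩
    let φ : Ω →ₑ[(subgroupOfEquivOfLe l).toMonoidHom] Ω := ⟨id, fun _ _ => rfl⟩
    exact k2.of_surjective (f := φ) Function.surjective_id

/-! ### restriction to a subset -/

/-- the permutations of `F` induced by elements of `G` -/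
def res (G : Subgroup (Perm Ω)) (F : Set Ω) : Subgroup (Perm F) where
  carrier := {σ | ∃ g ∈ G, ∀ x : F, (σ x : Ω) = g x}
  one_mem' := ⟨1, one_mem _, fun _ => rfl⟩
  mul_mem' := by
    rintro σ τ ⟨g, hg, e⟩ ⟨k, hk, e'⟩
    exact ⟨g * k, mul_mem hg hk, fun x => by rw [Perm.mul_apply, e, e']; rfl⟩
  inv_mem' := by
    rintro σ ⟨g, hg, e⟩
    refine ⟨g⁻¹, inv_mem hg, fun x => ?_⟩
    rw [Perm.eq_inv_iff_eq, ← e]
    simp

variable {F : Set Ω}

theorem mem_res {σ : Perm F} : σ ∈ res G F ↔ ∃ g ∈ G, ∀ x : F, (σ x : Ω) = g x := Iff.rfl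

theorem res_mono (h : G ≤ H) (F : Set Ω) : res G F ≤ res H F := fun _ ⟨g, hg, e⟩ => ⟨g, h hg, e⟩

theorem exists_res [Finite Ω] (hg : g ∈ G) (k : ∀ x ∈ F, g x ∈ F) :
    ∃ σ ∈ res G F, ∀ x : F, (σ x : Ω) = g x :=
  ⟨Equiv.ofBijective (fun x => ⟨g x, k x x.2⟩) (Finite.injective_iff_bijective.1 fun _ _ e =>
    Subtype.ext (g.injective (congrArg Subtype.val e))), ⟨g, hg, fun _ => rfl⟩, fun _ => rfl⟩

theorem res_norm (n : G ≤ 𝐍 H) : res G F ≤ 𝐍 (res H F) :=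
  le_norm_iff.2 fun σ ⟨g, hg, e⟩ τ ⟨k, hk, e'⟩ => ⟨g * k * g⁻¹, conj_mem_of_norm (n hg) hk, fun x => by
    have : (σ⁻¹ x : Ω) = g⁻¹ x := by rw [Perm.eq_inv_iff_eq, ← e]; simp
    simp only [Perm.mul_apply, e, e', this]⟩

theorem res_normal (n : H ⊴ G) : res H F ⊴ res G F := ⟨res_mono n.le F, res_norm n.norm⟩

theorem d3_val {a b c : F} : D3 a b c ↔ D3 (a : Ω) b c := by simp [D3, Subtype.ext_iff]

theorem R3.of_res {a b c x y z : F} (h : R3 (res G F) a b c x y z) : R3 G (a : Ω) b c x y z := by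
  obtain ⟨σ, ⟨g, hg, e⟩, rfl, rfl, rfl⟩ := h
  exact ⟨g, hg, (e a).symm, (e b).symm, (e c).symm⟩

/-- the elements of `G` leaving `F` invariant -/
def SS (G : Subgroup (Perm Ω)) (F : Set Ω) : Subgroup (Perm Ω) where
  carrier := {g | g ∈ G ∧ ∀ x, g x ∈ F ↔ x ∈ F}
  one_mem' := ⟨one_mem _, fun _ => Iff.rfl⟩
  mul_mem' := fun h k => ⟨mul_mem h.1 k.1, fun x => (h.2 _).trans (k.2 x)⟩
  inv_mem' := fun {g} h => ⟨inv_mem h.1, fun x => by rw [← h.2]; simp⟩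

/-- restriction homomorphism -/
def rh (G : Subgroup (Perm Ω)) (F : Set Ω) : SS G F →* res G F where
  toFun g := ⟨g.1.subtypePerm g.2.2, g.1, g.2.1, fun _ => rfl⟩
  map_one' := rfl
  map_mul' _ _ := rfl

theorem rh_apply (g : SS G F) (x : F) : ((rh G F g).1 x : Ω) = g.1 x := rfl

theorem rh_surj [Finite Ω] : Function.Surjective (rh G F) := by
  rintro ⟨σ, g, hg, e⟩
  have k : ∀ x ∈ F, g x ∈ F := fun x hx => e ⟨x, hx⟩ ▸ (σ ⟨x, hx⟩).2
  refine ⟨⟨g, hg, fun x => ⟨fun hx => ?_, k x⟩⟩, Subtype.ext (Perm.ext fun x => Subtype.ext (e x).symm)⟩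
  have : g x = g (σ⁻¹ ⟨g x, hx⟩ : F) := by rw [← e]; simp
  rw [g.injective this]
  exact Subtype.property _

theorem SS_le : SS G F ≤ G := fun _ h => h.1

end CF.Fgs2.Sax
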