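/-
Normal subgroups of triply transitive groups, part 2: counting, root groups, Zassenhaus groups.
-/
import Cfsg.Agent.Fgs2.Sax1
import Cfsg.Agent.S0054
import Cfsg.Agent.S0680
import Cfsg.Agent.S0731
import Cfsg.Agent.S0741
import Cfsg.Agent.S0885
set_option autoImplicit false
set_option linter.unusedSectionVars false

namespace CF.Fgs2.Sax
open Subgroup MulAction CF.BG Equiv CF.Fgs2.PSq

variable {Ω : Type*} [Finite Ω] {G H K U X : Subgroup (Perm Ω)} {a b c d e f x y z : Ω} {g : Perm Ω}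

theorem card_orb (X : Subgroup (Perm Ω)) (c : Ω) : (orb X c).ncard * ♯(X ⊓ St c) = ♯X := by
  rw [ncard_orb, mul_comm, inf_comm, card_inf_mul_relIndex]

theorem card_of_orb {S : Set Ω} (h : ∀ y, (∃ g ∈ X, g c = y) ↔ y ∈ S) :
    ♯X = S.ncard * ♯(X ⊓ St c) := by
  rw [← card_orb X c, show orb X c = S from Set.ext h]

theorem ncard_c1 (a : Ω) : ({a}ᶜ : Set Ω).ncard + 1 = Nat.card Ω := by
  rw [← Set.ncard_singleton a, add_comm, Set.ncard_add_ncard_compl]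

theorem ncard_c2 (h : a ≠ b) : ({a, b}ᶜ : Set Ω).ncard + 2 = Nat.card Ω := by
  rw [← Set.ncard_pair h, add_comm, Set.ncard_add_ncard_compl]

theorem T1.card (h : T1 H) (a : Ω) : ♯H = Nat.card Ω * ♯(H ⊓ St a) := by
  rw [← Set.ncard_univ Ω]
  exact card_of_orb fun y => iff_of_true (h a y) trivial

theorem T2.card (h : T2 H) (k : a ≠ b) : ♯(H ⊓ St a) = (Nat.card Ω - 1) * ♯(H ⊓ St a ⊓ St b) := by
  rw [← ncard_c1 a, Nat.add_sub_cancel]
  refine card_of_orb fun y => ⟨?_, fun hy => ?_⟩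
  · rintro ⟨g, hg, rfl⟩
    exact ne_of_stab hg.2 k.symm
  · obtain ⟨g, hg, e1, e2⟩ := h a b a y k (Ne.symm hy)
    exact ⟨g, ⟨hg, e1⟩, e2⟩

theorem orb2_sub (k : D3 a b c) : orb (H ⊓ St a ⊓ St b) c ⊆ {a, b}ᶜ := by
  rintro _ ⟨g, hg, rfl⟩ (e | e)
  exacts [ne_of_stab hg.1.2 k.2.1.symm e, ne_of_stab hg.2 k.2.2.symm e]

theorem mem_c2 : c ∈ ({a, b}ᶜ : Set Ω) ↔ a ≠ c ∧ b ≠ c := by simp [eq_comm]

theorem T3.card (h : T3 H) (k : D3 a b c) :
    ♯(H ⊓ St a ⊓ St b) = (Nat.card Ω - 2) * ♯(H ⊓ St a ⊓ St b ⊓ St c) := by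
  rw [← ncard_c2 k.1, Nat.add_sub_cancel]
  refine card_of_orb fun y => ⟨fun hy => orb2_sub k hy, fun hy => ?_⟩
  obtain ⟨g, hg, e1, e2, e3⟩ := h a b c a b y k ⟨k.1, mem_c2.1 hy⟩
  exact ⟨g, ⟨⟨hg, e1⟩, e2⟩, e3⟩

theorem cj_S3 (hg : g ∈ 𝐍 H) (a b c : Ω) :
    cj g (H ⊓ St a ⊓ St b ⊓ St c) = H ⊓ St (g a) ⊓ St (g b) ⊓ St (g c) := by
  simp only [cj_inf, cj_of_norm hg, cj_stab, Perm.smul_def]

theorem card_S3 (h : T3 G) (n : G ≤ 𝐍 H) (k : D3 a b c) (k' : D3 x y z) :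
    ♯(H ⊓ St a ⊓ St b ⊓ St c) = ♯(H ⊓ St x ⊓ St y ⊓ St z) := by
  obtain ⟨g, hg, rfl, rfl, rfl⟩ := h a b c x y z k k'
  rw [← cj_S3 (n hg), card_cj]

/-- long orbits of a two-point stabilizer: at most two orbits on triples -/
theorem m2_of_long (h : T2 H) (k : D3 a b c)
    (l : ∀ c, D3 a b c → Nat.card Ω - 2 ≤ 2 * (orb (H ⊓ St a ⊓ St b) c).ncard) : M2 H := by
  have r : ∀ {c z}, z ∈ orb (H ⊓ St a ⊓ St b) c → R3 H a b c a b z :=
    fun ⟨g, hg, e⟩ => ⟨g, hg.1.1, hg.1.2, hg.2, e⟩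
  suffices ∃ d, D3 a b d ∧ ∀ z, D3 a b z → R3 H a b c a b z ∨ R3 H a b d a b z by
    obtain ⟨d, hd, s⟩ := this
    refine ⟨a, b, c, a, b, d, k, hd, fun x y z k3 => ?_⟩
    obtain ⟨g, hg, rfl, rfl⟩ := h x y a b k3.1 k.1
    have t : R3 H (g x) (g y) (g z) x y z := R3.symm ⟨g, hg, rfl, rfl, rfl⟩
    exact (s (g z) (k3.map g)).imp (·.trans t) (·.trans t)
  by_cases s : ∀ z, D3 a b z → z ∈ orb (H ⊓ St a ⊓ St b) c
  · exact ⟨c, k, fun z hz => Or.inl (r (s z hz))⟩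
  push Not at s
  obtain ⟨d, hd, s⟩ := s
  refine ⟨d, hd, fun z hz => Or.imp r r ?_⟩
  have dj : Disjoint (orb (H ⊓ St a ⊓ St b) c) (orb (H ⊓ St a ⊓ St b) d) :=
    Set.disjoint_left.2 fun w h1 h2 => s (orb_trans h1 (orb_symm h2))
  have := Set.eq_of_subset_of_ncard_le (Set.union_subset (orb2_sub (H := H) k) (orb2_sub hd)) (by
    have := l c k
    have := l d hd
    have := ncard_c2 k.1
    rw [Set.ncard_union_eq dj]
    omega)
  exact this.ge (mem_c2.2 hz.2)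

/-- an abelian subgroup `U` of `H`, normal in `G_a`, transitive off `a` -/
structure Root (G H : Subgroup (Perm Ω)) (a : Ω) (U : Subgroup (Perm Ω)) : Prop where
  le : U ≤ H
  fix : U ≤ St a
  norm : G ⊓ St a ≤ 𝐍 U
  abel : Abel U
  tr : ∀ b c, b ≠ a → c ≠ a → ∃ u ∈ U, u b = c

namespace Root

theorem reg (r : Root G H a U) {u : Perm Ω} (hu : u ∈ U) (hb : b ≠ a) (e : u b = b) : u = 1 :=
  Perm.ext fun x => by
    by_cases hx : x = a
    · rw [hx]; exact r.fix hu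
    obtain ⟨v, hv, rfl⟩ := r.tr b x hb hx
    simpa [e] using congrArg (· b) (r.abel.mul_comm hu hv)

theorem uniq (r : Root G H a U) {u v : Perm Ω} (hu : u ∈ U) (hv : v ∈ U) (hb : b ≠ a)
    (e : u b = v b) : u = v :=
  (inv_mul_eq_one.1 (r.reg (mul_mem (inv_mem hv) hu) hb (by simp [e]))).symm

theorem ne (r : Root G H a U) {u : Perm Ω} (hu : u ∈ U) (hb : b ≠ a) : u b ≠ a :=
  ne_of_stab (r.fix hu) hb

theorem card (r : Root G H a U) (hb : b ≠ a) : ♯U + 1 = Nat.card Ω := by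
  rw [card_of_orb (c := b) (S := {a}ᶜ) fun y => ⟨by rintro ⟨g, hg, rfl⟩; exact r.ne hg hb,
    fun hy => r.tr b y hb hy⟩, eq_bot_of_forall (H := U ⊓ St b) fun u hu => r.reg hu.1 hb hu.2,
    Subgroup.card_bot, mul_one, ncard_c1]

theorem conj (r : Root G H a U) (n : G ≤ 𝐍 H) (hg : g ∈ G) : Root G H (g a) (cj g U) where
  le := cj_le_of_norm (n hg) r.le
  fix := (cj_mono g r.fix).trans (cj_stab g a).le
  norm := by
    have := (cj_norm_iff (g := g)).2 r.norm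
    rwa [cj_inf, cj_of_mem hg, cj_stab] at this
  abel := abel_cj.2 r.abel
  tr b c hb hc := by
    obtain ⟨u, hu, e⟩ := r.tr (g⁻¹ b) (g⁻¹ c) (fun e => hb (by simp [← e])) fun e => hc (by simp [← e])
    exact ⟨g * u * g⁻¹, conj_mem_cj.2 hu, by rw [Perm.mul_apply, Perm.mul_apply, e]; simp⟩

theorem mono (r : Root G H a U) (l : K ≤ G) : Root K H a U :=
  ⟨r.le, r.fix, (inf_le_inf_right _ l).trans r.norm, r.abel, r.tr⟩

theorem t2 (r : Root G H a U) (h : T1 H) : T2 H :=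
  t2_of h fun x b c hb hc => by
    obtain ⟨g, hg, rfl⟩ := h a x
    obtain ⟨u, hu, e⟩ := r.tr (g⁻¹ b) (g⁻¹ c) (fun e => hb (by simp [← e])) fun e => hc (by simp [← e])
    exact ⟨g * u * g⁻¹, mul_mem (mul_mem hg (r.le hu)) (inv_mem hg), by simp [mem_St.1 (r.fix hu)],
      by rw [Perm.mul_apply, Perm.mul_apply, e]; simp⟩

end Root

/-- only the identity of `H` fixes three points -/
def Sharp (H : Subgroup (Perm Ω)) : Prop :=
  ∀ g ∈ H, ∀ a b c : Ω, D3 a b c → g a = a → g b = b → g c = c → g = 1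

theorem card_stab2 (H : Subgroup (Perm Ω)) (a b : Ω) :
    Nat.card ↥(stabilizer H a ⊓ stabilizer H b) = ♯(H ⊓ St a ⊓ St b) := by
  rw [← card_map H.subtype_injective]
  congr 3
  ext g
  exact ⟨by rintro ⟨k, hk, rfl⟩; exact ⟨⟨k.2, hk.1⟩, hk.2⟩, fun h => ⟨⟨g, h.1.1⟩, ⟨h.1.2, h.2⟩, rfl⟩⟩

theorem zass (h : T2 H) (s : Sharp H) (n : 2 ≤ Nat.card Ω)
    (pp : ∀ p k : ℕ, p.Prime → Nat.card Ω ≠ p ^ k) : Cfsg.IsZassenhausGroup H Ω := by
  classical
  have := Fintype.ofFinite Ω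
  have h2 := t2_iff.1 h
  refine ⟨inferInstance, h2, fun g a b c h1 h2 h3 e1 e2 e3 =>
    Subtype.ext (s g g.2 a b c ⟨h1, h3, h2⟩ e1 e2 e3), ?_, fun N hN tN => ?_⟩
  · by_contra! k
    obtain ⟨p, j, hp, -, e, -⟩ := Cfsg.Agent.S0680.result H (fun t => eq_bot_of_forall fun g hg => by
      by_contra g1
      exact k g g1 (t 0) (t 1) (t.injective.ne (by decide)) (congrArg (· 0) hg) (congrArg (· 1) hg))
      (Nat.card_eq_fintype_card (α := Ω) ▸ n)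
    exact pp p j hp (Nat.card_eq_fintype_card.trans e)
  · by_contra! k
    have : Nonempty Ω := (Nat.card_pos_iff.1 (by omega)).1
    obtain ⟨-, p, hp, e⟩ := Cfsg.Agent.S0054.result h2 N tN k
    have := Fact.mk hp
    obtain ⟨j, hj⟩ := IsPGroup.iff_card.1 (show IsPGroup p N from fun g => ⟨1, Subtype.ext (by
      rw [pow_one]; exact e g g.2)⟩)
    obtain ⟨a⟩ := ‹Nonempty Ω›
    refine pp p j hp ?_
    rw [← hj, ← index_stabilizer_of_transitive N a, k a, index_bot]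

theorem zass_main (h : T2 H) (s : Sharp H) (r : Root H H a U) (hb : a ≠ b)
    (pp : ∀ p k : ℕ, p.Prime → Nat.card Ω ≠ p ^ k) :
    Nat.card Ω - 2 ≤ 2 * ♯(H ⊓ St a ⊓ St b) ∧ (T3 H ∨ ∃ (K : Type) (_ : Field K) (_ : Fintype K),
      ringChar K ≠ 2 ∧ Nonempty (H ≃* Matrix.ProjectiveSpecialLinearGroup (Fin 2) K)) := by
  have := Fintype.ofFinite Ω
  have hc := r.card hb.symm
  have Z := zass h s (by have := card_pos' U; omega) pp
  have l : U.subgroupOf H ≤ stabilizer H a := fun u hu => r.fix hu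
  have ab : IsMulCommutative (U.subgroupOf H) :=
    ⟨⟨fun u v => Subtype.ext (Subtype.ext (r.abel.mul_comm u.2 v.2))⟩⟩
  constructor
  · rw [← card_stab2]
    rcases Nat.even_or_odd (Nat.card ↥(stabilizer H a ⊓ stabilizer H b)) with e | e
    · exact Nat.card_eq_fintype_card (α := Ω) ▸ Cfsg.Agent.S0741.result Z hb e
    have c2 : Nat.card (U.subgroupOf H) = ♯U := Nat.card_congr (subgroupOfEquivOfLe r.le).toEquiv
    rcases Cfsg.Agent.S0885.result Z hb (♯U) _ (Nat.card_eq_fintype_card (α := Ω) ▸ hc.symm) rfl e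
      (U.subgroupOf H) l (by rw [c2, hc, Nat.card_eq_fintype_card])
      (fun u hu u1 c k => by_contra fun hc => u1 (Subtype.ext (r.reg hu hc k))) with k | ⟨-, ⟨u, v, k⟩, -⟩
    · omega
    · exact (k (ab.is_comm.comm u v)).elim
  · refine (Cfsg.Agent.S0731.result Z a (U.subgroupOf H) l ⟨fun u hu g => ?_⟩ ab
      fun y z hy hz => ?_).imp (fun k => t3_iff.2 k.1) id
    · exact conj_mem_of_norm (H := U) (r.norm (⟨g.1.2, g.2⟩ : g.1.1 ∈ H ⊓ St a)) hu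
    · obtain ⟨u, hu, e⟩ := r.tr y z hy hz
      exact ⟨⟨⟨u, r.le hu⟩, hu⟩, e, fun v k =>
        Subtype.ext (Subtype.ext (r.uniq v.2 hu hy (k.trans e.symm)))⟩

theorem Sharp.orb (s : Sharp H) (k : D3 a b c) :
    (orb (H ⊓ St a ⊓ St b) c).ncard = ♯(H ⊓ St a ⊓ St b) := by
  rw [← card_orb (H ⊓ St a ⊓ St b) c, eq_bot_of_forall (H := H ⊓ St a ⊓ St b ⊓ St c)
    fun g hg => s g hg.1.1.1 a b c k hg.1.1.2 hg.1.2 hg.2, Subgroup.card_bot, mul_one]

/-- a group acting semiregularly on an invariant set -/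
theorem dvd_of_semireg {S : Set Ω} (i : ∀ g ∈ X, ∀ x ∈ S, g x ∈ S)
    (s : ∀ g ∈ X, ∀ x ∈ S, g x = x → g = 1) : ♯X ∣ S.ncard := by
  induction h : S.ncard using Nat.strong_induction_on generalizing S with | _ n ih =>
  rcases S.eq_empty_or_nonempty with rfl | ⟨c, hc⟩
  · rw [← h, Set.ncard_empty]; exact dvd_zero _
  have l : PSq.orb X c ⊆ S := by rintro _ ⟨g, hg, rfl⟩; exact i g hg c hc
  have e := card_orb X c
  rw [eq_bot_of_forall (H := X ⊓ St c) fun g hg => s g hg.1 c hc hg.2, Subgroup.card_bot,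
    mul_one] at e
  have e2 := Set.ncard_diff_add_ncard_of_subset l
  have := card_pos' X
  rw [← h, ← e2, e]
  refine dvd_add (ih _ (by omega) (S := S \ PSq.orb X c)
    (fun g hg x hx => ⟨i g hg x hx.1, fun k => hx.2 ?_⟩) (fun g hg x hx => s g hg x hx.1) rfl) dvd_rfl
  simpa using smul_mem_orb (inv_mem hg) k

/-- only the identity fixes three points: the two-point stabilizer has order dividing `n - 2` -/
theorem Sharp.dvd (s : Sharp H) (k : a ≠ b) : ♯(H ⊓ St a ⊓ St b) ∣ Nat.card Ω - 2 := by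
  rw [← ncard_c2 k, Nat.add_sub_cancel]
  exact dvd_of_semireg (fun g hg x hx => orb2_sub ⟨k, mem_c2.1 hx⟩ ⟨g, hg, rfl⟩)
    fun g hg x hx => s g hg.1.1 a b x ⟨k, mem_c2.1 hx⟩ hg.1.2 hg.2

theorem Sharp.m2 (s : Sharp H) (h : T2 H) (k : D3 a b c)
    (l : Nat.card Ω - 2 ≤ 2 * ♯(H ⊓ St a ⊓ St b)) : M2 H :=
  m2_of_long h k fun _ hc => by rwa [s.orb hc]

end CF.Fgs2.Sax
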