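/-
Normal subgroups of triply transitive groups, part 3: abelian root groups are special,
involutions fixing two points invert the root group.
-/
import Cfsg.Agent.Fgs2.Sax2
set_option autoImplicit false
set_option linter.unusedSectionVars false

namespace CF.Fgs2.Sax
open Subgroup MulAction CF.BG Equiv CF.Fgs2.PSq

variable {Ω : Type*} [Finite Ω] {G H K U V X : Subgroup (Perm Ω)} {α β a b c : Ω} {g t u v : Perm Ω}

theorem eq_one_of_odd {Γ : Type*} [Group Γ] {U : Subgroup Γ} (o : Odd (♯U)) {v : Γ} (hv : v ∈ U)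
    (e : v * v = 1) : v = 1 :=
  orderOf_eq_one_iff.1 (Nat.Coprime.eq_one_of_dvd
    (o.of_dvd_nat (orderOf_dvd_card' hv)).coprime_two_right
    (orderOf_dvd_of_pow_eq_one (by rw [pow_two, e])))

theorem exists_sqrt {Γ : Type*} [Group Γ] {U : Subgroup Γ} (o : Odd (♯U)) {v : Γ} (hv : v ∈ U) :
    ∃ s ∈ U, s * s = v := by
  obtain ⟨k, e⟩ := o
  refine ⟨v ^ (k + 1), pow_mem hv _, ?_⟩
  have : v ^ ♯U = 1 := orderOf_dvd_iff_pow_eq_one.1 (orderOf_dvd_card' hv)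
  rw [← pow_add, show k + 1 + (k + 1) = ♯U + 1 by omega, pow_succ, this, one_mul]

theorem Root.odd (r : Root G H α U) (h : β ≠ α) (ev : Even (Nat.card Ω)) : Odd (♯U) := by
  rw [← r.card h] at ev
  exact Nat.not_even_iff_odd.1 (Nat.even_add_one.1 ev)

/-- conjugation in a root group is determined by the action on points -/
theorem Root.conj_eq (r : Root G H α U) (h : β ≠ α) (hg : g ∈ G) (ga : g α = α) (gb : g β = β)
    (hu : u ∈ U) (hv : v ∈ U) (e : g (u β) = v β) : g * u * g⁻¹ = v :=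
  r.uniq (conj_mem_of_norm (r.norm ⟨hg, ga⟩) hu) hv h (by
    rw [Perm.mul_apply, Perm.mul_apply, ← e, Perm.inv_eq_iff_eq.2 gb.symm])

theorem apply_of_conj (gb : g β = β) (e : g * u * g⁻¹ = v) : g (u β) = v β := by
  rw [← e, Perm.mul_apply, Perm.mul_apply, Perm.inv_eq_iff_eq.2 gb.symm]

theorem special (T : T3 G) (ev : Even (Nat.card Ω)) (r : Root G H α U) (s : Root G H β V)
    (h : β ≠ α) (hu : u ∈ U) (hv : v ∈ V) (e : u β = v α) : u⁻¹ β = v⁻¹ α := by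
  have a1 : v α ≠ α := e ▸ r.ne hu h
  have a2 : v α ≠ β := s.ne hv h.symm
  have b1 : v⁻¹ α ≠ α := fun k => a1 (Perm.inv_eq_iff_eq.1 k).symm
  have b2 : v⁻¹ α ≠ β := s.ne (inv_mem hv) h.symm
  have b3 : v α ≠ v⁻¹ α := fun k => a1 (by
    rw [eq_one_of_odd (s.odd h.symm ev) hv (eq_inv_iff_mul_eq_one.1 (s.uniq hv (inv_mem hv) h.symm k))]
    rfl)
  obtain ⟨g, hg, ga, gb, gc⟩ := T α β (v α) α β (v⁻¹ α) ⟨h.symm, a1.symm, a2.symm⟩
    ⟨h.symm, b1.symm, b2.symm⟩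
  have g1 := s.conj_eq h.symm hg gb ga hv (inv_mem hv) gc
  have g2 : g (v⁻¹ α) = v α := apply_of_conj ga (by rw [← conj_inv, g1, inv_inv])
  obtain ⟨w, hw, ew⟩ := r.tr β (v⁻¹ α) h b1
  have g3 := r.conj_eq h hg ga gb hu hw (by rw [e, gc, ew])
  have g4 := r.conj_eq h hg ga gb hw hu (by rw [ew, g2, e])
  rw [← ew]
  by_contra k
  have c1 : (u * w) β ≠ α := r.ne (mul_mem hu hw) h
  have c2 : (u * w) β ≠ β := fun k' => k (by
    rw [inv_eq_of_mul_eq_one_right (r.reg (mul_mem hu hw) h k')])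
  have l : G ⊓ St α ⊓ St β ⊓ St (v α) ≤ G ⊓ St α ⊓ St β ⊓ St ((u * w) β) := fun k hk => by
    refine ⟨hk.1, apply_of_conj hk.1.2 ?_⟩
    have k1 := r.conj_eq h hk.1.1.1 hk.1.1.2 hk.1.2 hu hu (by rw [e]; exact hk.2)
    have k2 := s.conj_eq h.symm hk.1.1.1 hk.1.2 hk.1.1.2 hv hv hk.2
    have k3 : k (v⁻¹ α) = v⁻¹ α := apply_of_conj hk.1.1.2 (by rw [← conj_inv, k2])
    rw [← conj_mul, k1, r.conj_eq h hk.1.1.1 hk.1.1.2 hk.1.2 hw hw (by rw [ew, k3])]
  have m : g ∈ G ⊓ St α ⊓ St β ⊓ St ((u * w) β) :=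
    ⟨⟨⟨hg, ga⟩, gb⟩, apply_of_conj gb (by rw [← conj_mul, g3, g4, r.abel.mul_comm hw hu])⟩
  rw [← eq_of_card_eq l (card_S3 T (le_norm_self G) ⟨h.symm, a1.symm, a2.symm⟩
    ⟨h.symm, c1.symm, c2.symm⟩)] at m
  exact b3 (m.2.symm.trans gc)

/-- point stabilizers of `H` have order prime to three -/
def N3 (H : Subgroup (Perm Ω)) : Prop := ∀ a : Ω, ¬ 3 ∣ ♯(H ⊓ St a)

theorem three_dvd_order (k : D3 a b c) (e1 : g a = b) (e2 : g b = c) (e3 : g c = a) :
    3 ∣ orderOf g := by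
  have h : ∀ j, (g ^ (3 * j)) a = a := fun j => by
    induction j with
    | zero => rfl
    | succ j ih => rw [Nat.mul_succ, pow_add, pow_succ, pow_two]; simp [e1, e2, e3, ih]
  have h2 : (g ^ (orderOf g % 3)) a = a := by
    conv_rhs => rw [← show (g ^ orderOf g) a = a by rw [pow_orderOf_eq_one]; rfl,
      ← Nat.mod_add_div (orderOf g) 3, pow_add, Perm.mul_apply, h]
  rcases (by omega : orderOf g % 3 = 0 ∨ orderOf g % 3 = 1 ∨ orderOf g % 3 = 2) with e | e | e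
  · exact Nat.dvd_of_mod_eq_zero e
  · rw [e, pow_one, e1] at h2; exact (k.1 h2.symm).elim
  · rw [e, pow_two, Perm.mul_apply, e1, e2] at h2; exact (k.2.1 h2.symm).elim

theorem N3.dvd (n : N3 H) (hg : g ∈ H) (o : 3 ∣ orderOf g) {F : Set Ω} (i : ∀ x ∈ F, g x ∈ F) :
    3 ∣ F.ncard := by
  obtain ⟨y, hy, oy⟩ := exists_mem_orderOf_eq Nat.prime_three (H := zpowers g) (by rwa [Nat.card_zpowers])
  have c : ♯(zpowers y) = 3 := by rw [Nat.card_zpowers, oy]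
  have l : zpowers y ≤ zpowers g := zpowers_le.2 hy
  rw [← c]
  refine dvd_of_semireg (fun k hk x hx => ?_) fun k hk x _ e => by_contra fun k1 => n x ?_
  · obtain ⟨j, rfl⟩ := mem_powers_iff_mem_zpowers.2 (l hk)
    clear hk
    induction j with
    | zero => exact hx
    | succ j ih => simpa [pow_succ'] using i _ ih
  · rw [← c, ← zpowers_eq_of_prime (c ▸ Nat.prime_three) hk k1]
    exact card_dvd (zpowers_le.2 ⟨zpowers_le.2 hg (l hk), e⟩)

/-- eigen-subgroups of `t` on an abelian subgroup -/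
def eig {Γ : Type*} [Group Γ] {U : Subgroup Γ} (h : Abel U) (t : Γ) (s : ℤ) : Subgroup Γ where
  carrier := {u | u ∈ U ∧ t * u * t⁻¹ = u ^ s}
  one_mem' := ⟨one_mem _, by simp⟩
  mul_mem' := fun {u v} hu hv => ⟨mul_mem hu.1 hv.1, by
    rw [← conj_mul, hu.2, hv.2, (show Commute u v from h.mul_comm hu.1 hv.1).mul_zpow]⟩
  inv_mem' := fun {u} hu => ⟨inv_mem hu.1, by rw [← conj_inv, hu.2, inv_zpow]⟩

theorem card_eig {Γ : Type*} [Group Γ] {U : Subgroup Γ} (h : Abel U) (o : Odd (♯U)) {t : Γ}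
    (n : t ∈ 𝐍 U) (t2 : t * t = 1) : ♯U = ♯(eig h t 1) * ♯(eig h t (-1)) := by
  have l : ∀ s, eig h t s ≤ U := fun _ _ k => k.1
  rw [← card_sup_of_inf_bot (Or.inl (norm_of_cent (h.cent (l _) (l _))))
    (eq_bot_of_forall fun u hu => eq_one_of_odd o hu.1.1 (by
      have := hu.1.2.symm.trans hu.2.2
      rwa [zpow_one, zpow_neg_one, eq_inv_iff_mul_eq_one] at this))]
  congr 3
  refine le_antisymm (fun u hu => ?_) (sup_le (l _) (l _))
  obtain ⟨s, hs, rfl⟩ := exists_sqrt o hu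
  have h1 := conj_mem_of_norm n hs
  have h2 : t * (t * s * t⁻¹) * t⁻¹ = s := by
    rw [show t * (t * s * t⁻¹) * t⁻¹ = t * t * s * (t * t)⁻¹ by group, t2]; simp
  rw [show s * s = t * s * t⁻¹ * s * (s * (t * s * t⁻¹)⁻¹) by
    rw [← mul_assoc, mul_assoc _ s s, ← h.mul_comm (mul_mem hs hs) h1, mul_inv_cancel_right]]
  refine mul_mem (mem_sup_left ⟨mul_mem h1 hs, ?_⟩) (mem_sup_right ⟨mul_mem hs (inv_mem h1), ?_⟩)
  · rw [← conj_mul, h2, zpow_one, h.mul_comm h1 hs]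
  · rw [← conj_mul, ← conj_inv, h2, zpow_neg_one, mul_inv_rev, inv_inv]

theorem three_dvd_eig (T : T3 G) (l : H ≤ G) (n : N3 H) (ev : Even (Nat.card Ω)) (r : Root G H α U)
    (s : Root G H β V) (h : β ≠ α) (ht : t ∈ G) (ta : t α = α) (tb : t β = β) {ε : ℤ}
    (hε : ε = 1 ∨ ε = -1) (h0 : eig r.abel t ε ≠ ⊥) : 3 ∣ ♯(eig r.abel t ε) + 1 := by
  have sp : ∀ {u v}, u ∈ U → v ∈ V → u β = v α → (u ^ ε) β = (v ^ ε) α := fun hu hv e => by
    rcases hε with rfl | rfl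
    · simpa using e
    · simpa using special T ev r s h hu hv e
  have tr : ∀ {u v}, u ∈ U → v ∈ V → u β = v α → (u ∈ eig r.abel t ε ↔ v ∈ eig s.abel t ε) :=
    fun hu hv e => ⟨fun k => ⟨hv, s.conj_eq h.symm ht tb ta hv (zpow_mem hv _)
      (by rw [← e, apply_of_conj tb k.2, sp hu hv e])⟩, fun k => ⟨hu, r.conj_eq h ht ta tb hu
      (zpow_mem hu _) (by rw [e, apply_of_conj ta k.2, sp hu hv e])⟩⟩
  have key : ∀ {α β : Ω} {U V : Subgroup (Perm Ω)} (r : Root G H α U) (s : Root G H β V), β ≠ α →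
      (∀ {u v}, u ∈ U → v ∈ V → u β = v α → u ∈ eig r.abel t ε → v ∈ eig s.abel t ε) →
      insert α (orb (eig r.abel t ε) β) ⊆ insert β (orb (eig s.abel t ε) α) := by
    rintro α β U V r s h tr x (rfl | ⟨u, hu, rfl⟩)
    · exact Or.inr (self_mem_orb _ _)
    by_cases e : u β = β
    · exact Or.inl e
    obtain ⟨v, hv, e'⟩ := s.tr α (u β) h.symm e
    exact Or.inr ⟨v, tr hu.1 hv e'.symm hu, e'⟩
  have E := (key r s h fun hu hv e => (tr hu hv e).1).antisymm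
    (key s r h.symm fun hv hu e => (tr hu hv e.symm).2)
  obtain ⟨u, hu, u1⟩ := exists_mem_ne_one h0
  have ub : u β ≠ β := fun k => u1 (r.reg hu.1 h k)
  obtain ⟨v, hv, e⟩ := s.tr α (u β) h.symm ub
  have e2 := special T ev r s h hu.1 hv e.symm
  have hv' := inv_mem ((tr hu.1 hv e.symm).1 hu)
  have c : (insert α (orb (eig r.abel t ε) β)).ncard = ♯(eig r.abel t ε) + 1 := by
    rw [Set.ncard_insert_of_notMem (by rintro ⟨w, hw, k⟩; exact r.ne hw.1 h k), ← card_orb _ β,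
      eq_bot_of_forall (H := eig r.abel t ε ⊓ St β) fun w hw => r.reg hw.1.1 h hw.2,
      Subgroup.card_bot, mul_one]
  rw [← c]
  refine n.dvd (g := v⁻¹ * u) (mul_mem (s.le hv'.1) (r.le hu.1))
    (three_dvd_order (a := α) (b := u⁻¹ β) (c := β)
      ⟨(r.ne (inv_mem hu.1) h).symm, h.symm, fun k => ub (Perm.inv_eq_iff_eq.1 k).symm⟩
      (by rw [Perm.mul_apply, mem_St.1 (r.fix hu.1), e2])
      (by simpa using mem_St.1 (s.fix hv'.1)) (by simp [← e])) fun x hx => ?_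
  have : u x ∈ insert α (orb (eig r.abel t ε) β) := by
    rcases hx with rfl | hx
    exacts [Or.inl (r.fix hu.1), Or.inr (smul_mem_orb hu hx)]
  rw [E] at this ⊢
  rw [Perm.mul_apply]
  rcases this with k | k
  · rw [k]; exact Or.inl (s.fix hv'.1)
  · exact Or.inr (smul_mem_orb hv' k)

/-- every involution of `H` fixing `α` and `β` inverts `U` -/
def Inv (H : Subgroup (Perm Ω)) (α β : Ω) (U : Subgroup (Perm Ω)) : Prop :=
  ∀ t ∈ H ⊓ St α ⊓ St β, t * t = 1 → t ≠ 1 → ∀ u ∈ U, t * u * t⁻¹ = u⁻¹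

theorem inv_of_n3 (T : T3 G) (l : H ≤ G) (n : N3 H) (ev : Even (Nat.card Ω)) (h3 : 3 ∣ Nat.card Ω)
    (r : Root G H α U) (s : Root G H β V) (h : β ≠ α) : Inv H α β U := by
  rintro t ⟨⟨ht, ta⟩, tb⟩ t2 t1
  have o := r.odd h ev
  have c := card_eig r.abel o (r.norm ⟨l ht, ta⟩) t2
  have le : ∀ s, eig r.abel t s ≤ U := fun _ _ k => k.1
  by_cases h1 : eig r.abel t 1 = ⊥
  · rw [h1, Subgroup.card_bot, one_mul] at c
    intro u hu
    rw [← eq_of_card_eq (le _) c.symm] at hu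
    rw [hu.2, zpow_neg_one]
  by_cases h2 : eig r.abel t (-1) = ⊥
  · rw [h2, Subgroup.card_bot, mul_one] at c
    refine (t1 (Perm.ext fun x => ?_)).elim
    by_cases hx : x = α
    · rw [hx]; exact ta
    obtain ⟨u, hu, rfl⟩ := r.tr β x h hx
    rw [← eq_of_card_eq (le _) c.symm] at hu
    rw [apply_of_conj tb hu.2, zpow_one]; rfl
  obtain ⟨i, k1⟩ := three_dvd_eig T l n ev r s h (l ht) ta tb (Or.inl rfl) h1
  obtain ⟨j, k2⟩ := three_dvd_eig T l n ev r s h (l ht) ta tb (Or.inr rfl) h2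
  rw [← r.card h, c] at h3
  exfalso
  generalize ♯(eig r.abel t 1) = x at *
  generalize ♯(eig r.abel t (-1)) = y at *
  obtain ⟨i, rfl⟩ : ∃ i, x = 3 * i + 2 := ⟨i - 1, by omega⟩
  obtain ⟨j, rfl⟩ : ∃ j, y = 3 * j + 2 := ⟨j - 1, by omega⟩
  rw [show (3 * i + 2) * (3 * j + 2) + 1 = 3 * (3 * i * j + 2 * i + 2 * j + 1) + 2 by ring] at h3
  omega

end CF.Fgs2.Sax
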