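/-
Normal subgroups of triply transitive groups, part 4: Sylow 2-subgroups in the affine case.
-/
import Cfsg.Agent.Fgs2.Sax3
set_option autoImplicit false
set_option linter.unusedSectionVars false

namespace CF.Fgs2.Sax
open Subgroup MulAction CF.BG Equiv CF.Fgs2.PSq

theorem exists_invol {Γ : Type*} [Group Γ] [Finite Γ] {Q : Subgroup Γ} (h : 2 ∣ ♯Q) :
    ∃ t ∈ Q, t * t = 1 ∧ t ≠ 1 := by
  obtain ⟨t, ht, o⟩ := exists_mem_orderOf_eq Nat.prime_two h
  exact ⟨t, ht, by rw [← pow_two, ← o, pow_orderOf_eq_one], fun e => by simp [e] at o⟩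

theorem cyc_of_neg {V Q : Type*} [AddCommGroup V] [Finite V] [Group Q] [Finite Q] {p f : ℕ}
    [hp : Fact p.Prime] [Module (ZMod p) V] (p2 : p ≠ 2) (c : Nat.card V = p ^ f) (o : Odd f)
    (φ : Q → V →+ V) (φ1 : ∀ x, φ 1 x = x) (φm : ∀ g k x, φ (g * k) x = φ g (φ k x))
    (q : PiNat {2} (Nat.card Q)) (i : ∀ t : Q, t * t = 1 → t ≠ 1 → ∀ u, φ t u = -u) : IsCyclic Q := by
  let δ : Q →* ZMod p :=
    { toFun g := LinearMap.det ((φ g).toZModLinearMap p)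
      map_one' := by rw [show (φ 1).toZModLinearMap p = 1 from LinearMap.ext φ1, map_one]
      map_mul' g k := by
        rw [← map_mul]
        exact congrArg _ (LinearMap.ext (φm g k)) }
  refine isCyclic_of_injective_ringHom δ ((MonoidHom.ker_eq_bot_iff _).1 (by_contra fun k => ?_))
  obtain ⟨t, ht, t2, t1⟩ := exists_invol (Q := δ.ker)
    (PiGrp.dvd_card (PiNat.dvd q (card_subgroup_dvd_card _)) k)
  have h1 : (φ t).toZModLinearMap p = (-1 : ZMod p) • LinearMap.id := LinearMap.ext fun x => by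
    simpa using i t t2 t1 x
  have h2 : Module.finrank (ZMod p) V = f := by
    have := Module.natCard_eq_pow_finrank (K := ZMod p) (V := V)
    rw [Nat.card_zmod, c] at this
    exact (Nat.pow_right_injective hp.out.two_le this).symm
  have h3 : δ t = -1 := by
    change LinearMap.det ((φ t).toZModLinearMap p) = -1
    rw [h1, LinearMap.det_smul, LinearMap.det_id, mul_one, h2, o.neg_one_pow]
  have : Fact (2 < p) := ⟨lt_of_le_of_ne hp.out.two_le p2.symm⟩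
  exact ZMod.neg_one_ne_one (h3.symm.trans ht)

theorem cyc_of_inv' {A Q : Type*} [CommGroup A] [Finite A] [Group Q] [Finite Q] {p f : ℕ}
    (hp : p.Prime) (p2 : p ≠ 2) (e : ∀ u : A, u ^ p = 1) (c : Nat.card A = p ^ f) (o : Odd f)
    (φ : Q →* MulAut A) (q : PiNat {2} (Nat.card Q))
    (i : ∀ t : Q, t * t = 1 → t ≠ 1 → ∀ u, φ t u = u⁻¹) : IsCyclic Q :=
  haveI := Fact.mk hp
  letI : Module (ZMod p) (Additive A) := AddCommGroup.zmodModule fun x =>
    Additive.toMul.injective (e x.toMul)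
  cyc_of_neg (V := Additive A) p2 c o (fun g => MonoidHom.toAdditive (φ g).toMonoidHom)
    (fun x => by simp) (fun g k x => by simp) q fun t t2 t1 u => congrArg Additive.ofMul (i t t2 t1 _)

theorem cyc_of_inv {Γ : Type*} [Group Γ] [Finite Γ] {U Q : Subgroup Γ} {p f : ℕ} (hp : p.Prime)
    (p2 : p ≠ 2) (ab : Abel U) (e : ∀ u ∈ U, u ^ p = 1) (c : ♯U = p ^ f) (o : Odd f) (n : Q ≤ 𝐍 U)
    (q : PiGrp {2} Q) (i : ∀ t ∈ Q, t * t = 1 → t ≠ 1 → ∀ u ∈ U, t * u * t⁻¹ = u⁻¹) : Cyc Q :=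
  letI : CommGroup U := { (inferInstance : Group U) with mul_comm := ab.comm.is_comm.comm }
  cyc_of_inv' hp p2 (fun u : U => Subtype.ext (e u u.2)) c o
    (U.normalizerMonoidHom.comp (inclusion n)) q fun t t2 t1 u =>
      Subtype.ext (i t t.2 (congrArg Subtype.val t2) (fun k => t1 (Subtype.ext k)) u u.2)

variable {Ω : Type*} [Finite Ω] {G H K U V X Q : Subgroup (Perm Ω)} {α β γ a b c : Ω}
  {g t u v : Perm Ω} {F : Set Ω}

theorem two_order_dvd [Fintype Ω] [DecidableEq Ω] {y : Perm Ω} (s : Perm.sign y = 1)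
    (e : Even (orderOf y)) (h : ∀ k x, y x ≠ x → (y ^ k) x = x → y ^ k = 1) :
    2 * orderOf y ∣ y.support.card := by
  have r : y.cycleType = Multiset.replicate (Multiset.card y.cycleType) (orderOf y) :=
    Multiset.eq_replicate_card.2 fun n hn => Nat.dvd_antisymm (Perm.dvd_of_mem_cycleType hn) (by
      obtain ⟨c, τ, rfl, d, hc, rfl⟩ := Perm.mem_cycleType_iff.1 hn
      obtain ⟨x, hx, -⟩ := id hc
      have tx : τ x = x := (d x).resolve_left hx
      refine orderOf_dvd_of_pow_eq_one (h _ x (by rwa [Perm.mul_apply, tx]) ?_)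
      rw [d.commute.mul_pow, ← hc.orderOf, pow_orderOf_eq_one, one_mul]
      exact Perm.pow_apply_eq_self_of_apply_eq_self tx _)
  have c := y.sum_cycleType
  rw [Perm.sign_of_cycleType, c] at s
  rw [r, Multiset.sum_replicate, smul_eq_mul] at c
  rw [← c] at s ⊢
  rw [pow_add, (e.mul_left _).neg_one_pow, one_mul, neg_one_pow_eq_one_iff_even (by decide)] at s
  exact Nat.mul_dvd_mul_right s.two_dvd _

theorem sign_eq_one [Fintype Ω] [DecidableEq Ω] [s : IsSimpleGroup H] (n : ¬ Abel H) (hg : g ∈ H) :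
    Perm.sign g = 1 := by
  rcases (Perm.sign.comp H.subtype).normal_ker.eq_bot_or_eq_top with e | e
  · refine (n (abel_of_forall fun x hx y hy => congrArg Subtype.val ((MonoidHom.ker_eq_bot_iff _).1 e
      (a₁ := ⟨x, hx⟩ * ⟨y, hy⟩) (a₂ := ⟨y, hy⟩ * ⟨x, hx⟩) ?_))).elim
    rw [map_mul, map_mul, mul_comm]
  · exact e.ge (mem_top (⟨g, hg⟩ : H))

theorem Inv.reg (i : Inv H α β U) (r : Root G H α U) (h : β ≠ α) (ev : Even (Nat.card Ω))
    (ht : t ∈ H ⊓ St α ⊓ St β) (t2 : t * t = 1) (h1 : c ≠ α) (h2 : c ≠ β) (e : t c = c) : t = 1 := by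
  by_contra t1
  obtain ⟨u, hu, rfl⟩ := r.tr β c h h1
  have := r.uniq hu (inv_mem hu) h (e.symm.trans (apply_of_conj ht.2 (i t ht t2 t1 u hu)))
  exact h2 (by rw [eq_one_of_odd (r.odd h ev) hu (eq_inv_iff_mul_eq_one.1 this)]; rfl)

theorem Inv.odd (i : Inv H α β U) (r : Root G H α U) (ev : Even (Nat.card Ω)) (k : D3 α β γ) :
    Odd (♯(H ⊓ St α ⊓ St β ⊓ St γ)) := by
  by_contra o
  obtain ⟨t, ht, t2, t1⟩ := exists_invol (Nat.not_odd_iff_even.1 o).two_dvd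
  exact t1 (i.reg r k.1.symm ev ht.1 t2 k.2.1.symm k.2.2.symm ht.2)

theorem Inv.two_card_dvd [IsSimpleGroup H] (n : ¬ Abel H) (l : H ≤ G) (i : Inv H α β U)
    (r : Root G H α U) (h : β ≠ α) (ev : Even (Nat.card Ω)) {p f : ℕ} (hp : p.Prime)
    (e : ∀ u ∈ U, u ^ p = 1) (c : ♯U = p ^ f) (o : Odd f) (hQ : Q ≤ H ⊓ St α ⊓ St β)
    (q : PiGrp {2} Q) : 2 * ♯Q ∣ Nat.card Ω - 2 := by
  classical
  have := Fintype.ofFinite Ω
  by_cases q0 : Q = ⊥
  · rw [q0, Subgroup.card_bot, mul_one]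
    exact Nat.dvd_sub ev.two_dvd dvd_rfl
  have p2 : p ≠ 2 := by
    rintro rfl
    have := r.odd h ev
    rw [c, Nat.odd_pow_iff o.pos.ne'] at this
    exact absurd this (by decide)
  obtain ⟨y, rfl⟩ := Cyc.exists_gen (cyc_of_inv hp p2 r.abel e c o
    (fun g hg => r.norm ⟨l (hQ hg).1.1, (hQ hg).1.2⟩) q fun t ht => i t (hQ ht))
  have reg : ∀ g ∈ zpowers y, ∀ x, x ≠ α → x ≠ β → g x = x → g = 1 := fun g hg x h1 h2 k => by
    by_contra g1
    have l2 : zpowers g ≤ zpowers y := zpowers_le.2 hg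
    obtain ⟨t, ht, t2, t1⟩ := exists_invol ((q.le l2).dvd_card (mt zpowers_eq_bot.1 g1))
    exact t1 (i.reg r h ev (hQ (l2 ht)) t2 h1 h2 ((zpowers_le.2 k : zpowers g ≤ St x) ht))
  have m := hQ (mem_zpowers y)
  have y1 : y ≠ 1 := mt zpowers_eq_bot.2 q0
  have := two_order_dvd (sign_eq_one n m.1.1) (even_iff_two_dvd.2 (by
    rw [← Nat.card_zpowers]; exact q.dvd_card q0)) fun k x hx =>
      reg _ (pow_mem (mem_zpowers y) k) x (fun e => hx (e ▸ m.1.2)) fun e => hx (e ▸ m.2)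
  rw [Nat.card_zpowers, ← ncard_c2 h.symm, Nat.add_sub_cancel]
  convert this
  rw [← Set.ncard_coe_finset]
  congr 1
  ext x
  rw [mem_c2, Finset.mem_coe, Perm.mem_support]
  exact ⟨fun k e => y1 (reg y (mem_zpowers y) x k.1.symm k.2.symm e),
    fun k => ⟨fun e => k (e ▸ m.1.2), fun e => k (e ▸ m.2)⟩⟩

theorem odd_pow_sq {p A f : ℕ} (o : Odd p) (e : p ^ 2 = A + 1) (hf : Odd f) :
    ∃ m, Odd m ∧ (p ^ f) ^ 2 = A * m + 1 := by
  obtain ⟨k, rfl⟩ := hf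
  induction k with
  | zero => exact ⟨1, odd_one, by simpa using e⟩
  | succ k ih =>
    obtain ⟨m, om, h⟩ := ih
    refine ⟨m * p ^ 4 + (p ^ 2 + 1), (om.mul o.pow).add_even (o.pow.add_one), ?_⟩
    have : p ^ 4 = (A + 1) ^ 2 := by rw [← e]; ring
    rw [show (p ^ (2 * (k + 1) + 1)) ^ 2 = (p ^ (2 * k + 1)) ^ 2 * p ^ 4 by ring, h, this, e]
    ring

/-! ### cardinalities for restrictions -/

/-- pointwise stabilizer of a set -/
abbrev Fx (F : Set Ω) : Subgroup (Perm Ω) := fixingSubgroup (Perm Ω) F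

theorem mem_Fx : g ∈ Fx F ↔ ∀ x ∈ F, g x = x := mem_fixingSubgroup_iff _

theorem map_ker_rh : (rh K F).ker.map (SS K F).subtype = K ⊓ Fx F := by
  ext g
  constructor
  · rintro ⟨k, hk, rfl⟩
    exact ⟨k.2.1, mem_Fx.2 fun x hx => congrArg (fun σ : res K F => (σ.1 ⟨x, hx⟩ : Ω)) hk⟩
  · rintro ⟨h1, h2⟩
    have h2 := mem_Fx.1 h2
    exact ⟨⟨g, h1, fun x => ⟨fun hx => g.injective (h2 _ hx) ▸ hx, fun hx => (h2 x hx).symm ▸ hx⟩⟩,
      Subtype.ext (Perm.ext fun x => Subtype.ext (h2 x x.2)), rfl⟩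

theorem card_SS (K : Subgroup (Perm Ω)) (F : Set Ω) : ♯(SS K F) = ♯(K ⊓ Fx F) * ♯(res K F) := by
  rw [← map_ker_rh, card_map (SS K F).subtype_injective, ← (rh K F).ker.card_mul_index, index_ker,
    MonoidHom.range_eq_top.2 rh_surj, card_top']

theorem res_inf (K : Subgroup (Perm Ω)) (a : F) : res K F ⊓ St a = res (K ⊓ St a.1) F := by
  ext σ
  exact ⟨fun ⟨⟨g, hg, e⟩, k⟩ => ⟨g, ⟨hg, (e a).symm.trans (congrArg Subtype.val k)⟩, e⟩,
    fun ⟨g, hg, e⟩ => ⟨⟨g, hg.1, e⟩, Subtype.ext ((e a).trans hg.2)⟩⟩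

theorem res_dvd (K : Subgroup (Perm Ω)) (F : Set Ω) : ♯(K ⊓ Fx F) * ♯(res K F) ∣ ♯K :=
  card_SS K F ▸ card_dvd SS_le

/-- the fixed points of a group -/
def Fix (X : Subgroup (Perm Ω)) : Set Ω := {x | ∀ g ∈ X, g x = x}

theorem mem_Fix : a ∈ Fix X ↔ X ≤ St a := Iff.rfl

theorem norm_Fix (hg : g ∈ 𝐍 X) : ∀ x ∈ Fix X, g x ∈ Fix X := fun x hx k hk => by
  simpa [Equiv.symm_apply_eq] using hx _ (conj_mem_of_norm' hg hk)

theorem le_Fx : X ≤ Fx (Fix X) := fun g hg => mem_Fx.2 fun _ hx => hx g hg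

end CF.Fgs2.Sax
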