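import Cfsg.Agent.Fgs2.Sc4

/-! Self-centralization systems of type `(2, 4, 4)`: the values of the exceptional character. -/

set_option autoImplicit false
set_option linter.unusedSectionVars false

namespace CF.Fgs2.Sc
open Subgroup Cfsg CF.Char CF.BN CF.BG CF.Fgs1 Finset
open scoped _root_.Classical

variable {G : Type*} [Group G] [Fintype G] {A₁ A₂ A₃ : Subgroup G} {χ ψ ψ' : G → ℂ}
  {g s t y z : G} {ε a₁ a₂ a₃ : ℤ} {x : G → ℤ}

/-- a self-centralization system of type `(2, 4, 4)` -/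
structure Hyp (A₁ A₂ A₃ : Subgroup G) : Prop where
  s1 : SC A₁ 2
  s2 : SC A₂ 4
  s3 : SC A₃ 4
  c12 : (♯A₁).Coprime (♯A₂)
  c13 : (♯A₁).Coprime (♯A₃)
  c23 : (♯A₂).Coprime (♯A₃)
  n1 : 5 ≤ ♯A₁
  n2 : 5 < ♯A₂
  n3 : 5 < ♯A₃
  ord : Nat.card G ≤ 3 * ♯A₁ ^ 2 * ♯A₂ ^ 2 * ♯A₃ ^ 2

/-- the remaining elements -/
noncomputable def R (A₁ A₂ A₃ : Subgroup G) : Finset G :=
  {g | g ≠ 1 ∧ g ∉ conjSet A₁ ∧ g ∉ conjSet A₂ ∧ g ∉ conjSet A₃}

theorem mem_R : g ∈ R A₁ A₂ A₃ ↔ g ≠ 1 ∧ g ∉ conjSet A₁ ∧ g ∉ conjSet A₂ ∧ g ∉ conjSet A₃ := by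
  simp [R]

theorem sum_ind (S : Set G) (a : ℤ) : ∑ g, (if g ∈ S then a else 0) = a * S.ncard := by
  rw [← sum_filter, sum_const, Set.ncard_eq_toFinset_card', Set.filter_mem_univ_eq_toFinset]
  simp [mul_comm]

namespace Hyp
variable (H : Hyp A₁ A₂ A₃)
include H

theorem symm : Hyp A₁ A₃ A₂ :=
  ⟨H.s1, H.s3, H.s2, H.c13, H.c12, H.c23.symm, H.n1, H.n3, H.n2, by rw [mul_right_comm]; exact H.ord⟩

theorem sum_eq (f : G → ℤ) (h1 : ∀ g ∈ conjSet A₁, f g = a₁) (h2 : ∀ g ∈ conjSet A₂, f g = a₂)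
    (h3 : ∀ g ∈ conjSet A₃, f g = a₃) : ∑ g, f g = f 1 + a₁ * (conjSet A₁).ncard +
      a₂ * (conjSet A₂).ncard + a₃ * (conjSet A₃).ncard + ∑ g ∈ R A₁ A₂ A₃, f g := by
  rw [← sum_ind, ← sum_ind, ← sum_ind, R, sum_filter,
    show f 1 = ∑ g, if g = 1 then f g else 0 by simp]
  simp only [← sum_add_distrib]
  refine sum_congr rfl fun g _ => ?_
  by_cases g1 : g = 1
  · simp [g1, one_notMem]
  by_cases c1 : g ∈ conjSet A₁
  · simp [g1, c1, H.s1.disj H.s2 H.c12 c1, H.s1.disj H.s3 H.c13 c1, h1 g c1]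
  by_cases c2 : g ∈ conjSet A₂
  · simp [g1, c1, c2, H.s2.disj H.s3 H.c23 c2, h2 g c2]
  by_cases c3 : g ∈ conjSet A₃
  · simp [g1, c1, c2, c3, h3 g c3]
  · simp [g1, c1, c2, c3]

theorem Iv_sub (ht : t ∈ Iv G) : t ∈ R A₁ A₂ A₃ :=
  mem_R.2 ⟨fun e => by simp [e, mem_Iv] at ht, H.s1.invol (mem_Iv.1 ht), H.s2.invol (mem_Iv.1 ht),
    H.s3.invol (mem_Iv.1 ht)⟩

theorem nine : (9 : ℤ) ≤ ♯A₂ := by
  have := H.s2.dvd_pred
  have := H.n2
  omega

theorem ne23 : (♯A₂ : ℤ) ≠ ♯A₃ := fun e => by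
  have c := H.c23
  have := H.n2
  rw [← Nat.cast_inj.1 e, Nat.coprime_self] at c
  omega

theorem sum22 : (22 : ℤ) ≤ ♯A₂ + ♯A₃ := by
  have := H.s2.dvd_pred
  have := H.s3.dvd_pred
  have := H.nine
  have := H.symm.nine
  have := H.ne23
  omega

theorem hP : (100 : ℤ) ≤ ♯A₂ * ♯A₃ := by nlinarith [H.nine, H.symm.nine, H.sum22]

omit H in
theorem card_eq : (Nat.card G : ℤ) = ♯A₁ * A₁.index := by exact_mod_cast A₁.card_mul_index.symm

theorem two_s : (2 * (conjSet A₁).ncard : ℤ) = A₁.index * (♯A₁ - 1) := by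
  have := H.s1.ncard
  rw [card_eq (A₁ := A₁)] at this
  apply mul_left_cancel₀ (show (♯A₁ : ℤ) ≠ 0 by exact_mod_cast Nat.card_pos.ne')
  push_cast at this
  linear_combination this

theorem big : (2 * ♯A₁ * A₁.index : ℤ) ≤ 9 * (conjSet A₂).ncard :=
  big_class (by exact_mod_cast H.n1) H.nine
    (by exact_mod_cast Nat.pos_of_ne_zero index_ne_zero_of_finite)
    (by rw [← card_eq]; exact_mod_cast H.s2.ncard)

variable (E : Exc A₁ ε x χ ψ ψ')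
include E

theorem const : ∃ v, ∀ g ∈ conjSet A₂, x g = v := by
  have n : ∀ g ∈ conjSet A₂, g ∉ conjSet A₁ := fun g => H.s2.disj H.s1 H.c12.symm
  obtain ⟨v, hv⟩ := const_of_three H.s2.tor H.s2.nb E.i1 E.i2 E.i3 E.n12 E.n13 E.n23 (c := ε)
    (c' := ε) (fun g hg => by rw [E.off g (n g hg), E.val])
    fun g hg => by rw [E.off' g (n g hg), E.val]
  obtain ⟨a, ha, a1⟩ := (bot_or_exists_ne_one A₂).resolve_left H.s2.nb
  refine ⟨x a, fun g hg => ?_⟩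
  exact_mod_cast (E.val g).symm.trans ((hv g hg).trans
    ((hv a (mem_conjSet_of_mem ha a1)).symm.trans (E.val a)))

theorem idA (h2 : ∀ g ∈ conjSet A₂, x g = a₂) (h3 : ∀ g ∈ conjSet A₃, x g = a₃) :
    (A₁.index : ℤ) = x 1 * (x 1 + ε) + a₂ * (a₂ + ε) * (conjSet A₂).ncard +
      a₃ * (a₃ + ε) * (conjSet A₃).ncard + ∑ g ∈ R A₁ A₂ A₃, x g * (x g + ε) := by
  have := H.sum_eq (fun g => x g * (x g + ε)) (a₁ := 2)
    (fun g hg => by rw [E.on g hg]; linear_combination 2 * E.sq)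
    (fun g hg => by rw [h2 g hg]) fun g hg => by rw [h3 g hg]
  have e : ∑ g, x g * (x g + ε) = Nat.card G := by
    simp only [mul_add, ← sq, sum_add_distrib, ← sum_mul, E.sum1, E.sum2]; simp
  linear_combination this - e - card_eq (A₁ := A₁) + H.two_s

theorem idB (h2 : ∀ g ∈ conjSet A₂, x g = a₂) (h3 : ∀ g ∈ conjSet A₃, x g = a₃) :
    (a₂ + ε) * (a₂ + 2 * ε) * (conjSet A₂).ncard + (a₃ + ε) * (a₃ + 2 * ε) * (conjSet A₃).ncard ≤
      3 * A₁.index := by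
  have := H.sum_eq (fun g => (x g + ε) * (x g + 2 * ε)) (a₁ := 6)
    (fun g hg => by rw [E.on g hg]; linear_combination 6 * E.sq)
    (fun g hg => by rw [h2 g hg]) fun g hg => by rw [h3 g hg]
  have e : ∑ g, (x g + ε) * (x g + 2 * ε) = 3 * Nat.card G := by
    rw [sum_congr rfl (g := fun g => x g ^ 2 + 3 * ε * x g + 2) fun g _ => by
      linear_combination 2 * E.sq]
    simp only [sum_add_distrib, ← mul_sum, E.sum1, E.sum2]
    simp; ring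
  have p : 0 ≤ ∑ g ∈ R A₁ A₂ A₃, (x g + ε) * (x g + 2 * ε) :=
    sum_nonneg fun g _ => quad_nonneg' E.pm _
  have := quad_nonneg' E.pm (x 1)
  have := card_eq (A₁ := A₁)
  have := H.two_s
  linarith

theorem val (h2 : ∀ g ∈ conjSet A₂, x g = a₂) (h3 : ∀ g ∈ conjSet A₃, x g = a₃) :
    a₂ = 0 ∨ a₂ = -ε := by
  by_contra! c
  have := H.idA E h2 h3
  have p : 0 ≤ ∑ g ∈ R A₁ A₂ A₃, x g * (x g + ε) := sum_nonneg fun g _ => quad_nonneg E.pm _
  have := quad_nonneg E.pm (x 1)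
  have := mul_nonneg (quad_nonneg E.pm a₃) (Int.natCast_nonneg (conjSet A₃).ncard)
  have := mul_le_mul_of_nonneg_right (quad_two E.pm c.1 c.2) (Int.natCast_nonneg (conjSet A₂).ncard)
  have := H.big
  have : (0 : ℤ) < A₁.index := by exact_mod_cast Nat.pos_of_ne_zero index_ne_zero_of_finite
  have : (5 : ℤ) ≤ ♯A₁ := by exact_mod_cast H.n1
  nlinarith

theorem sum_cc_eq : (#(Iv G) ^ 2 : ℤ) = #(Iv G) + ♯A₁ * (conjSet A₁).ncard +
    ♯A₂ * (conjSet A₂).ncard + ♯A₃ * (conjSet A₃).ncard + ∑ g ∈ R A₁ A₂ A₃, (cc g : ℤ) := by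
  rw [← sum_cc_one, H.sum_eq (fun g => cc g) (fun g hg => by rw [H.s1.cc_eq hg])
    (fun g hg => by rw [H.s2.cc_eq hg]) (fun g hg => by rw [H.s3.cc_eq hg]), cc_one]

variable [IsSimpleGroup G]

omit H in
theorem dvd_val {B : Subgroup G} (h : ∀ g ∈ conjSet B, x g = a₂) : (♯B : ℤ) ∣ x 1 - a₂ :=
  dvd_of_const (gen_of_irr E.i1) (E.val 1) fun a ha a1 => by
    rw [E.val, h a (mem_conjSet_of_mem ha a1)]

theorem x_Iv (ht : t ∈ Iv G) (hs : s ∈ Iv G) : x s = x t := by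
  obtain ⟨g, rfl⟩ := isConj_iff.1 (E.isConj H.s1 ht hs)
  exact E.cls g t

theorem generic : ∀ g ∈ conjSet A₂, x g = -ε := by
  obtain ⟨a₂, h2⟩ := H.const E
  obtain ⟨a₃, h3⟩ := H.symm.const E
  rcases H.val E h2 h3 with rfl | rfl
  swap; · exact h2
  exfalso
  have b := H.idB E h2 h3
  have b2 := H.big
  have b3 := H.symm.big
  have m : (0 : ℤ) < A₁.index := by exact_mod_cast Nat.pos_of_ne_zero index_ne_zero_of_finite
  have n : (5 : ℤ) ≤ ♯A₁ := by exact_mod_cast H.n1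
  rw [show (0 + ε) * (0 + 2 * ε) = 2 by linear_combination 2 * E.sq] at b
  rcases H.symm.val E h3 h2 with rfl | rfl
  · rw [show (0 + ε) * (0 + 2 * ε) = 2 by linear_combination 2 * E.sq] at b
    nlinarith
  have n5 : (♯A₁ : ℤ) = 5 := by
    have : (♯A₁ : ℤ) < 7 := by nlinarith
    have := H.s1.odd
    omega
  obtain ⟨t, nt, o⟩ := H.s2.exists_invol
  have ht := mem_Iv.2 o
  refine num_special E.pm E.dvd1.1 H.nine H.symm.nine (by exact_mod_cast H.s3.odd)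
    (by simpa using dvd_val E h2) (by simpa using dvd_val E h3) E.dvd2.1
    (H.s2.sign (irr_isCharacter E.i1) o nt (E.val 1) (fun a ha a1 => by
      rw [E.val, h2 a (mem_conjSet_of_mem ha a1)]; simp) fun s hs => by rw [E.val, H.x_Iv E ht hs]) ?_
  have f := E.order H.s1 ht
  have c := H.sum_cc_eq E
  have e1 := H.s1.ncard
  have e2 := H.s2.ncard
  have e3 := H.s3.ncard
  have p : (0 : ℤ) ≤ ∑ g ∈ R A₁ A₂ A₃, (cc g : ℤ) := by positivity
  have I0 : (0 : ℤ) < #(Iv G) := by exact_mod_cast card_pos.2 ⟨t, ht⟩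
  have N0 : (0 : ℤ) < Nat.card G := by exact_mod_cast Nat.card_pos
  have l := pow_pos (sub_pos.2 (E.lt (H.Iv_sub ht |> mem_R.1).1)) 2
  rw [n5] at f c e1
  push_cast at e1 e2 e3
  have : (7 * Nat.card G : ℤ) < #(Iv G) ^ 2 := by nlinarith [H.sum22]
  refine lt_of_mul_lt_mul_left ?_ N0.le
  nlinarith

theorem exists_a : ∃ a : ℤ, 0 < a ∧ x 1 + ε = a * (♯A₂ * ♯A₃) := by
  obtain ⟨a, ha⟩ := (Nat.isCoprime_iff_coprime.2 H.c23).mul_dvd (dvd_val E (H.generic E))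
    (dvd_val E (H.symm.generic E))
  rw [sub_neg_eq_add, mul_comm] at ha
  refine ⟨a, (mul_pos_iff_of_pos_right (by linarith [H.hP])).1 (ha ▸ E.dvd2.1), ha⟩

theorem idA' : (A₁.index : ℤ) = x 1 * (x 1 + ε) + ∑ g ∈ R A₁ A₂ A₃, x g * (x g + ε) := by
  simpa using H.idA E (H.generic E) (H.symm.generic E)

omit E in
theorem cop (hg : g ∈ R A₁ A₂ A₃) : IsCoprime (♯(𝐂₁ g) : ℤ) (♯A₁ * (♯A₂ * ♯A₃)) := by
  rw [mem_R] at hg
  exact_mod_cast Nat.isCoprime_iff_coprime.2 (Nat.Coprime.mul_right (H.s1.cop hg.1 hg.2.1).symm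
    (Nat.Coprime.mul_right (H.s2.cop hg.1 hg.2.2.1).symm (H.s3.cop hg.1 hg.2.2.2).symm))

theorem card_I (ht : t ∈ Iv G) : (Nat.card G : ℤ) = ♯(𝐂₁ t) * #(Iv G) := by
  exact_mod_cast card_Iv (fun s hs => E.isConj H.s1 ht hs) ht

theorem v_one (ht : t ∈ Iv G) : (A₁.index : ℤ) = x 1 * (x 1 + ε) ∧ ♯(𝐂₁ t) = x 1 - x t := by
  obtain ⟨v, v0, e1, e2, j, hj⟩ := E.exists_v H.s1 ht
  obtain ⟨a, a0, ha⟩ := H.exists_a E
  have n : (5 : ℤ) ≤ ♯A₁ := by exact_mod_cast H.n1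
  have hv : v ^ 2 = 1 + j * ♯A₁ := by linear_combination hj
  rcases lt_trichotomy j 0 with j0 | rfl | j0
  · nlinarith
  · obtain rfl : v = 1 := by nlinarith
    exact ⟨by simpa using e1, by simpa using e2⟩
  exfalso
  have N := card_eq (A₁ := A₁)
  obtain ⟨rfl, j3⟩ := num_aj E.pm H.hP n a0 j0 ha (by
    have o : (Nat.card G : ℤ) ≤ 3 * ♯A₁ ^ 2 * ♯A₂ ^ 2 * ♯A₃ ^ 2 := by exact_mod_cast H.ord
    rw [N, e1, ha, hv] at o
    refine le_of_mul_le_mul_left ?_ (show (0 : ℤ) < ♯A₁ * (♯A₂ * ♯A₃) by nlinarith [H.hP])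
    linear_combination o)
  rw [one_mul] at ha
  refine num_w (I := #(Iv G)) E.pm H.hP n (by exact_mod_cast H.s1.odd) j0 j3 v0 hv ha E.dvd_n
    (E.lt (H.Iv_sub ht |> mem_R.1).1) (mul_left_cancel₀ v0.ne' ?_)
    (by exact_mod_cast odd_Iv (mem_Iv.1 ht ▸ orderOf_dvd_natCard t))
    (e2 ▸ H.cop (H.Iv_sub ht)).of_mul_left_right ?_
  · have := H.card_I E ht
    rw [N, e1, e2, ha] at this
    linear_combination -this
  · rw [← ha, ← e1, H.idA' E, add_le_add_iff_left, mul_comm, ← nsmul_eq_mul, ← sum_const]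
    exact (sum_congr rfl fun s hs => by rw [H.x_Iv E ht hs]).le.trans
      (sum_le_sum_of_subset_of_nonneg (fun s hs => H.Iv_sub hs) fun g _ _ => quad_nonneg E.pm _)

theorem valR (hg : g ∈ R A₁ A₂ A₃) : x g = 0 ∨ x g = -ε := by
  obtain ⟨t, -, o⟩ := H.s1.exists_invol
  have := H.idA' E
  rw [(H.v_one E (mem_Iv.2 o)).1, left_eq_add,
    sum_eq_zero_iff_of_nonneg fun g _ => quad_nonneg E.pm _] at this
  exact (mul_eq_zero.1 (this g hg)).imp_right eq_neg_of_add_eq_zero_left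

theorem mem_of_ne (g1 : g ≠ 1) (hg : g ∉ R A₁ A₂ A₃) : x g = ε ∨ x g = -ε := by
  by_contra! c
  exact hg (mem_R.2 ⟨g1, fun e => c.1 (E.on g e), fun e => c.2 (H.generic E g e),
    fun e => c.2 (H.symm.generic E g e)⟩)

theorem hv (g : G) (g1 : g ≠ 1) : x g = 0 ∨ x g = 1 ∨ x g = -1 := by
  have := E.pm
  by_cases c : g ∈ R A₁ A₂ A₃
  · have := H.valR E c
    omega
  · have := H.mem_of_ne E g1 c
    omega

theorem mem_R_of (h : x g = 0) : g ∈ R A₁ A₂ A₃ := by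
  by_contra c
  have := H.mem_of_ne E (fun e => E.dvd1.1.ne' (e ▸ h)) c
  have := E.pm
  omega

theorem alpha (ht : t ∈ Iv G) : x t = 0 := by
  refine (H.valR E (H.Iv_sub ht)).resolve_right fun e => ?_
  obtain ⟨a, -, ha⟩ := H.exists_a E
  have c := H.cop (H.Iv_sub ht)
  rw [(H.v_one E ht).2, e, sub_neg_eq_add, ha] at c
  have := Int.isUnit_iff.1 (c.of_mul_left_right.of_mul_right_right.isUnit_of_dvd dvd_rfl)
  have := H.hP
  omega

theorem card_H (ht : t ∈ Iv G) : ♯(𝐂₁ t) = x 1 := by rw [(H.v_one E ht).2, H.alpha E ht, sub_zero]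

theorem card_G : (Nat.card G : ℤ) = ♯A₁ * (x 1 * (x 1 + ε)) := by
  obtain ⟨t, -, o⟩ := H.s1.exists_invol
  rw [card_eq (A₁ := A₁), (H.v_one E (mem_Iv.2 o)).1]

theorem I_eq : (#(Iv G) : ℤ) = ♯A₁ * (x 1 + ε) := by
  obtain ⟨t, -, o⟩ := H.s1.exists_invol
  apply mul_left_cancel₀ E.dvd1.1.ne'
  rw [← H.card_H E (mem_Iv.2 o), ← H.card_I E (mem_Iv.2 o), H.card_H E (mem_Iv.2 o), H.card_G E]
  ring

theorem sum_R (f : G → ℤ) : ∑ g ∈ R A₁ A₂ A₃, f g =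
    ∑ g with x g = 0, f g + ∑ g ∈ R A₁ A₂ A₃ with x g ≠ 0, f g := by
  rw [← sum_filter_add_sum_filter_not _ (x · = 0)]
  congr 2
  ext g
  simp only [mem_filter, mem_univ, true_and, and_iff_right_iff_imp]
  exact H.mem_R_of E

theorem tau (hg : g ∈ {g ∈ R A₁ A₂ A₃ | x g ≠ 0}) : x g = -ε :=
  (H.valR E (mem_filter.1 hg).1).resolve_left (mem_filter.1 hg).2

theorem card_tau : (Nat.card G : ℤ) = x 1 ^ 2 + (conjSet A₁).ncard + (conjSet A₂).ncard +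
    (conjSet A₃).ncard + #{g ∈ R A₁ A₂ A₃ | x g ≠ 0} := by
  rw [← E.sum2, H.sum_eq (fun g => x g ^ 2) (a₁ := 1) (a₂ := 1) (a₃ := 1)
    (fun g hg => by rw [E.on g hg, E.sq]) (fun g hg => by rw [H.generic E g hg, neg_sq, E.sq])
    (fun g hg => by rw [H.symm.generic E g hg, neg_sq, E.sq]), H.sum_R E,
    sum_eq_zero fun g hg => by rw [(mem_filter.1 hg).2]; rfl,
    sum_congr rfl (g := fun _ => 1) fun g hg => by rw [H.tau E hg, neg_sq, E.sq]]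
  simp

theorem card_Z : (#{g | x g = 0} : ℤ) = x 1 ^ 2 - 1 := by
  have := H.sum_eq (fun _ => 1) (fun _ _ => rfl) (fun _ _ => rfl) fun _ _ => rfl
  rw [H.sum_R E] at this
  simp only [sum_const, card_univ, ← Nat.card_eq_fintype_card, nsmul_eq_mul] at this
  linear_combination H.card_tau E - this

theorem sum_tau : ♯A₂ * (conjSet A₂).ncard + ♯A₃ * (conjSet A₃).ncard +
    ∑ g ∈ R A₁ A₂ A₃ with x g ≠ 0, (cc g : ℤ) = ♯A₁ * (conjSet A₁).ncard + ε * Nat.card G := by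
  obtain ⟨t, -, o⟩ := H.s1.exists_invol
  have ht := mem_Iv.2 o
  have e := E.sum_cc H.s1 ht
  rw [H.alpha E ht, H.sum_eq (fun g => cc g * x g)
    (fun g hg => by rw [H.s1.cc_eq hg, E.on g hg])
    (fun g hg => by rw [H.s2.cc_eq hg, H.generic E g hg])
    (fun g hg => by rw [H.s3.cc_eq hg, H.symm.generic E g hg]), H.sum_R E,
    sum_eq_zero fun g hg => by rw [(mem_filter.1 hg).2, mul_zero],
    sum_congr rfl (g := fun g => cc g * -ε) fun g hg => by rw [H.tau E hg], ← sum_mul, cc_one,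
    zero_pow two_ne_zero, mul_zero, mul_eq_zero_iff_left E.dvd1.1.ne'] at e
  have N := H.card_I E ht
  rw [H.card_H E ht] at N
  linear_combination -ε * e - ε * N - (♯A₂ * (conjSet A₂).ncard + ♯A₃ * (conjSet A₃).ncard +
    ∑ g ∈ R A₁ A₂ A₃ with x g ≠ 0, (cc g : ℤ) - ♯A₁ * (conjSet A₁).ncard) * E.sq

theorem sum_Z : ∑ g with x g = 0, (cc g : ℤ) = #(Iv G) * (ε * ♯A₁ - 1 + x 1 - ε * x 1) := by
  have c := H.sum_cc_eq E
  rw [H.sum_R E] at c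
  have e := H.s1.ncard
  push_cast at e
  have N : (Nat.card G : ℤ) = #(Iv G) * x 1 := by rw [H.I_eq E, H.card_G E]; ring
  linear_combination -c - H.sum_tau E - e - (♯A₁ - 1 + ε) * N + #(Iv G) * H.I_eq E

end Hyp

end CF.Fgs2.Sc
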