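import Cfsg.Agent.Fgs2.Sc5
import Cfsg.Agent.Coprime.Thompson
import Cfsg.Agent.CIT.TI

/-! Self-centralization systems of type `(2, 4, 4)`: the identification. -/

set_option autoImplicit false
set_option linter.unusedSectionVars false

namespace CF.Fgs2.Sc
open Subgroup Cfsg CF.Char CF.BN CF.BG CF.Fgs1 Finset
open scoped _root_.Classical

variable {G : Type*} [Group G] [Fintype G] [IsSimpleGroup G] {A₁ A₂ A₃ : Subgroup G}
  {χ ψ ψ' : G → ℂ} {g s t y z : G} {ε : ℤ} {x : G → ℤ} (H : Hyp A₁ A₂ A₃)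
include H

namespace Hyp

theorem cop_d (E : Exc A₁ ε x χ ψ ψ') (y1 : y ≠ 1) (h : x y ≠ 0) : IsCoprime (♯(𝐂₁ y) : ℤ) (x 1) := by
  rw [← Int.toNat_of_nonneg E.dvd1.1.le]
  refine Nat.isCoprime_iff_coprime.2 (Nat.coprime_of_dvd fun r hr d e => h ?_)
  obtain ⟨z, hz, o⟩ := exists_mem_orderOf_eq hr d
  have z1 : z ≠ 1 := fun e => hr.ne_one (by rw [← o, e, orderOf_one])
  refine E.zero_comm (H.hv E) z1 y1 (mem_cent1.1 hz).symm ((E.zero_iff (H.hv E) hr o.symm.dvd z1).2 ?_)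
  rw [← Int.toNat_of_nonneg E.dvd1.1.le]
  exact_mod_cast e

theorem neg (E : Exc A₁ (-1) x χ ψ ψ') : False := by
  obtain ⟨a, a0, ha⟩ := H.exists_a E
  have N := H.card_G E
  have k : ∀ y ∈ {g ∈ R A₁ A₂ A₃ | x g ≠ 0}, (♯(𝐂₁ y) : ℤ) ∣ a := fun y hy => by
    rw [mem_filter] at hy
    refine ((H.cop hy.1).mul_right (H.cop_d E (mem_R.1 hy.1).1 hy.2)).dvd_of_dvd_mul_left ?_
    rw [show ♯A₁ * (♯A₂ * ♯A₃) * x 1 * a = Nat.card G by rw [N, ha]; ring]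
    exact_mod_cast card_subgroup_dvd_card _
  have p : (0 : ℤ) < ♯A₁ * (♯A₂ * ♯A₃) * x 1 :=
    mul_pos (by exact_mod_cast mul_pos Nat.card_pos (mul_pos Nat.card_pos Nat.card_pos)) E.dvd1.1
  obtain ⟨j, hj⟩ : ♯A₁ * (♯A₂ * ♯A₃) * x 1 ∣ #{g ∈ R A₁ A₂ A₃ | x g ≠ 0} := by
    rw [← Int.toNat_of_nonneg p.le, Int.natCast_dvd_natCast, ← Set.ncard_coe_finset]
    refine SolvStr.dvd_ncard_conj (K := ⊤) (fun g _ s hs => ?_) fun s hs => ?_
    · simpa [mem_R, mem_conjSet_conj, E.cls, conj_eq_one_iff] using hs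
    · obtain ⟨u, hu⟩ := k s hs
      rw [relIndex_top_right, ← Int.natCast_dvd_natCast, Int.toNat_of_nonneg p.le]
      refine ⟨u, mul_left_cancel₀ (show (♯(𝐂₁ s) : ℤ) ≠ 0 by exact_mod_cast Nat.card_pos.ne') ?_⟩
      rw [← card_eq, N, ha, hu]; ring
  have l : ∑ g ∈ R A₁ A₂ A₃ with x g ≠ 0, (cc g : ℤ) ≤ j * Nat.card G := by
    refine (sum_le_card_nsmul _ _ a fun y hy =>
      (Int.ofNat_le.2 (cc_le y)).trans (Int.le_of_dvd a0 (k y hy))).trans (le_of_eq ?_)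
    rw [nsmul_eq_mul, hj, N, ha]; ring
  have l0 : 0 ≤ ∑ g ∈ R A₁ A₂ A₃ with x g ≠ 0, (cc g : ℤ) := by positivity
  have s := H.sum_tau E
  have c := H.card_tau E
  have e1 := H.s1.ncard
  have e2 := H.s2.ncard
  have e3 := H.s3.ncard
  push_cast at e1 e2 e3
  have N0 : (0 : ℤ) < Nat.card G := by exact_mod_cast Nat.card_pos
  have j0 : 0 ≤ j := (mul_nonneg_iff_of_pos_left p).1 (hj ▸ Int.natCast_nonneg _)
  have l1 : (♯A₂ + ♯A₃ + 4 : ℤ) ≤ 2 * ♯A₁ := le_of_mul_le_mul_left (by linarith) N0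
  have l2 : (2 * ♯A₁ : ℤ) ≤ ♯A₂ + ♯A₃ + 4 + 4 * j := le_of_mul_le_mul_left (by linarith) N0
  have e : a * ♯A₁ * (♯A₂ + ♯A₃) = 2 * a * ♯A₂ * ♯A₃ + 4 + 4 * j * ♯A₁ * ♯A₂ * ♯A₃ := by
    apply mul_left_cancel₀ p.ne'
    rw [hj] at c
    rw [ha] at N
    linear_combination 4 * ♯A₁ * ♯A₂ * ♯A₃ * c + 2 * ♯A₂ * ♯A₃ * e1 + ♯A₁ * ♯A₃ * e2 +
      ♯A₁ * ♯A₂ * e3 - (2 * ♯A₂ * ♯A₃ + ♯A₁ * ♯A₃ + ♯A₁ * ♯A₂) * N + 4 * ♯A₁ * ♯A₂ * ♯A₃ * x 1 * ha
  have o : a ^ 2 < 3 * ♯A₁ := by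
    have o : (Nat.card G : ℤ) ≤ 3 * ♯A₁ ^ 2 * ♯A₂ ^ 2 * ♯A₃ ^ 2 := by exact_mod_cast H.ord
    rw [N, show x 1 = a * (♯A₂ * ♯A₃) + 1 by omega] at o
    have q : (0 : ℤ) < ♯A₁ * (♯A₂ * ♯A₃) := (mul_pos_iff_of_pos_right E.dvd1.1).1 p
    refine lt_of_mul_lt_mul_left ?_ (mul_pos q (by linarith [H.hP] : (0 : ℤ) < ♯A₂ * ♯A₃)).le
    nlinarith [mul_pos q a0]
  rcases lt_or_gt_of_ne H.ne23 with h | h
  · exact num_neg H.nine h a0 j0 o (by linarith) (by linarith) (by linarith)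
  · exact num_neg H.symm.nine h a0 j0 o l1 l2 e

variable (E : Exc A₁ 1 x χ ψ ψ')
include E

theorem card_nb (ht : t ∈ Iv G) : #{s ∈ Iv G | s = t ∨ x (t * s) = 0} = ♯A₁ := by
  have e := sum_cc_cls (fun s hs => E.isConj H.s1 ht hs) ht (M := ℤ)
    (f := fun g => if g = 1 ∨ x g = 0 then 1 else 0) fun g y => by simp [E.cls, conj_eq_one_iff]
  have e2 : ∑ g, (cc g : ℤ) * (if g = 1 ∨ x g = 0 then 1 else 0) =
      ∑ g, ((if g = 1 then (cc g : ℤ) else 0) + if x g = 0 then (cc g : ℤ) else 0) :=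
    sum_congr rfl fun g _ => by
      by_cases g1 : g = 1
      · simp [g1, E.dvd1.1.ne']
      · simp [g1]
  rw [e2, sum_add_distrib, sum_ite_eq', if_pos (mem_univ _), ← sum_filter, H.sum_Z E, cc_one,
    sum_boole] at e
  have I0 : (0 : ℤ) < #(Iv G) := by exact_mod_cast card_pos.2 ⟨t, ht⟩
  have : (♯A₁ : ℤ) = #{s ∈ Iv G | t * s = 1 ∨ x (t * s) = 0} :=
    mul_left_cancel₀ I0.ne' (by linear_combination e)
  rw [Nat.cast_inj.1 this]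
  congr 1
  refine filter_congr fun s _ => or_congr_left ?_
  rw [← Iv_sq ht, mul_left_cancel_iff]

theorem J_sub (h : x g = 0) (ht : t ∈ Iv G) (c : t * g = g * t) :
    {s ∈ Iv G | s * g = g * s} ⊆ {s ∈ Iv G | s = t ∨ x (t * s) = 0} := fun s hs => by
  rw [mem_filter] at hs ⊢
  refine ⟨hs.1, or_iff_not_imp_left.2 fun n => E.zero_comm (H.hv E)
    (fun e => E.dvd1.1.ne' (e ▸ h)) (fun e => n ?_) (by rw [mul_assoc, hs.2, ← mul_assoc, c, mul_assoc]) h⟩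
  rwa [← Iv_sq ht, mul_left_cancel_iff] at e

theorem card_J (h : x g = 0) : #{s ∈ Iv G | s * g = g * s} = ♯A₁ := by
  have l : ∀ g ∈ ({g | x g = 0} : Finset G), (#{s ∈ Iv G | s * g = g * s} : ℤ) ≤ ♯A₁ :=
    fun g hg => by
      rcases ({s ∈ Iv G | s * g = g * s} : Finset G).eq_empty_or_nonempty with e | ⟨t, ht⟩
      · simp [e]
      rw [mem_filter] at ht hg
      exact_mod_cast (card_le_card (H.J_sub E hg.2 ht.1 ht.2)).trans (H.card_nb E ht.1).le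
  have k : ∀ s ∈ Iv G, (#{g ∈ ({g | x g = 0} : Finset G) | s * g = g * s} : ℤ) = x 1 - 1 :=
    fun s hs => by
      rw [← H.card_H E hs, Nat.card_eq_fintype_card, Fintype.card_subtype, eq_sub_iff_add_eq]
      norm_cast
      rw [← card_insert_of_notMem (a := 1) (by simp [E.dvd1.1.ne'])]
      congr 1
      ext g
      simp only [mem_insert, mem_filter, mem_univ, true_and, mem_cent1]
      refine ⟨fun h => h.elim (by simp +contextual) fun h => h.2.symm, fun h =>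
        or_iff_not_imp_left.2 fun g1 => ⟨?_, h.symm⟩⟩
      exact E.zero_comm (H.hv E) (mem_R.1 (H.Iv_sub hs)).1 g1 h (H.alpha E hs)
  have := (sum_eq_sum_iff_of_le l).1 (by
    simp only [card_filter, Nat.cast_sum]
    rw [sum_comm]
    simp only [card_filter, Nat.cast_sum] at k
    rw [sum_congr rfl k, sum_const, sum_const, nsmul_eq_mul, nsmul_eq_mul, H.card_Z E, H.I_eq E]
    ring) g (by simpa using h)
  exact_mod_cast this

theorem J_eq (h : x g = 0) (ht : t ∈ Iv G) (c : t * g = g * t) :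
    {s ∈ Iv G | s * g = g * s} = {s ∈ Iv G | s = t ∨ x (t * s) = 0} :=
  eq_of_subset_of_card_le (H.J_sub E h ht c) (by rw [H.card_nb E ht, H.card_J E h])

theorem x_cent (ht : t ∈ Iv G) (hg : g ∈ 𝐂₁ t) (g1 : g ≠ 1) : x g = 0 :=
  E.zero_comm (H.hv E) (mem_R.1 (H.Iv_sub ht)).1 g1 (mem_cent1.1 hg) (H.alpha E ht)

theorem cent_eq (ht : t ∈ Iv G) (hs : s ∈ Iv G) (hg : g ∈ 𝐂₁ t) (g1 : g ≠ 1) (c : s * g = g * s) :
    𝐂₁ s = 𝐂₁ t := by
  refine (eq_of_le_of_card_ge (fun y hy => ?_) (le_of_eq ?_)).symm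
  · by_cases y1 : y = 1
    · exact y1 ▸ one_mem _
    have : s ∈ ({s ∈ Iv G | s * g = g * s} : Finset G) := mem_filter.2 ⟨hs, c⟩
    rw [H.J_eq E (H.x_cent E ht hg g1) ht (mem_cent1.1 hg).symm,
      ← H.J_eq E (H.x_cent E ht hy y1) ht (mem_cent1.1 hy).symm] at this
    exact mem_cent1.2 (mem_filter.1 this).2.symm
  · exact_mod_cast (H.card_H E hs).trans (H.card_H E ht).symm

theorem exists_ne (ht : t ∈ Iv G) : ∃ s ∈ Iv G, s ∈ 𝐂₁ t ∧ s ≠ t := by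
  obtain ⟨s, hs, n⟩ := exists_mem_ne (s := {s ∈ Iv G | s * t = t * s})
    (by rw [H.card_J E (H.alpha E ht)]; linarith [H.n1]) t
  exact ⟨s, (mem_filter.1 hs).1, mem_cent1.2 (mem_filter.1 hs).2, n⟩

theorem nil (ht : t ∈ Iv G) : Nil (𝐂₁ t) := by
  have t1 := (mem_R.1 (H.Iv_sub ht)).1
  obtain ⟨s, hs, c, n⟩ := H.exists_ne E ht
  obtain ⟨g, rfl⟩ := isConj_iff.1 (E.isConj H.s1 ht hs)
  have hg : g ∈ 𝐍 (𝐂₁ t) := by
    rw [← cj_eq_self, cj_cent1]; exact H.cent_eq E ht hs (mem_cent1.2 rfl) t1 (mem_cent1.1 c)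
  obtain ⟨r, hr, d⟩ := Nat.exists_prime_and_dvd (n := (𝐂₁ t).relIndex (𝐍 (𝐂₁ t))) fun e =>
    n (mul_inv_eq_of_eq_mul (mem_cent1.1 (relIndex_eq_one.1 e hg)))
  obtain ⟨y, hy, o⟩ := exists_mem_orderOf_eq hr (d.trans (relIndex_dvd_card _ _))
  have y1 : y ≠ 1 := fun e => hr.ne_one (by rw [← o, e, orderOf_one])
  refine Coprime.isNilpotent_of_fpf _ hr (o ▸ pow_orderOf_eq_one y) hy
    (eq_bot_of_forall fun c hc => by_contra fun c1 => ?_)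
  have a := (E.zero_iff (H.hv E) hr o.symm.dvd y1).1 (E.zero_comm (H.hv E) c1 y1
    (mem_cent1.1 hc.2).symm (H.x_cent E ht hc.1 c1))
  have b : (r : ℤ) ∣ ♯A₁ * (x 1 + 1) := by
    have := card_eq (A₁ := 𝐂₁ t)
    rw [H.card_G E, H.card_H E ht, mul_left_comm, mul_right_inj' E.dvd1.1.ne'] at this
    rw [this]
    exact_mod_cast d.trans (relIndex_dvd_index_of_le le_normalizer)
  have u : IsCoprime (x 1) (♯A₁ * (x 1 + 1)) := by
    obtain ⟨u, hu⟩ := E.dvd_n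
    exact IsCoprime.mul_right ⟨1, -u, by linear_combination hu⟩ ⟨-1, 1, by ring⟩
  exact (Nat.prime_iff_prime_int.1 hr).not_unit (u.isUnit_of_dvd' a b)

theorem zt (ht : t ∈ Iv G) : Fgs3.ZT (𝐎 {2} (𝐂₁ t)) (𝐂₁ t) := by
  have n := H.nil E ht
  have t1 := (mem_R.1 (H.Iv_sub ht)).1
  have m : ∀ s ∈ Iv G, s ∈ 𝐂₁ t → s ∈ 𝐎 {2} (𝐂₁ t) := fun s hs c =>
    n.mem_O c (piElt_of_pow_eq_one Nat.prime_two (by rw [sq, Iv_sq hs]))
  have i : ¬ 2 ∣ (𝐂₁ t).index := by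
    have := (𝐂₁ t).card_mul_index
    rw [card_Iv (fun s hs => E.isConj H.s1 ht hs) ht, mul_right_inj' Nat.card_pos.ne'] at this
    exact this ▸ odd_Iv (mem_Iv.1 ht ▸ orderOf_dvd_natCard t)
  obtain ⟨s, hs, c, ne⟩ := H.exists_ne E ht
  refine ⟨(n.hall_O {2}).trans_idx le_top (fun p _ d e => i (by rwa [← relIndex_top_right, ← e])),
    ⟨s, m s hs c, t, m t ht (mem_cent1.2 rfl), mem_Iv.1 hs, mem_Iv.1 ht, ne⟩, fun e => ?_,
    fun {s} hs o => H.cent_eq E ht (mem_Iv.2 o) (mem_cent1.2 rfl) t1 (mem_cent1.1 (O_le _ _ hs)),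
    le_normalizer.trans (norm_O _ _), fun c hc c1 g hg => norm_O _ _ ?_⟩
  · rcases (normalizer_eq_top_iff.1 e).eq_bot_or_eq_top with e | e
    · exact t1 (mem_bot.1 (e ▸ m t ht (mem_cent1.2 rfl)))
    · have k := H.card_H E ht
      rw [top_le_iff.1 (e.ge.trans (O_le {2} (𝐂₁ t))), card_top, H.card_G E] at k
      have : (5 : ℤ) ≤ ♯A₁ := by exact_mod_cast H.n1
      nlinarith [E.dvd1.1, mul_pos E.dvd1.1 E.dvd2.1]
  · rw [← cj_eq_self, cj_cent1]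
    refine H.cent_eq E ht (Iv_conj ht g) hc c1 ?_
    calc g * t * g⁻¹ * c = g * t * g⁻¹ * (c * g) * g⁻¹ := by group
      _ = g * (t * c) * g⁻¹ := by rw [← mem_cent1.1 hg]; group
      _ = _ := by rw [← mem_cent1.1 hc, ← mul_assoc, mem_cent1.1 hg]; group

theorem pos : Lie.IsoSuzuki G := by
  obtain ⟨u, o⟩ := H.s2.four
  have z := H.zt E (mem_Iv.2 o)
  rcases z.cases with k | ⟨-, -, -, -, k⟩
  · simp [k u (mem_cent1.2 (by group))] at o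
  · refine (CIT.ZT_cases z).resolve_left fun ⟨F, _, _, n, h1, h2, ⟨e⟩⟩ => ?_
    exact CIT.not_three_dvd_suzuki k
      (Nat.card_congr e.toEquiv ▸ CIT.three_dvd_card_psl (by omega) h2)

omit E in
theorem main : Lie.IsoSuzuki G := by
  obtain ⟨ε, x, χ, ψ, ψ', E⟩ := exists_exc H.s1.tor H.s1.nb (by have := H.n1; omega)
  rcases E.pm with rfl | rfl
  · exact H.pos E
  · exact (H.neg E).elim

end Hyp

end CF.Fgs2.Sc
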