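import Mathlib

/-! Groups given by a multiplication table coded in a natural number (Light's associativity test),
counting solutions of `x ^ n = 1`, semidirect products with `ZMod 7`. -/

set_option autoImplicit false

namespace CF.Fgs2

/-- entry `i` of width `w` of the coded table `T` -/
def lk (w T i : ℕ) : ℕ := (T >>> (w * i)) % 2 ^ w

/-- all `i < n` satisfy `f` -/
def allLt (n : ℕ) (f : ℕ → Bool) : Bool := Nat.rec true (fun i r => f i && r) n

/-- sum of `f i` over `i < n` -/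
def sumLt (n : ℕ) (f : ℕ → ℕ) : ℕ := Nat.rec 0 (fun i r => f i + r) n

theorem allLt_spec {n : ℕ} {f : ℕ → Bool} (h : allLt n f = true) : ∀ i < n, f i = true := by
  induction n with
  | zero => intro i hi; omega
  | succ n ih =>
    have h' : (f n && allLt n f) = true := h
    rw [Bool.and_eq_true] at h'
    intro i hi
    rcases Nat.lt_succ_iff_lt_or_eq.1 hi with hi | rfl
    · exact ih h'.2 i hi
    · exact h'.1

theorem sumLt_eq (n : ℕ) (f : ℕ → ℕ) : sumLt n f = ∑ i : Fin n, f i := by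
  induction n with
  | zero => rfl
  | succ n ih =>
    have h' : sumLt (n + 1) f = f n + sumLt n f := rfl
    rw [h', ih, Fin.sum_univ_castSucc]
    simp [add_comm]

theorem beq_false {a b : ℕ} (h : a ≠ b) : Nat.beq a b = false := by
  cases h1 : Nat.beq a b
  · rfl
  · exact (h (Nat.eq_of_beq_eq_true h1)).elim

structure Tab where
  N : ℕ
  w : ℕ
  T : ℕ
  I : ℕ
  P : ℕ
  G : ℕ
  gens : List ℕ

namespace Tab

variable (t : Tab)

def row (a : ℕ) : ℕ := lk (t.w * t.N) t.T a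
def m (a b : ℕ) : ℕ :=
  Nat.rec (lk t.w (t.row 0) b) (fun a' _ => lk t.w (t.row (Nat.succ a')) b) a
def iv (a : ℕ) : ℕ := lk t.w t.I a
def par (a : ℕ) : ℕ := lk t.w t.P a
def gi (a : ℕ) : ℕ := lk t.w t.G a

def ok1 : Bool := Nat.blt 0 t.N &&
  allLt t.N (fun a => Nat.blt (t.iv a) t.N && (Nat.beq (t.m 0 a) a && (Nat.beq (t.m a 0) a &&
    (Nat.beq (t.m (t.iv a) a) 0 && (Nat.beq a 0 || (Nat.blt (t.par a) a &&
      (t.gens.any (fun g => Nat.beq g (t.gi a)) && Nat.beq (t.m (t.par a) (t.gi a)) a))))))) &&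
  t.gens.all (fun g => Nat.blt g t.N)

def ok2 : Bool := allLt t.N (fun a => allLt t.N (fun b => Nat.blt (t.m a b) t.N))

def ok3 : Bool := t.gens.all (fun g => allLt t.N (fun a => allLt t.N (fun b =>
  Nat.beq (t.m (t.m a g) b) (t.m a (t.m g b)))))

structure Ok : Prop where
  h1 : t.ok1 = true
  h2 : t.ok2 = true
  h3 : t.ok3 = true

variable {t}

theorem Ok.pos (h : t.Ok) : 0 < t.N := by
  have := h.h1
  simp only [ok1, Bool.and_eq_true, Nat.blt_eq] at this
  exact this.1.1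

theorem Ok.lt (h : t.Ok) {a b : ℕ} (ha : a < t.N) (hb : b < t.N) : t.m a b < t.N := by
  have := allLt_spec (allLt_spec h.h2 a ha) b hb
  simpa only [Nat.blt_eq] using this

theorem Ok.el (h : t.Ok) {a : ℕ} (ha : a < t.N) : t.iv a < t.N ∧ t.m 0 a = a ∧ t.m a 0 = a ∧
    t.m (t.iv a) a = 0 ∧ (a = 0 ∨ (t.par a < a ∧ t.gi a ∈ t.gens ∧ t.m (t.par a) (t.gi a) = a)) := by
  have := h.h1
  simp only [ok1, Bool.and_eq_true] at this
  have h2 := allLt_spec this.1.2 a ha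
  simp only [Bool.and_eq_true, Bool.or_eq_true, Nat.blt_eq, Nat.beq_eq, List.any_eq_true] at h2
  refine ⟨h2.1, h2.2.1, h2.2.2.1, h2.2.2.2.1, ?_⟩
  rcases h2.2.2.2.2 with h3 | ⟨h3, ⟨g, hg, h4⟩, h5⟩
  · exact Or.inl h3
  · exact Or.inr ⟨h3, h4 ▸ hg, h5⟩

theorem Ok.gen_lt (h : t.Ok) {g : ℕ} (hg : g ∈ t.gens) : g < t.N := by
  have := h.h1
  simp only [ok1, Bool.and_eq_true, List.all_eq_true, Nat.blt_eq] at this
  exact this.2 g hg

theorem Ok.assoc (h : t.Ok) (g : ℕ) : g < t.N → ∀ a < t.N, ∀ b < t.N,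
    t.m (t.m a g) b = t.m a (t.m g b) := by
  have hg : ∀ g ∈ t.gens, ∀ a < t.N, ∀ b < t.N, t.m (t.m a g) b = t.m a (t.m g b) := by
    intro g hg a ha b hb
    have := h.h3
    simp only [ok3, List.all_eq_true] at this
    have h2 := allLt_spec (allLt_spec (this g hg) a ha) b hb
    simpa only [Nat.beq_eq] using h2
  induction g using Nat.strong_induction_on with | _ g ih =>
  intro hgN a ha b hb
  rcases (h.el hgN).2.2.2.2 with rfl | ⟨h1, h2, h3⟩
  · rw [(h.el ha).2.2.1, (h.el hb).2.1]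
  · have hp : t.par g < t.N := h1.trans hgN
    have hq := h.gen_lt h2
    rw [← h3, ← ih _ h1 hp a ha _ hq, hg _ h2 _ (h.lt ha hp) b hb, hg _ h2 _ hp b hb,
      ih _ h1 hp a ha _ (h.lt hq hb)]

/-- the group of the table -/
def Grp (_h : t.Ok) : Type := Fin t.N

instance (h : t.Ok) : Fintype (Grp h) := inferInstanceAs (Fintype (Fin t.N))
instance (h : t.Ok) : Mul (Grp h) := ⟨fun a b => (⟨t.m a.1 b.1, h.lt a.2 b.2⟩ : Fin t.N)⟩
instance (h : t.Ok) : One (Grp h) := ⟨(⟨0, h.pos⟩ : Fin t.N)⟩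
instance (h : t.Ok) : Inv (Grp h) := ⟨fun a => (⟨t.iv a.1, (h.el a.2).1⟩ : Fin t.N)⟩

instance (h : t.Ok) : Group (Grp h) :=
  Group.ofLeftAxioms (fun a b c => Fin.ext (h.assoc b.1 b.2 a.1 a.2 c.1 c.2))
    (fun a => Fin.ext (h.el a.2).2.1) (fun a => Fin.ext (h.el a.2).2.2.2.1)

theorem mul_val {h : t.Ok} (a b : Grp h) : (a * b).1 = t.m a.1 b.1 := rfl
theorem inv_val {h : t.Ok} (a : Grp h) : (a⁻¹).1 = t.iv a.1 := rfl
theorem one_val {h : t.Ok} : (1 : Grp h).1 = 0 := rfl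
theorem eq_one_iff {h : t.Ok} (a : Grp h) : a = 1 ↔ a.1 = 0 := ⟨fun e => e ▸ rfl, fun e => Fin.ext e⟩

def pw (t : Tab) (x n : ℕ) : ℕ := Nat.rec 0 (fun _ r => t.m r x) n

theorem pow_val {h : t.Ok} (a : Grp h) (n : ℕ) : (a ^ n).1 = t.pw a.1 n := by
  induction n with
  | zero => rw [pow_zero]; rfl
  | succ n ih => rw [pow_succ, mul_val, ih]; rfl

/-- solvability certificate: a level function -/
def solOK (t : Tab) (L : ℕ) : Bool :=
  allLt t.N (fun a => (Nat.beq a 0 || Nat.blt 0 (lk 3 L a)) && (Nat.ble (lk 3 L (t.iv a)) (lk 3 L a) &&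
    allLt t.N (fun b => Nat.ble (lk 3 L (t.m a b)) (max (lk 3 L a) (lk 3 L b)) &&
      Nat.ble (lk 3 L (t.m (t.m (t.m a b) (t.iv a)) (t.iv b))) (max (lk 3 L a) (lk 3 L b) - 1)))) &&
  Nat.beq (lk 3 L 0) 0

theorem solvable (h : t.Ok) {L : ℕ} (hL : t.solOK L = true) : Group.IsSolvable (Grp h) := by
  simp only [solOK, Bool.and_eq_true, Nat.beq_eq] at hL
  obtain ⟨hA, h0⟩ := hL
  have hB : ∀ a : Grp h, (a.1 = 0 ∨ 0 < lk 3 L a.1) ∧ lk 3 L (a⁻¹).1 ≤ lk 3 L a.1 ∧ ∀ b : Grp h,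
      lk 3 L (a * b).1 ≤ max (lk 3 L a.1) (lk 3 L b.1) ∧
      lk 3 L (a * b * a⁻¹ * b⁻¹).1 ≤ max (lk 3 L a.1) (lk 3 L b.1) - 1 := by
    intro a
    have h1 := allLt_spec hA a.1 a.2
    simp only [Bool.and_eq_true, Bool.or_eq_true, Nat.blt_eq, Nat.beq_eq, Nat.ble_eq] at h1
    refine ⟨h1.1, h1.2.1, fun b => ?_⟩
    have h2 := allLt_spec h1.2.2 b.1 b.2
    simp only [Bool.and_eq_true, Nat.ble_eq] at h2
    exact h2
  let S : ℕ → Subgroup (Grp h) := fun j =>
    { carrier := {a | lk 3 L a.1 ≤ j}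
      one_mem' := by show lk 3 L 0 ≤ j; omega
      mul_mem' := fun {a b} ha hb => ((hB a).2.2 b).1.trans (max_le ha hb)
      inv_mem' := fun {a} ha => (hB a).2.1.trans ha }
  have key : ∀ j, derivedSeries (Grp h) j ≤ S (8 - j) := by
    intro j
    induction j with
    | zero =>
      intro a _
      show lk 3 L a.1 ≤ 8
      exact (Nat.mod_lt _ (by norm_num)).le
    | succ j ih =>
      rw [derivedSeries_succ, Subgroup.commutator_le]
      intro a ha b hb
      have h1 : lk 3 L a.1 ≤ 8 - j := ih ha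
      have h2 : lk 3 L b.1 ≤ 8 - j := ih hb
      show lk 3 L (a * b * a⁻¹ * b⁻¹).1 ≤ 8 - (j + 1)
      have := ((hB a).2.2 b).2
      omega
  refine ⟨⟨8, eq_bot_iff.2 fun a ha => ?_⟩⟩
  have h1 : lk 3 L a.1 ≤ 0 := key 8 ha
  rw [Subgroup.mem_bot, eq_one_iff]
  rcases (hB a).1 with h2 | h2 <;> omega

end Tab

/-- number of solutions of `x ^ n = 1` -/
noncomputable def sol (G : Type*) [Group G] (n : ℕ) : ℕ := Nat.card {x : G // x ^ n = 1}

theorem sol_prod (G H : Type*) [Group G] [Group H] (n : ℕ) : sol (G × H) n = sol G n * sol H n := by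
  unfold sol
  rw [← Nat.card_prod]
  refine Nat.card_congr ⟨fun x => (⟨x.1.1, congrArg Prod.fst x.2⟩, ⟨x.1.2, congrArg Prod.snd x.2⟩),
    fun y => ⟨(y.1.1, y.2.1), Prod.ext y.1.2 y.2.2⟩, fun _ => rfl, fun _ => rfl⟩

theorem sol_gcd {G : Type*} [Group G] {e : ℕ} (h : ∀ x : G, x ^ e = 1) (n : ℕ) :
    sol G n = sol G (n.gcd e) := by
  unfold sol
  refine Nat.card_congr (Equiv.subtypeEquivRight fun x => ?_)
  rw [pow_gcd_eq_one]
  exact ⟨fun h1 => ⟨h1, h x⟩, fun h1 => h1.1⟩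

theorem forall_of_sol {G : Type*} [Group G] [Finite G] {e : ℕ} (h : sol G e = sol G 0) (x : G) :
    x ^ e = 1 := by
  have h1 : sol G 0 = Nat.card G := Nat.card_congr (Equiv.subtypeUnivEquiv fun x => pow_zero x)
  rw [h1] at h
  have h2 : ({x : G | x ^ e = 1} : Set G) = Set.univ :=
    Set.eq_of_subset_of_ncard_le (Set.subset_univ _) (by
      rw [Set.ncard_univ, ← h]; rfl) Set.finite_univ
  exact (Set.eq_univ_iff_forall.1 h2 x)

theorem sol_eq_sum (G : Type*) [Group G] [Finite G] {n : ℕ} (hn : n ≠ 0) :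
    sol G n = ∑ d ∈ n.divisors, Nat.card {x : G // orderOf x = d} := by
  classical
  haveI := Fintype.ofFinite G
  unfold sol
  simp only [Nat.card_eq_fintype_card, Fintype.card_subtype]
  exact (sum_card_orderOf_eq_card_pow_eq_one hn).symm

theorem orderType_of_sol {G H : Type*} [Group G] [Finite G] [Group H] [Finite H]
    (h : ∀ n, n ≠ 0 → sol G n = sol H n) (n : ℕ) :
    Nat.card {x : G // orderOf x = n} = Nat.card {x : H // orderOf x = n} := by
  induction n using Nat.strong_induction_on with | _ n ih =>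
  by_cases hn : n = 0
  · subst hn
    haveI : IsEmpty {x : G // orderOf x = 0} := ⟨fun x => (orderOf_pos x.1).ne' x.2⟩
    haveI : IsEmpty {x : H // orderOf x = 0} := ⟨fun x => (orderOf_pos x.1).ne' x.2⟩
    rw [Nat.card_of_isEmpty, Nat.card_of_isEmpty]
  have h1 := h n hn
  rw [sol_eq_sum G hn, sol_eq_sum H hn, ← Nat.insert_self_properDivisors hn,
    Finset.sum_insert Nat.self_notMem_properDivisors,
    Finset.sum_insert Nat.self_notMem_properDivisors,
    Finset.sum_congr rfl fun d hd => ih d (Nat.mem_properDivisors.1 hd).2] at h1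
  omega

def Tab.cnt (t : Tab) (n : ℕ) : ℕ := sumLt t.N (fun a => cond (Nat.beq (t.pw a n) 0) 1 0)

theorem Tab.sol_eq {t : Tab} (h : t.Ok) (n : ℕ) : sol (Tab.Grp h) n = t.cnt n := by
  classical
  unfold sol Tab.cnt
  rw [sumLt_eq, Nat.card_eq_fintype_card, Fintype.card_subtype, Finset.card_filter]
  refine Finset.sum_congr rfl fun a _ => ?_
  rw [Tab.eq_one_iff, Tab.pow_val]
  by_cases h1 : t.pw a.1 n = 0
  · simp [h1]
  · rw [if_neg h1, beq_false h1]; rfl

/-- `ZMod 7` extended by `K` acting through the multiplicative function `u` -/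
@[ext] structure SD {K : Type} [Group K] (u : K →* ZMod 7) : Type where
  c : ZMod 7
  k : K

namespace SD

variable {K : Type} [Group K] {u : K →* ZMod 7}

instance : Mul (SD u) := ⟨fun a b => ⟨a.c + u a.k * b.c, a.k * b.k⟩⟩
instance : One (SD u) := ⟨⟨0, 1⟩⟩
instance : Inv (SD u) := ⟨fun a => ⟨-(u a.k⁻¹ * a.c), a.k⁻¹⟩⟩

theorem mul_c (a b : SD u) : (a * b).c = a.c + u a.k * b.c := rfl
theorem mul_k (a b : SD u) : (a * b).k = a.k * b.k := rfl

instance : Group (SD u) :=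
  Group.ofLeftAxioms
    (fun a b c => SD.ext (by simp only [mul_c, mul_k, map_mul]; ring) (mul_assoc _ _ _))
    (fun a => SD.ext (show 0 + u 1 * a.c = a.c by simp) (one_mul _))
    (fun a => SD.ext (show -(u a.k⁻¹ * a.c) + u a.k⁻¹ * a.c = 0 by ring) (inv_mul_cancel _))

def eqv : SD u ≃ ZMod 7 × K := ⟨fun a => (a.c, a.k), fun a => ⟨a.1, a.2⟩, fun _ => rfl, fun _ => rfl⟩

instance [Finite K] : Finite (SD u) := Finite.of_equiv _ eqv.symm

theorem pow_eq (a : SD u) (n : ℕ) :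
    a ^ n = ⟨(∑ i ∈ Finset.range n, u a.k ^ i) * a.c, a.k ^ n⟩ := by
  induction n with
  | zero => rw [pow_zero]; exact SD.ext (show (0 : ZMod 7) = _ by simp) (show (1 : K) = _ by simp)
  | succ n ih =>
    rw [pow_succ, ih]
    refine SD.ext ?_ (pow_succ _ _).symm
    simp only [mul_c, map_pow, Finset.sum_range_succ]
    ring

def prj : SD u →* K := ⟨⟨fun a => a.k, rfl⟩, fun _ _ => rfl⟩

def inc : Multiplicative (ZMod 7) →* SD u :=
  ⟨⟨fun c => ⟨c.toAdd, 1⟩, rfl⟩, fun a b => SD.ext (by simp [mul_c]) (by simp [mul_k])⟩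

theorem solvable [Group.IsSolvable K] : Group.IsSolvable (SD u) :=
  solvable_of_ker_le_range inc prj fun a ha =>
    ⟨Multiplicative.ofAdd a.c, SD.ext rfl (show (1 : K) = a.k from ha.symm)⟩

theorem sol_eq [Fintype K] [DecidableEq K] (n : ℕ) :
    sol (SD u) n = ∑ k : K, if k ^ n = 1 then (if 7 ∣ n ∨ u k ≠ 1 then 7 else 1) else 0 := by
  haveI : Fact (Nat.Prime 7) := ⟨by norm_num⟩
  have e : {x : SD u // x ^ n = 1} ≃
      Σ k : K, {c : ZMod 7 // k ^ n = 1 ∧ (∑ i ∈ Finset.range n, u k ^ i) * c = 0} :=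
    ⟨fun x => ⟨x.1.k, x.1.c, by
        have := x.2; rw [pow_eq] at this
        exact ⟨congrArg SD.k this, congrArg SD.c this⟩⟩,
      fun y => ⟨⟨y.2.1, y.1⟩, by rw [pow_eq]; exact SD.ext y.2.2.2 y.2.2.1⟩,
      fun _ => rfl, fun _ => rfl⟩
  unfold sol
  rw [Nat.card_congr e, Nat.card_sigma]
  refine Finset.sum_congr rfl fun k _ => ?_
  by_cases hk : k ^ n = 1
  · rw [if_pos hk]
    by_cases h7 : 7 ∣ n ∨ u k ≠ 1
    · rw [if_pos h7]
      have h0 : ∑ i ∈ Finset.range n, u k ^ i = 0 := by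
        by_cases h1 : u k = 1
        · rw [h1]
          simp only [one_pow, Finset.sum_const, Finset.card_range, nsmul_eq_mul, mul_one]
          exact (ZMod.natCast_eq_zero_iff n 7).2 (h7.resolve_right (not_not.2 h1))
        · have h2 := geom_sum_mul (u k) n
          rw [← map_pow, hk, map_one, sub_self] at h2
          exact (mul_eq_zero.1 h2).resolve_right (sub_ne_zero.2 h1)
      rw [Nat.card_congr (Equiv.subtypeUnivEquiv fun c => ⟨hk, by rw [h0, zero_mul]⟩), Nat.card_zmod]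
    · rw [if_neg h7]
      push Not at h7
      have h0 : ∑ i ∈ Finset.range n, u k ^ i ≠ 0 := by
        rw [h7.2]
        simp only [one_pow, Finset.sum_const, Finset.card_range, nsmul_eq_mul, mul_one]
        exact fun h => h7.1 ((ZMod.natCast_eq_zero_iff n 7).1 h)
      rw [Nat.card_eq_one_iff_unique]
      exact ⟨⟨fun a b => Subtype.ext (((mul_eq_zero.1 a.2.2).resolve_left h0).trans
        ((mul_eq_zero.1 b.2.2).resolve_left h0).symm)⟩, ⟨⟨0, hk, mul_zero _⟩⟩⟩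
  · rw [if_neg hk]
    haveI : IsEmpty {c : ZMod 7 // k ^ n = 1 ∧ (∑ i ∈ Finset.range n, u k ^ i) * c = 0} :=
      ⟨fun c => hk c.2.1⟩
    rw [Nat.card_of_isEmpty]

end SD

namespace Tab

variable {t : Tab}

def uOK (t : Tab) (U : ℕ) : Bool := Nat.beq (lk 3 U 0) 1 &&
  allLt t.N (fun a => Nat.blt (lk 3 U a) 7 && allLt t.N (fun b =>
    Nat.beq (lk 3 U (t.m a b)) ((lk 3 U a * lk 3 U b) % 7)))

def uHom (h : t.Ok) {U : ℕ} (hU : t.uOK U = true) : Grp h →* ZMod 7 where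
  toFun a := (lk 3 U a.1 : ℕ)
  map_one' := by
    simp only [uOK, Bool.and_eq_true, Nat.beq_eq] at hU
    rw [one_val, hU.1, Nat.cast_one]
  map_mul' a b := by
    simp only [uOK, Bool.and_eq_true] at hU
    have h1 := allLt_spec hU.2 a.1 a.2
    rw [Bool.and_eq_true] at h1
    have h2 := allLt_spec h1.2 b.1 b.2
    rw [Nat.beq_eq] at h2
    rw [mul_val, h2, ZMod.natCast_mod, Nat.cast_mul]

def cnt7 (t : Tab) (U n : ℕ) : ℕ := sumLt t.N (fun a => cond (Nat.beq (t.pw a n) 0)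
  (cond (Nat.beq (n % 7) 0 || !Nat.beq (lk 3 U a) 1) 7 1) 0)

theorem sol7_eq (h : t.Ok) {U : ℕ} (hU : t.uOK U = true) (n : ℕ) :
    sol (SD (uHom h hU)) n = t.cnt7 U n := by
  classical
  rw [SD.sol_eq, cnt7, sumLt_eq]
  refine Finset.sum_congr rfl fun a _ => ?_
  rw [Tab.eq_one_iff, Tab.pow_val]
  have h7 : lk 3 U a.1 < 7 := by
    simp only [uOK, Bool.and_eq_true] at hU
    have h1 := allLt_spec hU.2 a.1 a.2
    rw [Bool.and_eq_true, Nat.blt_eq] at h1
    exact h1.1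
  have h8 : uHom h hU a ≠ 1 ↔ lk 3 U a.1 ≠ 1 := by
    show ((lk 3 U a.1 : ℕ) : ZMod 7) ≠ 1 ↔ _
    generalize lk 3 U a.1 = x at h7
    interval_cases x <;> decide
  by_cases h1 : t.pw a.1 n = 0
  · rw [if_pos h1, h1]
    simp only [h8, Nat.dvd_iff_mod_eq_zero]
    by_cases h2 : n % 7 = 0
    · simp [h2]
    · by_cases h3 : lk 3 U a.1 = 1
      · simp [h2, h3, beq_false h2]
      · simp [h2, h3, beq_false h3]
  · rw [if_neg h1, beq_false h1]; rfl

end Tab

end CF.Fgs2
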